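/-
Project H33 (S3139): three abstract lemmas (tower over a four-group, pull-back, cyclic section) as propositions.
-/
import Cfsg.Agent.Even.Amb2

set_option autoImplicit false
set_option linter.unusedSectionVars false
open Cfsg Subgroup CL.Even CL.Grp

namespace CL.H33

universe u

/-- Hypothesis of the tower lemma: `V = {1, μ, ν, μν}` is normal, `C_{C(V)}(τ) = O ⟨τ⟩ V`. -/
structure TH (G : Type u) [Group G] where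
  V : Subgroup G
  O : Subgroup G
  μ : G
  ν : G
  τ : G
  ρ : G
  ω : G
  y : G
  nV : V.Normal
  memV : ∀ v, v ∈ V ↔ v = 1 ∨ v = μ ∨ v = ν ∨ v = μ * ν
  μμ : μ * μ = 1
  νν : ν * ν = 1
  μ1 : μ ≠ 1
  ν1 : ν ≠ 1
  μν : μ ≠ ν
  ττ : τ * τ = 1
  τV : τ ∉ V
  τC : τ ∈ 𝒞(V)
  oddO : Odd (Nat.card O)
  OC : O ≤ 𝒞(V)
  Oτ : O ≤ centralizer {τ}
  On : centralizer {τ} ≤ 𝒩(O)
  cτ : ∀ x ∈ 𝒞(V), x * τ = τ * x → ∃ o ∈ O, ∃ v ∈ V, x = o * v ∨ x = o * v * τ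
  ρτ : ρ * τ = τ * ρ
  ωτ : ω * τ = τ * ω
  ρμ : ρ * μ * ρ⁻¹ = ν
  ρν : ρ * ν * ρ⁻¹ = μ * ν
  ρ3 : ρ ^ 3 ∈ O
  ωρ : (ω * ρ) ^ 2 ∈ O
  ωω : ω * ω = 1
  ωμ : ω * μ * ω = μ
  ων : ω * ν * ω = μ * ν
  yC : y ∈ 𝒞(V)
  yy : y * y = μ
  yτ : y * τ * y⁻¹ = τ * μ
  c8 : ∀ A : Subgroup G, IsPGroup 2 A → A ≤ 𝒞(V) → A ≤ centralizer {τ * y} → Nat.card A ≤ 8
  e16 : ∀ x, x * (τ * ω) = τ * ω * x → x ^ 16 = 1 → x ^ 8 = 1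

namespace TH
variable {G : Type u} [Group G] (T : TH G)

/-- `B = β.range ≅ ℤ_n × ℤ_n` is inverted by `τ`; `r ∈ ρ O` acts on it as a cube root of unity. -/
structure Inv (n : ℕ) (β : Multiplicative (ZMod n × ZMod n) →* G) (r : G) : Prop where
  inj : Function.Injective β
  BC : β.range ≤ 𝒞(T.V)
  μ : T.μ = β (.ofAdd (((n / 2 : ℕ) : ZMod n), 0))
  ν : T.ν = β (.ofAdd (0, ((n / 2 : ℕ) : ZMod n)))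
  τ : ∀ b, T.τ * β b * T.τ = (β b)⁻¹
  rρ : ∃ o ∈ T.O, r = o * T.ρ
  act : ∀ a b : ZMod n, r * β (.ofAdd (a, b)) * r⁻¹ = β (.ofAdd (-b, a - b))
  ω : T.ω ∈ 𝒩(β.range)

/-- `B₁ ⟨τ⟩` is the next step of the tower over `B = β.range`. -/
structure Ext (n : ℕ) (β : Multiplicative (ZMod n × ZMod n) →* G) (r : G) (B1 : Subgroup G) : Prop where
  inv : T.Inv n β r
  le : β.range ≤ B1
  B1C : B1 ≤ 𝒞(T.V)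
  two : IsPGroup 2 B1
  card : Nat.card B1 = 4 * n ^ 2
  nB : B1 ≤ 𝒩(β.range)
  τn : T.τ ∈ 𝒩(B1)
  rn : r ∈ 𝒩(B1)
  ωn : T.ω ∈ 𝒩(B1)
  r3 : r ^ 3 ∈ 𝒞(B1)
  τB : T.τ ∉ B1
  sq : ∀ x ∈ B1, x * x ∈ β.range
  nrm : ∀ x ∈ B1, x * (r * x * r⁻¹) * (r⁻¹ * x * r) ∈ β.range
  cm : ∀ x ∈ B1, ∃ b, T.τ * x * T.τ = x * β b ∧ (x ∉ β.range → ∀ c, b ≠ c * c)
  orb : ∀ b, ∃ x ∈ B1, x * T.τ * x⁻¹ = T.τ * β b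

/-- conclusion of the tower lemma -/
def Fin : Prop := ∀ A : Subgroup G, IsPGroup 2 A → A ≤ 𝒞(T.V) → Nat.card A ≤ 128 ∧ ∀ x ∈ A, x ^ 8 = 1
end TH

def Tl0S : Prop := ∀ (G : Type u) [Group G] [Finite G] (T : TH G), ∃ β r, T.Inv 4 β r
def TlsS : Prop := ∀ (G : Type u) [Group G] [Finite G] (T : TH G) (n : ℕ), n = 4 ∨ n = 8 →
  ∀ β r, T.Inv n β r → T.Fin ∨ ∃ r' B1, T.Ext n β r' B1
def Tl4S : Prop := ∀ (G : Type u) [Group G] [Finite G] (T : TH G) β r B1, T.Ext 4 β r B1 → T.Fin ∨ ∃ β', T.Inv 8 β' r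
def Tl8S : Prop := ∀ (G : Type u) [Group G] [Finite G] (T : TH G) β r B1, ¬ T.Ext 8 β r B1
/-- the tower lemma -/
def TlS : Prop := ∀ (G : Type u) [Group G] [Finite G] (T : TH G), T.Fin

theorem tl_of (h0 : Tl0S.{u}) (hs : TlsS.{u}) (h4 : Tl4S.{u}) (h8 : Tl8S.{u}) : TlS.{u} := by
  intro G _ _ T
  obtain ⟨β, r, h⟩ := h0 G T
  rcases hs G T 4 (.inl rfl) β r h with h | ⟨r, B1, h⟩
  · exact h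
  rcases h4 G T β r B1 h with h | ⟨β, h⟩
  · exact h
  rcases hs G T 8 (.inr rfl) β r h with h | ⟨r, B1, h⟩
  · exact h
  exact (h8 G T β r B1 h).elim

/-- Hypothesis of the pull-back lemma: a 2-group with `C(τ) = ⟨τ⟩ × ⟨κ⟩ × D₈`, `D₈ = V₀ ⟨ω⟩`, `V₀ = {1, μ, ν, μν}`. -/
structure PH (G : Type u) [Group G] where
  T0 : Subgroup G
  V0 : Subgroup G
  τ : G
  κ : G
  μ : G
  ν : G
  ω : G
  two : IsPGroup 2 G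
  idx : ∀ x y, x ∉ T0 → y ∉ T0 → x * y ∈ T0
  τT : τ ∉ T0
  κT : κ ∈ T0
  VT : V0 ≤ T0
  ωT : ω ∈ T0
  memV : ∀ v, v ∈ V0 ↔ v = 1 ∨ v = μ ∨ v = ν ∨ v = μ * ν
  ττ : τ * τ = 1
  κκ : κ * κ = 1
  μμ : μ * μ = 1
  νν : ν * ν = 1
  ωω : ω * ω = 1
  μ1 : μ ≠ 1
  κV : κ ∉ V0
  τκ : τ * κ = κ * τ
  τμ : τ * μ = μ * τ
  τν : τ * ν = ν * τ
  τω : τ * ω = ω * τ
  κμ : κ * μ = μ * κ
  κν : κ * ν = ν * κ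
  κω : κ * ω = ω * κ
  μν : μ * ν = ν * μ
  ωμ : ω * μ = μ * ω
  ων : ω * ν * ω = μ * ν
  cτ : ∀ x ∈ T0, x * τ = τ * x → ∃ v ∈ V0, x = v ∨ x = v * κ ∨ x = v * ω ∨ x = v * κ * ω
  nf : ∀ g, ∀ v ∈ V0, v ≠ 1 → g * τ * g⁻¹ ≠ τ * v ∧ g * τ * g⁻¹ ≠ τ * v * κ
  uq : ∀ g, cj g V0 ≤ centralizer {τ} → cj g V0 = V0

/-- the second four-group `{1, κ, ν', κν'}` -/
structure PH.Sw {G : Type u} [Group G] (P : PH G) (n ν' : G) : Prop where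
  νT : ν' ∈ P.T0
  νν : ν' * ν' = 1
  cμ : ν' * P.μ = P.μ * ν'
  cν : ν' * P.ν = P.ν * ν'
  cκ : ν' * P.κ = P.κ * ν'
  τ : ν' * P.τ * ν' = P.τ * P.κ
  ω : P.ω * ν' * P.ω = ν' ∨ P.ω * ν' * P.ω = ν' * P.κ
  nμ : n * P.μ * n⁻¹ = P.κ
  nκ : n * P.κ * n⁻¹ = P.μ
  nν : n * P.ν * n⁻¹ = ν'
  nν' : n * ν' * n⁻¹ = P.ν ∨ n * ν' * n⁻¹ = P.μ * P.ν

def Pb1S : Prop := ∀ (G : Type u) [Group G] [Finite G] (P : PH G), P.V0.Normal ∨ ∃ n ν', P.Sw n ν'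
def Pb2S : Prop := ∀ (G : Type u) [Group G] [Finite G] (P : PH G) n ν', P.Sw n ν' → Nat.card G ≤ 128
/-- the pull-back lemma -/
def PbS : Prop := ∀ (G : Type u) [Group G] [Finite G] (P : PH G), P.V0.Normal ∨ Nat.card G ≤ 128

theorem pb_of (h1 : Pb1S.{u}) (h2 : Pb2S.{u}) : PbS.{u} := fun G _ _ P =>
  (h1 G P).imp_right fun ⟨n, ν, h⟩ => h2 G P n ν h

/-- (CYC) an involution with two fixed points on the section `C / N` gives a cyclic normal section. -/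
def CycS : Prop := ∀ (G : Type u) [Group G] [Finite G] (T C N : Subgroup G) (t κ : G) (m : ℕ), IsPGroup 2 T → N ≤ C → C ≤ T →
  T ≤ 𝒩(N) → T ≤ 𝒩(C) → t ∈ T → t * t = 1 → (∀ x ∈ C, x⁻¹ * (t * x * t) ∈ N → x ∈ N ∨ x * κ⁻¹ ∈ N) →
  2 ^ (m + 2) * Nat.card N ≤ Nat.card C →
  ∃ x ∈ C, ∃ c, c = x⁻¹ * (t * x * t) ∧ c ^ 2 ^ m ∉ N ∧ c ^ 2 ^ m * κ⁻¹ ∈ N ∧ c ^ 2 ^ (m + 1) ∈ N ∧
    ∀ g ∈ T, (∃ j : ℕ, ∃ a ∈ N, g * x * g⁻¹ = x * (c ^ j * a)) ∧ ∃ j : ℕ, ∃ a ∈ N, g * c * g⁻¹ = c ^ j * a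

end CL.H33
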