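/-
Project H33 (S3139): basic lemmas on `HD` and the steps of the proof as propositions, part 2.
-/
import Cfsg.Agent.H33.Defs
import Cfsg.Agent.H33.Abs

set_option autoImplicit false
set_option linter.unusedSectionVars false
open Cfsg Subgroup CL.Even CL.Grp

namespace CL.H33
open M

universe u

theorem isP_M (p : Ty) : IsPGroup 2 (M p) := fun x => ⟨3, pow8 p x⟩

theorem cent_M : ∀ p : Ty, p.ws = true → ∀ x : M p, x * mt p = mt p * x → x * ms p = ms p * x → x * mw p = mw p * x →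
    x * mu p = mu p * x → x * mq p = mq p * x → x = 1 ∨ x = mz p := by decide +kernel

theorem mz_comm : ∀ (p : Ty) (x : M p), x * mz p = mz p * x := by decide +kernel

/-- `F₀ = ⟨t s u, z⟩` -/
def sF (p : Ty) : Subgroup (M p) :=
  sub (fun x => x.k = false ∧ x.j = false ∧ x.d = false ∧ x.c = x.e ∧ x.i = x.e) ⟨rfl, rfl, rfl, rfl, rfl⟩
    (by intro x y hx hy; simp_all [mul_k, mul_e, mul_j, mul_i, mul_c, mul_d])

namespace HD
variable {G : Type u} [Group G] (S : HD G)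

abbrev F0 : Subgroup G := (sF S.p).map S.ι

theorem isP (K : Subgroup (M S.p)) : IsPGroup 2 (K.map S.ι) := ((isP_M S.p).to_subgroup K).map S.ι
theorem isP1 : IsPGroup 2 S.S1 := by rw [HD.S1, MonoidHom.range_eq_map]; exact S.isP ⊤
theorem map_le (K : Subgroup (M S.p)) : K.map S.ι ≤ S.S1 := map_le_range _ _
theorem eq_iff {x y : M S.p} : S.ι x = S.ι y ↔ x = y := S.inj.eq_iff
theorem tt : S.t * S.t = 1 := by
  rw [← map_mul, (by decide +kernel : ∀ p, M.mt p * M.mt p = 1), map_one]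
theorem zz : S.z * S.z = 1 := by
  rw [← map_mul, (by decide +kernel : ∀ p, mz p * mz p = 1), map_one]
theorem z_comm (x : M S.p) : S.ι x * S.z = S.z * S.ι x := by rw [← map_mul, ← map_mul, mz_comm]

variable [Finite G]

/-- `C_T(t) = S` -/
theorem cT {T : Subgroup G} (hT : IsPGroup 2 T) (h : S.S0 ≤ T) {x : G} (hx : x ∈ T) (c : x * S.t = S.t * x) : x ∈ S.S0 := by
  have := S.sylS.eq_of_le (U := T ⊓ S.H) (hT.to_le inf_le_left) (le_inf h S.sylS.le) inf_le_right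
  rw [← show T ⊓ S.H = S.S0 from this]
  exact ⟨hx, mem_centralizer_singleton_iff.2 c⟩

/-- `z ∈ Z(T)` -/
theorem zT (hw : S.p.ws = true) {T : Subgroup G} (hT : IsPGroup 2 T) (h : S.S1 ≤ T) {x : G} (hx : x ∈ T) :
    x * S.z = S.z * x := by
  have hne : T ≠ ⊥ := fun e => by
    have : S.z ∈ (⊥ : Subgroup G) := e ▸ h ⟨_, rfl⟩
    rw [mem_bot, ← map_one S.ι, S.eq_iff] at this
    exact (by decide +kernel : ∀ p, mz p ≠ 1) _ this
  obtain ⟨⟨c, hc, hc'⟩, h1⟩ := ne_bot_iff_exists_ne_one.1 (inf_cent_ne_bot hT hT le_normalizer hne)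
  have cm : ∀ g ∈ T, c * g = g * c := fun g hg => (comm_of_mem hc' hg).symm
  obtain ⟨y, -, rfl⟩ := S.cT hT ((S.map_le _).trans h) hc (cm _ (h ⟨_, rfl⟩))
  have k : ∀ v, y * v = v * y := fun v => S.inj (by rw [map_mul, map_mul]; exact cm _ (h ⟨_, rfl⟩))
  rcases cent_M _ hw y (k _) (k _) (k _) (k _) (k _) with rfl | rfl
  · exact (h1 (Subtype.ext (map_one _))).elim
  · exact (cm x hx).symm

theorem mem_norm_tz {x : G} (hz : x * S.z = S.z * x) (ht : x * S.t * x⁻¹ = S.t ∨ x * S.t * x⁻¹ = S.t * S.z) :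
    x ∈ 𝒩(closure {S.t, S.z}) := by
  refine mem_norm_of_cj_le ?_
  rw [cj_le_iff, closure_le]
  have a : S.t ∈ closure ({S.t, S.z} : Set G) := subset_closure (by simp)
  have b : S.z ∈ closure ({S.t, S.z} : Set G) := subset_closure (by simp)
  rintro _ (rfl | rfl) <;> rw [SetLike.mem_coe, mem_cj, inv_inv]
  · rcases ht with e | e <;> rw [e]
    exacts [a, mul_mem a b]
  · rw [hz, mul_inv_cancel_right]; exact b

/-- `N_T(⟨t, z⟩) = S₁` -/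
theorem nT (hw : S.p.ws = true) {T : Subgroup G} (hT : IsPGroup 2 T) (h : S.S1 ≤ T) {x : G} (hx : x ∈ T)
    (ht : x * S.t * x⁻¹ = S.t ∨ x * S.t * x⁻¹ = S.t * S.z) : x ∈ S.S1 := by
  have := (S.syl1 hw).eq_of_le (U := T ⊓ 𝒩(closure {S.t, S.z})) (hT.to_le inf_le_left) (le_inf h (S.syl1 hw).le)
    inf_le_right
  rw [← show T ⊓ 𝒩(closure {S.t, S.z}) = S.S1 from this]
  exact ⟨hx, S.mem_norm_tz (S.zT hw hT h hx) ht⟩

/-- 2-subgroups centralising a conjugate of `t` -/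
theorem cjS {e : G} (he : IsConj S.t e) {A : Subgroup G} (hA : IsPGroup 2 A) (h : A ≤ centralizer {e}) :
    ∃ g, g * e * g⁻¹ = S.t ∧ cj g A ≤ S.S0 := by
  obtain ⟨c, hc⟩ := isConj_iff.1 he.symm
  have h1 : cj c A ≤ S.H := fun x hx => by
    have := mem_centralizer_singleton_iff.1 (h (mem_cj.1 hx))
    rw [mem_centralizer_singleton_iff, ← hc]
    calc x * (c * e * c⁻¹) = c * (c⁻¹ * x * c * e) * c⁻¹ := by group
      _ = c * e * c⁻¹ * x := by rw [this]; group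
  obtain ⟨k, hk, h2⟩ := syl_conj_le S.sylS (isPGroup_cj hA c) h1
  refine ⟨k * c, ?_, by rwa [cj_mul]⟩
  have := mem_centralizer_singleton_iff.1 hk
  calc k * c * e * (k * c)⁻¹ = k * (c * e * c⁻¹) * k⁻¹ := by group
    _ = S.t := by rw [hc, this, mul_inv_cancel_right]

/-- exponent -/
theorem ex8 {e : G} (he : IsConj S.t e) {x : G} (hx : x * e = e * x) {k : ℕ} (h : x ^ 2 ^ k = 1) : x ^ 8 = 1 := by
  obtain ⟨g, -, hg⟩ := S.cjS he (isPGroup_zpowers h) (zpowers_le.2 (mem_centralizer_singleton_iff.2 hx))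
  obtain ⟨y, -, hy⟩ := hg (conj_mem_cj g (mem_zpowers x))
  have : (g * x * g⁻¹) ^ 8 = 1 := by rw [← hy, ← map_pow, pow8, map_one]
  rwa [conj_pow, conj_eq_one_iff] at this

/-- an element of `O` normalising a 2-subgroup of `H` centralises it -/
theorem oc {B : Subgroup G} (hB : IsPGroup 2 B) (h : B ≤ S.H) {o : G} (ho : o ∈ S.O) (hn : o ∈ 𝒩(B)) : o ∈ 𝒞(B) := by
  intro b hb
  have h1 : b * o * b⁻¹ * o⁻¹ ∈ S.O := mul_mem (conj_mem (S.On (h hb)) ho) (inv_mem ho)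
  have h2 : b * o * b⁻¹ * o⁻¹ ∈ B := by
    rw [mul_assoc, mul_assoc, ← mul_assoc o]; exact mul_mem hb (conj_mem hn (inv_mem hb))
  have h3 : (orderOf (b * o * b⁻¹ * o⁻¹)).Coprime 2 :=
    Nat.Coprime.coprime_dvd_left (orderOf_dvd_natCard _ h1) (Nat.coprime_two_right.2 S.oddO)
  have := eq_one_of_coprime_of_mem hB h3 h2
  calc b * o = b * o * b⁻¹ * o⁻¹ * (o * b) := by group
    _ = o * b := by rw [this, one_mul]

theorem conj_tz : IsConj S.t (S.t * S.z) := by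
  obtain ⟨g, h, -⟩ := S.tz
  exact isConj_iff.2 ⟨g, by rw [h, map_mul]⟩

theorem conj_zw : IsConj S.z S.w := isConj_iff.2 ⟨S.ρ, S.ρz⟩

theorem conj_tw : IsConj S.t (S.t * S.w) := by
  refine S.conj_tz.trans (isConj_iff.2 ⟨S.ρ, ?_⟩)
  have := mem_centralizer_singleton_iff.1 (S.LH S.ρL)
  calc S.ρ * (S.t * S.z) * S.ρ⁻¹ = (S.ρ * S.t) * S.ρ⁻¹ * (S.ρ * S.z * S.ρ⁻¹) := by group
    _ = _ := by rw [this, S.ρz]; group

theorem conj_tw' : IsConj S.t (S.t * S.w') := by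
  refine S.conj_tw.trans (isConj_iff.2 ⟨S.ι (mq S.p * mw S.p), ?_⟩)
  rw [← map_mul, ← map_mul, ← map_inv, ← map_mul, ← map_mul, S.eq_iff]
  exact (by decide +kernel : ∀ p, (mq p * mw p) * (M.mt p * mw p) * (mq p * mw p)⁻¹ = M.mt p * mw' p) _

/-- uniqueness of `R₁`, orbits and stabilisers -/
structure Or : Prop where
  nz : ∀ n ∈ 𝒩(S.R1), n * S.z = S.z * n
  uq : ∀ g, g * S.z = S.z * g → cj g S.R1 ≤ S.S1 → g ∈ 𝒩(S.R1)
  orb : ∀ c, c * S.z = S.z * c → c * S.t * c⁻¹ ∈ S.R1 → ∃ n ∈ 𝒩(S.R1), n * S.t * n⁻¹ = c * S.t * c⁻¹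
  stab : ∀ n ∈ 𝒩(S.R1), n * S.t * n⁻¹ = S.t ∨ n * S.t * n⁻¹ = S.t * S.z →
    ∃ o ∈ S.O, o ∈ 𝒞(S.R1) ∧ ∃ x, ∃ i : ℕ, n = o * S.ι x * S.ρ0 ^ i

/-- `γ`, `tγ` are fused to `t` only in `C(z)` -/
def Em : Prop := ∀ x, x = S.γ ∨ x = S.t * S.γ → IsConj S.t x → ∃ c, c * S.z = S.z * c ∧ c * S.t * c⁻¹ = x

/-- case (b) -/
structure BD (T : Subgroup G) (k : G) : Prop where
  ws : S.p.ws = true
  al : S.p.al = false
  syl : IsSylowIn 2 T ⊤
  le : S.S1 ≤ T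
  bc : ∀ c, c * S.z = S.z * c → c * S.t * c⁻¹ ∈ S.R1 → c * S.t * c⁻¹ = S.t ∨ c * S.t * c⁻¹ = S.t * S.z ∨
    c * S.t * c⁻¹ = S.t * S.y ∨ c * S.t * c⁻¹ = S.t * S.y * S.z
  kT : k ∈ T
  kS : k ∈ 𝒩(S.S1)
  kR : k ∈ 𝒩(S.R1)
  kk : k * k ∈ S.S1
  kt : k * S.t * k⁻¹ = S.t * S.y

/-- case (c) -/
structure Cc : Prop where
  ws : S.p.ws = true
  al : S.p.al = false
  ns : ∀ n ∈ 𝒩(S.R1), n * S.s * n⁻¹ = S.s ∨ n * S.s * n⁻¹ = S.s * S.z
  np : ∃ n ∈ 𝒩(S.R1), n * S.t * n⁻¹ ∉ S.P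

/-- `F₀` is normal in `T` -/
def Bf (T : Subgroup G) : Prop := T ≤ 𝒩(S.F0) ∧ ∀ f ∈ S.F0, ¬ IsConj S.t f
/-- an element of order 16 centralising `⟨γ⟩ V` -/
def B16 : Prop := ∃ x, x * S.z = S.z * x ∧ x * S.w = S.w * x ∧ x * S.γ = S.γ * x ∧ x ^ 8 = S.z
end HD

def OrS : Prop := ∀ (G : Type u) [Group G] [Finite G] (S : HD G), S.p.ws = true → S.Or
def EmS : Prop := ∀ (G : Type u) [Group G] [Finite G] (S : HD G), S.p.ws = true → S.p.al = false → S.p.big = true →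
  S.Ne → S.Em
def C2aS : Prop := ∀ (G : Type u) [Group G] [Finite G] (S : HD G), S.p.ws = true → S.p.al = true → S.Or →
  ∀ T : Subgroup G, IsPGroup 2 T → S.S1 ≤ T → Nat.card (T ⊓ 𝒩(S.R1) : Subgroup G) ≤ 256
def C2bS : Prop := ∀ (G : Type u) [Group G] [Finite G] (S : HD G), S.p.ws = true → S.p.al = true → S.Or →
  ∀ T : Subgroup G, IsPGroup 2 T → S.S1 ≤ T → Nat.card (T ⊓ 𝒩(S.R1) : Subgroup G) ≤ 256 → T ≤ 𝒩(S.R1)
def CiS : Prop := ∀ (G : Type u) [Group G] [Finite G] (S : HD G), S.p.ws = true → S.p.al = false → S.Or →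
  ∀ T : Subgroup G, IsSylowIn 2 T ⊤ → S.S1 ≤ T → T ≤ S.S1 ∨ (∃ (S' : HD G) (k : G), S'.BD T k) ∨ ∃ S' : HD G, S'.Cc
def Bs1S : Prop := ∀ (G : Type u) [Group G] [Finite G] (S : HD G) T k, S.BD T k → S.p.big = false → S.Bf T
def Bs2S : Prop := TlS.{u} → ∀ (G : Type u) [Group G] [Finite G] (S : HD G) T k, S.BD T k → S.p.big = false →
  S.p.ep = false → S.Bf T → Nat.card T ≤ 256
def Bs3S : Prop := ∀ (G : Type u) [Group G] [Finite G] (S : HD G) T k, S.BD T k → S.p.big = false → S.Bf T →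
  ∃ G0 : Subgroup G, G0.index = 2 ∧ S.t ∉ G0 ∧ S.y ∈ G0 ∧ S.u ∈ G0 ∧ S.q ∈ G0 ∧ S.w ∈ G0
def Bs4S : Prop := PbS.{u} → ∀ (G : Type u) [Group G] [Finite G] (S : HD G) T k, S.BD T k → S.p.big = false →
  S.p.ep = true → ∀ G0 : Subgroup G, G0.index = 2 → S.t ∉ G0 → S.y ∈ G0 → S.u ∈ G0 → S.q ∈ G0 → S.w ∈ G0 →
  T ≤ 𝒩(S.Q) ∨ Nat.card T ≤ 256
def Bs5S : Prop := CycS.{u} → ∀ (G : Type u) [Group G] [Finite G] (S : HD G) T k, S.BD T k → S.p.big = false →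
  S.p.ep = true → ∀ G0 : Subgroup G, G0.index = 2 → S.t ∉ G0 → S.y ∈ G0 → S.u ∈ G0 → T ≤ 𝒩(S.Q) → Nat.card T ≤ 2048
def Bb1S : Prop := ∀ (G : Type u) [Group G] [Finite G] (S : HD G) T k, S.BD T k → S.p.big = true →
  Nat.card T ≤ 2 * Nat.card (T ⊓ 𝒩(S.Z0) : Subgroup G)
def Bb2S : Prop := PbS.{u} → ∀ (G : Type u) [Group G] [Finite G] (S : HD G) T k, S.BD T k → S.p.big = true →
  T ⊓ 𝒩(S.Z0) ≤ 𝒩(S.Q0) ∨ Nat.card (T ⊓ 𝒩(S.Z0) : Subgroup G) ≤ 512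
def Bb3S : Prop := CycS.{u} → ∀ (G : Type u) [Group G] [Finite G] (S : HD G) T k, S.BD T k → S.p.big = true →
  T ⊓ 𝒩(S.Z0) ≤ 𝒩(S.Q0) → Nat.card (T ⊓ 𝒩(S.Z0) : Subgroup G) ≤ 512 ∨ (S.p.ep = true ∧ S.B16)
def Bb4S : Prop := TlS.{u} → ∀ (G : Type u) [Group G] [Finite G] (S : HD G) T k, S.BD T k → S.p.big = true →
  S.p.ep = true → S.Em → ¬ S.B16

end CL.H33
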