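/-
Project H33 (S3139): the steps of case (c) as propositions.
-/
import Cfsg.Agent.H33.Defs2

set_option autoImplicit false
set_option linter.unusedSectionVars false
open Cfsg Subgroup CL.Even CL.Grp

namespace CL.H33
open M

universe u

namespace HD
variable {G : Type u} [Group G] (S : HD G)

/-- `W = C_{R₂}(s)`, `r ∈ ρ₀ O` -/
structure Cw (W : Subgroup G) (r : G) : Prop where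
  ws : S.p.ws = true
  al : S.p.al = false
  two : IsPGroup 2 W
  Ws : ∀ n ∈ W, n * S.s = S.s * n
  Wz : ∀ n ∈ W, n * S.z = S.z * n
  WR : W ≤ 𝒩(S.R1)
  S1n : S.S1 ≤ 𝒩(W)
  rn : r ∈ 𝒩(W)
  mem : ∀ x, S.ι x ∈ W ↔ x ∈ sQ1 S.p
  Wq : ∀ n ∈ W, ∀ v ∈ S.Q1, n * v * n⁻¹ * v⁻¹ ∈ S.Z0
  chi : ∀ n ∈ W, S.t * (n * S.t * n⁻¹) ∈ S.Q1
  orb : ∀ c, c * S.z = S.z * c → c * S.t * c⁻¹ ∈ S.R1 → ∃ n ∈ W, n * S.t * n⁻¹ = c * S.t * c⁻¹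
  ract : ∀ b ∈ S.R1, r * b * r⁻¹ = S.ρ0 * b * S.ρ0⁻¹
  r3 : r ^ 3 ∈ 𝒞(W)
  ri : (S.w' * r) ^ 2 ∈ 𝒞(W)
  np : ∃ n ∈ W, n * S.t * n⁻¹ ∉ S.P

/-- `J = [J₀, r] Z₀` of order 64 -/
structure Cj (W : Subgroup G) (r : G) (J : Subgroup G) : Prop where
  cw : S.Cw W r
  le : J ≤ W
  card : Nat.card J = 64
  mem : ∀ x, S.ι x ∈ J ↔ x ∈ sQ0 S.p
  S1n : S.S1 ≤ 𝒩(J)
  rn : r ∈ 𝒩(J)
  dJ : ∀ x ∈ J, x * S.δ = S.δ * x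
  sq : ∀ x ∈ J, x * x ∈ S.Z0
  cm : ∀ x ∈ J, ∀ y ∈ J, x * y * x⁻¹ * y⁻¹ ∈ S.Z0
  nrm : ∀ x ∈ J, x * (r * x * r⁻¹) * (r⁻¹ * x * r) ∈ S.Z0
  chi : ∀ x ∈ J, S.t * (x * S.t * x⁻¹) ∈ S.Q0
  onto : ∀ v ∈ S.Q, ∃ x ∈ J, S.t * (x * S.t * x⁻¹) * v⁻¹ ∈ S.Z0
  max : ∀ x ∈ W, S.t * (x * S.t * x⁻¹) ∈ S.Q0 → x ∈ J ∨ x * S.δ ∈ J
  char : ∀ x ∈ W, S.t * (x * S.t * x⁻¹) ∈ S.Q0 → x * (r * x * r⁻¹) * (r⁻¹ * x * r) ∈ S.Z0 → x ∈ J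

/-- the two lines `A₁`, `A₂` -/
structure Cl (W : Subgroup G) (r : G) (J A1 A2 : Subgroup G) : Prop where
  hj : S.Cj W r J
  m1 : ∀ x, x ∈ A1 ↔ x ∈ J ∧ (x * x = S.s ∨ x ∈ S.Z0)
  m2 : ∀ x, x ∈ A2 ↔ x ∈ J ∧ (x * x = S.s * S.z ∨ x ∈ S.Z0)
  c1 : Nat.card A1 = 16
  c2 : Nat.card A2 = 16
  gen : ∀ x ∈ J, ∃ a ∈ A1, ∃ b ∈ A2, x = a * b
  c12 : ∀ a ∈ A1, ∀ b ∈ A2, a * b = b * a ∨ a * b = b * a * S.z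
  hom : (∀ a ∈ A1, ∀ b ∈ A2, a * b = b * a) ∨ ∀ a ∈ A1, a ∉ S.Z0 → ∃ b ∈ A2, a * b ≠ b * a
  l6 : ∀ x ∈ J, ∀ v ∈ S.Q, v ∉ S.Z0 → S.t * (x * S.t * x⁻¹) * v⁻¹ ∈ S.Z0 →
    (x * v = v * x ↔ x * x = S.s ∨ x * x = S.s * S.z)
  l7 : ∀ v ∈ S.Q, ∃ x ∈ A1, S.t * (x * S.t * x⁻¹) * v⁻¹ ∈ S.Z0
  nd : ∀ x ∈ J, (∀ y ∈ J, x * y = y * x ∨ x * y = y * x * S.z) → x ∈ S.Z0

/-- `P° = C_W(r)` -/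
structure Cp (W : Subgroup G) (r : G) (J A1 A2 Pz : Subgroup G) : Prop where
  cl : S.Cl W r J A1 A2
  mP : ∀ x, x ∈ Pz ↔ x ∈ W ∧ r * x = x * r
  JP : J ≤ 𝒞(Pz)
  dec : ∀ x ∈ W, ∃ j ∈ J, ∃ a ∈ Pz, x = j * a
  S1P : S.S1 ≤ 𝒩(Pz)
  Z1P : S.Z1 ≤ Pz
  JPi : ∀ x ∈ J, x ∈ Pz → x ∈ S.Z0
  kk : Pz = S.Z1 ∨ (S.p.big = true ∧ ∃ k ∈ Pz, k ∉ S.Z1 ∧ k * S.t * k⁻¹ = S.t * S.y ∧ ∀ a ∈ Pz, a ∈ S.Z1 ∨ a * k⁻¹ ∈ S.Z1)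

/-- the configuration killed by the normaliser of `E` -/
def Ke (Pz : Subgroup G) : Prop := S.p.big = true ∧ S.p.ep = true ∧ ∃ e ∈ Pz, e * S.w = S.w * e ∧ e * S.δ = S.δ * e ∧
  (e * S.t * e⁻¹ = S.t * S.y ∨ e * S.t * e⁻¹ = S.t * S.y * S.z)

/-- the Sylow subgroup `T` -/
structure Ct (W : Subgroup G) (r : G) (J A1 A2 Pz T : Subgroup G) : Prop where
  cp : S.Cp W r J A1 A2 Pz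
  el : ∀ a ∈ Pz, a * a ∈ S.Z0
  syl : IsSylowIn 2 T ⊤
  WT : W ≤ T
  le : S.S1 ≤ T
  sylN : IsSylowIn 2 (T ⊓ 𝒩(W)) 𝒩(W)

structure K5 (W J T : Subgroup G) : Prop where
  z0 : T ≤ 𝒩(S.Z0)
  kx : ∀ x ∈ T, x * S.s = S.s * x → S.t * (x * S.t * x⁻¹) ∈ W → x ∈ W ∨ x * S.ws ∈ W
  c1 : ∀ x ∈ T, x * S.s = S.s * x → x ∈ 𝒩(J) → (∀ j ∈ J, x * j * x⁻¹ * j⁻¹ ∈ S.Z0) → x ∈ W

/-- a transvection on `A₁` which is trivial on `A₂` -/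
def Tv (J A1 A2 T : Subgroup G) : Prop := ∃ x ∈ T, x * S.s = S.s * x ∧ x ∈ 𝒩(J) ∧
  (∀ b ∈ A2, x * b * x⁻¹ * b⁻¹ ∈ S.Z0) ∧ ∃ a ∈ A1, x * a * x⁻¹ * a⁻¹ ∉ S.Z0

/-- a second conjugate of `J` -/
def J1 (W J T : Subgroup G) (n : G) : Prop := n ∈ T ∧ S.t ∈ 𝒩(cj n J) ∧ cj n J ≤ 𝒩(J) ∧ ¬ cj n J ≤ W

/-- an extremal conjugate of `t` in `C_T(s)` -/
structure Tx (W T : Subgroup G) (e : G) : Prop where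
  eT : e ∈ T
  ee : e * e = 1
  es : e * S.s = S.s * e
  ew : e * S.ws ∈ W
  eW : e ∉ W
  sq : ∀ x ∈ T, x * S.s = S.s * x → x * e = e * x → x * x = 1 ∨ x * x = S.z
  card : Nat.card (T ⊓ centralizer {S.s} ⊓ centralizer {e} : Subgroup G) = 32
  na : ∃ x ∈ T ⊓ centralizer {S.s} ⊓ centralizer {e}, ∃ y ∈ T ⊓ centralizer {S.s} ⊓ centralizer {e}, x * y ≠ y * x
end HD

def C1S : Prop := ∀ (G : Type u) [Group G] [Finite G] (S : HD G), S.Cc → S.Or → ∃ W r, S.Cw W r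
def C2S : Prop := ∀ (G : Type u) [Group G] [Finite G] (S : HD G) W r, S.Cw W r → ∃ J, S.Cj W r J
def C3aS : Prop := ∀ (G : Type u) [Group G] [Finite G] (S : HD G) W r J, S.Cj W r J → ∃ A1 A2, S.Cl W r J A1 A2
def C3bS : Prop := ∀ (G : Type u) [Group G] [Finite G] (S : HD G) W r J A1 A2, S.Cl W r J A1 A2 →
  ∃ Pz, S.Cp W r J A1 A2 Pz
def C4aS : Prop := ∀ (G : Type u) [Group G] [Finite G] (S : HD G) W r J A1 A2 Pz, S.Cp W r J A1 A2 Pz →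
  (∀ a ∈ Pz, a * a ∈ S.Z0) ∨ S.Ke Pz
def C4bS : Prop := ∀ (G : Type u) [Group G] [Finite G] (S : HD G) W r J A1 A2 Pz, S.Cp W r J A1 A2 Pz → S.Ne → ¬ S.Ke Pz
def C5S : Prop := ∀ (G : Type u) [Group G] [Finite G] (S : HD G) W r J A1 A2 Pz T, S.Ct W r J A1 A2 Pz T → S.K5 W J T
def C6S : Prop := ∀ (G : Type u) [Group G] [Finite G] (S : HD G) W r J A1 A2 Pz T, S.Ct W r J A1 A2 Pz T → S.K5 W J T →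
  T ⊓ 𝒩(W) ≤ 𝒩(J)
def C7aS : Prop := ∀ (G : Type u) [Group G] [Finite G] (S : HD G) W r J A1 A2 Pz T, S.Ct W r J A1 A2 Pz T → S.K5 W J T →
  T ⊓ 𝒩(W) ≤ 𝒩(J) → T ≤ 𝒩(J) ∨ ((∀ a ∈ A1, ∀ b ∈ A2, a * b = b * a) ∧ ∃ n, S.J1 W J T n)
def C7bS : Prop := ∀ (G : Type u) [Group G] [Finite G] (S : HD G) W r J A1 A2 Pz T, S.Ct W r J A1 A2 Pz T → S.K5 W J T →
  (∀ a ∈ A1, ∀ b ∈ A2, a * b = b * a) → ∀ n, ¬ S.J1 W J T n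
def C8aS : Prop := ∀ (G : Type u) [Group G] [Finite G] (S : HD G) W r J A1 A2 Pz T, S.Ct W r J A1 A2 Pz T → S.K5 W J T →
  T ≤ 𝒩(J) → Nat.card T ≤ 1024 ∨ (Nat.card T ≤ 2048 ∧ Pz ≠ S.Z1 ∧ S.Tv J A1 A2 T)
def C8bS : Prop := ∀ (G : Type u) [Group G] [Finite G] (S : HD G) W r J A1 A2 Pz T, S.Ct W r J A1 A2 Pz T → S.K5 W J T →
  T ≤ 𝒩(J) → Pz ≠ S.Z1 → (∃ G0 : Subgroup G, G0.index = 2) ∨ ∃ e, S.Tx W T e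
def C8cS : Prop := ∀ (G : Type u) [Group G] [Finite G] (S : HD G) W r J A1 A2 Pz T, S.Ct W r J A1 A2 Pz T → S.K5 W J T →
  T ≤ 𝒩(J) → Pz ≠ S.Z1 → S.Tv J A1 A2 T → ∀ e, ¬ S.Tx W T e

end CL.H33
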