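/-
Project H33 (S3139): assembly of the steps.
-/
import Cfsg.Agent.H33.Defs3

set_option autoImplicit false
set_option linter.unusedSectionVars false
open Cfsg Subgroup CL.Even CL.Grp

namespace CL.H33
open M

universe u

/-- the goal -/
def Gl (G : Type u) [Group G] : Prop := ∃ T : Subgroup G, IsSylowIn 2 T ⊤ ∧
  (Nat.card T ≤ 1024 ∨ (Nat.card T ≤ 2048 ∧ ∃ G0 : Subgroup G, G0.index = 2))

theorem card_M (p : Ty) : Nat.card (M p) ≤ 128 := by
  have := Nat.card_le_card_of_surjective (fun v : Bool × Bool × Bool × Bool × Bool × Bool × Bool =>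
    mk' p v.1 v.2.1 v.2.2.1 v.2.2.2.1 v.2.2.2.2.1 v.2.2.2.2.2.1 v.2.2.2.2.2.2)
    fun x => ⟨(x.d, x.z, x.c, x.e, x.i, x.j, x.k), mk'_eta x⟩
  simpa using this

variable {G : Type u} [Group G] [Finite G]

theorem gl_c (hne : NeS.{u}) (hor : OrS.{u}) (c1 : C1S.{u}) (c2 : C2S.{u}) (c3a : C3aS.{u}) (c3b : C3bS.{u})
    (c4a : C4aS.{u}) (c4b : C4bS.{u}) (c5 : C5S.{u}) (c6 : C6S.{u}) (c7a : C7aS.{u}) (c7b : C7bS.{u}) (c8a : C8aS.{u})
    (c8b : C8bS.{u}) (c8c : C8cS.{u}) (S : HD G) (h : S.Cc) : Gl G := by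
  obtain ⟨W, r, hw⟩ := c1 G S h (hor G S h.ws)
  obtain ⟨J, hj⟩ := c2 G S W r hw
  obtain ⟨A1, A2, hl⟩ := c3a G S W r J hj
  obtain ⟨Pz, hp⟩ := c3b G S W r J A1 A2 hl
  have el : ∀ a ∈ Pz, a * a ∈ S.Z0 :=
    (c4a G S W r J A1 A2 Pz hp).resolve_right fun k => c4b G S W r J A1 A2 Pz hp (hne G S k.1) k
  obtain ⟨T1, hT1, le1⟩ := exists_isSylowIn_ge (p := 2) (U := S.S1 ⊔ W) (H := 𝒩(W))
    (isPGroup_sup S.isP1 hw.two hw.S1n) (sup_le hw.S1n le_normalizer)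
  obtain ⟨T, hT, le2⟩ := exists_isSylowIn_ge (p := 2) (U := T1) (H := ⊤) hT1.isPGroup le_top
  have e : T ⊓ 𝒩(W) = T1 := hT1.eq_of_le (hT.isPGroup.to_le inf_le_left) (le_inf le2 hT1.le) inf_le_right
  have ct : S.Ct W r J A1 A2 Pz T :=
    ⟨hp, el, hT, le_sup_right.trans (le1.trans le2), le_sup_left.trans (le1.trans le2), e.symm ▸ hT1⟩
  have k5 := c5 G S W r J A1 A2 Pz T ct
  have k6 := c6 G S W r J A1 A2 Pz T ct k5
  have k7 : T ≤ 𝒩(J) := (c7a G S W r J A1 A2 Pz T ct k5 k6).resolve_right fun ⟨a, n, b⟩ =>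
    c7b G S W r J A1 A2 Pz T ct k5 a n b
  refine ⟨T, hT, (c8a G S W r J A1 A2 Pz T ct k5 k7).imp_right fun ⟨a, b, c⟩ => ⟨a, ?_⟩⟩
  exact (c8b G S W r J A1 A2 Pz T ct k5 k7 b).resolve_right fun ⟨x, hx⟩ => c8c G S W r J A1 A2 Pz T ct k5 k7 b c x hx

theorem gl_b (tl : TlS.{u}) (pb : PbS.{u}) (cy : CycS.{u}) (hne : NeS.{u}) (em : EmS.{u}) (s1 : Bs1S.{u}) (s2 : Bs2S.{u})
    (s3 : Bs3S.{u}) (s4 : Bs4S.{u}) (s5 : Bs5S.{u}) (b1 : Bb1S.{u}) (b2 : Bb2S.{u}) (b3 : Bb3S.{u}) (b4 : Bb4S.{u})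
    (S : HD G) (T : Subgroup G) (k : G) (h : S.BD T k) : Gl G := by
  refine ⟨T, h.syl, ?_⟩
  cases hb : S.p.big
  · have f := s1 G S T k h hb
    cases he : S.p.ep
    · have := s2 tl G S T k h hb he f
      exact .inl (by omega)
    · obtain ⟨G0, i, a1, a2, a3, a4, a5⟩ := s3 G S T k h hb f
      rcases s4 pb G S T k h hb he G0 i a1 a2 a3 a4 a5 with q | q
      · exact .inr ⟨s5 cy G S T k h hb he G0 i a1 a2 a3 q, G0, i⟩
      · exact .inl (by omega)
  · have a := b1 G S T k h hb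
    have : Nat.card (T ⊓ 𝒩(S.Z0) : Subgroup G) ≤ 512 := by
      rcases b2 pb G S T k h hb with q | q
      · exact (b3 cy G S T k h hb q).resolve_right fun ⟨e, x⟩ =>
          b4 tl G S T k h hb e (em G S h.ws h.al hb (hne G S hb)) x
      · exact q
    exact .inl (by omega)

theorem gl_of (hor : OrS.{u}) (c2a : C2aS.{u}) (c2b : C2bS.{u}) (ci : CiS.{u})
    (hb : ∀ (S : HD G) T k, S.BD T k → Gl G) (hc : ∀ S : HD G, S.Cc → Gl G) (S : HD G) (hw : S.p.ws = true) : Gl G := by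
  obtain ⟨T, hT, le⟩ := exists_isSylowIn_ge (p := 2) (U := S.S1) (H := ⊤) S.isP1 le_top
  have o := hor G S hw
  cases ha : S.p.al
  · rcases ci G S hw ha o T hT le with h | ⟨S', k, h⟩ | ⟨S', h⟩
    · refine ⟨T, hT, .inl ?_⟩
      have h1 := card_le_of_le h
      have h2 : Nat.card S.S1 ≤ Nat.card (M S.p) := Nat.card_le_card_of_surjective _ S.ι.rangeRestrict_surjective
      have := card_M S.p
      omega
    · exact hb S' T k h
    · exact hc S' h
  · have h1 := c2a G S hw ha o T hT.isPGroup le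
    have h2 := c2b G S hw ha o T hT.isPGroup le h1
    rw [inf_eq_left.2 h2] at h1
    exact ⟨T, hT, .inl (by omega)⟩

theorem hd_of (mk : MkS.{u}) (pd : Pd0S.{u}) (a : S1aS.{u}) (b : S1bS.{u}) (h1 : Hs1S.{u}) (h2 : Hs2S.{u}) (hne : NeS.{u})
    (nm : NmS.{u}) (s1 : St1S.{u}) (s2 : St2S.{u}) {A : Type} [Group A] [Finite A] {I : Subgroup A} (m : AM A I)
    (D : LD G A I) : ∃ S : HD G, S.p.ws = true := by
  obtain ⟨P⟩ := pd mk G A I m D
  have r := b G A I P (a G A I P)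
  obtain ⟨S, hS⟩ := h2 G A I P r (h1 mk G A I P r)
  obtain ⟨S', hS', s, al, ep, h⟩ := s1 G (fun S hb => nm G S hb (hne G S hb)) S hS
  exact s2 mk G S' hS' s al ep h

theorem not_dvd_of_gl (h : Gl G) {F : Subgroup G} (hF : IsSimpleGroup F) (hF' : ¬ IsMulCommutative F) :
    ¬ 2 ^ 11 ∣ Nat.card F := by
  intro hd
  obtain ⟨T, hT, h⟩ := h
  have key : ∀ n, 2 ^ n ∣ Nat.card G → 2 ^ n ≤ Nat.card T := fun n hn => by
    rw [hT.card_eq_pow, card_top]
    exact Nat.pow_le_pow_right (by norm_num) ((Nat.prime_two.pow_dvd_iff_le_factorization Nat.card_pos.ne').1 hn)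
  rcases h with h | ⟨h, G0, h0⟩
  · have := key 11 (hd.trans (card_subgroup_dvd_card F))
    omega
  · haveI := normal_of_index_eq_two h0
    have le : F ≤ G0 := by
      rcases (inferInstance : (G0.subgroupOf F).Normal).eq_bot_or_eq_top with e | e
      · refine (hF' ⟨⟨fun a b => ?_⟩⟩).elim
        have k : ∀ x : F, (x : G) ∈ G0 → x = 1 := fun x hx => by
          have : x ∈ G0.subgroupOf F := hx
          rwa [e, mem_bot] at this
        by_cases ha : (a : G) ∈ G0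
        · rw [k a ha, one_mul, mul_one]
        by_cases hb : (b : G) ∈ G0
        · rw [k b hb, one_mul, mul_one]
        rw [k (a * b) ((mul_mem_iff_of_index_two h0).2 (by simp [ha, hb])),
          k (b * a) ((mul_mem_iff_of_index_two h0).2 (by simp [ha, hb]))]
      · exact subgroupOf_eq_top.1 e
    have h1 : 2 ^ 12 ∣ Nat.card G := by
      rw [← G0.card_mul_index, h0, pow_succ]
      exact mul_dvd_mul (hd.trans (card_dvd_of_le le)) dvd_rfl
    have := key 12 h1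
    omega

end CL.H33
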