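/-
Project H33 (S3139), step BB1: in case (b) with `δ` present, `N_T(Z₀)` has index at most 2 in `T`.
-/
import Cfsg.Agent.H33.Defs2

set_option autoImplicit false
set_option linter.unusedSectionVars false
set_option synthInstance.maxSize 2000
open Cfsg Subgroup CL.Even CL.Grp
open scoped commutatorElement

namespace CL.H33
open M

universe u

/-- `⟨s, γ, z⟩` -/
abbrev bb1Z4 {p : Ty} (x : M p) : Prop := x.k = false ∧ x.j = false ∧ x.c = false ∧ x.i = x.d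
/-- `⟨z⟩` -/
abbrev bb1Z {p : Ty} (x : M p) : Prop :=
  x.k = false ∧ x.j = false ∧ x.c = false ∧ x.i = false ∧ x.d = false ∧ x.e = false

def bb1sZ4 (p : Ty) : Subgroup (M p) :=
  sub bb1Z4 ⟨rfl, rfl, rfl, rfl⟩ (by intro x y hx hy; simp_all [bb1Z4, mul_k, mul_j, mul_i, mul_c, mul_d])
def bb1sZ (p : Ty) : Subgroup (M p) :=
  sub bb1Z ⟨rfl, rfl, rfl, rfl, rfl, rfl⟩ (by intro x y hx hy; simp_all [bb1Z, mul_k, mul_e, mul_j, mul_i, mul_c, mul_d])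

/-- `z ^ b` -/
def bb1e (p : Ty) (b : Bool) : M p := cond b (mz p) 1

/-- the type of the model in this step -/
abbrev bb1T (p : Ty) : Prop := p.big = true ∧ p.ws = true ∧ p.al = false

theorem bb1_d : ∀ p, bb1T p → ∀ x : M p, x.k = false → mt p * x = x * mt p → ms p * x = x * ms p → mu p * x = x * mu p →
    mq p * x = x * mq p → x * x = mz p → ∃ a, x = md p * bb1e p a := by decide +kernel
theorem bb1_dc : ∀ p, bb1T p → ∀ x : M p, x.k = false → x * md p = md p * x := by decide +kernel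
theorem bb1_t : ∀ p, bb1T p → ∀ m : M p, ∃ e, m * mt p * m⁻¹ = mt p * bb1e p e := by decide +kernel
theorem bb1_s : ∀ p, bb1T p → ∀ a e, ∀ x : M p, mt p * my p * (x * (md p * bb1e p a)) = mt p * bb1e p e →
    ∃ b, x = ms p * bb1e p b := by decide +kernel
theorem bb1_u : ∀ p, bb1T p → ∀ x : M p, x.k = false → x.e = false → x.j = false → x.c = false → x.d = false →
    x * x = mz p → ∃ c, x = mu p * bb1e p c := by decide +kernel
theorem bb1_c : ∀ p, bb1T p → my p = ms p * md p ∧ md p * md p = mz p ∧ mu p * mu p = mz p ∧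
    mu p * (mq p * mw p) = mw p * mq p ∧ (md p).k = false ∧ (mt p).k = false ∧ (ms p).k = false ∧ (mu p).k = false ∧
    (mq p).k = false ∧ bb1Z4 (ms p) ∧ ¬ bb1Z (ms p) := by decide +kernel
theorem bb1_k : ∀ p, bb1T p → ∀ x : M p, x.j = false → x.k = false → ∀ a b c, ∀ y : M p,
    y = cond x.d (md p * bb1e p a) 1 * cond x.z (mz p) 1 * cond x.c (mt p * my p) 1 * cond x.e (ms p * bb1e p b) 1 *
      cond x.i (mu p * bb1e p c) 1 → (bb1Z4 x → bb1Z4 y) ∧ (bb1Z4 (x * y⁻¹) → x.c = false) := by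
  have : ∀ p, bb1T p → ∀ x : M p, x.j = false → x.k = false → ∀ a b c, (fun y : M p =>
    (bb1Z4 x → bb1Z4 y) ∧ (bb1Z4 (x * y⁻¹) → x.c = false)) (cond x.d (md p * bb1e p a) 1 * cond x.z (mz p) 1 *
      cond x.c (mt p * my p) 1 * cond x.e (ms p * bb1e p b) 1 * cond x.i (mu p * bb1e p c) 1) := by decide +kernel
  rintro p hp x h1 h2 a b c _ rfl
  exact this p hp x h1 h2 a b c
theorem bb1_n : ∀ p, bb1T p → ∀ x : M p, bb1Z4 x → x * x = 1 ∧ (x * mt p).k = false ∧ x * mt p ≠ mt p * my p ∧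
    x * mt p ≠ mt p * my p * mz p ∧ ∀ g : M p, bb1Z4 (g * x * g⁻¹) := by decide +kernel
theorem bb1_qw : ∀ p, bb1T p → ∀ x : M p, bb1Z4 (x * mq p * x⁻¹ * (mq p)⁻¹) → bb1Z4 (x * mw p * x⁻¹ * (mw p)⁻¹) →
    x.j = false ∧ x.k = false ∧ (x.c = false → x * x = 1 → bb1Z4 x) := by decide +kernel
theorem bb1_3 : ∀ p, bb1T p → ∀ x : M p, bb1Z4 x → ¬ bb1Z x →
    ∃ i : Fin 3, bb1Z ((![ms p, mg p, ms p * mg p] i)⁻¹ * x) := by decide +kernel
theorem bb1_z : ∀ p, bb1T p → ∀ x : M p, (bb1Z x → x = 1 ∨ x = mz p) ∧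
    (x.k = false ∧ x.c = false ∧ x.d = false ∧ x.i = false ∧ x.j = false → bb1Z x ∨ bb1Z ((ms p)⁻¹ * x)) := by
  decide +kernel

theorem bb1_comm {p : Ty} (h : p.al = false) {c x y : M p} (e : c * (y * x) = x * y) :
    c.k = false ∧ c.e = false ∧ c.j = false ∧ c.c = false ∧ c.d = false := by
  have h1 := congrArg M.k e
  have h2 := congrArg M.e e
  have h3 := congrArg M.j e
  have h4 := congrArg M.c e
  have h5 := congrArg M.d e
  simp only [mul_k, mul_e, mul_j, mul_c, mul_d, h, Bool.false_and, Bool.and_false, Bool.xor_false] at h1 h2 h3 h4 h5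
  have key : ∀ a b d : Bool, (a ^^ (b ^^ d)) = (d ^^ b) → a = false := by decide
  exact ⟨key _ _ _ h1, key _ _ _ h2, key _ _ _ h3, key _ _ _ h4, key _ _ _ h5⟩

theorem bb1_cond {p : Ty} (f : M p →* M p) (b : Bool) (a : M p) : f (cond b a 1) = cond b (f a) 1 := by
  cases b
  · exact map_one f
  · rfl

variable {G : Type u} [Group G] [Finite G] {S : HD G} {T : Subgroup G} {k : G}

/-- the action of `k` -/
theorem bb1_act (h : S.BD T k) (hb : S.p.big = true) (x : M S.p) (h1 : x.j = false) (h2 : x.k = false) :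
    ∃ y, S.ι y = k * S.ι x * k⁻¹ ∧ (bb1Z4 x → bb1Z4 y) ∧ (bb1Z4 (x * y⁻¹) → x.c = false) := by
  have hp : bb1T S.p := ⟨hb, h.ws, h.al⟩
  obtain ⟨c1, c2, c3, c4, c5, c6, c7, c8, c9, -⟩ := bb1_c _ hp
  have : ∀ x : M S.p, ∃ y, S.ι y = k * S.ι x * k⁻¹ := fun x => conj_mem h.kS ⟨x, rfl⟩
  choose κ hκ using this
  obtain ⟨f, hf⟩ : ∃ f : M S.p →* M S.p, ∀ x, S.ι (f x) = k * S.ι x * k⁻¹ :=
    ⟨MonoidHom.mk' κ fun a b => S.inj (by rw [map_mul, hκ, hκ, hκ, map_mul]; group), hκ⟩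
  have fz : f (mz S.p) = mz S.p := S.inj (by rw [hf, S.zT h.ws h.syl.2.1 h.le h.kT, mul_inv_cancel_right])
  have ft : f (mt S.p) = mt S.p * my S.p := S.inj (by rw [hf, h.kt, map_mul])
  have hC : S.ι (f (md S.p)) ∈ 𝒞(S.R1) := by
    rw [hf]
    refine conj_mem (norm_le_norm_cent _ h.kR) ?_
    rintro _ ⟨y, hy, rfl⟩
    rw [← map_mul, ← map_mul, bb1_dc _ hp y hy]
  have cm : ∀ y : M S.p, y.k = false → y * f (md S.p) = f (md S.p) * y := fun y hy =>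
    S.inj (by rw [map_mul, map_mul]; exact hC _ ⟨y, hy, rfl⟩)
  obtain ⟨a, fd⟩ := bb1_d _ hp (f (md S.p)) (S.mem_map.1 (show S.ι _ ∈ S.R1 from hf _ ▸ conj_mem h.kR ⟨_, c5, rfl⟩))
    (cm _ c6) (cm _ c7) (cm _ c8) (cm _ c9) (by rw [← map_mul, c2, fz])
  obtain ⟨m, hm⟩ := h.kk
  obtain ⟨e, he⟩ := bb1_t _ hp m
  obtain ⟨b, fs⟩ := bb1_s _ hp a e (f (ms S.p)) (by
    rw [← fd, ← map_mul, ← c1, ← ft, ← map_mul, ← ft, ← he]
    refine S.inj ?_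
    rw [hf, hf, map_mul, map_mul, map_inv, hm]
    group)
  obtain ⟨u1, u2, u3, u4, u5⟩ := bb1_comm h.al (c := f (mu S.p)) (x := f (mw S.p)) (y := f (mq S.p))
    (by rw [← map_mul, ← map_mul, ← map_mul, c4])
  obtain ⟨c, fu⟩ := bb1_u _ hp _ u1 u2 u3 u4 u5 (by rw [← map_mul, c3, fz])
  refine ⟨f x, hf x, bb1_k _ hp x h1 h2 a b c _ ?_⟩
  conv_lhs => rw [nf _ x]
  simp only [map_mul, bb1_cond, fz, ft, fd, fs, fu, h1, h2, cond_false, mul_one]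

/-- `T` normalises `⟨s, γ, z⟩` -/
theorem bb1_norm (h : S.BD T k) (hb : S.p.big = true) : T ≤ 𝒩((bb1sZ4 S.p).map S.ι) := by
  have : Fact (Nat.Prime 2) := ⟨Nat.prime_two⟩
  have hp : bb1T S.p := ⟨hb, h.ws, h.al⟩
  have hT := h.syl.2.1
  set Z := (bb1sZ4 S.p).map S.ι with hZ
  have hZ' : ∀ {x}, S.ι x ∈ Z ↔ bb1Z4 x := S.mem_map
  have hS : ∀ g, S.ι g ∈ T ⊓ 𝒩(Z) := fun g => ⟨h.le ⟨g, rfl⟩, mem_norm_of_cj_le (by
    rintro _ ⟨_, ⟨x, hx, rfl⟩, rfl⟩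
    exact ⟨_, (bb1_n _ hp x hx).2.2.2.2 g, by simp⟩)⟩
  have hk : k ∈ T ⊓ 𝒩(Z) := ⟨h.kT, mem_norm_of_cj_le (by
    rintro _ ⟨_, ⟨x, hx, rfl⟩, rfl⟩
    obtain ⟨y, e, h1, -⟩ := bb1_act h hb x hx.2.1 hx.1
    exact ⟨y, h1 hx, e⟩)⟩
  by_contra hn
  obtain ⟨n, ⟨hnT, hnN⟩, hn'⟩ := SetLike.exists_of_lt
    (lt_inf_normalizer_of_isPGroup hT (inf_lt_left.2 hn : T ⊓ 𝒩(Z) < T))
  have h1 : T ⊓ 𝒩(Z) ≤ 𝒩(cj n Z) := by
    rw [← cj_norm, ← cj_eq hnN]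
    exact cj_mono n inf_le_right
  obtain ⟨i, h2, h3⟩ := exists_iter_not_le (A := Z) (exists_iter_eq_bot (isPGroup_cj (S.isP _) n)
    (hT.to_le inf_le_left) h1) fun e => hn' ⟨hnT, mem_norm_of_cj_le e⟩
  obtain ⟨e, he, heZ⟩ := SetLike.not_le_iff_exists.1 h2
  have h4 : ∀ g ∈ T ⊓ 𝒩(Z), e * g * e⁻¹ * g⁻¹ ∈ Z := fun g hg => h3 (commutator_mem_commutator he hg)
  have he' := iter_le h1 i he
  have heT : e ∈ T := cj_le_of_mem ((S.map_le _).trans h.le) hnT he'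
  have hee : e * e = 1 := by
    obtain ⟨_, ⟨x, hx, rfl⟩, rfl⟩ := he'
    rw [← map_mul, ← map_mul, (bb1_n _ hp x hx).1, map_one, map_one]
  obtain ⟨m, hm, em⟩ := h4 _ (hS (mt S.p))
  have et : e * S.t * e⁻¹ = S.ι (m * mt S.p) := by rw [map_mul, em, inv_mul_cancel_right]
  obtain ⟨-, n1, n2, n3, -⟩ := bb1_n _ hp m hm
  obtain ⟨x, rfl⟩ : e ∈ S.S1 := by
    refine S.nT h.ws hT h.le heT ?_
    rcases h.bc e (S.zT h.ws hT h.le heT) (et ▸ ⟨_, n1, rfl⟩) with e1 | e1 | e1 | e1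
    · exact Or.inl e1
    · exact Or.inr e1
    · exact (n2 (S.inj (by rw [← et, e1, map_mul]))).elim
    · exact (n3 (S.inj (by rw [← et, e1, map_mul, map_mul]))).elim
  obtain ⟨a1, a2, a3⟩ := bb1_qw _ hp x (hZ'.1 (by simpa using h4 _ (hS (mq S.p)))) (hZ'.1 (by simpa using h4 _ (hS (mw S.p))))
  obtain ⟨y, ey, -, a4⟩ := bb1_act h hb x a1 a2
  refine heZ (hZ'.2 (a3 (a4 (hZ'.1 ?_)) (S.inj (by rw [map_mul, hee, map_one]))))
  convert h4 k hk using 1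
  rw [map_mul, map_inv, ey]
  group

theorem bb1 : Bb1S.{u} := by
  intro G _ _ S T k h hb
  have : Fact (Nat.Prime 2) := ⟨Nat.prime_two⟩
  have hp : bb1T S.p := ⟨hb, h.ws, h.al⟩
  have hT := h.syl.2.1
  have hN := bb1_norm h hb
  obtain ⟨-, -, -, -, -, -, -, -, -, c1, c2⟩ := bb1_c _ hp
  set Z := (bb1sZ S.p).map S.ι with hZ
  have hZ' : ∀ {x}, S.ι x ∈ Z ↔ bb1Z x := S.mem_map
  have hc : ∀ g ∈ T, ∀ x ∈ Z, g * x * g⁻¹ = x := by
    rintro g hg _ ⟨x, hx, rfl⟩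
    rcases (bb1_z _ hp x).1 hx with rfl | rfl
    · simp
    · rw [S.zT h.ws hT h.le hg, mul_inv_cancel_right]
  have hZ0 : Z ≤ S.Z0 := map_mono fun x hx => ⟨hx.1, hx.2.2.1, hx.2.2.2.2.1, hx.2.2.2.1, hx.2.1⟩
  have hs : S.s ∈ S.Z0 := ⟨_, ⟨rfl, rfl, rfl, rfl, rfl⟩, rfl⟩
  have key : ∀ g : T, ∃ i : Fin 3, (S.ι (![ms S.p, mg S.p, ms S.p * mg S.p] i))⁻¹ * (g * S.s * (g : G)⁻¹) ∈ Z :=
    fun g => by
      obtain ⟨x, hx, e⟩ := conj_mem (hN g.2) (show S.s ∈ _ from ⟨_, c1, rfl⟩)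
      obtain ⟨i, hi⟩ := bb1_3 _ hp x hx fun h1 => c2 (hZ'.1 (by
        have h2 := hZ'.2 h1
        have h3 := hc _ (inv_mem g.2) _ h2
        rw [e] at h3 h2
        rw [← h3] at h2
        convert h2 using 1
        group))
      exact ⟨i, by rw [← e, ← map_inv, ← map_mul]; exact hZ'.2 hi⟩
  choose φ hφ using key
  have h3 : (T ⊓ 𝒩(S.Z0)).relIndex T ≤ 3 := by
    refine (Nat.card_le_card_of_injective (fun q : T ⧸ (T ⊓ 𝒩(S.Z0)).subgroupOf T => φ q.out) fun q₁ q₂ hq => ?_).trans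
      (by simp)
    rw [← q₁.out_eq', ← q₂.out_eq', Quotient.eq'', QuotientGroup.leftRel_apply, mem_subgroupOf]
    have h1 := hφ q₁.out
    have h2 := hφ q₂.out
    rw [show φ q₁.out = φ q₂.out from hq] at h1
    generalize q₁.out = a at h1 ⊢
    generalize q₂.out = b at h1 h2 ⊢
    have h4 := mul_mem (inv_mem h1) h2
    rw [← hc _ (inv_mem a.2) _ h4] at h4
    have h5 : ((a⁻¹ * b : T) : G) * S.s * ((a⁻¹ * b : T) : G)⁻¹ ∈ S.Z0 := by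
      convert mul_mem hs (hZ0 h4) using 1
      rw [Subgroup.coe_mul, Subgroup.coe_inv]
      group
    refine ⟨(a⁻¹ * b).2, mem_norm_of_cj_le ?_⟩
    rintro _ ⟨_, ⟨x, hx, rfl⟩, rfl⟩
    change _ * S.ι x * _ ∈ _
    rcases (bb1_z _ hp x).2 hx with h6 | h6
    · rw [hc _ (a⁻¹ * b).2 _ (hZ'.2 h6)]
      exact ⟨x, hx, rfl⟩
    · have h7 := hc _ (a⁻¹ * b).2 _ (hZ'.2 h6)
      convert mul_mem h5 (hZ0 (hZ'.2 h6)) using 1
      rw [← h7, map_mul, map_inv]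
      group
  obtain ⟨j, hj⟩ := hT.index ((T ⊓ 𝒩(S.Z0)).subgroupOf T)
  rw [← index_mul_card ((T ⊓ 𝒩(S.Z0)).subgroupOf T), Nat.card_congr (subgroupOfEquivOfLe inf_le_left).toEquiv]
  refine Nat.mul_le_mul_right _ ?_
  rw [relIndex] at h3
  rw [hj] at h3 ⊢
  rcases j with _ | _ | j
  · omega
  · omega
  · have : 0 < 2 ^ j := by positivity
    rw [pow_succ, pow_succ] at h3
    omega

end CL.H33
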