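/-
Project H33, step (BB2): the pull-back lemma applied to `N_T(Z₀) / Z₀`.
-/
import Cfsg.Agent.H33.Defs2

set_option autoImplicit false
set_option linter.unusedSectionVars false
open Cfsg Subgroup CL.Even CL.Grp

namespace CL.H33
open M

universe u

/-- membership in `sZ0` -/
abbrev bb2z {p : Ty} (x : M p) : Prop := x.k = false ∧ x.c = false ∧ x.d = false ∧ x.i = false ∧ x.j = false
/-- the type of the model in case (b), big -/
abbrev bb2p (p : Ty) : Prop := p.big = true ∧ p.ws = true ∧ p.al = false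
/-- the part of `x` in `Q` -/
def bb2v {p : Ty} (x : M p) : M p := mk' p false false false false x.i x.j false

theorem bb2v_mem {p : Ty} (x : M p) : bb2v x ∈ sQ p := ⟨rfl, rfl, rfl, rfl⟩

theorem bb2_z4 : ∀ p, bb2p p → ∀ x : M p, bb2z x → x = 1 ∨ x = mz p ∨ x = ms p ∨ x = ms p * mz p := by decide +kernel
theorem bb2_zn : ∀ p, bb2p p → ∀ m : M p, bb2z (m * mz p * m⁻¹) ∧ bb2z (m * ms p * m⁻¹) ∧
    bb2z (m * (ms p * mz p) * m⁻¹) := by decide +kernel
theorem bb2_zs : ∀ p, bb2p p → ∀ x : M p, bb2z x → x * ms p = ms p * x := by decide +kernel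
theorem bb2_zt : ∀ p, bb2p p → ∀ x : M p, bb2z x → (mt p * x) * (mt p * x) = 1 → x = 1 ∨ x = mz p := by decide +kernel
theorem bb2_qs : ∀ p, bb2p p → ∀ x : M p, x.k = false ∧ x.e = false ∧ x.c = false ∧ x.d = false →
    x * ms p = ms p * x ∧ (bb2z (x⁻¹ * 1) ∨ bb2z (x⁻¹ * mu p) ∨ bb2z (x⁻¹ * mq p) ∨ bb2z (x⁻¹ * (mu p * mq p))) ∧
      ¬ bb2z (x⁻¹ * md p) := by decide +kernel
theorem bb2_cs : ∀ p, bb2p p → ∀ x : M p, x * ms p = ms p * x → bb2z (x⁻¹ * bb2v x) ∨ bb2z (x⁻¹ * (bb2v x * md p)) ∨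
    bb2z (x⁻¹ * (bb2v x * mws p)) ∨ bb2z (x⁻¹ * (bb2v x * md p * mws p)) := by decide +kernel
theorem bb2_sq : ∀ p, bb2p p → ∀ x : M p, x * ms p = ms p * x → x * x = mz p →
    x.k = false ∧ x.c = false ∧ x.d = !(x.i || x.j) := by decide +kernel
theorem bb2_q0 : ∀ p, bb2p p → ∀ x : M p, x.k = false ∧ x.c = false ∧ x.d = false → bb2z (x⁻¹ * bb2v x) := by
  decide +kernel
theorem bb2_bc : ∀ p, bb2p p → ∀ x : M p, x = mt p ∨ x = mt p * mz p ∨ x = mt p * my p ∨ x = mt p * my p * mz p →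
    x.i = false ∧ x.j = false := by decide +kernel
theorem bb2_rel : ∀ p, bb2p p → ms p ≠ 1 ∧ ms p ≠ mz p ∧ mt p * ms p ≠ ms p * mt p ∧ md p * ms p = ms p * md p ∧
    mws p * ms p = ms p * mws p ∧ bb2z (mt p * mt p) ∧ bb2z (md p * md p) ∧ bb2z (mu p * mu p) ∧ bb2z (mq p * mq p) ∧
    bb2z (mws p * mws p) ∧ ¬ bb2z (mu p) ∧ mu p * mu p = mz p ∧ mq p * mq p = mz p ∧
    mu p * mq p * (mu p * mq p) = mz p ∧ mz p * mz p = 1 ∧ mt p * mt p = 1 := by decide +kernel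
theorem bb2_com : ∀ p, bb2p p → bb2z ((mt p * md p)⁻¹ * (md p * mt p)) ∧ bb2z ((mt p * mu p)⁻¹ * (mu p * mt p)) ∧
    bb2z ((mt p * mq p)⁻¹ * (mq p * mt p)) ∧ bb2z ((mt p * mws p)⁻¹ * (mws p * mt p)) ∧
    bb2z ((md p * mu p)⁻¹ * (mu p * md p)) ∧ bb2z ((md p * mq p)⁻¹ * (mq p * md p)) ∧
    bb2z ((md p * mws p)⁻¹ * (mws p * md p)) ∧ bb2z ((mu p * mq p)⁻¹ * (mq p * mu p)) ∧
    bb2z ((mws p * mu p)⁻¹ * (mu p * mws p)) ∧ bb2z ((mws p * mq p * mws p)⁻¹ * (mu p * mq p)) := by decide +kernel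
theorem bb2_bool : ∀ d i j d' i' j' : Bool, d = !(i || j) → d' = !(i' || j') →
    (d ^^ d') = !((i ^^ i') || (j ^^ j')) → d = false ∧ d' = false := by decide

/-- abstract form: `φ` embeds the model into the 2-group `N`, `π` has kernel `φ(Z₀)` -/
theorem bb2_abs (hP : PbS.{u}) {p : Ty} (hp : bb2p p) {N Q : Type u} [Group N] [Finite N] [Group Q] [Finite Q]
    (φ : M p →* N) (inj : Function.Injective φ) (π : N →* Q) (sur : Function.Surjective π) (hN : IsPGroup 2 N)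
    (ker : ∀ n, π n = 1 ↔ ∃ m, bb2z m ∧ φ m = n) (hz : ∀ n, n * φ (mz p) = φ (mz p) * n)
    (nT : ∀ n, n * φ (mt p) * n⁻¹ = φ (mt p) ∨ n * φ (mt p) * n⁻¹ = φ (mt p * mz p) → ∃ m, φ m = n)
    (bc : ∀ n x, x.k = false → n * φ (mt p) * n⁻¹ = φ x → x.i = false ∧ x.j = false) :
    ((sQ0 p).map φ).Normal ∨ Nat.card Q ≤ 128 := by
  obtain ⟨r1, r2, r3, r4, r5, r6, r7, r8, r9, r10, r11, r12, r13, r14, r15, r16⟩ := bb2_rel p hp
  obtain ⟨c1, c2, c3, c4, c5, c6, c7, c8, c9, c10⟩ := bb2_com p hp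
  set ψ : M p →* Q := π.comp φ with hψ
  have ψφ : ∀ x, π (φ x) = ψ x := fun _ => rfl
  have e1 : ∀ x, ψ x = 1 ↔ bb2z x := fun x =>
    (ker _).trans ⟨fun ⟨m, h, e⟩ => inj e ▸ h, fun h => ⟨x, h, rfl⟩⟩
  have e2 : ∀ x y, ψ x = ψ y ↔ bb2z (x⁻¹ * y) := fun x y => by rw [← e1, map_mul, map_inv, inv_mul_eq_one]
  have e3 : ∀ n x, π n = ψ x → ∃ m, bb2z m ∧ n = φ (x * m) := fun n x h => by
    obtain ⟨m, hm, e⟩ := (ker ((φ x)⁻¹ * n)).1 (by rw [map_mul, map_inv, ψφ, h, inv_mul_cancel])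
    exact ⟨m, hm, by rw [map_mul, e, mul_inv_cancel_left]⟩
  have hs : ∀ n, n * φ (ms p) * n⁻¹ = φ (ms p) ∨ n * φ (ms p) * n⁻¹ = φ (ms p) * φ (mz p) := fun n => by
    obtain ⟨m, hm, e⟩ := (ker (n * φ (ms p) * n⁻¹)).1 (by
      rw [map_mul, map_mul, ψφ, (e1 _).2 ⟨rfl, rfl, rfl, rfl, rfl⟩, mul_one, map_inv, mul_inv_cancel])
    rcases bb2_z4 p hp m hm with rfl | rfl | rfl | rfl
    · rw [map_one, eq_comm, conj_eq_one_iff, ← map_one φ] at e
      exact (r1 (inj e)).elim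
    · refine (r2 (inj ?_)).elim
      calc φ (ms p) = n⁻¹ * (n * φ (ms p) * n⁻¹) * n := by group
        _ = _ := by rw [← e, hz, inv_mul_cancel_right]
    · exact .inl e.symm
    · exact .inr (by rw [← e, map_mul])
  let C : Subgroup N := centralizer {φ (ms p)}
  have mC : ∀ n, n ∈ C ↔ n * φ (ms p) = φ (ms p) * n := fun n => mem_centralizer_singleton_iff
  have mC' : ∀ x, φ x ∈ C ↔ x * ms p = ms p * x := fun x => by rw [mC, ← map_mul, ← map_mul, inj.eq_iff]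
  have mT : ∀ n, π n ∈ C.map π ↔ n ∈ C := fun n => by
    refine ⟨fun ⟨a, ha, e⟩ => ?_, fun h => ⟨n, h, rfl⟩⟩
    obtain ⟨m, hm, e'⟩ := (ker (a⁻¹ * n)).1 (by rw [map_mul, map_inv, e, inv_mul_cancel])
    have : n = a * φ m := by rw [e', mul_inv_cancel_left]
    rw [this]; exact mul_mem ha ((mC' _).2 (bb2_zs p hp m hm))
  have nC : ∀ n, ∀ a ∈ C, n * a * n⁻¹ ∈ C := fun n a ha => by
    rw [mC] at ha ⊢
    have : a * (n⁻¹ * φ (ms p) * n⁻¹⁻¹) = (n⁻¹ * φ (ms p) * n⁻¹⁻¹) * a := by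
      rcases hs n⁻¹ with h | h <;> rw [h]
      · exact ha
      · rw [← mul_assoc, ha, mul_assoc, hz, mul_assoc]
    calc n * a * n⁻¹ * φ (ms p) = n * (a * (n⁻¹ * φ (ms p) * n⁻¹⁻¹)) * n⁻¹ := by group
      _ = _ := by rw [this]; group
  have cτ : ∀ n, π n * ψ (mt p) = ψ (mt p) * π n → ∃ m, φ m = n := fun n h => by
    obtain ⟨m, hm, e⟩ := e3 (n * φ (mt p) * n⁻¹) (mt p) (by
      rw [map_mul, map_mul, ψφ, h, map_inv, mul_inv_cancel_right])
    have h2 : (mt p * m) * (mt p * m) = 1 := inj (by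
      rw [map_mul, ← e, map_one]
      calc _ = n * (φ (mt p) * φ (mt p)) * n⁻¹ := by group
        _ = 1 := by rw [← map_mul, r16, map_one]; group)
    rcases bb2_zt p hp m hm h2 with rfl | rfl
    · exact nT n (.inl (by rw [e, mul_one]))
    · exact nT n (.inr e)
  have nf : ∀ n y, y.k = false → π n * ψ (mt p) * (π n)⁻¹ = ψ y → y.i = false ∧ y.j = false := fun n y hy h => by
    obtain ⟨m, ⟨m1, -, -, m4, m5⟩, e⟩ := e3 (n * φ (mt p) * n⁻¹) y (by rw [map_mul, map_mul, ψφ, map_inv, h])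
    have := bc n _ (by rw [mul_k, hy, m1]; rfl) e
    rw [mul_i, mul_j, m4, m5, hy] at this
    simpa using this
  have q0 : ∀ x ∈ sQ0 p, ψ x ∈ (sQ p).map ψ := fun x hx => ⟨_, bb2v_mem x, ((e2 _ _).2 (bb2_q0 p hp x hx)).symm⟩
  have uQ : mu p ∈ sQ p := ⟨rfl, rfl, rfl, rfl⟩
  have qQ : mq p ∈ sQ p := ⟨rfl, rfl, rfl, rfl⟩
  have memV : ∀ v, v ∈ (sQ p).map ψ ↔ v = 1 ∨ v = ψ (mu p) ∨ v = ψ (mq p) ∨ v = ψ (mu p) * ψ (mq p) := fun v => by
    constructor
    · rintro ⟨x, hx, rfl⟩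
      rw [← map_mul, ← map_one ψ, e2, e2, e2, e2]
      exact (bb2_qs p hp x hx).2.1
    · rintro (rfl | rfl | rfl | rfl)
      exacts [one_mem _, ⟨_, uQ, rfl⟩, ⟨_, qQ, rfl⟩, mul_mem ⟨_, uQ, rfl⟩ ⟨_, qQ, rfl⟩]
  let P : PH Q :=
    { T0 := C.map π, V0 := (sQ p).map ψ, τ := ψ (mt p), κ := ψ (md p), μ := ψ (mu p), ν := ψ (mq p), ω := ψ (mws p)
      two := hN.of_surjective π sur
      idx := by
        intro x y hx hy
        obtain ⟨x, rfl⟩ := sur x
        obtain ⟨y, rfl⟩ := sur y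
        rw [mT, mC, ← mul_inv_eq_iff_eq_mul] at hx hy
        rw [← map_mul, mT, mC, ← mul_inv_eq_iff_eq_mul]
        have hx' := (hs x).resolve_left hx
        calc _ = x * (y * φ (ms p) * y⁻¹) * x⁻¹ := by group
          _ = x * φ (ms p) * (φ (mz p) * x⁻¹) := by rw [(hs y).resolve_left hy]; group
          _ = x * φ (ms p) * x⁻¹ * φ (mz p) := by rw [← hz]; group
          _ = _ := by rw [hx', mul_assoc, ← map_mul, r15, map_one, mul_one]
      τT := by rw [← ψφ, mT, mC']; exact r3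
      κT := by rw [← ψφ, mT, mC']; exact r4
      VT := by
        rintro _ ⟨x, hx, rfl⟩
        rw [← ψφ, mT, mC']; exact (bb2_qs p hp x hx).1
      ωT := by rw [← ψφ, mT, mC']; exact r5
      memV := memV
      ττ := by rw [← map_mul, e1]; exact r6
      κκ := by rw [← map_mul, e1]; exact r7
      μμ := by rw [← map_mul, e1]; exact r8
      νν := by rw [← map_mul, e1]; exact r9
      ωω := by rw [← map_mul, e1]; exact r10
      μ1 := by rw [Ne, e1]; exact r11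
      κV := by
        rintro ⟨x, hx, e⟩
        exact (bb2_qs p hp x hx).2.2 ((e2 _ _).1 e)
      τκ := by rw [← map_mul, ← map_mul, e2]; exact c1
      τμ := by rw [← map_mul, ← map_mul, e2]; exact c2
      τν := by rw [← map_mul, ← map_mul, e2]; exact c3
      τω := by rw [← map_mul, ← map_mul, e2]; exact c4
      κμ := by rw [← map_mul, ← map_mul, e2]; exact c5
      κν := by rw [← map_mul, ← map_mul, e2]; exact c6
      κω := by rw [← map_mul, ← map_mul, e2]; exact c7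
      μν := by rw [← map_mul, ← map_mul, e2]; exact c8
      ωμ := by rw [← map_mul, ← map_mul, e2]; exact c9
      ων := by rw [← map_mul, ← map_mul, ← map_mul, e2]; exact c10
      cτ := by
        intro x hx h
        obtain ⟨n, rfl⟩ := sur x
        obtain ⟨m, rfl⟩ := cτ n h
        rw [mT, mC'] at hx
        refine ⟨ψ (bb2v m), ⟨_, bb2v_mem m, rfl⟩, ?_⟩
        rw [ψφ, ← map_mul, ← map_mul, ← map_mul, e2, e2, e2, e2]
        exact bb2_cs p hp m hx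
      nf := by
        rintro g _ ⟨x, ⟨x1, x2, x3, x4⟩, rfl⟩ h1
        obtain ⟨n, rfl⟩ := sur g
        have k : x.i = false ∧ x.j = false → False := fun h => h1 ((e1 x).2 ⟨x1, x3, x4, h.1, h.2⟩)
        refine ⟨fun h => k ?_, fun h => k ?_⟩
        · have := nf n (mt p * x) (by rw [mul_k, x1]; rfl) (by rw [h, map_mul])
          simpa [mul_i, mul_j, mul_k, M.mt, mk'] using this
        · have := nf n (mt p * x * md p) (by rw [mul_k, mul_k, x1]; rfl) (by rw [h, map_mul, map_mul])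
          simpa [mul_i, mul_j, mul_k, M.mt, md, mk', x1] using this
      uq := by
        intro g h
        obtain ⟨n, rfl⟩ := sur g
        have k : ∀ x ∈ sQ p, ∃ m, φ m = n * φ x * n⁻¹ ∧ m * ms p = ms p * m ∧ (x * x = mz p → m * m = mz p) := by
          intro x hx
          have h1 := mem_centralizer_singleton_iff.1 (h (conj_mem_cj (π n) ⟨x, hx, rfl⟩))
          obtain ⟨m, e⟩ := cτ (n * φ x * n⁻¹) (by rw [map_mul, map_mul, map_inv, ψφ]; exact h1)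
          refine ⟨m, e, (mC' m).1 (e ▸ nC n _ ((mC' x).2 (bb2_qs p hp x hx).1)), fun h2 => inj ?_⟩
          rw [map_mul, e]
          calc _ = n * (φ x * φ x) * n⁻¹ := by group
            _ = _ := by rw [← map_mul, h2, hz, mul_inv_cancel_right]
        obtain ⟨a, a1, a2, a3⟩ := k _ uQ
        obtain ⟨b, b1, b2, b3⟩ := k _ qQ
        obtain ⟨c, d1, d2, d3⟩ := k _ (mul_mem uQ qQ)
        obtain rfl : c = a * b := inj (by rw [d1, map_mul, map_mul, a1, b1]; group)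
        obtain ⟨a4, a5, a6⟩ := bb2_sq p hp a a2 (a3 r12)
        obtain ⟨b4, b5, b6⟩ := bb2_sq p hp b b2 (b3 r13)
        obtain ⟨-, -, d6⟩ := bb2_sq p hp _ d2 (d3 r14)
        rw [mul_d, mul_i, mul_j, a4] at d6
        obtain ⟨a7, b7⟩ := bb2_bool _ _ _ _ _ _ a6 b6 (by simpa using d6)
        have ha : π n * ψ (mu p) * (π n)⁻¹ ∈ (sQ p).map ψ := by
          rw [← ψφ, ← map_inv, ← map_mul, ← map_mul, ← a1]; exact q0 a ⟨a4, a5, a7⟩
        have hb : π n * ψ (mq p) * (π n)⁻¹ ∈ (sQ p).map ψ := by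
          rw [← ψφ, ← map_inv, ← map_mul, ← map_mul, ← b1]; exact q0 b ⟨b4, b5, b7⟩
        refine cj_eq (mem_norm_of_cj_le (cj_le_iff.2 fun v hv => ?_))
        rw [mem_cj, inv_inv]
        rcases (memV v).1 hv with rfl | rfl | rfl | rfl
        · simpa using one_mem _
        · exact ha
        · exact hb
        · have := mul_mem ha hb
          rwa [show π n * ψ (mu p) * (π n)⁻¹ * (π n * ψ (mq p) * (π n)⁻¹) =
            π n * (ψ (mu p) * ψ (mq p)) * (π n)⁻¹ by group] at this }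
  refine (hP Q P).imp_left fun h => ⟨?_⟩
  rintro _ ⟨x, hx, rfl⟩ n
  obtain ⟨v, ⟨v1, -, v3, v4⟩, e⟩ := h.conj_mem _ (q0 x hx) (π n)
  obtain ⟨m, ⟨m1, m2, m3, -, -⟩, e'⟩ := e3 (n * φ x * n⁻¹) v (by rw [e, map_mul, map_mul, map_inv, ψφ])
  refine ⟨v * m, ⟨?_, ?_, ?_⟩, e'.symm⟩
  · rw [mul_k, v1, m1]; rfl
  · rw [mul_c, v1, v3, m2]; rfl
  · rw [mul_d, v1, v4, m3]; rfl

theorem bb2 : Bb2S.{u} := by
  intro hP G _ _ S T k hB hb
  have hp : bb2p S.p := ⟨hb, hB.ws, hB.al⟩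
  have hT : IsPGroup 2 T := hB.syl.isPGroup
  set N : Subgroup G := T ⊓ 𝒩(S.Z0) with hN
  have h1 : S.S1 ≤ N := by
    refine le_inf hB.le ?_
    rintro _ ⟨m, rfl⟩
    refine mem_norm_of_cj_le (cj_le_iff.2 ?_)
    rintro _ ⟨x, hx, rfl⟩
    rw [mem_cj, inv_inv, ← map_inv, ← map_mul, ← map_mul, S.mem_map]
    obtain ⟨a, b, c⟩ := bb2_zn _ hp m
    rcases bb2_z4 _ hp x hx with rfl | rfl | rfl | rfl
    · simpa using one_mem _
    exacts [a, b, c]
  let φ : M S.p →* N := S.ι.codRestrict N fun x => h1 ⟨x, rfl⟩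
  have inj : Function.Injective φ := fun x y h => S.inj (congrArg Subtype.val h)
  let K : Subgroup N := S.Z0.subgroupOf N
  have nK : K.Normal := ⟨fun a ha n => conj_mem (H := S.Z0) (g := (n : G)) (x := (a : G)) n.2.2 ha⟩
  have hz : ∀ n : N, (n : G) * S.z = S.z * n := fun n => S.zT hB.ws hT hB.le n.2.1
  have ker : ∀ n : N, QuotientGroup.mk' K n = 1 ↔ ∃ m, bb2z m ∧ φ m = n := fun n => by
    rw [QuotientGroup.mk'_apply, QuotientGroup.eq_one_iff]
    exact ⟨fun ⟨m, h, e⟩ => ⟨m, h, Subtype.ext e⟩, fun ⟨m, h, e⟩ => ⟨m, h, congrArg Subtype.val e⟩⟩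
  refine (bb2_abs hP hp φ inj (QuotientGroup.mk' K) (QuotientGroup.mk'_surjective K) (hT.to_le inf_le_left) ker
    (fun n => Subtype.ext (hz n)) (fun n h => ?_) fun n x hx h => ?_).imp (fun h g hg => ?_) fun h => ?_
  · obtain ⟨m, e⟩ := S.nT hB.ws hT hB.le n.2.1 (h.imp (congrArg Subtype.val) fun h => by
      rw [← map_mul]; exact congrArg Subtype.val h)
    exact ⟨m, Subtype.ext e⟩
  · have e : (n : G) * S.t * (n : G)⁻¹ = S.ι x := congrArg Subtype.val h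
    have := hB.bc n (hz n) (by rw [e]; exact ⟨x, hx, rfl⟩)
    rw [e, ← map_mul, ← map_mul, ← map_mul, S.eq_iff, S.eq_iff, S.eq_iff, S.eq_iff] at this
    exact bb2_bc _ hp x this
  · refine mem_norm_of_cj_le (cj_le_iff.2 ?_)
    rintro _ ⟨x, hx, rfl⟩
    rw [mem_cj, inv_inv]
    obtain ⟨y, hy, e⟩ := h.conj_mem _ ⟨x, hx, rfl⟩ ⟨g, hg⟩
    exact ⟨y, hy, congrArg Subtype.val e⟩
  · have hK : Nat.card K ≤ 4 := by
      let f : Fin 4 → K := fun i => ⟨φ (![1, mz _, ms _, ms _ * mz _] i), ⟨_, by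
        fin_cases i <;> exact ⟨rfl, rfl, rfl, rfl, rfl⟩, rfl⟩⟩
      refine (Nat.card_le_card_of_surjective f ?_).trans (by simp)
      rintro ⟨n, m, hm, e⟩
      have e' : φ m = n := Subtype.ext e
      subst e'
      rcases bb2_z4 _ hp m hm with rfl | rfl | rfl | rfl
      exacts [⟨0, rfl⟩, ⟨1, rfl⟩, ⟨2, rfl⟩, ⟨3, rfl⟩]
    rw [card_eq_card_quotient_mul_card_subgroup K]
    exact (Nat.mul_le_mul h hK).trans (by norm_num)

end CL.H33
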