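/-
Project H33, job BB3: the normaliser of `Z₀` in case (b), `δ` present.
-/
import Cfsg.Agent.H33.Defs2

set_option autoImplicit false
set_option linter.unusedSectionVars false
open Cfsg Subgroup CL.Even CL.Grp
open scoped commutatorElement

namespace CL.H33
open M

universe u

namespace Bb3a

abbrev Gd (p : Ty) : Prop := p.big = true ∧ p.ws = true ∧ p.al = false

/-- `x' = w* t` -/
def mx (p : Ty) : M p := mws p * M.mt p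

instance (p : Ty) (x : M p) : Decidable (x ∈ sZ0 p) :=
  inferInstanceAs (Decidable (x.k = false ∧ x.c = false ∧ x.d = false ∧ x.i = false ∧ x.j = false))
instance (p : Ty) (x : M p) : Decidable (x ∈ sQ0 p) :=
  inferInstanceAs (Decidable (x.k = false ∧ x.c = false ∧ x.d = false))
instance (p : Ty) (x : M p) : Decidable (x ∈ sQ p) :=
  inferInstanceAs (Decidable (x.k = false ∧ x.e = false ∧ x.c = false ∧ x.d = false))
instance (p : Ty) (x : M p) : Decidable (x ∈ sR p) := inferInstanceAs (Decidable (x.k = false))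

theorem m1 : ∀ p, Gd p → ∀ m ∈ sZ0 p, m = 1 ∨ m = mz p ∨ m = ms p ∨ m = ms p * mz p := by decide +kernel
theorem m2 : ∀ p, Gd p → ∀ v ∈ sZ0 p, ∀ x, x * v * x⁻¹ ∈ sZ0 p := by decide +kernel
theorem m3 : ∀ p, Gd p → ∀ m ∈ sQ0 p, m * mw p * m⁻¹ * (mw p)⁻¹ ∈ sZ0 p → m ∉ sZ0 p → mu p * m⁻¹ ∈ sZ0 p := by
  decide +kernel
theorem m4 : ∀ p, Gd p → ∀ m ∈ sQ0 p, m ∈ sZ0 p ∨ m * (mu p)⁻¹ ∈ sZ0 p ∨ m * (mq p)⁻¹ ∈ sZ0 p ∨
    m * (mu p * mq p)⁻¹ ∈ sZ0 p := by decide +kernel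
theorem m5 : ∀ p, Gd p → ∀ n' ∈ sQ0 p, mu p * n'⁻¹ ∈ sZ0 p → ∀ n ∈ sQ0 p, n' * n ≠ n * n' →
    mq p * n⁻¹ ∈ sZ0 p ∨ mq p * (mws p * n * (mws p)⁻¹)⁻¹ ∈ sZ0 p := by decide +kernel
theorem m6 : ∀ p, Gd p → ∀ m ∈ sQ0 p, m * ms p = ms p * m ∧ mu p * m * (mu p)⁻¹ * m⁻¹ ∈ sZ0 p ∧
    mq p * m * (mq p)⁻¹ * m⁻¹ ∈ sZ0 p ∧ m * M.mt p ∈ sR p ∧ m * M.mt p ≠ M.mt p * my p ∧
    m * M.mt p ≠ M.mt p * my p * mz p := by decide +kernel
theorem m7 : ∀ p, Gd p → ∀ m ∈ sQ0 p, M.mt p * m * M.mt p ∈ sQ0 p := by decide +kernel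
theorem m8 : ∀ p, Gd p → ∀ m, m * ms p = ms p * m → mq p * m * (mq p)⁻¹ * m⁻¹ ∈ sZ0 p →
    m ∈ sQ0 p ∨ m * (md p)⁻¹ ∈ sQ0 p := by decide +kernel
theorem m9 : ∀ p, ∀ m ∈ sQ0 p, mk' p false m.z false m.e m.i m.j false = m := by decide +kernel
theorem m10 : ∀ p, Gd p → ∀ a ∈ sZ0 p, ∀ b ∈ sZ0 p, ∃ r ∈ sQ p,
    r * mu p * r⁻¹ = M.mt p * a⁻¹ * (M.mt p)⁻¹ * a * mu p ∧ r * mq p * r⁻¹ = M.mt p * b⁻¹ * (M.mt p)⁻¹ * b * mq p := by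
  decide +kernel
theorem m12 : ∀ p, Gd p → ∀ r ∈ sQ p, r ∈ sQ0 p ∧ r ^ 4 = 1 ∧ M.mt p * r = r * M.mt p ∧ mx p * r⁻¹ * (mx p)⁻¹ ∈ sQ p ∧
    (r * mu p = mu p * r → r * mq p = mq p * r → r = 1 ∨ r = mz p) ∧
    ∀ n ∈ sQ0 p, n⁻¹ * r * (M.mt p * n * M.mt p) ∈ sQ p := by decide +kernel
theorem m13 : ∀ p, Gd p → ∀ n ∈ sQ0 p, ∀ m, m = n * md p → m * mu p = mu p * m → m * mq p = mq p * m →
    M.mt p * m * M.mt p = m⁻¹ → m * m = mz p ∧ mx p * m * (mx p)⁻¹ = m ∧ (md p = ms p * m ∨ md p = ms p * m⁻¹) := by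
  decide +kernel
theorem m16 : ∀ p, Gd p → mx p * mx p = 1 ∧ mx p * M.mt p = M.mt p * mx p ∧ mx p * ms p * (mx p)⁻¹ = ms p * mz p ∧
    ms p * ms p = 1 ∧ ms p * mg p = mg p * ms p ∧ (mx p)⁻¹ * mu p * mx p ∈ sQ0 p ∧ (mx p)⁻¹ * mq p * mx p ∈ sQ0 p ∧
    (p.ep = true → mx p = mw p) ∧ (p.ep = false → mx p = M.mt p * mw p) ∧ mz p ≠ 1 := by decide +kernel
theorem m17 : ∀ p, Gd p → ms p ∈ sZ0 p ∧ mz p ∈ sZ0 p ∧ mu p ∈ sQ0 p ∧ mq p ∈ sQ0 p ∧ mu p ∉ sZ0 p ∧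
    mu p * M.mt p = M.mt p * mu p ∧ mq p * M.mt p = M.mt p * mq p ∧ mu p * mq p ≠ mq p * mu p ∧ ms p ≠ 1 ∧
    ms p ≠ mz p ∧ M.mt p * (ms p * mz p) * (M.mt p)⁻¹ = ms p ∧ mws p * ms p = ms p * mws p := by decide +kernel

theorem gen {p : Ty} (g : Gd p) {K : Subgroup (M p)} (h : sZ0 p ≤ K) (hu : mu p ∈ K) (hq : mq p ∈ K) : sQ0 p ≤ K :=
  fun m hm => by
  rcases m4 p g m hm with e | e | e | e
  · exact h e
  · exact (mul_mem_cancel_right (inv_mem hu)).1 (h e)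
  · exact (mul_mem_cancel_right (inv_mem hq)).1 (h e)
  · exact (mul_mem_cancel_right (inv_mem (mul_mem hu hq))).1 (h e)

theorem genZ {p : Ty} (g : Gd p) {K : Subgroup (M p)} (hs : ms p ∈ K) (hz : mz p ∈ K) : sZ0 p ≤ K := fun m hm => by
  rcases m1 p g m hm with rfl | rfl | rfl | rfl
  exacts [one_mem _, hz, hs, mul_mem hs hz]

theorem cardQ (p : Ty) : Nat.card (sQ0 p) ≤ 16 := by
  have := Nat.card_le_card_of_injective (fun m : sQ0 p => (m.1.z, m.1.e, m.1.i, m.1.j)) fun a b e => Subtype.ext (by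
    simp only [Prod.mk.injEq] at e
    rw [← m9 p a a.2, ← m9 p b b.2, e.1, e.2.1, e.2.2.1, e.2.2.2])
  simpa using this

variable {G : Type u} [Group G] [Finite G]

theorem idx {K H : Subgroup G} {a : G} (ha : a ∈ H) (h : ∀ b ∈ H, a * b ∈ K ∨ b ∈ K) :
    Nat.card H ≤ 2 * Nat.card (H ⊓ K : Subgroup G) := by
  have h1 := Nat.le_of_dvd two_pos (relIindex_dvd_two_iff'.2 ⟨a, ha, h⟩)
  rw [← (K.subgroupOf H).card_mul_index, mul_comm,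
    ← Nat.card_congr (subgroupOfEquivOfLe (inf_le_left : H ⊓ K ≤ H)).toEquiv, inf_subgroupOf_left]
  exact Nat.mul_le_mul_right _ h1

variable (S : HD G)

theorem s1n (g : Gd S.p) (x : M S.p) : S.ι x ∈ 𝒩(S.Z0) := mem_norm_of_cj_le (by
  rintro _ ⟨_, ⟨v, hv, rfl⟩, rfl⟩
  refine ⟨_, m2 _ g v hv x, ?_⟩
  simp only [map_mul, map_inv]; rfl)

theorem cenZ (g : Gd S.p) {x : G} (hs : x * S.s = S.s * x) (hz : x * S.z = S.z * x) : x ∈ 𝒞(S.Z0) := by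
  rintro _ ⟨v, hv, rfl⟩
  exact mem_centralizer_singleton_iff.1 (genZ g (K := (centralizer {x}).comap S.ι)
    (mem_centralizer_singleton_iff.2 hs.symm) (mem_centralizer_singleton_iff.2 hz.symm) hv)

/-- the elements which `x` fixes modulo `Z₀` -/
def K (g : Gd S.p) (x : G) : Subgroup (M S.p) := sub (fun m => ⁅S.ι m, x⁆ ∈ S.Z0) (by simp) fun a b ha hb => by
  have := mul_mem (conj_mem (s1n S g a) hb) ha
  convert this using 1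
  simp only [commutatorElement_def, map_mul]; group

theorem ZK (g : Gd S.p) {x : G} (hx : x ∈ 𝒩(S.Z0)) : sZ0 S.p ≤ K S g x := fun m hm => by
  have := mul_mem (S.mem_map.2 hm) (conj_mem hx (inv_mem (S.mem_map.2 hm)))
  show _ ∈ S.Z0
  convert this using 1
  simp only [commutatorElement_def, mul_assoc]

theorem cmQ (g : Gd S.p) {x : G} (hx : x ∈ 𝒩(S.Z0)) (hu : ⁅S.u, x⁆ ∈ S.Z0) (hq : ⁅S.q, x⁆ ∈ S.Z0) :
    x ∈ cmod S.Q0 S.Z0 := ⟨hx, by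
  rintro _ ⟨v, hv, rfl⟩
  exact gen g (ZK S g hx) hu hq hv⟩

theorem cm_iff {a b : M S.p} : ⁅S.ι a, S.ι b⁆ ∈ S.Z0 ↔ a * b * a⁻¹ * b⁻¹ ∈ sZ0 S.p := by
  rw [← S.mem_map, commutatorElement_def]
  simp only [map_mul, map_inv]

theorem fixu (g : Gd S.p) {T : Subgroup G} (hT : IsPGroup 2 T) (h1 : S.S1 ≤ T) (hZ : T ≤ 𝒩(S.Z0)) (hQ : T ≤ 𝒩(S.Q0))
    {x : G} (hx : x ∈ T) : ⁅S.u, x⁆ ∈ S.Z0 := by
  have := Fact.mk Nat.prime_two
  obtain ⟨-, -, k1, -, k2, -⟩ := m17 _ g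
  obtain ⟨i, i1, i2⟩ := exists_iter_not_le (A := S.Z0) (exists_iter_eq_bot (S.isP _) hT hQ)
    fun h => k2 (S.mem_map.1 (h (S.mem_map.2 k1)))
  obtain ⟨v, v1, v2⟩ := SetLike.not_le_iff_exists.1 i1
  obtain ⟨m, hm, rfl⟩ := iter_le hQ i v1
  have e := m3 _ g m hm ((cm_iff S).1 (i2 (commutator_mem_commutator v1 (h1 ⟨_, rfl⟩)))) fun h => v2 (S.mem_map.2 h)
  exact (mul_mem_cancel_right (inv_mem (show m ∈ K S g x from i2 (commutator_mem_commutator v1 hx)))).1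
    (ZK S g (hZ hx) e)

theorem card4 (g : Gd S.p) {T : Subgroup G} (hT : IsPGroup 2 T) (h1 : S.S1 ≤ T) (hZ : T ≤ 𝒩(S.Z0))
    (hQ : T ≤ 𝒩(S.Q0)) : Nat.card T ≤ 4 * Nat.card (T ⊓ 𝒞(S.Z0) ⊓ cmod S.Q0 S.Z0 : Subgroup G) := by
  obtain ⟨sZ, zZ, uQ, qQ, -, -, -, uq, s1, sz, tsz, wss⟩ := m17 _ g
  have cz : ∀ x ∈ T, x * S.z = S.z * x := fun x hx => S.zT g.2.1 hT h1 hx
  have a1 := idx (K := 𝒞(S.Z0)) (h1 ⟨M.mt _, rfl⟩) fun b hb => by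
    obtain ⟨n, hn, e⟩ := conj_mem (hZ hb) (S.mem_map.2 sZ)
    rcases m1 _ g n hn with rfl | rfl | rfl | rfl
    · rw [map_one, eq_comm, conj_eq_one_iff, ← map_one S.ι, S.eq_iff] at e
      exact (s1 e).elim
    · rw [eq_mul_inv_iff_mul_eq, ← cz b hb, mul_right_inj, S.eq_iff] at e
      exact (sz e.symm).elim
    · exact .inr (cenZ S g (eq_mul_inv_iff_mul_eq.1 e).symm (cz b hb))
    · refine .inl (cenZ S g (mul_inv_eq_iff_eq_mul.1 ?_) (cz _ (mul_mem (h1 ⟨_, rfl⟩) hb)))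
      conv_rhs => rw [HD.s, ← tsz, map_mul, map_mul, e, map_inv]
      group
  have a2 := idx (K := cmod S.Q0 S.Z0) (H := T ⊓ 𝒞(S.Z0)) (a := S.ws)
    ⟨h1 ⟨_, rfl⟩, cenZ S g (by rw [← map_mul, wss, map_mul]) (S.z_comm _)⟩ fun b hb => by
    obtain ⟨n, hn, e⟩ := conj_mem (hQ hb.1) (S.mem_map.2 qQ)
    obtain ⟨n', hn', e'⟩ := conj_mem (hQ hb.1) (S.mem_map.2 uQ)
    have hw : S.ws * b ∈ T := mul_mem (h1 ⟨_, rfl⟩) hb.1
    have e1 : mu S.p * n'⁻¹ ∈ sZ0 S.p := by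
      rw [← S.mem_map, map_mul, map_inv, e']
      convert fixu S g hT h1 hZ hQ hb.1 using 1
      simp only [commutatorElement_def]; group
    rcases m5 _ g n' hn' e1 n hn (fun k => uq (S.inj (by
      have := congrArg S.ι k
      rw [map_mul, map_mul, e, e', conj_mul, conj_mul, mul_left_inj, mul_right_inj] at this
      rwa [map_mul, map_mul]))) with k | k
    · refine .inr (cmQ S g (hZ hb.1) (fixu S g hT h1 hZ hQ hb.1) ?_)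
      rw [← S.mem_map, map_mul, map_inv, e] at k
      convert k using 1
      simp only [commutatorElement_def]; group
    · refine .inl (cmQ S g (hZ hw) (fixu S g hT h1 hZ hQ hw) ?_)
      rw [← S.mem_map, map_mul, map_inv, map_mul, map_mul, map_inv, e] at k
      convert k using 1
      simp only [commutatorElement_def]; group
  omega

theorem cv (g : Gd S.p) {x : G} (xZ : x ∈ 𝒞(S.Z0)) {v : M S.p} (h : ⁅S.ι v, x⁆ ∈ S.Z0) (vt : v * M.mt _ = M.mt _ * v) :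
    ∃ a ∈ sZ0 S.p, x⁻¹ * (S.t * x * S.t) * S.ι v * (x⁻¹ * (S.t * x * S.t))⁻¹ =
      S.ι (M.mt _ * a⁻¹ * (M.mt _)⁻¹ * a * v) := by
  obtain ⟨a, ha, e⟩ := h
  have e0 : Commute S.t (S.ι v) := by rw [commute_iff_eq, ← map_mul, ← map_mul, vt]
  have e1 : Commute x⁻¹ (S.ι a) := Commute.inv_left (comm_of_mem xZ (S.mem_map.2 ha)).symm
  have e2 : Commute x⁻¹ (S.t * (S.ι a)⁻¹ * S.t⁻¹) :=
    Commute.inv_left (comm_of_mem xZ (conj_mem (s1n S g _) (inv_mem (S.mem_map.2 ha)))).symm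
  rw [commutatorElement_def] at e
  refine ⟨a, ha, ?_⟩
  simp only [map_mul, map_inv]
  calc _ = x⁻¹ * (S.t * (x * (S.t * S.ι v * S.t⁻¹) * x⁻¹) * S.t⁻¹) * x := by group
    _ = x⁻¹ * (S.t * (x * S.ι v * x⁻¹) * S.t⁻¹) * x := by rw [e0.mul_inv_cancel]
    _ = x⁻¹ * (S.t * (S.ι a)⁻¹ * S.t⁻¹) * x⁻¹⁻¹ * (x⁻¹ * (S.t * S.ι v * S.t⁻¹) * x) := by rw [e]; group
    _ = S.t * (S.ι a)⁻¹ * S.t⁻¹ * (x⁻¹ * S.ι a * x⁻¹⁻¹) * S.ι v := by
      rw [e2.mul_inv_cancel, e0.mul_inv_cancel, e]; group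
    _ = _ := by rw [e1.mul_inv_cancel]

theorem fin (g : Gd S.p) {x c : G} (xZ : x ∈ 𝒞(S.Z0)) (xQ : x ∈ cmod S.Q0 S.Z0) (hc : c = x⁻¹ * (S.t * x * S.t))
    (c4 : c ^ 2 ^ 2 * S.δ⁻¹ ∈ S.Q0) {j : ℕ} {a : G} (ha : a ∈ S.Q0)
    (hx : S.ι (mx _) * x * (S.ι (mx _))⁻¹ = x * (c ^ j * a)) :
    ∃ e, e * S.z = S.z * e ∧ e * S.ι (mx _) = S.ι (mx _) * e ∧ e * S.γ = S.γ * e ∧ e ^ 8 = S.z := by
  have := Fact.mk Nat.prime_two
  obtain ⟨sZ, zZ, uQ, qQ, -, ut, qt, -⟩ := m17 _ g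
  obtain ⟨xx, xt, xs, ss, sg, xu, xq, -, -, z1⟩ := m16 _ g
  have ti : S.t⁻¹ = S.t := inv_eq_of_mul_eq_one_right S.tt
  have cZ : c ∈ 𝒞(S.Z0) := by
    have := mul_mem (inv_mem xZ) (conj_mem (norm_le_norm_cent _ (s1n S g (M.mt _))) xZ)
    rwa [ti, ← hc] at this
  obtain ⟨a1, b1, e1⟩ := cv S g xZ (xQ.2 _ (S.mem_map.2 uQ)) ut
  obtain ⟨a2, b2, e2⟩ := cv S g xZ (xQ.2 _ (S.mem_map.2 qQ)) qt
  obtain ⟨r, hr, r1, r2⟩ := m10 _ g a1 b1 a2 b2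
  obtain ⟨rQ, r4, rt, rx, -⟩ := m12 _ g r hr
  rw [← hc, ← r1, map_mul, map_mul, map_inv] at e1
  rw [← hc, ← r2, map_mul, map_mul, map_inv] at e2
  obtain ⟨P, hP⟩ : ∃ P, c = S.ι r * P := ⟨(S.ι r)⁻¹ * c, by group⟩
  have PZ : P ∈ 𝒞(S.Z0) := by
    refine (mul_mem_cancel_left (cenZ S g ?_ (S.z_comm r))).1 (hP ▸ cZ)
    rw [← map_mul, (m6 _ g r rQ).1, map_mul]
  have k : ∀ v : G, c * v * c⁻¹ = S.ι r * v * (S.ι r)⁻¹ → v ∈ centralizer {P} := fun v e => by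
    rw [hP, mul_inv_rev, ← mul_assoc, mul_left_inj, mul_assoc, mul_assoc, mul_right_inj, ← mul_assoc,
      mul_inv_eq_iff_eq_mul] at e
    exact mem_centralizer_singleton_iff.2 e.symm
  have PQ : ∀ v ∈ sQ0 S.p, Commute (S.ι v) P := fun v hv => mem_centralizer_singleton_iff.1
    (gen g (K := (centralizer {P}).comap S.ι) (fun m hm => mem_centralizer_singleton_iff.2
      (comm_of_mem PZ (S.mem_map.2 hm))) (k _ e1) (k _ e2) hv)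
  have tc : S.t * c * S.t⁻¹ = c⁻¹ := by
    rw [hc, mul_inv_rev, mul_inv_rev, mul_inv_rev, ti, inv_inv]
    calc _ = S.t * x⁻¹ * S.t * x * (S.t * S.t) := by group
      _ = _ := by rw [S.tt]; group
  have c4' : c ^ 4 = P ^ 4 := by rw [hP, (PQ r rQ).mul_pow, ← map_pow, r4, map_one, one_mul]
  obtain ⟨n, hn, en⟩ := c4
  rw [show 2 ^ 2 = 4 from rfl, c4', eq_mul_inv_iff_mul_eq, ← map_mul] at en
  obtain ⟨y1, y2, y3⟩ := m13 _ g n hn _ rfl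
    (S.inj (by rw [map_mul, map_mul _ (mu _), en]; exact ((PQ _ uQ).pow_right 4).symm))
    (S.inj (by rw [map_mul, map_mul _ (mq _), en]; exact ((PQ _ qQ).pow_right 4).symm))
    (S.inj (by rw [map_mul, map_mul, map_inv, en, ← c4', ← inv_pow, ← tc, conj_pow, ti]))
  have P8 : P ^ 8 = S.z := by rw [HD.z, ← y1, map_mul, en, ← pow_add]
  have Pd : Commute S.δ P := by
    have e : Commute S.s P := comm_of_mem PZ (S.mem_map.2 sZ)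
    rcases y3 with y3 | y3 <;> rw [HD.δ, y3, map_mul]
    · exact e.mul_left (en ▸ Commute.pow_self P 4)
    · exact e.mul_left (by rw [map_inv, en]; exact (Commute.pow_self P 4).inv_left)
  have oP : orderOf P = 2 ^ (3 + 1) := orderOf_eq_prime_pow (by
    rw [show 2 ^ 3 = 8 from rfl, P8, ← map_one S.ι, S.eq_iff]; exact z1)
    (by rw [show 2 ^ (3 + 1) = 8 + 8 from rfl, pow_add, P8, S.zz])
  set X := S.ι (mx S.p) with hX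
  have Xt : Commute X S.t := by rw [commute_iff_eq, hX, ← map_mul, ← map_mul, xt]
  obtain ⟨i, hi⟩ : ∃ i : ℤ, (c ^ j)⁻¹ * c * (c ^ j)⁻¹ = c ^ i := ⟨-j + 1 + -j, by simp [zpow_add]⟩
  have eX : X * c * X⁻¹ = a⁻¹ * c ^ i * (S.t * a * S.t) :=
    calc _ = (X * x * X⁻¹)⁻¹ * (X * S.t * X⁻¹ * (X * x * X⁻¹) * (X * S.t * X⁻¹)) := by rw [hc]; group
      _ = a⁻¹ * ((c ^ j)⁻¹ * (x⁻¹ * (S.t * x * S.t)) * (S.t⁻¹ * c * S.t⁻¹⁻¹) ^ j) * (S.t⁻¹ * a * S.t) := by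
        rw [Xt.mul_inv_cancel, hx, conj_pow]; group
      _ = _ := by rw [ti, tc, ← hc, inv_pow, hi]
  obtain ⟨a, ha, rfl⟩ := ha
  have hr2 := mul_mem rx ((m12 _ g _ (zpow_mem hr i)).2.2.2.2.2 a ha)
  set r' := mx S.p * r⁻¹ * (mx S.p)⁻¹ * (a⁻¹ * r ^ i * (M.mt S.p * a * M.mt S.p)) with hr'
  have eP : X * P * X⁻¹ = S.ι r' * P ^ i := by
    have e := ((PQ _ (m7 _ g a ha)).zpow_right i).eq
    rw [map_mul, map_mul] at e
    calc _ = X * (S.ι r)⁻¹ * X⁻¹ * (X * c * X⁻¹) := by rw [hP]; group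
      _ = X * (S.ι r)⁻¹ * X⁻¹ * ((S.ι a)⁻¹ * S.ι r ^ i) * (P ^ i * (S.t * S.ι a * S.t)) := by
        rw [eX, hP, (PQ r rQ).mul_zpow]; group
      _ = _ := by rw [← e, hr']; simp only [map_mul, map_inv, map_zpow, mul_assoc, hX]
  have k2 : ∀ v ∈ sQ0 S.p, (mx S.p)⁻¹ * v * mx S.p ∈ sQ0 S.p → r' * v = v * r' := fun v hv hv' => S.inj (by
    have e1 := (PQ _ hv').conj X
    rw [eP, map_mul, map_mul, map_inv, ← hX, ← mul_assoc, ← mul_assoc, mul_inv_cancel, one_mul, mul_inv_cancel_right] at e1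
    have e2 := e1.mul_right ((PQ v hv).zpow_right i).inv_right
    rw [mul_inv_cancel_right] at e2
    rw [map_mul, map_mul _ v, e2.eq])
  obtain ⟨l, hl⟩ : X * P * X⁻¹ ∈ Submonoid.powers P := by
    rw [mem_powers_iff_mem_zpowers, eP]
    refine mul_mem ?_ (zpow_mem (mem_zpowers P) i)
    rcases (m12 _ g _ hr2).2.2.2.2.1 (k2 _ uQ xu) (k2 _ qQ xq) with e | e <;> rw [e]
    · rw [map_one]; exact one_mem _
    · exact (show P ^ 8 = S.ι (mz S.p) from P8) ▸ pow_mem (mem_zpowers P) 8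
  beta_reduce at hl
  rw [← pow_mod_orderOf, oP] at hl
  have l1 : l % 2 ^ (3 + 1) < 16 := Nat.mod_lt _ (by norm_num)
  generalize l % 2 ^ (3 + 1) = l at hl l1
  have l2 : P ^ (l * 4) = P ^ 4 := by
    rw [pow_mul, hl, conj_pow, ← en, hX, ← map_inv, ← map_mul, ← map_mul, y2]
  have l3 : P ^ (l * l) = P ^ 1 := by
    rw [pow_mul, hl, conj_pow, hl, pow_one]
    calc _ = X * X * P * (X * X)⁻¹ := by group
      _ = _ := by rw [hX, ← map_mul, xx, map_one, one_mul, inv_one, mul_one]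
  rw [pow_eq_pow_iff_modEq, oP] at l2 l3
  have Pz : P * S.z = S.z * P := (comm_of_mem PZ (S.mem_map.2 zZ)).symm
  have Ps : Commute P S.s := (comm_of_mem PZ (S.mem_map.2 sZ)).symm
  have Pg : P * S.γ = S.γ * P := by
    rw [HD.γ, mg, map_mul]; exact (Pd.mul_left (PQ _ uQ)).symm
  rcases (by decide : ∀ l < 16, l * 4 ≡ 4 [MOD 2 ^ (3 + 1)] → l * l ≡ 1 [MOD 2 ^ (3 + 1)] → l = 1 ∨ l = 8 + 1) l l1 l2 l3
    with rfl | rfl
  · exact ⟨P, Pz, by rw [pow_one, eq_mul_inv_iff_mul_eq] at hl; exact hl, Pg, P8⟩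
  · refine ⟨P * S.s, by rw [mul_assoc, S.z_comm, ← mul_assoc, Pz, mul_assoc], eq_mul_inv_iff_mul_eq.1 ?_, ?_, ?_⟩
    · rw [← conj_mul, ← hl, pow_succ, P8, ← Pz, hX, ← map_inv, ← map_mul, ← map_mul, xs, map_mul, S.z_comm, mul_assoc,
        ← mul_assoc S.z, S.zz, one_mul]
    · rw [mul_assoc, ← map_mul, sg, map_mul, ← mul_assoc, Pg, mul_assoc]
    · rw [Ps.mul_pow, P8, ← map_pow, pow8, map_one, mul_one]

end Bb3a

open Bb3a in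
theorem bb3 : Bb3S.{u} := by
  intro hC G _ _ S T k B big hQ
  have := Fact.mk Nat.prime_two
  have g : Gd S.p := ⟨big, B.ws, B.al⟩
  have hT : IsPGroup 2 (T ⊓ 𝒩(S.Z0) : Subgroup G) := B.syl.isPGroup.to_le inf_le_left
  have h1 : S.S1 ≤ T ⊓ 𝒩(S.Z0) := le_inf B.le (by rintro _ ⟨x, rfl⟩; exact s1n S g x)
  have hZ : T ⊓ 𝒩(S.Z0) ≤ 𝒩(S.Z0) := inf_le_right
  generalize T ⊓ 𝒩(S.Z0) = T3 at hT h1 hZ hQ
  refine (le_or_gt _ 512).imp_right fun hc => ?_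
  obtain ⟨sZ, zZ, -, qQ, -⟩ := m17 _ g
  have c4 := card4 S g hT h1 hZ hQ
  have c5 : Nat.card S.Q0 ≤ 16 := (Nat.card_congr ((sQ0 S.p).equivMapOfInjective _ S.inj).toEquiv).symm.trans_le (cardQ _)
  have c6 : 1024 ≤ Nat.card T3 := by
    obtain ⟨n, hn⟩ := IsPGroup.iff_card.1 hT
    rw [hn] at hc ⊢
    exact Nat.pow_le_pow_right (n := 2) (i := 10) two_pos ((Nat.pow_lt_pow_iff_right (a := 2) (n := 9) one_lt_two).1 hc)
  obtain ⟨x, hx, c, e, -, e1, -, e2⟩ := hC G T3 (T3 ⊓ 𝒞(S.Z0) ⊓ cmod S.Q0 S.Z0) S.Q0 S.t S.δ 2 hT (by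
      rintro _ ⟨m, hm, rfl⟩
      obtain ⟨a, b, c, -⟩ := m6 _ g m hm
      exact ⟨⟨h1 ⟨_, rfl⟩, cenZ S g (by rw [← map_mul, a, map_mul]) (S.z_comm m)⟩,
        cmQ S g (s1n S g m) ((cm_iff S).2 b) ((cm_iff S).2 c)⟩) (inf_le_left.trans inf_le_left) hQ
    (le_norm_inf (le_norm_inf le_normalizer (le_norm_cent hZ)) (le_norm_cmod hQ hZ)) (h1 ⟨_, rfl⟩) S.tt (by
      rintro x hx ⟨n, hn, e⟩
      obtain ⟨-, -, -, a, b, c⟩ := m6 _ g n hn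
      have e1 : x⁻¹ * S.t * x⁻¹⁻¹ = S.ι (n * M.mt _) := by
        rw [map_mul, e, mul_assoc, mul_assoc, mul_assoc, S.tt, mul_one, inv_inv]
      have e2 := B.bc x⁻¹ (S.zT g.2.1 hT h1 (inv_mem hx.1.1)) (e1 ▸ S.mem_map.2 a)
      obtain ⟨m, hm⟩ := inv_mem_iff.1 (S.nT g.2.1 hT h1 (inv_mem hx.1.1) (by
        rcases e2 with e2 | e2 | e2 | e2
        · exact .inl e2
        · exact .inr e2
        · exact (b (S.inj (by rw [← e1, e2, map_mul]))).elim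
        · exact (c (S.inj (by rw [← e1, e2, map_mul, map_mul]))).elim))
      subst hm
      rw [← map_inv, ← map_mul, S.mem_map, S.mem_map]
      exact m8 _ g m (S.inj (by rw [map_mul, map_mul]; exact (comm_of_mem hx.1.2 (S.mem_map.2 sZ)).symm))
        ((cm_iff S).1 (hx.2.2 _ (S.mem_map.2 qQ)))) (by omega)
  obtain ⟨⟨j, a, ha, e3⟩, -⟩ := e2 _ (h1 ⟨mx _, rfl⟩)
  obtain ⟨y, y1, y2, y3, y4⟩ := fin S g hx.1.2 hx.2 e e1 ha e3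
  obtain ⟨-, -, -, -, -, -, -, x1, x2, z1⟩ := m16 _ g
  cases ep : S.p.ep
  · rw [x2 ep, map_mul] at y2
    have := S.ex8 S.conj_tw y2 (k := 4) (by rw [show 2 ^ 4 = 8 + 8 from rfl, pow_add, y4, S.zz])
    rw [y4, ← map_one S.ι, S.eq_iff] at this
    exact (z1 this).elim
  · rw [x1 ep] at y2
    exact ⟨rfl, y, y1, y2, y3, y4⟩

end CL.H33
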