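/-
Project H33 (S3139): case (b), `δ` present, `w s w = s z`: no element of order 16 centralises `⟨γ⟩ V`.
-/
import Cfsg.Agent.H33.Defs2

set_option autoImplicit false
set_option linter.unusedSectionVars false
open Cfsg Subgroup CL.Even CL.Grp

namespace CL.H33
open M

universe u

/-- the quotient by a central involution -/
theorem bb4_quot {G : Type u} [Group G] [Finite G] (Γ : Subgroup G) {γ : G} (h : γ ∈ Γ) (hc : Γ ≤ centralizer {γ})
    (γγ : γ * γ = 1) (γ1 : γ ≠ 1) : ∃ (Y : Type u) (_ : Group Y) (_ : Finite Y) (π : Γ →* Y), Function.Surjective π ∧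
      (∀ a b : Γ, π a = π b ↔ (a : G) = b ∨ (a : G) = b * γ) ∧
      ∀ A : Subgroup Y, (IsPGroup 2 A → IsPGroup 2 (A.comap π)) ∧ Nat.card (A.comap π) = 2 * Nat.card A := by
  let N : Subgroup Γ :=
    { carrier := {x | (x : G) = 1 ∨ (x : G) = γ}
      one_mem' := .inl rfl
      mul_mem' := by
        rintro a b (e | e) (f | f) <;> simp only [Set.mem_ofPred_eq, Subgroup.coe_mul, e, f] <;> simp [γγ]
      inv_mem' := by
        rintro a (e | e) <;> simp only [Set.mem_ofPred_eq, Subgroup.coe_inv, e] <;> simp [inv_eq_of_mul_eq_one_right γγ] }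
  have : N.Normal := ⟨by
    rintro a (e | e) g
    · exact .inl (by simp [e])
    · exact .inr (by simp [e, mem_centralizer_singleton_iff.1 (hc g.2)])⟩
  have c2 : Nat.card N = 2 := (Nat.card_eq_two_iff' (1 : N)).2 ⟨⟨⟨γ, h⟩, .inr rfl⟩,
    fun e => γ1 (congrArg (fun x : N => ((x : Γ) : G)) e), fun y hy => Subtype.ext (Subtype.ext
      (y.2.resolve_left fun e => hy (Subtype.ext (Subtype.ext e))))⟩
  refine ⟨Γ ⧸ N, inferInstance, inferInstance, QuotientGroup.mk' N, QuotientGroup.mk'_surjective N, fun a b => ?_,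
    fun A => ⟨fun hA => hA.comap_of_ker_isPGroup _ ?_, by rw [card_comap_mk', c2]⟩⟩
  · rw [eq_comm, QuotientGroup.mk'_apply, QuotientGroup.mk'_apply, QuotientGroup.eq]
    exact or_congr (by rw [Subgroup.coe_mul, Subgroup.coe_inv, inv_mul_eq_one, eq_comm])
      (by rw [Subgroup.coe_mul, Subgroup.coe_inv, inv_mul_eq_iff_eq_mul])
  · rw [QuotientGroup.ker_mk']
    exact IsPGroup.of_card (n := 1) c2

def bb4_p : Ty := ⟨true, true, false, true⟩

instance bb4_dV {p : Ty} (v : M p) : Decidable (v ∈ sV p) :=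
  inferInstanceAs (Decidable (v.e = false ∧ v.c = false ∧ v.d = false ∧ v.i = false ∧ v.j = false))

/-- `x` centralises `γ` and normalises `V` -/
def bb4_N {p : Ty} (x : M p) : Prop := x * mg p = mg p * x ∧ ∀ v ∈ sV p, x * v * x⁻¹ ∈ sV p

instance bb4_dN {p : Ty} (x : M p) : Decidable (bb4_N x) :=
  inferInstanceAs (Decidable (x * mg p = mg p * x ∧ ∀ v, v ∈ sV p → x * v * x⁻¹ ∈ sV p))

theorem bb4_m1 {p : Ty} (h : p = bb4_p) : bb4_N (M.mt p) ∧ bb4_N (mz p) ∧ bb4_N (mw p) ∧ bb4_N (mw' p) ∧ bb4_N (my p) ∧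
    bb4_N (mg p) := by
  subst h; decide +kernel

theorem bb4_m2 {p : Ty} (h : p = bb4_p) : mg p * mg p = 1 ∧ mg p ≠ 1 ∧ mw p * mw p = 1 ∧
    (mz p ≠ 1 ∧ mz p ≠ 1 * mg p) ∧ (mw p ≠ 1 ∧ mw p ≠ 1 * mg p) ∧ (mz p ≠ mw p ∧ mz p ≠ mw p * mg p) ∧
    mw' p * M.mt p = M.mt p * mw' p ∧ mw' p * mw' p = 1 ∧ mw' p * mz p * mw' p = mz p ∧
    mw' p * mw p * mw' p = mz p * mw p ∧ my p * my p = mz p ∧ my p * M.mt p * (my p)⁻¹ = M.mt p * mz p ∧
    mq p * (M.mt p * mg p) * (mq p)⁻¹ = M.mt p * mg p * mz p ∧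
    (∃ m, m * (M.mt p * mg p * mw p) * m⁻¹ = M.mt p * mw' p * mg p) ∧
    ((M.mt p * mg p).k = false ∧ M.mt p * mg p ≠ M.mt p ∧ M.mt p * mg p ≠ M.mt p * mz p ∧ M.mt p * mg p ≠ M.mt p * my p ∧
      M.mt p * mg p ≠ M.mt p * my p * mz p) ∧
    ((M.mt p * my p * mg p).k = false ∧ M.mt p * my p * mg p ≠ M.mt p ∧ M.mt p * my p * mg p ≠ M.mt p * mz p ∧
      M.mt p * my p * mg p ≠ M.mt p * my p ∧ M.mt p * my p * mg p ≠ M.mt p * my p * mz p) := by
  subst h; decide +kernel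

theorem bb4_m3 {p : Ty} (h : p = bb4_p) : ∀ v : M p, v ∈ sV p →
    (v = 1 ∨ v = mz p ∨ v = mw p ∨ v = mz p * mw p) ∧ M.mt p ≠ v ∧ M.mt p ≠ v * mg p ∧ mg p ≠ v ∧
      v * M.mt p = M.mt p * v ∧ v * my p = my p * v ∧ v * mz p = mz p * v ∧ v * mw p = mw p * v := by
  subst h; decide +kernel

theorem bb4_m4 {p : Ty} (h : p = bb4_p) : ∀ x : M p, x.e = false → x.i = x.d → x.j = false → bb4_N x ∧ ∃ v : M p,
    v ∈ sV p ∧ ((x = v ∨ x = v * mg p) ∨ (x = v * M.mt p ∨ x = v * M.mt p * mg p)) := by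
  subst h; decide +kernel

theorem bb4_m5 {p : Ty} (h : p = bb4_p) : ∀ v : M p, v.e = false → v.k = true → v * v = 1 → ∀ y : M p, y.e = false →
    y * v = v * y → y.j = false ∧ y.i = (y.d ^^ (y.k && (v.i ^^ v.d))) := by
  subst h; decide +kernel

theorem bb4_m6 {p : Ty} (h : p = bb4_p) : ∀ a : M p, a.e = false → a.k = false → a * a = 1 → ∀ b : M p, b.e = false →
    b.k = false → b * b = 1 → a * b = b * a → ∀ c : M p, c.e = false → c.k = false → c * c = 1 → a * c = c * a →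
    b * c = c * b → ∃ i j k l : Fin 2, (i, j, k, l) ≠ 0 ∧ a ^ i.1 * b ^ j.1 * c ^ k.1 = M.mt p ^ l.1 := by
  subst h; decide +kernel

theorem bb4_m7 {p : Ty} (h : p = bb4_p) : (∀ i j k l : Fin 2,
    mz p ^ i.1 * mw p ^ j.1 * mg p ^ k.1 = (M.mt p * my p) ^ l.1 → (i, j, k, l) = 0) ∧ mz p ∈ sV p ∧ mw p ∈ sV p := by
  subst h; decide +kernel

namespace HD
variable {G : Type u} [Group G] [Finite G] (S : HD G) (hp : S.p = bb4_p)

theorem bb4_c {x y : M S.p} (h : x * y = y * x) : S.ι x * S.ι y = S.ι y * S.ι x := by rw [← map_mul, h, map_mul]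

abbrev bb4_G : Subgroup G := 𝒩(S.V) ⊓ centralizer {S.γ}

theorem bb4_mem {x : M S.p} (h : bb4_N x) : S.ι x ∈ S.bb4_G :=
  ⟨mem_normalizer_fintype (by
    rintro _ ⟨v, hv, rfl⟩
    rw [← map_inv, ← map_mul, ← map_mul]
    exact ⟨_, h.2 v hv, rfl⟩), mem_centralizer_singleton_iff.2 (S.bb4_c h.1)⟩

include hp

theorem bb4_γγ : S.γ * S.γ = 1 := by rw [← map_mul, (bb4_m2 hp).1, map_one]

theorem bb4_memV {v : G} (h : v ∈ S.V) : v = 1 ∨ v = S.z ∨ v = S.w ∨ v = S.z * S.w := by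
  obtain ⟨v, hv, rfl⟩ := h
  rcases (bb4_m3 hp v hv).1 with rfl | rfl | rfl | rfl <;> simp

theorem bb4_cV {x : G} (hz : x * S.z = S.z * x) (hw : x * S.w = S.w * x) : x ∈ 𝒞(S.V) := fun v hv => by
  rcases S.bb4_memV hp hv with rfl | rfl | rfl | rfl
  exacts [by simp, hz.symm, hw.symm, by rw [mul_assoc, ← hw, ← mul_assoc, ← hz, mul_assoc]]

theorem bb4_tC : S.t ∈ 𝒞(S.V) := by
  rintro _ ⟨v, hv, rfl⟩
  exact S.bb4_c (bb4_m3 hp v hv).2.2.2.2.1

theorem bb4_yC : S.y ∈ 𝒞(S.V) := by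
  rintro _ ⟨v, hv, rfl⟩
  exact S.bb4_c (bb4_m3 hp v hv).2.2.2.2.2.1

theorem bb4_c16 (hc : IsConj S.t (S.t * S.y)) {A : Subgroup G} (h2 : IsPGroup 2 A) (hV : A ≤ 𝒞(S.V))
    (hγ : A ≤ centralizer {S.γ}) (hy : A ≤ centralizer {S.t * S.y}) : Nat.card A ≤ 16 := by
  have hB : A ≤ 𝒞(S.V ⊔ zpowers S.γ) := by
    rw [cent_sup]
    refine le_inf hV fun a ha => ?_
    rintro _ ⟨n, rfl⟩
    exact (Commute.zpow_right (mem_centralizer_singleton_iff.1 (hγ ha)) n).symm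
  obtain ⟨m1, m2, m3, -, m5, -⟩ := bb4_m1 hp
  obtain ⟨g, hg, le⟩ := S.cjS hc (isPGroup_sup h2 (S.isP1.to_le (sup_le (S.map_le _) (zpowers_le.2 ⟨_, rfl⟩)))
    (hB.trans (cent_le_norm _))) (sup_le hy (sup_le
      (fun v hv => mem_centralizer_singleton_iff.2 (mul_mem (S.bb4_tC hp) (S.bb4_yC hp) v hv))
      (zpowers_le.2 (mem_centralizer_singleton_iff.2 (mem_centralizer_singleton_iff.1
        (mul_mem (S.bb4_mem m1).2 (S.bb4_mem m5).2)).symm))))
  have cm : ∀ {a b : M S.p} {x y : G}, S.ι a = g * x * g⁻¹ → S.ι b = g * y * g⁻¹ → x * y = y * x → a * b = b * a :=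
    fun h1 h2 h3 => S.inj (by rw [map_mul, map_mul, h1, h2, conj_mul, conj_mul, h3])
  have sq : ∀ {a : M S.p} {x : G}, S.ι a = g * x * g⁻¹ → x * x = 1 → a * a = 1 :=
    fun h1 h3 => S.inj (by rw [map_mul, h1, conj_mul, h3, map_one, mul_one, mul_inv_cancel])
  have key : ∀ v : M S.p, v.e = false → ∀ x ∈ S.V ⊔ zpowers S.γ, S.ι v = g * x * g⁻¹ → x * x = 1 → v.k = true →
      Nat.card A ≤ 16 := fun v hv x hx e xx vk => by
    choose φ h1 h2 using fun a : A => le (conj_mem_cj g (mem_sup_left a.2))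
    have h3 := fun a : A => bb4_m5 hp v hv vk (sq e xx) (φ a) (h1 a) (cm (h2 a) e (hB a.2 x hx).symm)
    refine (Nat.card_le_card_of_injective (fun a => ((φ a).d, (φ a).z, (φ a).c, (φ a).k)) fun a b e => ?_).trans_eq
      (by simp)
    simp only [Prod.mk.injEq] at e
    have : φ a = φ b := M.ext e.1 e.2.1 e.2.2.1 ((h1 a).trans (h1 b).symm) (by rw [(h3 a).2, (h3 b).2, e.1, e.2.2.2])
      ((h3 a).1.trans (h3 b).1.symm) e.2.2.2
    exact Subtype.ext ((MulAut.conj g).injective ((h2 a).symm.trans (this ▸ h2 b)))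
  have zV : S.z ∈ S.V ⊔ zpowers S.γ := mem_sup_left ⟨_, (bb4_m7 hp).2.1, rfl⟩
  have wV : S.w ∈ S.V ⊔ zpowers S.γ := mem_sup_left ⟨_, (bb4_m7 hp).2.2, rfl⟩
  have gV : S.γ ∈ S.V ⊔ zpowers S.γ := mem_sup_right (mem_zpowers _)
  have ww : S.w * S.w = 1 := by rw [← map_mul, (bb4_m2 hp).2.2.1, map_one]
  obtain ⟨a, ha, ea⟩ := le (conj_mem_cj g (mem_sup_right zV))
  obtain ⟨b, hb, eb⟩ := le (conj_mem_cj g (mem_sup_right wV))
  obtain ⟨c, hc, ec⟩ := le (conj_mem_cj g (mem_sup_right gV))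
  by_contra n
  obtain ⟨i, j, k, l, ne, e⟩ := bb4_m6 hp a ha (Bool.eq_false_iff.2 fun h => n (key a ha _ zV ea S.zz h)) (sq ea S.zz)
    b hb (Bool.eq_false_iff.2 fun h => n (key b hb _ wV eb ww h)) (sq eb ww) (cm ea eb (S.z_comm _).symm)
    c hc (Bool.eq_false_iff.2 fun h => n (key c hc _ gV ec (S.bb4_γγ hp) h)) (sq ec (S.bb4_γγ hp))
    (cm ea ec (S.z_comm _).symm) (cm eb ec (S.bb4_c m3.1))
  refine ne ((bb4_m7 hp).1 i j k l (S.inj ?_))
  have := congrArg S.ι e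
  simp only [map_mul, map_pow] at this ⊢
  rw [ea, eb, ec, show S.ι (M.mt S.p) = _ from hg.symm, conj_pow, conj_pow, conj_pow, conj_pow, conj_mul, conj_mul,
    mul_left_inj, mul_right_inj] at this
  exact this

end HD

theorem bb4 : Bb4S.{u} := by
  rintro hTl G _ _ S T k D hb hep hEm ⟨x, xz, xw, xγ, x8⟩
  have hp : S.p = bb4_p := by
    show (⟨S.p.big, S.p.ws, S.p.al, S.p.ep⟩ : Ty) = _
    rw [hb, D.ws, D.al, hep]; rfl
  obtain ⟨m1, m2, m3, m4, m5, m6⟩ := bb4_m1 hp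
  obtain ⟨-, γ1, ww, nz, nw, nzw, ωτ, ωω, ωμ, ων, yy, yτ, cq, ⟨m, cm⟩, b1, b2⟩ := bb4_m2 hp
  have bc : ∀ v : M S.p, (v.k = false ∧ v ≠ M.mt S.p ∧ v ≠ M.mt S.p * mz S.p ∧ v ≠ M.mt S.p * my S.p ∧
      v ≠ M.mt S.p * my S.p * mz S.p) → ∀ c, c * S.z = S.z * c → c * S.t * c⁻¹ ≠ S.ι v := fun v hv c hc e => by
    have := D.bc c hc (e ▸ ⟨v, hv.1, rfl⟩)
    rw [e] at this
    simp only [← map_mul, S.eq_iff] at this
    tauto
  have ρt : S.ρ * S.t = S.t * S.ρ := mem_centralizer_singleton_iff.1 (S.LH S.ρL)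
  have ntγ : ¬ IsConj S.t (S.t * S.γ) := fun h => by
    obtain ⟨c, hc, e⟩ := hEm _ (.inr rfl) h
    exact bc _ b1 c hc (by rw [e, map_mul])
  have ntw : ¬ IsConj S.t (S.t * S.w' * S.γ) := fun h => ntγ (h.trans (IsConj.symm (((isConj_iff.2 ⟨S.q, by
      simpa only [map_mul, map_inv] using congrArg S.ι cq⟩ : IsConj (S.t * S.γ) (S.t * S.γ * S.z)).trans
      (isConj_iff.2 ⟨S.ρ, by rw [← conj_mul, ← conj_mul, S.ρz, S.ρg hb, ρt, mul_inv_cancel_right]⟩)).trans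
      (isConj_iff.2 ⟨S.ι m, by simpa only [map_mul, map_inv] using congrArg S.ι cm⟩))))
  obtain ⟨Y, _, _, π, sj, eq, cA⟩ := bb4_quot S.bb4_G (S.bb4_mem m6) inf_le_right (S.bb4_γγ hp)
    fun e => γ1 (S.inj (e.trans (map_one _).symm))
  have lift : ∀ a b : S.bb4_G, π a * π b = π b * π a → (a : G) * b * (a : G)⁻¹ = b ∨ (a : G) * b * (a : G)⁻¹ = b * S.γ :=
    fun a b h => (eq (a * b * a⁻¹) b).1 (by rw [map_mul, map_mul, h, map_inv, mul_inv_cancel_right])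
  have zV : S.z ∈ S.V := ⟨_, (bb4_m7 hp).2.1, rfl⟩
  have wV : S.w ∈ S.V := ⟨_, (bb4_m7 hp).2.2, rfl⟩
  have VΓ : S.V ≤ S.bb4_G := le_inf le_normalizer fun v hv =>
    mem_centralizer_singleton_iff.2 (S.bb4_cV hp (S.z_comm _) (S.bb4_c m3.1).symm v hv)
  have ρΓ : S.ρ ∈ S.bb4_G := ⟨mem_normalizer_fintype fun v hv => by
    rcases S.bb4_memV hp hv with rfl | rfl | rfl | rfl
    · rw [mul_one, mul_inv_cancel]; exact one_mem _
    · rw [S.ρz]; exact wV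
    · rw [S.ρw, map_mul]; exact mul_mem zV wV
    · rw [← conj_mul, S.ρz, S.ρw, map_mul]; exact mul_mem wV (mul_mem zV wV),
    mem_centralizer_singleton_iff.2 (mul_inv_eq_iff_eq_mul.1 (S.ρg hb))⟩
  have cV1 : ∀ a : S.bb4_G, (a : G) ∈ 𝒞(S.V) → π a ∈ 𝒞((S.V.subgroupOf S.bb4_G).map π) := by
    rintro a ha _ ⟨v, hv, rfl⟩
    rw [← map_mul, ← map_mul]
    exact congrArg π (Subtype.ext (ha v hv))
  have cV2 : ∀ a : S.bb4_G, π a ∈ 𝒞((S.V.subgroupOf S.bb4_G).map π) → (a : G) ∈ 𝒞(S.V) := fun a ha v hv => by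
    rcases lift a ⟨v, VΓ hv⟩ (ha _ ⟨⟨v, VΓ hv⟩, hv, rfl⟩).symm with e | e
    · exact (mul_inv_eq_iff_eq_mul.1 e).symm
    · have := conj_mem a.2.1 hv
      rw [e, mul_mem_cancel_left hv, S.mem_map] at this
      exact ((bb4_m3 hp _ this).2.2.2.1 rfl).elim
  have cH : ∀ a : S.bb4_G, π a * π ⟨_, S.bb4_mem m1⟩ = π ⟨_, S.bb4_mem m1⟩ * π a → (a : G) ∈ S.H := fun a h =>
    mem_centralizer_singleton_iff.2 (mul_inv_eq_iff_eq_mul.1 ((lift a _ h).resolve_right fun e =>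
      ntγ (isConj_iff.2 ⟨a, e⟩)))
  have ne : ∀ (a b : M S.p) (ha : S.ι a ∈ S.bb4_G) (hb : S.ι b ∈ S.bb4_G), a ≠ b ∧ a ≠ b * mg S.p →
      π ⟨_, ha⟩ ≠ π ⟨_, hb⟩ := fun a b ha hb h e => by
    rcases (eq _ _).1 e with e | e
    exacts [h.1 (S.inj e), h.2 (S.inj (e.trans (map_mul _ _ _).symm))]
  have ne1 : ∀ (a : M S.p) (ha : S.ι a ∈ S.bb4_G), a ≠ 1 ∧ a ≠ 1 * mg S.p → π ⟨_, ha⟩ ≠ 1 := fun a ha h e =>
    ne a 1 ha (by rw [map_one]; exact one_mem _) h (by rw [e, ← map_one π]; exact congrArg π (Subtype.ext (map_one _).symm))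
  have dn : ∀ {a b : S.bb4_G}, (a : G) = b → π a = π b := fun h => congrArg π (Subtype.ext h)
  have dn1 : ∀ {a : S.bb4_G}, (a : G) = 1 → π a = 1 := fun h => (dn h).trans (map_one π)
  let H : TH Y :=
    { V := (S.V.subgroupOf S.bb4_G).map π
      O := (S.O.subgroupOf S.bb4_G).map π
      μ := π ⟨_, S.bb4_mem m2⟩
      ν := π ⟨_, S.bb4_mem m3⟩
      τ := π ⟨_, S.bb4_mem m1⟩
      ρ := π ⟨_, ρΓ⟩
      ω := π ⟨_, S.bb4_mem m4⟩
      y := π ⟨_, S.bb4_mem m5⟩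
      nV := ((normal_subgroupOf_iff_le_normalizer VΓ).2 inf_le_left).map π sj
      memV := fun v => ⟨by
        rintro ⟨a, ha, rfl⟩
        rw [← map_mul]
        exact (S.bb4_memV hp ha).imp dn1 (.imp dn (.imp dn dn)), by
        rintro (rfl | rfl | rfl | rfl)
        exacts [one_mem _, ⟨_, zV, rfl⟩, ⟨_, wV, rfl⟩, mul_mem ⟨_, zV, rfl⟩ ⟨_, wV, rfl⟩]⟩
      μμ := by rw [← map_mul]; exact dn1 S.zz
      νν := by rw [← map_mul]; exact dn1 (by simpa only [map_mul, map_one, Subgroup.coe_mul] using congrArg S.ι ww)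
      μ1 := ne1 _ _ nz
      ν1 := ne1 _ _ nw
      μν := ne _ _ _ _ nzw
      ττ := by rw [← map_mul]; exact dn1 S.tt
      τV := by
        rintro ⟨⟨_, h⟩, ⟨v, hv, rfl⟩, e⟩
        exact ne _ _ _ h ⟨(bb4_m3 hp v hv).2.1, (bb4_m3 hp v hv).2.2.1⟩ e.symm
      τC := cV1 _ (S.bb4_tC hp)
      oddO := S.oddO.of_dvd_nat ((card_map_dvd _ π).trans (card_comap_dvd_of_injective _ _ (subtype_injective _)))
      OC := by
        rintro _ ⟨o, ho, rfl⟩
        exact cV1 o (S.oc (S.isP _) (fun v hv => mem_centralizer_singleton_iff.2 (S.bb4_tC hp v hv)) ho o.2.1)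
      Oτ := by
        rintro _ ⟨o, ho, rfl⟩
        rw [mem_centralizer_singleton_iff, ← map_mul, ← map_mul]
        exact dn (mem_centralizer_singleton_iff.1 (S.LH (S.OL ho)))
      On := fun a ha => by
        obtain ⟨a, rfl⟩ := sj a
        refine mem_normalizer_fintype ?_
        rintro _ ⟨o, ho, rfl⟩
        exact ⟨a * o * a⁻¹, conj_mem (H := S.O) (S.On (cH a (mem_centralizer_singleton_iff.1 ha))) ho, by simp⟩
      cτ := fun a ha h => by
        obtain ⟨a, rfl⟩ := sj a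
        obtain ⟨o, ho, e, e1, e2, e3, e4⟩ := S.cV a (cH a h) (cV2 a ha _ zV).symm (cV2 a ha _ wV).symm
        obtain ⟨n, v, hv, hh⟩ := bb4_m4 hp e e1 e2 e3
        have oΓ : o ∈ S.bb4_G := (mul_mem_cancel_right (S.bb4_mem n)).1 (e4 ▸ a.2)
        refine ⟨π ⟨o, oΓ⟩, ⟨_, ho, rfl⟩, π ⟨_, VΓ ⟨v, hv, rfl⟩⟩, ⟨_, ⟨v, hv, rfl⟩, rfl⟩, ?_⟩
        simp only [← map_mul, eq, Subgroup.coe_mul, e4, mul_assoc, mul_right_inj, S.eq_iff]
        simpa only [mul_assoc] using hh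
      ρτ := by rw [← map_mul, ← map_mul]; exact dn ρt
      ωτ := by rw [← map_mul, ← map_mul]; exact dn (S.bb4_c ωτ)
      ρμ := by rw [← map_inv, ← map_mul, ← map_mul]; exact dn S.ρz
      ρν := by rw [← map_inv, ← map_mul, ← map_mul, ← map_mul]; exact dn (S.ρw.trans (map_mul _ _ _))
      ρ3 := by rw [← map_pow]; exact ⟨_, S.ρ3, rfl⟩
      ωρ := by rw [← map_mul, ← map_pow]; exact ⟨_, S.ρi, rfl⟩
      ωω := by rw [← map_mul]; exact dn1 (by simpa only [map_mul, map_one, Subgroup.coe_mul] using congrArg S.ι ωω)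
      ωμ := by
        rw [← map_mul, ← map_mul]
        exact dn (by simpa only [map_mul, Subgroup.coe_mul] using congrArg S.ι ωμ)
      ων := by
        rw [← map_mul, ← map_mul, ← map_mul]
        exact dn (by simpa only [map_mul, Subgroup.coe_mul] using congrArg S.ι ων)
      yC := cV1 _ (S.bb4_yC hp)
      yy := by rw [← map_mul]; exact dn (by simpa only [map_mul, Subgroup.coe_mul] using congrArg S.ι yy)
      yτ := by
        rw [← map_inv, ← map_mul, ← map_mul, ← map_mul]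
        exact dn (by simpa only [map_mul, map_inv, Subgroup.coe_mul, Subgroup.coe_inv] using congrArg S.ι yτ)
      c8 := fun A h2 hV hy => by
        have := S.bb4_c16 hp (isConj_iff.2 ⟨k, D.kt⟩) (((cA A).1 h2).map S.bb4_G.subtype)
          (by rintro _ ⟨a, ha, rfl⟩; exact cV2 a (hV ha)) (by rintro _ ⟨a, -, rfl⟩; exact a.2.2) (by
            rintro _ ⟨a, ha, rfl⟩
            have h := mem_centralizer_singleton_iff.1 (hy ha)
            rw [← map_mul] at h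
            refine mem_centralizer_singleton_iff.2 (mul_inv_eq_iff_eq_mul.1 ((lift a _ h).resolve_right fun e =>
              bc _ b2 (a * k) ?_ ?_))
            · rw [mul_assoc, S.zT D.ws D.syl.isPGroup D.le D.kT, ← mul_assoc, ← cV2 a (hV ha) _ zV, mul_assoc]
            · rw [map_mul, map_mul, ← show (a : G) * (S.t * S.y) * (a : G)⁻¹ = S.t * S.y * S.γ from e, ← D.kt]
              group)
        rw [card_map_of_injective (subtype_injective _), (cA A).2] at this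
        omega
      e16 := fun a h h16 => by
        obtain ⟨a, rfl⟩ := sj a
        rw [← map_mul] at h
        rw [← map_pow, ← map_one π, eq] at h16
        rw [← map_pow]
        refine dn1 (S.ex8 S.conj_tw' (mul_inv_eq_iff_eq_mul.1 ((lift a _ h).resolve_right fun e =>
          ntw (S.conj_tw'.trans (isConj_iff.2 ⟨a, e⟩)))) (k := 5) ?_)
        rw [show 2 ^ 5 = 16 * 2 from rfl, pow_mul, pow_two]
        rcases h16 with e | e <;> rw [show (a : G) ^ 16 = _ from e]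
        exacts [mul_one _, by simpa using S.bb4_γγ hp] }
  have xΓ : x ∈ S.bb4_G := ⟨cent_le_norm _ (S.bb4_cV hp xz xw), mem_centralizer_singleton_iff.2 xγ⟩
  have e8 : π ⟨x, xΓ⟩ ^ 8 = H.μ := by rw [← map_pow]; exact dn x8
  refine H.μ1 (e8.symm.trans ((hTl Y H (zpowers (π ⟨x, xΓ⟩)) (isPGroup_zpowers (k := 4) ?_)
    (zpowers_le.2 (cV1 _ (S.bb4_cV hp xz xw)))).2 _ (mem_zpowers _)))
  rw [show 2 ^ 4 = 8 * 2 from rfl, pow_mul, e8, pow_two, H.μμ]

end CL.H33
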