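/-
Project H33 (S3139): case (b), small model, `w` centralises `s`.
-/
import Cfsg.Agent.H33.Defs2

set_option autoImplicit false
set_option linter.unusedSectionVars false
open Cfsg Subgroup CL.Even CL.Grp

namespace CL.H33
open M

universe u

namespace Bs2

/-- the model of this case -/
def pp : Ty := ⟨false, true, false, false⟩

/-- `f = y u` -/
def mf (p : Ty) : M p := my p * mu p

theorem m_V : ∀ (p : Ty) (x : M p), (x.e = false ∧ x.c = false ∧ x.d = false ∧ x.i = false ∧ x.j = false) ↔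
    x = 1 ∨ x = mz p ∨ x = mw p ∨ x = mz p * mw p := by decide +kernel

theorem m_F : ∀ p : Ty, p = pp → ∀ x : M p, (x.k = false ∧ x.j = false ∧ x.d = false ∧ x.c = x.e ∧ x.i = x.e) ↔
    x = 1 ∨ x = mz p ∨ x = mf p ∨ x = mf p * mz p := by rintro _ rfl; decide +kernel

theorem m_rel : ∀ p : Ty, p = pp → mw p * mw p = 1 ∧ mz p ≠ 1 ∧ mw p ≠ 1 ∧ mz p ≠ mw p ∧ M.mt p * mw p = mw p * M.mt p ∧
    mw' p * M.mt p = M.mt p * mw' p ∧ mw' p * mw' p = 1 ∧ mw' p * mz p * mw' p = mz p ∧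
    mw' p * mw p * mw' p = mz p * mw p ∧ my p * mw p = mw p * my p ∧ my p * my p = mz p ∧
    my p * M.mt p * (my p)⁻¹ = M.mt p * mz p ∧ mw' p * mw p * (mw' p)⁻¹ = mz p * mw p ∧
    mw p * (M.mt p * my p) = M.mt p * my p * mw p ∧ mz p ≠ M.mt p * my p ∧ mw p ≠ M.mt p * my p ∧
    mz p * mw p ≠ 1 ∧ mz p * mw p ≠ M.mt p * my p ∧ mf p * (M.mt p * mw p) = M.mt p * mw p * mf p ∧
    mf p * mf p = 1 ∧ mf p ≠ 1 ∧ mz p ≠ mf p ∧ (M.mt p).c = true := by rintro _ rfl; decide +kernel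

theorem m_E : ∀ p : Ty, p = pp → ∀ x : M p, x.e = false → x.i = x.d → x.j = false → x * mw p = mw p * x ∧
    ((x.e = false ∧ x.c = false ∧ x.d = false ∧ x.i = false ∧ x.j = false) ∨ ∃ v : M p,
      (v.e = false ∧ v.c = false ∧ v.d = false ∧ v.i = false ∧ v.j = false) ∧ x = v * M.mt p) := by
  rintro _ rfl; decide +kernel

theorem m_c8 : ∀ p : Ty, p = pp → ∀ x1 : M p, x1.e = false → x1 * x1 = 1 → x1 ≠ 1 → x1 ≠ M.mt p →
    ∀ x2 : M p, x2.e = false → x2 * x2 = 1 → x2 ≠ 1 → x2 ≠ M.mt p → x1 * x2 = x2 * x1 → x1 * x2 ≠ 1 →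
    x1 * x2 ≠ M.mt p → ∀ x : M p, x.e = false → x * x1 = x1 * x → x * x2 = x2 * x →
    ∃ a b c : Bool, x = cond a (M.mt p) 1 * cond b x1 1 * cond c x2 1 := by rintro _ rfl; decide +kernel

theorem m_inv : ∀ p : Ty, p = pp → ∀ x : M p, x.e = false → x * x = 1 → x.c = true →
    ∃ a : M p, a * M.mt p * a⁻¹ = x ∨ a * (M.mt p * mz p) * a⁻¹ = x ∨ a * (M.mt p * mw p) * a⁻¹ = x := by
  rintro _ rfl; decide +kernel

theorem m_four : ∀ p : Ty, p = pp → ∀ x1 : M p, x1.e = false → x1.c = false → x1 * x1 = 1 → x1 ≠ 1 →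
    ∀ x2 : M p, x2.e = false → x2.c = false → x2 * x2 = 1 → x2 ≠ 1 → x1 ≠ x2 → x1 * x2 = x2 * x1 →
    ∃ b : Bool, (mz p = x1 ∨ mz p = x2 ∨ mz p = x1 * x2) ∧
      (cond b (ma p) 1 * mw p * (cond b (ma p) 1)⁻¹ = x1 ∨ cond b (ma p) 1 * mw p * (cond b (ma p) 1)⁻¹ = x2 ∨
        cond b (ma p) 1 * mw p * (cond b (ma p) 1)⁻¹ = x1 * x2) := by rintro _ rfl; decide +kernel

variable {G : Type u} [Group G] (S : HD G)

theorem memV {v : G} : v ∈ S.V ↔ v = 1 ∨ v = S.z ∨ v = S.w ∨ v = S.z * S.w := by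
  constructor
  · rintro ⟨x, hx, rfl⟩
    rcases (m_V _ x).1 hx with rfl | rfl | rfl | rfl
    exacts [.inl (map_one _), .inr (.inl rfl), .inr (.inr (.inl rfl)), .inr (.inr (.inr (map_mul _ _ _)))]
  · have a : S.z ∈ S.V := ⟨_, (m_V _ _).2 (.inr (.inl rfl)), rfl⟩
    have b : S.w ∈ S.V := ⟨_, (m_V _ _).2 (.inr (.inr (.inl rfl))), rfl⟩
    rintro (rfl | rfl | rfl | rfl)
    exacts [one_mem _, a, b, mul_mem a b]

theorem zV : S.z ∈ S.V := (memV S).2 (.inr (.inl rfl))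
theorem wV : S.w ∈ S.V := (memV S).2 (.inr (.inr (.inl rfl)))

theorem cent_pair {a b g : G} (h1 : g * a = a * g) (h2 : g * b = b * g) : a * b * g = g * (a * b) := by
  rw [mul_assoc, ← h2, ← mul_assoc, ← h1, mul_assoc]

theorem cV {g : G} (h1 : g * S.z = S.z * g) (h2 : g * S.w = S.w * g) : g ∈ 𝒞(S.V) := by
  intro v hv
  rcases (memV S).1 hv with rfl | rfl | rfl | rfl
  exacts [by simp, h1.symm, h2.symm, cent_pair h1 h2]

theorem nV [Finite G] {g : G} (h1 : g * S.z * g⁻¹ ∈ S.V) (h2 : g * S.w * g⁻¹ ∈ S.V) : g ∈ 𝒩(S.V) := by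
  refine mem_norm_of_cj_le ?_
  rintro _ ⟨v, hv, rfl⟩
  change g * v * g⁻¹ ∈ S.V
  rcases (memV S).1 hv with rfl | rfl | rfl | rfl
  · simp
  · exact h1
  · exact h2
  · have := mul_mem h1 h2
    rwa [show g * S.z * g⁻¹ * (g * S.w * g⁻¹) = g * (S.z * S.w) * g⁻¹ by group] at this

theorem cent_sub {N V : Subgroup G} (h : V ≤ N) (g : N) : g ∈ 𝒞(V.subgroupOf N) ↔ (g : G) ∈ 𝒞(V) :=
  ⟨fun hg v hv => congrArg Subtype.val (hg ⟨v, h hv⟩ hv), fun hg v hv => Subtype.ext (hg v hv)⟩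

theorem cj_eq_iff {g a b : G} : g * a * g⁻¹ = g * b * g⁻¹ ↔ a = b := by
  rw [mul_left_inj, mul_right_inj]

theorem cj_mul' (g a b : G) : g * a * g⁻¹ * (g * b * g⁻¹) = g * (a * b) * g⁻¹ := by group

variable [Finite G]

theorem c8 (hp : S.p = pp) (hs : IsConj S.t (S.t * S.y)) (A : Subgroup G) (hA : IsPGroup 2 A) (h1 : A ≤ 𝒞(S.V))
    (h2 : A ≤ centralizer {S.t * S.y}) : Nat.card A ≤ 8 := by
  obtain ⟨r1, r2, r3, r4, -, -, -, -, -, -, -, -, -, r5, r6, r7, r8, r9, -⟩ := m_rel _ hp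
  have hV : S.V ≤ centralizer {S.t * S.y} := fun v hv => mem_centralizer_singleton_iff.2 <| by
    refine comm_of_mem (cV S ?_ ?_) hv
    · rw [← map_mul]; exact S.z_comm _
    · simp only [← map_mul, r5]
  obtain ⟨g, hg, hle⟩ := S.cjS hs (isPGroup_sup hA (S.isP _) (h1.trans (cent_le_norm _))) (sup_le h2 hV)
  obtain ⟨x1, e1, k1⟩ := hle (conj_mem_cj g (mem_sup_right (zV S)))
  obtain ⟨x2, e2, k2⟩ := hle (conj_mem_cj g (mem_sup_right (wV S)))
  have k0 : S.ι 1 = g * S.ι 1 * g⁻¹ := by simp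
  have kt : S.ι (M.mt S.p) = g * S.ι (M.mt S.p * my S.p) * g⁻¹ := by rw [map_mul, hg]
  have k3 : S.ι (x1 * x2) = g * S.ι (mz S.p * mw S.p) * g⁻¹ := by rw [map_mul, map_mul, k1, k2, cj_mul']
  have key := m_c8 _ hp x1 e1 (S.inj (by rw [map_mul, k1, cj_mul', S.zz]; simp))
    (fun e => r2 (S.inj (cj_eq_iff.1 (by rw [← k1, ← k0, e]))))
    (fun e => r6 (S.inj (cj_eq_iff.1 (by rw [← k1, ← kt, e])))) x2 e2
    (S.inj (by rw [map_mul, k2, cj_mul', ← map_mul, r1]; simp))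
    (fun e => r3 (S.inj (cj_eq_iff.1 (by rw [← k2, ← k0, e]))))
    (fun e => r7 (S.inj (cj_eq_iff.1 (by rw [← k2, ← kt, e]))))
    (S.inj (by rw [map_mul, map_mul, k1, k2, cj_mul', cj_mul', S.z_comm]))
    (fun e => r8 (S.inj (cj_eq_iff.1 (by rw [← k3, ← k0, e]))))
    (fun e => r9 (S.inj (cj_eq_iff.1 (by rw [← k3, ← kt, e]))))
  have ex : ∀ a : A, ∃ b : Bool × Bool × Bool,
      g * a * g⁻¹ = S.ι (cond b.1 (M.mt S.p) 1 * cond b.2.1 x1 1 * cond b.2.2 x2 1) := fun a => by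
    obtain ⟨x, e, k⟩ := hle (conj_mem_cj g (mem_sup_left a.2))
    obtain ⟨b1, b2, b3, hb⟩ := key x e
      (S.inj (by rw [map_mul, map_mul, k, k1, cj_mul', cj_mul', comm_of_mem (h1 a.2) (zV S)]))
      (S.inj (by rw [map_mul, map_mul, k, k2, cj_mul', cj_mul', comm_of_mem (h1 a.2) (wV S)]))
    exact ⟨(b1, b2, b3), by rw [← k, hb]⟩
  choose φ hφ using ex
  have := Nat.card_le_card_of_injective φ fun a b e => Subtype.ext (cj_eq_iff.1 (by rw [hφ, hφ, e]))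
  simpa using this

theorem step1 (tl : TlS.{u}) (hp : S.p = pp) (hs : IsConj S.t (S.t * S.y)) (A : Subgroup G) (hA : IsPGroup 2 A)
    (h1 : A ≤ 𝒞(S.V)) : Nat.card A ≤ 128 := by
  obtain ⟨r1, r2, r3, r4, r5, r6, r7, r8, r9, r10, r11, r12, r13, -⟩ := m_rel _ hp
  have hVN : S.V ≤ 𝒩(S.V) := le_normalizer
  have hCN : 𝒞(S.V) ≤ 𝒩(S.V) := cent_le_norm _
  have tC : S.t ∈ 𝒞(S.V) := cV S (S.z_comm _) (by simp only [← map_mul, r5])
  have yC : S.y ∈ 𝒞(S.V) := cV S (S.z_comm _) (by simp only [← map_mul, r10])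
  have ρN : S.ρ ∈ 𝒩(S.V) := nV S (S.ρz ▸ wV S) (by rw [S.ρw, map_mul]; exact mul_mem (zV S) (wV S))
  have ωN : S.w' ∈ 𝒩(S.V) := nV S (by rw [S.z_comm, mul_inv_cancel_right]; exact zV S) (by
    rw [← map_inv, ← map_mul, ← map_mul, r13, map_mul]; exact mul_mem (zV S) (wV S))
  have hVH : S.V ≤ S.H := fun v hv => mem_centralizer_singleton_iff.2 (comm_of_mem tC hv)
  have oc : ∀ o ∈ S.O, o ∈ 𝒩(S.V) → o ∈ S.O ⊓ 𝒞(S.V) := fun o ho hn => ⟨ho, S.oc (S.isP _) hVH ho hn⟩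
  let T : TH 𝒩(S.V) :=
    { V := S.V.subgroupOf _
      O := (S.O ⊓ 𝒞(S.V)).subgroupOf _
      μ := ⟨S.z, hVN (zV S)⟩
      ν := ⟨S.w, hVN (wV S)⟩
      τ := ⟨S.t, hCN tC⟩
      ρ := ⟨S.ρ, ρN⟩
      ω := ⟨S.w', ωN⟩
      y := ⟨S.y, hCN yC⟩
      nV := normal_in_normalizer
      memV := fun v => by simp only [mem_subgroupOf, memV, Subtype.ext_iff, coe_mul, OneMemClass.coe_one]
      μμ := Subtype.ext S.zz
      νν := Subtype.ext (by simp only [coe_mul, ← map_mul, r1, map_one, OneMemClass.coe_one])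
      μ1 := fun e => r2 (S.inj ((congrArg Subtype.val e).trans (map_one _).symm))
      ν1 := fun e => r3 (S.inj ((congrArg Subtype.val e).trans (map_one _).symm))
      μν := fun e => r4 (S.inj (congrArg Subtype.val e))
      ττ := Subtype.ext S.tt
      τV := fun e => by
        have : M.mt S.p ∈ sV S.p := S.mem_map.1 e
        exact absurd this.2.1 (by simp [M.mt, mk'])
      τC := (cent_sub hVN _).2 tC
      oddO := by
        rw [Nat.card_congr (subgroupOfEquivOfLe (inf_le_right.trans hCN)).toEquiv]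
        exact S.oddO.of_dvd_nat (card_dvd_of_le inf_le_left)
      OC := fun o ho => (cent_sub hVN _).2 ho.2
      Oτ := fun o ho => mem_centralizer_singleton_iff.2
        (Subtype.ext (mem_centralizer_singleton_iff.1 (S.LH (S.OL ho.1))))
      On := fun h hh => by
        have h2 : (h : G) ∈ 𝒩(S.O ⊓ 𝒞(S.V)) := le_norm_inf (L := S.H ⊓ 𝒩(S.V)) (inf_le_left.trans S.On)
          (inf_le_right.trans (norm_le_norm_cent _))
          ⟨mem_centralizer_singleton_iff.2 (congrArg Subtype.val (mem_centralizer_singleton_iff.1 hh)), h.2⟩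
        exact mem_normalizer_iff.2 fun a => mem_normalizer_iff.1 h2 a
      cτ := fun x hx hc => by
        have hx' := (cent_sub hVN _).1 hx
        obtain ⟨o, ho, e, e1, e2, e3, he⟩ := S.cV x (mem_centralizer_singleton_iff.2 (congrArg Subtype.val hc))
          (comm_of_mem hx' (zV S)).symm (comm_of_mem hx' (wV S)).symm
        obtain ⟨k1, k2⟩ := m_E _ hp e e1 e2 e3
        have hC : S.ι e ∈ 𝒞(S.V) := cV S (S.z_comm _) (by simp only [← map_mul, k1])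
        have hoN : o ∈ 𝒩(S.V) := by
          have := mul_mem x.2 (inv_mem (hCN hC))
          rwa [he, mul_inv_cancel_right] at this
        rcases k2 with k2 | ⟨v, k2, rfl⟩
        · exact ⟨⟨o, hoN⟩, oc o ho hoN, ⟨S.ι e, hCN hC⟩, S.mem_map.2 k2, .inl (Subtype.ext he)⟩
        · exact ⟨⟨o, hoN⟩, oc o ho hoN, ⟨S.ι v, hVN (S.mem_map.2 k2)⟩, S.mem_map.2 k2,
            .inr (Subtype.ext (by rw [he, map_mul, ← mul_assoc]; rfl))⟩
      ρτ := Subtype.ext (mem_centralizer_singleton_iff.1 (S.LH S.ρL))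
      ωτ := Subtype.ext (by simp only [coe_mul, ← map_mul, r6])
      ρμ := Subtype.ext S.ρz
      ρν := Subtype.ext (S.ρw.trans (map_mul _ _ _))
      ρ3 := oc _ S.ρ3 (pow_mem ρN 3)
      ωρ := oc _ S.ρi (pow_mem (mul_mem ωN ρN) 2)
      ωω := Subtype.ext (by simp only [coe_mul, ← map_mul, r7, map_one, OneMemClass.coe_one])
      ωμ := Subtype.ext (by simp only [coe_mul, ← map_mul, r8])
      ων := Subtype.ext (by simp only [coe_mul, ← map_mul, r9])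
      yC := (cent_sub hVN _).2 yC
      yy := Subtype.ext (by simp only [coe_mul, ← map_mul, r11])
      yτ := Subtype.ext (by simp only [coe_mul, coe_inv, ← map_inv, ← map_mul, r12])
      c8 := fun B hB k1 k2 => by
        rw [← card_map_of_injective (subtype_injective _)]
        refine c8 S hp hs _ (hB.map _) ?_ ?_
        · rintro _ ⟨b, hb, rfl⟩
          exact (cent_sub hVN _).1 (k1 hb)
        · rintro _ ⟨b, hb, rfl⟩
          exact mem_centralizer_singleton_iff.2 (congrArg Subtype.val (mem_centralizer_singleton_iff.1 (k2 hb)))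
      e16 := fun x hx h16 => Subtype.ext (S.ex8 S.conj_tw' (congrArg Subtype.val hx) (k := 4)
        (congrArg Subtype.val h16)) }
  have := (tl _ T (A.subgroupOf _) (hA.comap_subtype) fun a ha => (cent_sub hVN _).2 (h1 ha)).1
  rwa [Nat.card_congr (subgroupOfEquivOfLe (h1.trans hCN)).toEquiv] at this

omit [Finite G] in
theorem memF (hp : S.p = pp) {v : G} :
    v ∈ S.F0 ↔ v = 1 ∨ v = S.z ∨ v = S.ι (mf S.p) ∨ v = S.ι (mf S.p) * S.z := by
  constructor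
  · rintro ⟨x, hx, rfl⟩
    rcases (m_F _ hp x).1 hx with rfl | rfl | rfl | rfl
    exacts [.inl (map_one _), .inr (.inl rfl), .inr (.inr (.inl rfl)), .inr (.inr (.inr (map_mul _ _ _)))]
  · have a : S.z ∈ S.F0 := ⟨_, (m_F _ hp _).2 (.inr (.inl rfl)), rfl⟩
    have b : S.ι (mf S.p) ∈ S.F0 := ⟨_, (m_F _ hp _).2 (.inr (.inr (.inl rfl))), rfl⟩
    rintro (rfl | rfl | rfl | rfl)
    exacts [one_mem _, a, b, mul_mem b a]

theorem step2 (hp : S.p = pp) (hF : ∀ f ∈ S.F0, ¬ IsConj S.t f) :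
    ∃ g : G, ∀ h : G, h * S.z = S.z * h → h * S.ι (mf S.p) = S.ι (mf S.p) * h → g * h * g⁻¹ ∈ 𝒞(S.V) := by
  obtain ⟨-, r2, -, -, -, -, -, -, -, -, -, -, -, -, -, -, -, -, r3, r4, r5, r6, -⟩ := m_rel _ hp
  have zF : S.z ∈ S.F0 := (memF S hp).2 (.inr (.inl rfl))
  have fF : S.ι (mf S.p) ∈ S.F0 := (memF S hp).2 (.inr (.inr (.inl rfl)))
  have hC : S.F0 ≤ centralizer {S.t * S.w} := fun v hv => mem_centralizer_singleton_iff.2 <| by
    have a : S.t * S.w * S.z = S.z * (S.t * S.w) := by rw [← map_mul]; exact S.z_comm _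
    have b : S.t * S.w * S.ι (mf S.p) = S.ι (mf S.p) * (S.t * S.w) := by simp only [← map_mul, r3]
    rcases (memF S hp).1 hv with rfl | rfl | rfl | rfl
    exacts [by simp, a.symm, b.symm, cent_pair b a]
  obtain ⟨g, -, hle⟩ := S.cjS S.conj_tw (S.isP _) hC
  obtain ⟨x1, e1, k1⟩ := hle (conj_mem_cj g zF)
  obtain ⟨x2, e2, k2⟩ := hle (conj_mem_cj g fF)
  have k0 : S.ι 1 = g * S.ι 1 * g⁻¹ := by simp
  have nc : ∀ x : M S.p, x.e = false → x * x = 1 → ∀ f ∈ S.F0, S.ι x = g * f * g⁻¹ → x.c = false := by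
    intro x he h2 f hf hx
    by_contra hc
    have h3 : IsConj S.t (S.ι x) := by
      obtain ⟨a, h | h | h⟩ := m_inv _ hp x he h2 (by simpa using hc)
      · exact isConj_iff.2 ⟨S.ι a, by rw [← h, map_mul, map_mul, map_inv]⟩
      · exact S.conj_tz.trans (isConj_iff.2 ⟨S.ι a, by rw [← h, map_mul, map_mul, map_mul, map_inv]⟩)
      · exact S.conj_tw.trans (isConj_iff.2 ⟨S.ι a, by rw [← h, map_mul, map_mul, map_mul, map_inv]⟩)
    exact hF f hf (h3.trans (isConj_iff.2 ⟨g, hx.symm⟩).symm)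
  have s1 : x1 * x1 = 1 := S.inj (by rw [map_mul, k1, cj_mul', S.zz]; simp)
  have s2 : x2 * x2 = 1 := S.inj (by rw [map_mul, k2, cj_mul', ← map_mul, r4]; simp)
  obtain ⟨b, h1, h2⟩ := m_four _ hp x1 e1 (nc x1 e1 s1 _ zF k1) s1
    (fun e => r2 (S.inj (cj_eq_iff.1 (by rw [← k1, ← k0, e])))) x2 e2 (nc x2 e2 s2 _ fF k2) s2
    (fun e => r5 (S.inj (cj_eq_iff.1 (by rw [← k2, ← k0, e]))))
    (fun e => r6 (S.inj (cj_eq_iff.1 (by rw [← k1, ← k2, e]))))
    (S.inj (by rw [map_mul, map_mul, k1, k2, cj_mul', cj_mul', S.z_comm]))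
  obtain ⟨a, ha⟩ : ∃ a, a = cond b (ma S.p) 1 := ⟨_, rfl⟩
  rw [← ha] at h2
  refine ⟨(S.ι a)⁻¹ * g, fun h hz hf => ?_⟩
  have c1 : g * h * g⁻¹ * S.ι x1 = S.ι x1 * (g * h * g⁻¹) := by rw [k1, cj_mul', cj_mul', hz]
  have c2 : g * h * g⁻¹ * S.ι x2 = S.ι x2 * (g * h * g⁻¹) := by rw [k2, cj_mul', cj_mul', hf]
  have c3 : ∀ x, (x = x1 ∨ x = x2 ∨ x = x1 * x2) → g * h * g⁻¹ * S.ι x = S.ι x * (g * h * g⁻¹) := by
    rintro _ (rfl | rfl | rfl)
    exacts [c1, c2, by rw [map_mul]; exact (cent_pair c1 c2).symm]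
  have c4 : ∀ v : G, g * h * g⁻¹ * (S.ι a * v * (S.ι a)⁻¹) = S.ι a * v * (S.ι a)⁻¹ * (g * h * g⁻¹) →
      (S.ι a)⁻¹ * g * h * ((S.ι a)⁻¹ * g)⁻¹ * v = v * ((S.ι a)⁻¹ * g * h * ((S.ι a)⁻¹ * g)⁻¹) := fun v e =>
    calc _ = (S.ι a)⁻¹ * (g * h * g⁻¹ * (S.ι a * v * (S.ι a)⁻¹)) * S.ι a := by group
      _ = _ := by rw [e]; group
  refine cV S (c4 _ ?_) (c4 _ ?_)
  · rw [S.z_comm, mul_inv_cancel_right]; exact c3 _ h1
  · rw [← map_inv, ← map_mul, ← map_mul]; exact c3 _ h2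

end Bs2

theorem bs2 : Bs2S.{u} := by
  intro tl G _ _ S T k hB hb he hF
  have hp : S.p = Bs2.pp := by
    have h1 := hB.ws
    have h2 := hB.al
    generalize S.p = p at h1 h2 hb he
    obtain ⟨a, b, c, d⟩ := p
    simp_all [Bs2.pp]
  have hs : IsConj S.t (S.t * S.y) := isConj_iff.2 ⟨k, hB.kt⟩
  obtain ⟨g, hg⟩ := Bs2.step2 S hp hF.2
  have hT := hB.syl.isPGroup
  have hz : ∀ x ∈ T, x * S.z = S.z * x := fun x hx => S.zT hB.ws hT hB.le hx
  obtain ⟨f, hf⟩ : ∃ f, f = S.ι (Bs2.mf S.p) := ⟨_, rfl⟩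
  have h128 : Nat.card ↥(T ⊓ centralizer {f}) ≤ 128 := by
    rw [← card_cj g]
    refine Bs2.step1 S tl hp hs _ (isPGroup_cj (hT.to_le inf_le_left) g) ?_
    rintro _ ⟨h, hh, rfl⟩
    exact hg h (hz h hh.1) (hf ▸ mem_centralizer_singleton_iff.1 hh.2)
  obtain ⟨-, -, -, -, -, -, -, -, -, -, -, -, -, -, -, -, -, -, -, -, r5, r6, -⟩ := Bs2.m_rel _ hp
  have act : ∀ x ∈ T, x * f = f * x ∨ x * f * x⁻¹ = f * S.z := fun x hx => by
    rcases (Bs2.memF S hp).1 (conj_mem (hF.1 hx) ((Bs2.memF S hp).2 (.inr (.inr (.inl rfl))))) with e | e | e | e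
    · exact (r5 (S.inj ((conj_eq_one_iff.1 e).trans (map_one _).symm))).elim
    · refine (r6 (S.inj (Bs2.cj_eq_iff (g := x) |>.1 ?_))).elim
      rw [e, hz x hx, mul_inv_cancel_right]
    · exact .inl (hf ▸ mul_inv_eq_iff_eq_mul.1 e)
    · exact .inr (hf ▸ e)
  have hi : ((centralizer {f}).subgroupOf T).index ∣ 2 := by
    rw [index_dvd_two_iff]
    by_cases h : ∀ a : T, (a : G) * f = f * a
    · exact ⟨1, fun b => .inr (mem_centralizer_singleton_iff.2 (h b))⟩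
    · obtain ⟨a, ha⟩ := not_forall.1 h
      have ha' := (act a a.2).resolve_left ha
      refine ⟨a, fun b => (act b b.2).symm.imp (fun e => ?_) fun e => mem_centralizer_singleton_iff.2 e⟩
      refine mem_centralizer_singleton_iff.2 (mul_inv_eq_iff_eq_mul.1 ?_)
      calc (b : G) * a * f * ((b : G) * a)⁻¹ = b * (a * f * (a : G)⁻¹) * (b : G)⁻¹ := by group
        _ = b * f * (b : G)⁻¹ * (b * S.z * (b : G)⁻¹) := by rw [ha']; group
        _ = f := by rw [e, hz b b.2, mul_inv_cancel_right, mul_assoc, S.zz, mul_one]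
  have h2 := Nat.le_of_dvd two_pos hi
  have h3 := ((centralizer {f}).subgroupOf T).card_mul_index
  rw [← inf_subgroupOf_left, Nat.card_congr (subgroupOfEquivOfLe inf_le_left).toEquiv, inf_subgroupOf_left] at h3
  rw [← h3]
  exact Nat.mul_le_mul h128 h2

end CL.H33
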