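/-
Project H33 (S3139): the pull-back lemma applied to `T / ⟨z⟩` (small case).
-/
import Cfsg.Agent.H33.Defs2
import Cfsg.Agent.Loc.FourU

set_option autoImplicit false
set_option linter.unusedSectionVars false
open Cfsg Subgroup CL.Even CL.Grp

namespace CL.H33
open M

universe u

namespace Bs4

def p1 : Ty := ⟨false, true, false, true⟩

/-- equal modulo `z` -/
abbrev E {p : Ty} (x y : M p) : Prop := x = y ∨ x = y * mz p

theorem f1 : ∀ p, p = p1 → ∀ m : M p, m.c = m.e → ∃ v : M p, v ∈ sQ p ∧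
    (m = v ∨ m = v * my p ∨ m = v * mw p ∨ m = v * my p * mw p) := by
  rintro _ rfl
  show ∀ m : M p1, m.c = m.e → ∃ v : M p1, (v.k = false ∧ v.e = false ∧ v.c = false ∧ v.d = false) ∧ _
  decide +kernel

theorem f2 : ∀ p, p = p1 → ∀ m : M p, m ∈ sQ p → E m 1 ∨ E m (mu p) ∨ E m (mq p) ∨ E m (mu p * mq p) := by
  rintro _ rfl
  show ∀ v : M p1, (v.k = false ∧ v.e = false ∧ v.c = false ∧ v.d = false) → _
  decide +kernel

theorem f3 : ∀ p, p = p1 → ∀ m : M p, m ∈ sQ p → ¬ E m 1 → ∀ m', E m' (M.mt p * m) ∨ E m' (M.mt p * m * my p) →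
    m' ∈ sR p ∧ m' ≠ M.mt p ∧ m' ≠ M.mt p * mz p ∧ m' ≠ M.mt p * my p ∧ m' ≠ M.mt p * my p * mz p := by
  rintro _ rfl
  show ∀ v : M p1, (v.k = false ∧ v.e = false ∧ v.c = false ∧ v.d = false) → _ → ∀ m' : M p1, _ → m'.k = false ∧ _
  decide +kernel

theorem f4 : ∀ p, p = p1 → ∀ a : M p, a.c = a.e → a * a = mz p → ∀ b : M p, b.c = b.e → b * b = mz p →
    a * b ≠ b * a → a ∈ sQ p := by
  rintro _ rfl
  show ∀ v : M p1, _ → _ → ∀ b : M p1, _ → _ → _ → (v.k = false ∧ v.e = false ∧ v.c = false ∧ v.d = false)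
  decide +kernel

theorem f5 : ∀ p, p = p1 → (∀ m : M p, m.c ≠ m.e → (m * M.mt p).c = (m * M.mt p).e) ∧ mu p * mu p = mz p ∧
    mq p * mq p = mz p ∧ mu p * mq p ≠ mq p * mu p ∧ mu p ∈ sQ p ∧ mq p ∈ sQ p ∧ mz p ∈ sQ p ∧ my p ∉ sQ p ∧
    ¬ E (mu p) 1 := by
  rintro _ rfl
  refine ⟨by decide +kernel, by decide +kernel, by decide +kernel, by decide +kernel, ⟨rfl, rfl, rfl, rfl⟩,
    ⟨rfl, rfl, rfl, rfl⟩, ⟨rfl, rfl, rfl, rfl⟩, fun h => absurd h.2.1 (by decide +kernel), by decide +kernel⟩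

theorem f6 : ∀ p, p = p1 → E (M.mt p * M.mt p) 1 ∧ E (my p * my p) 1 ∧ E (mu p * mu p) 1 ∧ E (mq p * mq p) 1 ∧
    E (mw p * mw p) 1 ∧ E (M.mt p * my p) (my p * M.mt p) ∧ E (M.mt p * mu p) (mu p * M.mt p) ∧
    E (M.mt p * mq p) (mq p * M.mt p) ∧ E (M.mt p * mw p) (mw p * M.mt p) ∧ E (my p * mu p) (mu p * my p) ∧
    E (my p * mq p) (mq p * my p) ∧ E (my p * mw p) (mw p * my p) ∧ E (mu p * mq p) (mq p * mu p) ∧
    E (mw p * mu p) (mu p * mw p) ∧ E (mw p * mq p * mw p) (mu p * mq p) := by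
  rintro _ rfl
  decide +kernel

end Bs4

open Bs4

theorem bs4 : Bs4S.{u} := by
  intro pb G _ _ S T k b hb he G0 i2 tG yG uG qG wG
  have hp : S.p = p1 := by
    have h1 := b.ws; have h2 := b.al
    revert hb he h1 h2
    generalize S.p = p
    rintro hb he h1 h2
    cases p; simp only at hb he h1 h2; subst hb he h1 h2; rfl
  have hT := b.syl.2.1
  have nG := normal_of_index_eq_two i2
  obtain ⟨g1, uu, qq, uq, uQ, qQ, zQ, yQ, u1⟩ := f5 _ hp
  let j : M S.p →* T := S.ι.codRestrict T fun x => b.le ⟨x, rfl⟩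
  have zT : ∀ x : T, (x : G) * S.z = S.z * x := fun x => S.zT b.ws hT b.le x.2
  have nZ : (zpowers (j (mz S.p))).Normal := normal_of_le_center' (zpowers_le.2
    (mem_center_iff.2 fun x => Subtype.ext (zT x)))
  let π := QuotientGroup.mk' (zpowers (j (mz S.p)))
  have sj : Function.Surjective π := QuotientGroup.mk'_surjective _
  have πe : ∀ {x y : T}, π x = π y ↔ (x : G) = y ∨ (x : G) = y * S.z := fun {x y} => by
    rw [eq_comm, QuotientGroup.mk'_apply, QuotientGroup.mk'_apply, QuotientGroup.eq,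
      Loc.mem_zpowers_iff_of_mul_self (Subtype.ext S.zz), inv_mul_eq_one, inv_mul_eq_iff_eq_mul, eq_comm,
      Subtype.ext_iff, Subtype.ext_iff]
    rfl
  let ψ := π.comp j
  have ψe : ∀ {x y : M S.p}, ψ x = ψ y ↔ E x y := fun {x y} => πe.trans (or_congr S.eq_iff (by
    show S.ι x = S.ι y * S.z ↔ _
    rw [← map_mul, S.eq_iff]))
  have ψ1 : ∀ {x : M S.p}, E x 1 → ψ x = 1 := fun h => (ψe.2 h).trans (map_one _)
  have lift : ∀ {x : T} {m : M S.p}, π x = ψ m → ∃ m', (x : G) = S.ι m' ∧ E m' m := fun {x m} h =>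
    (πe.1 h).elim (fun e => ⟨m, e, .inl rfl⟩) fun e => ⟨_, e.trans (map_mul _ _ _).symm, .inr rfl⟩
  have zG : S.z ∈ G0 := by rw [HD.z, ← uu, map_mul]; exact mul_mem uG uG
  have EG : ∀ {x y : M S.p}, E x y → S.ι y ∈ G0 → S.ι x ∈ G0 := by
    rintro x y (rfl | rfl) h
    · exact h
    · rw [map_mul]; exact mul_mem h zG
  have QG : ∀ v ∈ sQ S.p, S.ι v ∈ G0 := fun v hv => by
    rcases f2 _ hp v hv with e | e | e | e
    exacts [EG e (by rw [map_one]; exact one_mem _), EG e uG, EG e qG, EG e (by rw [map_mul]; exact mul_mem uG qG)]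
  have cG : ∀ m : M S.p, m.c = m.e → S.ι m ∈ G0 := fun m h => by
    obtain ⟨v, hv, e | e | e | e⟩ := f1 _ hp m h <;> rw [e] <;> try simp only [map_mul]
    exacts [QG v hv, mul_mem (QG v hv) yG, mul_mem (QG v hv) wG, mul_mem (mul_mem (QG v hv) yG) wG]
  have T0 : ∀ {x : T}, π x ∈ (G0.subgroupOf T).map π ↔ (x : G) ∈ G0 := fun {x} =>
    ⟨fun ⟨y, hy, e⟩ => (πe.1 e.symm).elim (fun e => e ▸ hy) fun e => e ▸ mul_mem hy zG, fun h => ⟨x, h, rfl⟩⟩
  have cen : ∀ x : T, (x : G) ∈ G0 → π x * ψ (M.mt S.p) = ψ (M.mt S.p) * π x → ∃ m, j m = x ∧ m.c = m.e := fun x hx e => by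
    have e' : π (x * j (M.mt S.p) * x⁻¹) = π (j (M.mt S.p)) := by
      rw [map_mul, map_mul, map_inv]; exact mul_inv_eq_of_eq_mul e
    obtain ⟨m, hm⟩ := S.nT b.ws hT b.le x.2 (πe.1 e')
    refine ⟨m, Subtype.ext hm, by_contra fun c => tG ?_⟩
    have := cG _ (g1 m c)
    rwa [map_mul, hm, mul_mem_cancel_left hx] at this
  have EQ : ∀ {x y : M S.p}, E x y → y ∈ sQ S.p → x ∈ sQ S.p := by
    rintro x y (rfl | rfl) h
    exacts [h, mul_mem h zQ]
  have mV : ∀ {x : M S.p}, ψ x ∈ (sQ S.p).map ψ ↔ x ∈ sQ S.p :=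
    ⟨fun ⟨_, hy, e⟩ => EQ (ψe.1 e.symm) hy, mem_map_of_mem _⟩
  have memV : ∀ v, v ∈ (sQ S.p).map ψ ↔ v = 1 ∨ v = ψ (mu S.p) ∨ v = ψ (mq S.p) ∨ v = ψ (mu S.p) * ψ (mq S.p) :=
    fun v => ⟨by
      rintro ⟨m, hm, rfl⟩
      exact (f2 _ hp m hm).imp ψ1 (Or.imp ψe.2 (Or.imp ψe.2 fun e => (ψe.2 e).trans (map_mul _ _ _))), by
      rintro (rfl | rfl | rfl | rfl)
      exacts [one_mem _, mV.2 uQ, mV.2 qQ, mul_mem (mV.2 uQ) (mV.2 qQ)]⟩
  have r1 : ∀ {x : M S.p}, E (x * x) 1 → ψ x * ψ x = 1 := fun h => (map_mul _ _ _).symm.trans (ψ1 h)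
  have r2 : ∀ {x y : M S.p}, E (x * y) (y * x) → ψ x * ψ y = ψ y * ψ x := fun h => by
    rw [← map_mul, ← map_mul]; exact ψe.2 h
  obtain ⟨a1, a2, a3, a4, a5, a6, a7, a8, a9, a10, a11, a12, a13, a14, a15⟩ := f6 _ hp
  have key := pb (T ⧸ zpowers (j (mz S.p)))
    { T0 := (G0.subgroupOf T).map π, V0 := (sQ S.p).map ψ, τ := ψ (M.mt S.p), κ := ψ (my S.p), μ := ψ (mu S.p),
      ν := ψ (mq S.p), ω := ψ (mw S.p), two := hT.to_quotient _
      idx := fun x y hx hy => by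
        obtain ⟨x, rfl⟩ := sj x
        obtain ⟨y, rfl⟩ := sj y
        rw [← map_mul, T0, coe_mul, mul_mem_iff_of_index_two i2]
        exact iff_of_false (fun h => hx (T0.2 h)) fun h => hy (T0.2 h)
      τT := fun h => tG (T0.1 h), κT := T0.2 yG, ωT := T0.2 wG
      VT := by rintro _ ⟨m, hm, rfl⟩; exact T0.2 (QG m hm)
      memV := memV, ττ := r1 a1, κκ := r1 a2, μμ := r1 a3, νν := r1 a4, ωω := r1 a5
      μ1 := fun h => u1 (ψe.1 (h.trans (map_one _).symm)), κV := fun h => yQ (mV.1 h)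
      τκ := r2 a6, τμ := r2 a7, τν := r2 a8, τω := r2 a9, κμ := r2 a10, κν := r2 a11, κω := r2 a12, μν := r2 a13
      ωμ := r2 a14, ων := by rw [← map_mul, ← map_mul, ← map_mul]; exact ψe.2 a15
      cτ := fun x hx e => by
        obtain ⟨x, rfl⟩ := sj x
        obtain ⟨m, rfl, c⟩ := cen x (T0.1 hx) e
        obtain ⟨v, hv, h⟩ := f1 _ hp m c
        refine ⟨ψ v, mV.2 hv, ?_⟩
        simp only [← map_mul]
        exact h.imp (congrArg ψ) (Or.imp (congrArg ψ) (Or.imp (congrArg ψ) (congrArg ψ)))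
      nf := fun g v hv v1 => by
        obtain ⟨g, rfl⟩ := sj g
        obtain ⟨m, hm, rfl⟩ := hv
        have : ∀ n, π g * ψ (M.mt S.p) * (π g)⁻¹ = ψ n → (n = M.mt S.p * m ∨ n = M.mt S.p * m * my S.p) → False :=
          fun n e h => by
          obtain ⟨m', e1, e2⟩ := lift (x := g * j (M.mt S.p) * g⁻¹) (by rw [map_mul, map_mul, map_inv]; exact e)
          obtain ⟨c0, c1, c2, c3, c4⟩ := f3 _ hp m hm (fun h => v1 (ψ1 h)) m' (by
            rcases h with rfl | rfl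
            exacts [.inl e2, .inr e2])
          replace e1 : (g : G) * S.t * (g : G)⁻¹ = S.ι m' := e1
          have := b.bc g (zT g) (e1 ▸ mem_map_of_mem _ c0)
          simp only [e1, ← map_mul, S.eq_iff] at this
          rcases this with h | h | h | h
          exacts [c1 h, c2 h, c3 h, c4 h]
        exact ⟨fun e => this _ (e.trans (map_mul _ _ _).symm) (.inl rfl),
          fun e => this _ (e.trans (by rw [map_mul, map_mul])) (.inr rfl)⟩
      uq := fun g h => by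
        obtain ⟨g, rfl⟩ := sj g
        have k1 : ∀ m ∈ sQ S.p, m * m = mz S.p → ∃ m', j m' = g * j m * g⁻¹ ∧ m'.c = m'.e ∧ m' * m' = mz S.p :=
          fun m hm e => by
          obtain ⟨m', e1, e2⟩ := cen (g * j m * g⁻¹) (nG.conj_mem _ (QG m hm) g) (by
            rw [map_mul, map_mul, map_inv]
            exact mem_centralizer_singleton_iff.1 (h (conj_mem_cj _ (mV.2 hm))))
          refine ⟨m', e1, e2, S.inj ?_⟩
          rw [map_mul, show S.ι m' = g * S.ι m * (g : G)⁻¹ from congrArg Subtype.val e1, conj_mul, ← map_mul, e, zT,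
            mul_inv_cancel_right]
        obtain ⟨u', u1, u2, u3⟩ := k1 _ uQ uu
        obtain ⟨q', q1, q2, q3⟩ := k1 _ qQ qq
        have nc : u' * q' ≠ q' * u' := fun e => uq (S.inj (by
          have := congrArg j e
          rw [map_mul, map_mul, u1, q1, conj_mul, conj_mul, mul_left_inj, mul_right_inj, ← map_mul, ← map_mul] at this
          exact congrArg Subtype.val this))
        have cu : π g * ψ (mu S.p) * (π g)⁻¹ ∈ (sQ S.p).map ψ := by
          have := mV.2 (f4 _ hp u' u2 u3 q' q2 q3 nc)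
          rwa [show ψ u' = π (j u') from rfl, u1, map_mul, map_mul, map_inv] at this
        have cq : π g * ψ (mq S.p) * (π g)⁻¹ ∈ (sQ S.p).map ψ := by
          have := mV.2 (f4 _ hp q' q2 q3 u' u2 u3 nc.symm)
          rwa [show ψ q' = π (j q') from rfl, q1, map_mul, map_mul, map_inv] at this
        refine cj_eq (mem_norm_of_cj_le ?_)
        rintro _ ⟨v, hv, rfl⟩
        show π g * v * (π g)⁻¹ ∈ _
        rcases (memV v).1 hv with rfl | rfl | rfl | rfl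
        · rw [mul_one, mul_inv_cancel]; exact one_mem _
        · exact cu
        · exact cq
        · rw [← conj_mul]; exact mul_mem cu cq }
  refine key.imp (fun n g hg => mem_norm_of_cj_le ?_) fun c => ?_
  · rintro _ ⟨_, ⟨m, hm, rfl⟩, rfl⟩
    obtain ⟨m', h', e⟩ := n.conj_mem _ (mV.2 hm) (π ⟨g, hg⟩)
    obtain ⟨m'', e1, e2⟩ := lift (x := ⟨g, hg⟩ * j m * ⟨g, hg⟩⁻¹) (by rw [map_mul, map_mul, map_inv]; exact e.symm)
    exact ⟨m'', EQ e2 h', e1.symm⟩
  · rw [card_eq_card_quotient_mul_card_subgroup (zpowers (j (mz S.p))), Nat.card_zpowers]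
    exact Nat.mul_le_mul c (orderOf_le_of_pow_eq_one two_pos (by rw [sq]; exact Subtype.ext S.zz))

end CL.H33
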