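/-
Project H33 (S3139): step BS5.
-/
import Cfsg.Agent.H33.Defs2

set_option autoImplicit false
set_option linter.unusedSectionVars false
open Cfsg Subgroup CL.Even CL.Grp

namespace CL.H33
open M

universe u

theorem bs5_fib {G : Type u} [Group G] [Finite G] {T C : Subgroup G} {β : Type} [Finite β] (f : T → β)
    (h : ∀ x y : T, f x = f y → (x : G)⁻¹ * y ∈ C) : Nat.card T ≤ Nat.card β * Nat.card C := by
  rw [← Nat.card_prod]
  refine Nat.card_le_card_of_injective (fun x : T => ((f x, ⟨((Function.invFun f (f x) : T) : G)⁻¹ * x,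
    h _ _ (Function.invFun_eq ⟨x, rfl⟩)⟩) : β × C)) fun x y e => ?_
  have e1 : f x = f y := congrArg Prod.fst e
  have e2 : ((Function.invFun f (f x) : T) : G)⁻¹ * x = ((Function.invFun f (f y) : T) : G)⁻¹ * y :=
    congrArg (fun p : β × C => (p.2 : G)) e
  rw [e1] at e2
  exact Subtype.ext (mul_left_cancel e2)

theorem bs5_zp {G : Type u} [Group G] {z a : G} (hz : z * z = 1) (ha : a ∈ zpowers z) : a = 1 ∨ a = z := by
  obtain ⟨n, rfl⟩ := ha
  have h2 : z ^ (2 : ℤ) = 1 := by rw [zpow_two, hz]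
  obtain ⟨k, rfl | rfl⟩ := Int.even_or_odd' n
  · left; simp only; rw [zpow_mul, h2, one_zpow]
  · right; simp only; rw [zpow_add_one, zpow_mul, h2, one_zpow, one_mul]

/-- the elements of order 4 of `Q` -/
def bs5v (p : Ty) : Fin 6 → M p :=
  ![mu p, mu p * mz p, mq p, mq p * mz p, mu p * mq p, mu p * mq p * mz p]

theorem bs5_six : ∀ (p : Ty) (m : M p), m.k = false → m.e = false → m.c = false → m.d = false →
    (∃ a : Fin 4, ∃ b : Fin 2, m = mu p ^ a.1 * mq p ^ b.1) ∧ (m * m = mz p → ∃ i : Fin 6, m = bs5v p i) := by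
  decide +kernel

theorem bs5_cq : ∀ p : Ty, p.big = false → p.ws = true → p.al = false → ∀ m : M p, m * mu p = mu p * m →
    m * mq p = mq p * m → m = 1 ∨ m = mz p ∨ m = my p ∨ m = mz p * my p ∨
      m = M.mt p ∨ m = M.mt p * (my p * my p) ∨ m = M.mt p * my p ∨ m = M.mt p * (my p * my p * my p) := by
  decide +kernel

theorem bs5_rel : ∀ p : Ty, p.big = false → p.ws = true → p.al = false → p.ep = true →
    my p * my p = mz p ∧ M.mt p * mw p * my p = my p * (M.mt p * mw p) ∧ M.mt p * mw p * (M.mt p * mw p) = 1 ∧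
    mu p * mu p = mz p ∧ mq p * mq p = mz p ∧ mz p ≠ 1 := by decide +kernel

theorem bs5 : Bs5S.{u} := by
  intro hC G _ _ S T k hB hb he G0 hi ht hy hu hQ
  obtain ⟨ryy, rfy, rff, ruu, rqq, rz⟩ := bs5_rel S.p hb hB.ws hB.al he
  have hT := hB.syl.isPGroup
  have mT : ∀ m, S.ι m ∈ T := fun m => hB.le ⟨m, rfl⟩
  have zc : ∀ x ∈ T, x * S.z = S.z * x := fun x hx => S.zT hB.ws hT hB.le hx
  have z1 : S.z ≠ 1 := fun e => rz (S.inj (e.trans (map_one _).symm))
  have yy : S.y * S.y = S.z := by rw [← map_mul, ryy]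
  have uQ : S.u ∈ S.Q := S.mem_map.2 ⟨rfl, rfl, rfl, rfl⟩
  have qQ : S.q ∈ S.Q := S.mem_map.2 ⟨rfl, rfl, rfl, rfl⟩
  by_contra hlt
  set C := T ⊓ 𝒞(S.Q) ⊓ G0 with hCdef
  have hCT : C ≤ T := inf_le_left.trans inf_le_left
  -- the order of `C`
  have six : ∀ (x : T) (m : M S.p), S.ι m ∈ S.Q → m * m = mz S.p →
      ∃ i : Fin 6, x * S.ι m * (x : G)⁻¹ = S.ι (bs5v S.p i) := by
    intro x m hm hmm
    obtain ⟨m', hm', e⟩ := conj_mem (hQ x.2) hm
    obtain ⟨i, hi⟩ := (bs5_six S.p m' hm'.1 hm'.2.1 hm'.2.2.1 hm'.2.2.2).2 (S.inj (by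
      rw [map_mul, e, conj_mul, ← map_mul, hmm, zc x x.2, mul_inv_cancel_right]))
    exact ⟨i, by rw [← e, hi]⟩
  choose fu hfu using fun x : T => six x _ uQ ruu
  choose fq hfq using fun x : T => six x _ qQ rqq
  have hcard := bs5_fib (C := C) (fun x : T => (fu x, fq x, (x : G) ∈ G0)) (by
    intro x y e
    simp only [Prod.mk.injEq, eq_iff_iff] at e
    have cm : ∀ v : G, x * v * (x : G)⁻¹ = y * v * (y : G)⁻¹ → Commute ((x : G)⁻¹ * y) v := fun v h => by
      calc (x : G)⁻¹ * y * v = (x : G)⁻¹ * (y * v * (y : G)⁻¹) * y := by group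
        _ = v * ((x : G)⁻¹ * y) := by rw [← h]; group
    have c1 := cm _ (by rw [hfu x, hfu y, e.1])
    have c2 := cm _ (by rw [hfq x, hfq y, e.2.1])
    refine ⟨⟨T.mul_mem (T.inv_mem x.2) y.2, ?_⟩, (mul_mem_iff_of_index_two hi).2 (by rw [inv_mem_iff]; exact e.2.2)⟩
    rintro _ ⟨m, hm, rfl⟩
    obtain ⟨a, b, rfl⟩ := (bs5_six S.p m hm.1 hm.2.1 hm.2.2.1 hm.2.2.2).1
    rw [map_mul, map_pow, map_pow]
    exact ((c1.pow_right _).mul_right (c2.pow_right _)).symm.eq)
  have h64 : 64 ≤ Nat.card C := by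
    obtain ⟨a, ha⟩ := hT.exists_card_eq
    obtain ⟨b, hb'⟩ := (hT.to_le hCT).exists_card_eq
    have e72 : Nat.card (Fin 6 × Fin 6 × Prop) = 72 := by simp
    rw [e72, ha, hb'] at hcard
    rw [ha] at hlt
    rw [hb']
    have h1 : 12 ≤ a := by
      by_contra h
      exact hlt ((Nat.pow_le_pow_right (by norm_num) (by omega : a ≤ 11)).trans (by norm_num))
    have h2 : 2 ^ 12 ≤ 2 ^ a := Nat.pow_le_pow_right (by norm_num) h1
    by_contra h
    have h3 : b ≤ 5 := by
      by_contra h4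
      exact h (le_trans (by norm_num) (Nat.pow_le_pow_right (by norm_num) (by omega : 6 ≤ b)))
    have h4 : 2 ^ b ≤ 2 ^ 5 := Nat.pow_le_pow_right (by norm_num) h3
    omega
  have hN : Nat.card (zpowers S.z) = 2 := by
    rw [Nat.card_zpowers]; exact orderOf_eq_prime (by rw [pow_two, S.zz]) z1
  have hG0 : G0.Normal := normal_of_index_eq_two hi
  obtain ⟨x, hx, c, hc, -, h8, -, hall⟩ := hC G T C (zpowers S.z) S.t S.y 3 hT
    (zpowers_le.2 ⟨⟨mT _, by rintro _ ⟨m, -, rfl⟩; exact S.z_comm m⟩, yy ▸ mul_mem hy hy⟩) hCT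
    (fun g hg => cent_le_norm _ (by
      rintro _ ⟨n, rfl⟩
      exact (Commute.zpow_left (zc g hg).symm n).eq))
    (le_norm_inf (le_norm_inf le_normalizer (le_norm_cent hQ)) (by rw [normalizer_eq_top]; exact le_top))
    (mT _) S.tt (by
      intro x hx hn
      have h1 : x⁻¹ ∈ S.S1 := by
        refine S.nT hB.ws hT hB.le (inv_mem (hCT hx)) ?_
        have e : x⁻¹ * S.t * x⁻¹⁻¹ = x⁻¹ * (S.t * x * S.t) * S.t := by
          simp only [inv_inv, mul_assoc, S.tt, mul_one]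
        rw [e]
        rcases bs5_zp S.zz hn with h | h <;> rw [h]
        · exact Or.inl (one_mul _)
        · exact Or.inr (S.z_comm _).symm
      obtain ⟨m, rfl⟩ := inv_mem_iff.1 h1
      have no : ∀ v, m = M.mt S.p * v → S.ι v ∈ G0 → False := fun v e hv => by
        have := hx.2
        rw [e, map_mul] at this
        exact ht ((mul_mem_cancel_right hv).1 this)
      rcases bs5_cq S.p hb hB.ws hB.al m (S.inj (by rw [map_mul, map_mul]; exact (hx.1.2 _ uQ).symm))
        (S.inj (by rw [map_mul, map_mul]; exact (hx.1.2 _ qQ).symm)) with h | h | h | h | h | h | h | h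
      · left; rw [h, map_one]; exact one_mem _
      · left; rw [h]; exact mem_zpowers _
      · right; rw [h, mul_inv_cancel]; exact one_mem _
      · right; rw [h, map_mul, mul_inv_cancel_right]; exact mem_zpowers _
      · exact (no 1 (by rw [h, mul_one]) (by rw [map_one]; exact one_mem _)).elim
      · exact (no _ h (by rw [map_mul]; exact mul_mem hy hy)).elim
      · exact (no _ h hy).elim
      · exact (no _ h (by rw [map_mul, map_mul]; exact mul_mem (mul_mem hy hy) hy)).elim)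
    (by rw [hN]; exact h64)
  have fT : S.t * S.w ∈ T := mul_mem (mT _) (mT _)
  have fy : Commute (S.t * S.w) S.y := by
    have := congrArg S.ι rfy
    simp only [map_mul] at this
    exact this
  have fz : Commute (S.t * S.w) S.z := zc _ fT
  have ff : S.t * S.w * (S.t * S.w) = 1 := by
    have := congrArg S.ι rff
    simpa only [map_mul, map_one] using this
  have h8' : c ^ 8 = S.y ∨ c ^ 8 = S.z * S.y := by
    rcases bs5_zp S.zz h8 with h | h
    · exact Or.inl (mul_inv_eq_one.1 h)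
    · exact Or.inr (mul_inv_eq_iff_eq_mul.1 h)
  have h16 : c ^ 16 = S.z := by
    rw [show 16 = 8 + 8 from rfl, pow_add]
    rcases h8' with h | h <;> rw [h]
    · exact yy
    · rw [mul_assoc, ← mul_assoc S.y, S.z_comm, mul_assoc, yy, S.zz, mul_one]
  have h32 : c ^ 32 = 1 := by rw [show 32 = 16 + 16 from rfl, pow_add, h16, S.zz]
  have ho : orderOf c = 32 :=
    orderOf_eq_prime_pow (p := 2) (n := 4) (by rw [show 2 ^ 4 = 16 from rfl, h16]; exact z1) h32
  have f8 : Commute (S.t * S.w) (c ^ 8) := by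
    rcases h8' with h | h <;> rw [h]
    exacts [fy, fz.mul_right fy]
  obtain ⟨i, hi32, hf⟩ : ∃ i < 32, S.t * S.w * c * (S.t * S.w)⁻¹ = c ^ i := by
    obtain ⟨j, a, ha, e⟩ := (hall _ fT).2
    rcases bs5_zp S.zz ha with h | h <;> rw [h] at e
    · exact ⟨j % 32, Nat.mod_lt _ (by norm_num), by rw [e, mul_one, ← pow_eq_pow_mod _ h32]⟩
    · exact ⟨(j + 16) % 32, Nat.mod_lt _ (by norm_num), by rw [e, ← h16, ← pow_add, ← pow_eq_pow_mod _ h32]⟩
  have hcj := S.conj_tw
  generalize S.t * S.w = f at *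
  have e1 : c ^ (i * 8) = c ^ 8 := by rw [pow_mul, ← hf, conj_pow, f8.eq, mul_inv_cancel_right]
  have e2 : c ^ (i * i) = c ^ 1 := by
    rw [pow_mul, ← hf, conj_pow, ← hf, pow_one]
    calc f * (f * c * f⁻¹) * f⁻¹ = (f * f) * c * (f * f)⁻¹ := by group
      _ = c := by rw [ff]; group
  rw [pow_eq_pow_iff_modEq, ho] at e1 e2
  have e3 : c ^ (i * 2) = c ^ 2 := by
    rw [pow_eq_pow_iff_modEq, ho]
    exact (by decide : ∀ i < 32, i * 8 % 32 = 8 % 32 → i * i % 32 = 1 % 32 → i * 2 % 32 = 2 % 32) i hi32 e1 e2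
  have e4 : c ^ 2 * f = f * c ^ 2 := by
    rw [pow_mul, ← hf, conj_pow] at e3
    exact (mul_inv_eq_iff_eq_mul.1 e3).symm
  have e5 := S.ex8 hcj e4 (k := 4) (by rw [← pow_mul]; exact h32)
  rw [← pow_mul] at e5
  exact z1 (h16.symm.trans e5)

end CL.H33
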