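/-
Project H33 (S3139): step C1, the subgroup `W = C_{R₂}(s)` and the element `r`.
-/
import Cfsg.Agent.H33.Defs3

set_option autoImplicit false
set_option linter.unusedSectionVars false
open Cfsg Subgroup CL.Even CL.Grp

namespace CL.H33
open M

universe u

local instance c1_dZ0 (p : Ty) (x : M p) : Decidable (x ∈ sZ0 p) :=
  inferInstanceAs (Decidable (x.k = false ∧ x.c = false ∧ x.d = false ∧ x.i = false ∧ x.j = false))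
local instance c1_dZ1 (p : Ty) (x : M p) : Decidable (x ∈ sZ1 p) :=
  inferInstanceAs (Decidable (x.k = false ∧ x.c = false ∧ x.i = false ∧ x.j = false))

theorem c1_gen {p : Ty} (X : Subgroup (M p)) (x : M p) (hk : x.k = false) (hz : mz p ∈ X)
    (hd : x.d = true → md p ∈ X) (hc : x.c = true → M.mt p ∈ X) (he : x.e = true → ms p ∈ X)
    (hi : x.i = true → mu p ∈ X) (hj : x.j = true → mq p ∈ X) : x ∈ X := by
  have k : ∀ (b : Bool) (g : M p), (b = true → g ∈ X) → cond b g 1 ∈ X := by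
    intro b g h; cases b; exacts [one_mem _, h rfl]
  rw [nf p x]
  exact mul_mem (mul_mem (mul_mem (mul_mem (mul_mem (mul_mem (k _ _ hd) (k _ _ fun _ => hz)) (k _ _ hc)) (k _ _ he))
    (k _ _ hi)) (k _ _ hj)) (k _ _ fun h => by simp [hk] at h)

theorem c1_inv : ∀ (p : Ty) (x : M p), x⁻¹.k = x.k ∧
    (x.k = false → x⁻¹.c = x.c ∧ x⁻¹.i = x.i ∧ x⁻¹.j = x.j) := by decide +kernel
theorem c1_m1 : ∀ p : Ty, p.ws = true → ∀ y : M p, y.k = false → y * M.mt p = M.mt p * y → y * ms p = ms p * y →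
    y * mu p = mu p * y → y * mq p = mq p * y → y * y = md p * md p → y = md p ∨ y = md p * mz p := by decide +kernel
theorem c1_m2 : ∀ p : Ty, p.ws = true → ∀ y : M p, y.k = false → y * md p = md p * y ∧
    (y * ms p = ms p * y ↔ y.c = false) := by decide +kernel
theorem c1_m3 : ∀ (p : Ty) (a : M p), a * a = mz p → (a * (mu p)⁻¹ ∈ sZ1 p → a * (mu p)⁻¹ ∈ sZ0 p) ∧
    (a * (mq p)⁻¹ ∈ sZ1 p → a * (mq p)⁻¹ ∈ sZ0 p) := by decide +kernel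
theorem c1_m4 : ∀ (p : Ty) (x : M p), (x.k = false → x * mu p * x⁻¹ * (mu p)⁻¹ ∈ sZ1 p) ∧
    (x * mq p * x⁻¹ * (mq p)⁻¹ ∈ sZ1 p ↔ x.k = false) ∧ x * mq p * x⁻¹ * (mu p)⁻¹ ∉ sZ1 p ∧
    x * (mu p * mq p) * x⁻¹ * (mu p)⁻¹ ∉ sZ1 p := by decide +kernel
theorem c1_m5 : ∀ p : Ty, p.ws = true → ∀ y : M p, y.k = false → y.c = true → y.d = false → y.i = false →
    y.j = false → y * y = 1 → y = M.mt p ∨ y = M.mt p * mz p := by decide +kernel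
/-- the action of `ρ₀` -/
def c1r {p : Ty} (x : M p) : M p := cond x.d (md p) 1 * cond x.z (mz p) 1 * cond x.c (M.mt p) 1 * cond x.e (ms p) 1 *
  cond x.i (mq p) 1 * cond x.j (mu p * mq p) 1
theorem c1_m6 : ∀ (p : Ty) (x : M p), (c1r x).k = false ∧ (c1r x).c = x.c ∧ (c1r x).i = x.j ∧
    (c1r x).j = (x.i ^^ x.j) := by decide +kernel

section
variable {G : Type u} [Group G] [Finite G] {S : HD G}

theorem c1_act {n : G} (hn : n ∈ 𝒩(S.R1)) {x : M S.p} (hx : x.k = false) :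
    ∃ y, y.k = false ∧ n * S.ι x * n⁻¹ = S.ι y :=
  let ⟨y, hy, e⟩ := conj_mem hn (S.mem_map.2 (hx : x ∈ sR _)); ⟨y, hy, e.symm⟩

theorem c1_S1N : S.S1 ≤ 𝒩(S.R1) := by
  rw [le_normalizer_iff]
  rintro _ ⟨g, rfl⟩ _ ⟨x, hx, rfl⟩
  rw [← map_inv, ← map_mul, ← map_mul, S.mem_map]
  change (g * x * g⁻¹).k = false
  rw [mul_k, mul_k, (c1_inv _ g).1, (hx : x.k = false)]
  cases g.k <;> rfl

theorem c1_cen {g : G} {x : M S.p} (hk : x.k = false) (hz : S.z * g = g * S.z) (hd : x.d = true → S.δ * g = g * S.δ)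
    (hc : x.c = true → S.t * g = g * S.t) (he : x.e = true → S.s * g = g * S.s) (hi : x.i = true → S.u * g = g * S.u)
    (hj : x.j = true → S.q * g = g * S.q) : S.ι x * g = g * S.ι x :=
  have m : ∀ {y : M S.p}, y ∈ (centralizer {g}).comap S.ι ↔ S.ι y * g = g * S.ι y := mem_centralizer_singleton_iff
  m.1 (c1_gen _ x hk (m.2 hz) (fun h => m.2 (hd h)) (fun h => m.2 (hc h)) (fun h => m.2 (he h))
    (fun h => m.2 (hi h)) fun h => m.2 (hj h))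

theorem c1_cz0 {g : G} (hs : g * S.s = S.s * g) (hz : g * S.z = S.z * g) : g ∈ 𝒞(S.Z0) := by
  rintro _ ⟨x, ⟨a, b, c, d, e⟩, rfl⟩
  exact c1_cen a hz.symm (by simp [c]) (by simp [b]) (fun _ => hs.symm) (by simp [d]) (by simp [e])

theorem c1_rho (x : M S.p) (hk : x.k = false) : S.ρ0 * S.ι x * S.ρ0⁻¹ = S.ι (c1r x) := by
  have ht : S.ρ0 * S.t * S.ρ0⁻¹ = S.t := by
    rw [mem_centralizer_singleton_iff.1 (S.LH S.ρ0L), mul_inv_cancel_right]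
  have hz : S.ρ0 * S.z * S.ρ0⁻¹ = S.z := by
    have h : ∀ p, mu p * mu p = mz p ∧ mq p * mq p = mz p := by decide +kernel
    calc S.ρ0 * S.z * S.ρ0⁻¹ = (S.ρ0 * S.u * S.ρ0⁻¹) * (S.ρ0 * S.u * S.ρ0⁻¹) := by
          rw [HD.z, ← (h _).1, map_mul]; group
      _ = S.z := by rw [S.ρ0u, ← map_mul, (h _).2]
  have k : ∀ (b : Bool) (g g' : M S.p), S.ρ0 * S.ι g * S.ρ0⁻¹ = S.ι g' →
      MulAut.conj S.ρ0 (S.ι (cond b g 1)) = S.ι (cond b g' 1) := by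
    intro b g g' h; cases b
    · simp
    · exact h
  change MulAut.conj S.ρ0 (S.ι x) = _
  conv_lhs => rw [nf _ x, hk]
  simp only [c1r, map_mul, k _ _ _ ht, k _ _ _ hz, k _ _ _ S.ρ0d, k _ _ _ S.ρ0s, k _ _ _ S.ρ0u, k _ _ _ S.ρ0q,
    cond_false, map_one, mul_one]

theorem c1_rhoN : S.ρ0 ∈ 𝒩(S.R1) := mem_norm_of_cj_le (by
  rintro _ ⟨_, ⟨x, hx, rfl⟩, rfl⟩
  exact ⟨_, (c1_m6 _ x).1, (c1_rho x hx).symm⟩)

variable (hc : S.Cc) (ho : S.Or)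
include hc ho

theorem c1_z {n : G} (hn : n ∈ 𝒩(S.R1)) : n * S.z * n⁻¹ = S.z := by rw [ho.nz n hn, mul_inv_cancel_right]

theorem c1_d {n : G} (hn : n ∈ 𝒩(S.R1)) : n * S.δ * n⁻¹ = S.δ ∨ n * S.δ * n⁻¹ = S.δ * S.z := by
  obtain ⟨y, hy, e⟩ := c1_act hn (x := md _) rfl
  have cm : ∀ v : M S.p, v.k = false → y * v = v * y := by
    intro v hv
    obtain ⟨v', hv', e'⟩ := c1_act (inv_mem hn) hv
    have h1 : S.ι v' * S.δ = S.δ * S.ι v' := by rw [← map_mul, (c1_m2 _ hc.ws v' hv').1, map_mul]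
    apply S.inj
    rw [map_mul, map_mul, ← e]
    calc n * S.δ * n⁻¹ * S.ι v = n * (S.δ * (n⁻¹ * S.ι v * n⁻¹⁻¹)) * n⁻¹ := by group
      _ = n * ((n⁻¹ * S.ι v * n⁻¹⁻¹) * S.δ) * n⁻¹ := by rw [e', h1]
      _ = _ := by group
  have sq : y * y = md _ * md _ := by
    apply S.inj
    rw [map_mul, ← e]
    calc _ = n * S.ι (md _ * md _) * n⁻¹ := by rw [map_mul]; group
      _ = _ := by
        rcases (by decide +kernel : ∀ p, md p * md p = 1 ∨ md p * md p = mz p) S.p with h | h <;> rw [h]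
        · simp
        · exact c1_z hc ho hn
  rw [e, ← map_mul, S.eq_iff, S.eq_iff]
  exact c1_m1 _ hc.ws y hy (cm _ rfl) (cm _ rfl) (cm _ rfl) (cm _ rfl) sq

theorem c1_Z0 : 𝒩(S.R1) ≤ 𝒩(S.Z0) := by
  rw [le_normalizer_iff]
  rintro n hn _ ⟨x, ⟨a, b, c, d, e⟩, rfl⟩
  have hz : S.z ∈ S.Z0 := S.mem_map.2 ⟨rfl, rfl, rfl, rfl, rfl⟩
  have hs : S.s ∈ S.Z0 := S.mem_map.2 ⟨rfl, rfl, rfl, rfl, rfl⟩
  refine c1_gen (S.Z0.comap ((MulAut.conj n).toMonoidHom.comp S.ι)) x a ?_ (by simp [c]) (by simp [b]) (fun _ => ?_)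
    (by simp [d]) (by simp [e])
  · change n * S.z * n⁻¹ ∈ S.Z0
    rwa [c1_z hc ho hn]
  · change n * S.s * n⁻¹ ∈ S.Z0
    rcases hc.ns n hn with h | h <;> rw [h]
    exacts [hs, mul_mem hs hz]

theorem c1_Z1 : 𝒩(S.R1) ≤ 𝒩(S.Z1) := by
  rw [le_normalizer_iff]
  rintro n hn _ ⟨x, ⟨a, b, d, e⟩, rfl⟩
  have hz : S.z ∈ S.Z1 := S.mem_map.2 ⟨rfl, rfl, rfl, rfl⟩
  have hs : S.s ∈ S.Z1 := S.mem_map.2 ⟨rfl, rfl, rfl, rfl⟩
  have hd : S.δ ∈ S.Z1 := S.mem_map.2 ⟨rfl, rfl, rfl, rfl⟩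
  refine c1_gen (S.Z1.comap ((MulAut.conj n).toMonoidHom.comp S.ι)) x a ?_ (fun _ => ?_) (by simp [b]) (fun _ => ?_)
    (by simp [d]) (by simp [e])
  · change n * S.z * n⁻¹ ∈ S.Z1
    rwa [c1_z hc ho hn]
  · change n * S.δ * n⁻¹ ∈ S.Z1
    rcases c1_d hc ho hn with h | h <;> rw [h]
    exacts [hd, mul_mem hd hz]
  · change n * S.s * n⁻¹ ∈ S.Z1
    rcases hc.ns n hn with h | h <;> rw [h]
    exacts [hs, mul_mem hs hz]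

theorem c1_Q1 : 𝒩(S.R1) ≤ 𝒩(S.Q1) := by
  have : S.Q1 = S.R1 ⊓ 𝒞(S.Z0) := by
    refine le_antisymm ?_ ?_
    · rintro _ ⟨x, hx, rfl⟩
      exact ⟨⟨x, hx.1, rfl⟩, c1_cz0 (by rw [← map_mul, (c1_m2 _ hc.ws x hx.1).2.2 hx.2, map_mul]) (S.z_comm x)⟩
    · rintro _ ⟨⟨x, hx, rfl⟩, h⟩
      refine ⟨x, ⟨hx, (c1_m2 _ hc.ws x hx).2.1 (S.inj ?_)⟩, rfl⟩
      rw [map_mul, map_mul]
      exact (h _ (S.mem_map.2 ⟨rfl, rfl, rfl, rfl, rfl⟩)).symm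
  rw [this]
  exact le_norm_inf le_rfl (le_norm_cent (c1_Z0 hc ho))

theorem c1_cm {K : Subgroup G} (hK : 𝒩(S.R1) ≤ 𝒩(K)) (hz : S.z ∈ K) {n : G} (hn : n ∈ 𝒩(S.R1))
    (hu : n * S.u * n⁻¹ * S.u⁻¹ ∈ K) (hq : n * S.q * n⁻¹ * S.q⁻¹ ∈ K) : ∀ v ∈ S.Q1, n * v * n⁻¹ * v⁻¹ ∈ K := by
  rintro _ ⟨x, ⟨a, b⟩, rfl⟩
  have k : ∀ y : M S.p, n * S.ι y * n⁻¹ = S.ι y ∨ n * S.ι y * n⁻¹ = S.ι y * S.z → n * S.ι y * n⁻¹ * (S.ι y)⁻¹ ∈ K := by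
    rintro y (h | h) <;> rw [h]
    · simp
    · rwa [S.z_comm, mul_inv_cancel_right]
  refine c1_gen (sub (fun x => n * S.ι x * n⁻¹ * (S.ι x)⁻¹ ∈ K) (by simp) fun x y hx hy => ?_) x a
    (k _ (Or.inl (c1_z hc ho hn))) (fun _ => k _ (c1_d hc ho hn)) (by simp [b]) (fun _ => k _ (hc.ns n hn))
    (fun _ => hu) fun _ => hq
  have := mul_mem hx (conj_mem (hK (c1_S1N ⟨x, rfl⟩)) hy)
  convert this using 1
  rw [map_mul]; group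

omit hc ho in
/-- `N₂` -/
def c1N2 (S : HD G) : Subgroup G := 𝒩(S.R1) ⊓ cmod S.Q1 S.Z1

omit hc ho in
theorem c1_N2 {n : G} (hn : n ∈ c1N2 S) {v : G} (hv : v ∈ S.Q1) : n * v * n⁻¹ * v⁻¹ ∈ S.Z1 := by
  have := inv_mem (hn.2.2 v hv)
  rwa [commutatorElement_inv] at this

theorem c1_mem {n : G} (hn : n ∈ 𝒩(S.R1)) (hu : n * S.u * n⁻¹ * S.u⁻¹ ∈ S.Z1) (hq : n * S.q * n⁻¹ * S.q⁻¹ ∈ S.Z1) :
    n ∈ c1N2 S := by
  refine ⟨hn, c1_Z1 hc ho hn, fun v hv => ?_⟩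
  rw [← commutatorElement_inv]
  exact inv_mem (c1_cm hc ho (c1_Z1 hc ho) (S.mem_map.2 ⟨rfl, rfl, rfl, rfl⟩) hn hu hq v hv)

theorem c1_nN2 : 𝒩(S.R1) ≤ 𝒩(c1N2 S) := le_norm_inf le_normalizer (le_norm_cmod (c1_Q1 hc ho) (c1_Z1 hc ho))

theorem c1_iota {x : M S.p} : S.ι x ∈ c1N2 S ↔ x.k = false := by
  constructor
  · intro h
    have := c1_N2 h (v := S.q) (S.mem_map.2 ⟨rfl, rfl⟩)
    rw [← map_inv, ← map_inv, ← map_mul, ← map_mul, ← map_mul, S.mem_map] at this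
    exact (c1_m4 _ x).2.1.1 this
  · intro h
    refine c1_mem hc ho (c1_S1N ⟨x, rfl⟩) ?_ ?_ <;>
      rw [← map_inv, ← map_inv, ← map_mul, ← map_mul, ← map_mul, S.mem_map]
    exacts [(c1_m4 _ x).1 h, (c1_m4 _ x).2.1.2 h]

theorem c1_cN2 : 𝒞(S.R1) ≤ c1N2 S := fun n hn =>
  c1_mem hc ho (cent_le_norm _ hn) (by rw [conj_eq_of_mem hn (S.mem_map.2 rfl)]; simp)
    (by rw [conj_eq_of_mem hn (S.mem_map.2 rfl)]; simp)

theorem c1_Wq {n : G} (hn : n ∈ c1N2 S) : ∀ v ∈ S.Q1, n * v * n⁻¹ * v⁻¹ ∈ S.Z0 := by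
  have h : ∀ p, mu p * mu p = mz p ∧ mq p * mq p = mz p := by decide +kernel
  have k : ∀ x a : M S.p, x * x = mz _ → n * S.ι x * n⁻¹ = S.ι a → a * a = mz _ := by
    intro x a hx e
    apply S.inj
    rw [map_mul, ← e]
    refine Eq.trans ?_ (c1_z hc ho hn.1)
    rw [HD.z, ← hx, map_mul]; group
  refine c1_cm hc ho (c1_Z0 hc ho) (S.mem_map.2 ⟨rfl, rfl, rfl, rfl, rfl⟩) hn.1 ?_ ?_
  · obtain ⟨a, -, e⟩ := c1_act hn.1 (x := mu _) rfl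
    have := c1_N2 hn (v := S.u) (S.mem_map.2 ⟨rfl, rfl⟩)
    rw [e, ← map_inv, ← map_mul, S.mem_map] at this ⊢
    exact (c1_m3 _ a (k _ _ (h _).1 e)).1 this
  · obtain ⟨a, -, e⟩ := c1_act hn.1 (x := mq _) rfl
    have := c1_N2 hn (v := S.q) (S.mem_map.2 ⟨rfl, rfl⟩)
    rw [e, ← map_inv, ← map_mul, S.mem_map] at this ⊢
    exact (c1_m3 _ a (k _ _ (h _).2 e)).2 this

theorem c1_odds {n : G} (hn : n ∈ 𝒩(S.R1)) (h : (orderOf n).Coprime 2) : n * S.s = S.s * n := by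
  refine mem_centralizer_singleton_iff.1 (mem_of_pow_mem_of_coprime h (mem_centralizer_singleton_iff.2 ?_))
  rw [← mul_inv_eq_iff_eq_mul]
  calc n ^ 2 * S.s * (n ^ 2)⁻¹ = n * (n * S.s * n⁻¹) * n⁻¹ := by rw [pow_two]; group
    _ = S.s := by
      rcases hc.ns n hn with e | e <;> rw [e]
      · exact e
      · calc n * (S.s * S.z) * n⁻¹ = n * S.s * n⁻¹ * (n * S.z * n⁻¹) := by group
          _ = S.s := by rw [e, c1_z hc ho hn, mul_assoc, S.zz, mul_one]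

omit hc ho in
theorem c1_odd {o : G} (h : o ∈ S.O) : (orderOf o).Coprime 2 :=
  Nat.Coprime.coprime_dvd_left (orderOf_dvd_natCard _ h) (Nat.coprime_two_right.2 S.oddO)

theorem c1_oc {o : G} (h : o ∈ S.O) (hn : o ∈ 𝒩(S.R1)) : o ∈ 𝒞(S.R1) := by
  have h1 := S.oc (B := S.R1 ⊓ S.H) (S.isP _).to_inf_left inf_le_right h
    (inf_normalizer_le_normalizer_inf ⟨hn, le_normalizer (S.LH (S.OL h))⟩)
  have k : ∀ x : M S.p, x.k = false → x * M.mt _ = M.mt _ * x → S.ι x * o = o * S.ι x := fun x hx e =>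
    h1 _ ⟨S.mem_map.2 hx, mem_centralizer_singleton_iff.2 (by rw [← map_mul, e, map_mul])⟩
  have m : ∀ p, mz p * M.mt p = M.mt p * mz p ∧ md p * M.mt p = M.mt p * md p ∧ mu p * M.mt p = M.mt p * mu p ∧
    mq p * M.mt p = M.mt p * mq p := by decide +kernel
  rintro _ ⟨x, hx, rfl⟩
  exact c1_cen hx (k _ rfl (m _).1) (fun _ => k _ rfl (m _).2.1) (fun _ => k _ rfl rfl)
    (fun _ => (c1_odds hc ho hn (c1_odd h)).symm) (fun _ => k _ rfl (m _).2.2.1) fun _ => k _ rfl (m _).2.2.2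

theorem c1_chi {n : G} (hn : n ∈ 𝒩(S.R1)) (hs : n * S.s = S.s * n) :
    ∃ v ∈ sQ1 S.p, n * S.t * n⁻¹ = S.t * S.ι v := by
  obtain ⟨a, ha, e⟩ := c1_act hn (x := M.mt _) rfl
  have h1 : a.c = true := by
    by_contra h
    have h2 := congrArg S.ι ((c1_m2 _ hc.ws a ha).2.2 (by simpa using h))
    rw [map_mul, map_mul, ← e] at h2
    have h3 : S.t * S.s = S.s * S.t :=
      calc S.t * S.s = n⁻¹ * (n * S.t * n⁻¹ * (S.s * n)) := by rw [← hs]; group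
        _ = n⁻¹ * (S.s * n) * S.t := by rw [← mul_assoc (n * S.t * n⁻¹), h2]; group
        _ = _ := by rw [← hs]; group
    rw [← map_mul, ← map_mul, S.eq_iff, (c1_m2 _ hc.ws _ rfl).2] at h3
    exact Bool.noConfusion h3
  refine ⟨M.mt _ * a, ⟨by rw [mul_k, ha]; rfl, by rw [mul_c, h1]; rfl⟩, ?_⟩
  rw [map_mul, ← mul_assoc, S.tt, one_mul, e]

/-- elements of odd order of `N₂` -/
theorem c1_res : pResidualOf 2 (c1N2 S) ≤ S.O ⊓ 𝒞(S.R1) := by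
  refine res_le_of fun n hn hodd => ?_
  obtain ⟨v, hv, e⟩ := c1_chi hc ho hn.1 (c1_odds hc ho hn.1 hodd)
  obtain ⟨c, ⟨c1, c2, c3, c4, c5⟩, ec⟩ := c1_Wq hc ho hn _ (S.mem_map.2 hv)
  have e2 : n ^ 2 * S.t * (n ^ 2)⁻¹ = S.ι (M.mt _ * v * c * v) :=
    calc n ^ 2 * S.t * (n ^ 2)⁻¹ = n * (n * S.t * n⁻¹) * n⁻¹ := by rw [pow_two]; group
      _ = n * (S.t * S.ι v) * n⁻¹ := by rw [e]
      _ = n * S.t * n⁻¹ * (n * S.ι v * n⁻¹ * (S.ι v)⁻¹) * S.ι v := by group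
      _ = _ := by rw [e, ← ec, map_mul, map_mul, map_mul]
  have e3 : n ^ 2 * S.t * (n ^ 2)⁻¹ = S.t ∨ n ^ 2 * S.t * (n ^ 2)⁻¹ = S.t * S.z := by
    have h2 : (M.mt _ * v * c * v) * (M.mt _ * v * c * v) = 1 := S.inj (by
      rw [map_mul, ← e2, map_one, conj_mul, S.tt]; group)
    have k : (M.mt S.p).k = false ∧ (M.mt S.p).c = true ∧ (M.mt S.p).d = false ∧ (M.mt S.p).i = false ∧
      (M.mt S.p).j = false := ⟨rfl, rfl, rfl, rfl, rfl⟩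
    rw [e2, ← map_mul, S.eq_iff, S.eq_iff]
    refine c1_m5 _ hc.ws _ ?_ ?_ ?_ ?_ ?_ h2 <;>
      simp [mul_k, mul_c, mul_d, mul_i, mul_j, k, hv.1, hv.2, c1, c2, c3, c4, c5]
  obtain ⟨o, hO, hC, x, i, e4⟩ := ho.stab _ (pow_mem hn.1 2) e3
  have h3 : (S.ρ0 ^ 3) ^ (i / 3) ∈ S.O ⊓ 𝒞(S.R1) :=
    pow_mem (show _ ∈ S.O ⊓ 𝒞(S.R1) from ⟨S.ρ03, c1_oc hc ho S.ρ03 (pow_mem c1_rhoN 3)⟩) _
  set o' := (S.ρ0 ^ 3) ^ (i / 3) with ho'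
  have e5 : n ^ 2 = o * (S.ι x * S.ρ0 ^ (i % 3)) * o' := by
    rw [e4, ho', ← pow_mul, mul_assoc, mul_assoc, mul_assoc, ← pow_add, Nat.mod_add_div]
  have h4 : S.ι x * S.ρ0 ^ (i % 3) ∈ c1N2 S := by
    have := mul_mem (mul_mem (inv_mem (c1_cN2 hc ho hC)) (pow_mem hn 2)) (inv_mem (c1_cN2 hc ho h3.2))
    rwa [e5, ← mul_assoc, inv_mul_cancel_left, mul_inv_cancel_right] at this
  have h5 := c1_N2 h4 (v := S.u) (S.mem_map.2 ⟨rfl, rfl⟩)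
  have h6 : i % 3 = 0 := by
    by_contra h
    rcases (by omega : i % 3 = 1 ∨ i % 3 = 2) with h | h <;> rw [h] at h5
    · refine (c1_m4 _ x).2.2.1 (S.mem_map.1 ?_)
      convert h5 using 1
      simp only [map_mul, map_inv, ← S.ρ0u]; group
    · refine (c1_m4 _ x).2.2.2 (S.mem_map.1 ?_)
      convert h5 using 1
      rw [map_mul, map_mul, map_mul, ← S.ρ0q, ← S.ρ0u, map_inv, map_inv, pow_two]; group
  rw [h6, pow_zero, mul_one] at h4 e5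
  have hx : S.ι x ∈ S.R1 := S.mem_map.2 ((c1_iota hc ho).1 h4)
  have h7 : o * o' ∈ S.O ⊓ 𝒞(S.R1) := mul_mem (show _ ∈ S.O ⊓ 𝒞(S.R1) from ⟨hO, hC⟩) h3
  refine mem_of_pow_mem_of_coprime (n := 2 ^ 4) (hodd.pow_right 4) ?_
  have e6 : n ^ 2 = S.ι x * (o * o') := by rw [e5, ← comm_of_mem hC hx, mul_assoc]
  rw [show 2 ^ 4 = 2 * 8 from rfl, pow_mul, e6, Commute.mul_pow (comm_of_mem h7.2 hx), ← map_pow, pow8, map_one,
    one_mul]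
  exact pow_mem h7 8

/-- `N = N₂ C_N(t)` -/
theorem c1_dec {n : G} (hn : n ∈ 𝒩(S.R1)) : ∃ m ∈ c1N2 S, m * S.t * m⁻¹ = n * S.t * n⁻¹ := by
  let Re : Bool → Bool → Bool → Bool → Prop := fun α β γ ε => ∃ g ∈ 𝒩(S.R1), g * S.t = S.t * g ∧ ∃ a b : M S.p,
    a ∈ sQ1 _ ∧ b ∈ sQ1 _ ∧ g * S.u * g⁻¹ = S.ι a ∧ g * S.q * g⁻¹ = S.ι b ∧ a.i = α ∧ a.j = β ∧ b.i = γ ∧ b.j = ε
  have st : ∀ {α β γ ε}, Re α β γ ε → Re β (α ^^ β) ε (γ ^^ ε) := by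
    rintro _ _ _ _ ⟨g, hg, ht, a, b, ha, hb, ea, eb, rfl, rfl, rfl, rfl⟩
    refine ⟨S.ρ0 * g, mul_mem c1_rhoN hg, ?_, c1r a, c1r b, ⟨(c1_m6 _ a).1, (c1_m6 _ a).2.1.trans ha.2⟩,
      ⟨(c1_m6 _ b).1, (c1_m6 _ b).2.1.trans hb.2⟩, ?_, ?_, (c1_m6 _ a).2.2.1, (c1_m6 _ a).2.2.2,
      (c1_m6 _ b).2.2.1, (c1_m6 _ b).2.2.2⟩
    · rw [mul_assoc, ht, ← mul_assoc, mem_centralizer_singleton_iff.1 (S.LH S.ρ0L), mul_assoc]
    · rw [← c1_rho a ha.1, ← ea]; group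
    · rw [← c1_rho b hb.1, ← eb]; group
  have b1 : Re true false false true := ⟨1, one_mem _, by simp, mu _, mq _, ⟨rfl, rfl⟩, ⟨rfl, rfl⟩, by simp, by simp,
    rfl, rfl, rfl, rfl⟩
  have b2 : Re true false true true := ⟨S.w, c1_S1N ⟨_, rfl⟩, by
      rw [← map_mul, ← map_mul, (by decide +kernel : ∀ p, mw p * M.mt p = M.mt p * mw p)],
    mw _ * mu _ * (mw _)⁻¹, mw _ * mq _ * (mw _)⁻¹, ⟨rfl, rfl⟩, ⟨rfl, rfl⟩, by simp, by simp, rfl, rfl, rfl, rfl⟩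
  obtain ⟨a, ha, ea⟩ := conj_mem (c1_Q1 hc ho hn) (S.mem_map.2 ⟨rfl, rfl⟩ : S.u ∈ S.Q1)
  obtain ⟨b, hb, eb⟩ := conj_mem (c1_Q1 hc ho hn) (S.mem_map.2 ⟨rfl, rfl⟩ : S.q ∈ S.Q1)
  have nz : ∀ x y : M S.p, S.ι y = n * S.ι x * n⁻¹ → y ∈ sZ1 _ → x ∈ sZ1 _ := fun x y e hy => by
    have := conj_mem' (c1_Z1 hc ho hn) (S.mem_map.2 hy)
    rw [e] at this
    exact S.mem_map.1 (by simpa [mul_assoc] using this)
  have n1 : ¬ (a.i = false ∧ a.j = false) := fun h => Bool.noConfusion (nz _ _ ea ⟨ha.1, ha.2, h⟩).2.2.1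
  have n2 : ¬ (b.i = false ∧ b.j = false) := fun h => Bool.noConfusion (nz _ _ eb ⟨hb.1, hb.2, h⟩).2.2.2
  have n3 : ¬ (a.i = b.i ∧ a.j = b.j) := fun h => Bool.noConfusion (nz (mu _ * mq _) (a * b) (by
    rw [map_mul, map_mul, ea, eb]; group) ⟨(mul_mem ha hb).1, (mul_mem ha hb).2, by simp [mul_i, ha.1, h.1],
      by simp [mul_j, h.2]⟩).2.2.1
  obtain ⟨g, hg, ht, a', b', ha', hb', ea', eb', h1, h2, h3, h4⟩ : Re a.i a.j b.i b.j := by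
    have := st b1; have := st this; have := st b2; have := st this
    revert n1 n2 n3
    cases a.i <;> cases a.j <;> cases b.i <;> cases b.j <;> simp only [Bool.xor_self, Bool.true_xor, Bool.false_xor,
      Bool.not_false, Bool.not_true] at * <;> first | (intros; assumption) | simp
  have k : ∀ x y y' : M S.p, y ∈ sQ1 _ → y' ∈ sQ1 _ → y'.i = y.i → y'.j = y.j → S.ι y = n * S.ι x * n⁻¹ →
      g * S.ι x * g⁻¹ = S.ι y' → g⁻¹ * n * S.ι x * (g⁻¹ * n)⁻¹ * (S.ι x)⁻¹ ∈ S.Z1 := by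
    intro x y y' hy hy' hi hj e e'
    have h5 : y * y'⁻¹ ∈ sZ1 _ := ⟨(mul_mem hy (inv_mem hy')).1, (mul_mem hy (inv_mem hy')).2,
      by simp [mul_i, hy.1, ((c1_inv _ y').2 hy'.1).2.1, hi], by simp [mul_j, ((c1_inv _ y').2 hy'.1).2.2, hj]⟩
    have := conj_mem' (c1_Z1 hc ho hg) (S.mem_map.2 h5)
    rw [map_mul, map_inv, e, ← e'] at this
    convert this using 1; group
  have hm := c1_mem hc ho (mul_mem (inv_mem hg) hn) (k _ _ _ ha ha' h1 h2 ea ea') (k _ _ _ hb hb' h3 h4 eb eb')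
  refine ⟨_, conj_mem (c1_nN2 hc ho hg) hm, ?_⟩
  calc _ = n * (g⁻¹ * (S.t * g)) * n⁻¹ := by group
    _ = _ := by rw [← ht]; group

end

theorem c1 : C1S.{u} := by
  intro G _ _ S hc ho
  have : Fact (Nat.Prime 2) := ⟨Nat.prime_two⟩
  obtain ⟨R', hR', hS1⟩ := exists_isSylowIn_ge S.isP1 (c1_S1N (S := S))
  have hR : IsSylowIn 2 (R' ⊓ c1N2 S) (c1N2 S) := syl_inf_of_norm hR' inf_le_left (hR'.le.trans (c1_nN2 hc ho))
  have hSR : S.S1 ≤ 𝒩(R' ⊓ c1N2 S) := le_norm_inf (hS1.trans le_normalizer) (c1_S1N.trans (c1_nN2 hc ho))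
  set R := R' ⊓ c1N2 S with hRd
  have hRN : R ≤ 𝒩(S.R1) := fun _ h => h.2.1
  have hι : ∀ x : M S.p, x.k = false → S.ι x ∈ R := fun x hx => ⟨hS1 ⟨x, rfl⟩, (c1_iota hc ho).2 hx⟩
  have nW : ∀ g ∈ 𝒩(S.R1), g ∈ 𝒩(R) → g ∈ 𝒩(R ⊓ 𝒞(S.Z0)) := fun g h1 h2 =>
    inf_normalizer_le_normalizer_inf ⟨h2, norm_le_norm_cent _ (c1_Z0 hc ho h1)⟩
  have hs : S.s ∈ S.Z0 := S.mem_map.2 ⟨rfl, rfl, rfl, rfl, rfl⟩
  have orbN : ∀ n ∈ 𝒩(S.R1), ∃ x ∈ R ⊓ 𝒞(S.Z0), x * S.t * x⁻¹ = n * S.t * n⁻¹ := by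
    intro n hn
    obtain ⟨m, hm, e⟩ := c1_dec hc ho hn
    obtain ⟨x, hx, o, ho', rfl⟩ := exists_syl_mul_res hR hm
    have e1 : x * S.t * x⁻¹ = n * S.t * n⁻¹ := by
      have h0 : o * S.t * o⁻¹ = S.t := conj_eq_of_mem (c1_res hc ho ho').2 (S.mem_map.2 rfl : S.t ∈ S.R1)
      rw [← e]
      conv_lhs => rw [← h0]
      group
    rcases hc.ns x (hRN hx) with h | h
    · exact ⟨x, ⟨hx, c1_cz0 (mul_inv_eq_iff_eq_mul.1 h) (ho.nz x (hRN hx))⟩, e1⟩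
    · have hxt := mul_mem hx (hι (M.mt _) rfl)
      refine ⟨x * S.t, ⟨hxt, c1_cz0 ?_ (ho.nz _ (hRN hxt))⟩, by rw [← e1]; group⟩
      have h1 : S.t * S.s = S.s * S.z * S.t := by
        rw [← map_mul, ← map_mul, ← map_mul, S.eq_iff]
        exact (by decide +kernel : ∀ p, p.ws = true → M.mt p * ms p = ms p * mz p * M.mt p) _ hc.ws
      calc x * S.t * S.s = x * S.s * x⁻¹ * (x * S.z * x⁻¹) * (x * S.t) := by rw [mul_assoc, h1]; group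
        _ = _ := by rw [h, c1_z hc ho (hRN hx), mul_assoc S.s, S.zz, mul_one]
  have cenW : ∀ o ∈ S.O, o ∈ 𝒩(S.R1) → o ∈ 𝒩(R) → o ∈ 𝒞(R ⊓ 𝒞(S.Z0)) := by
    intro o h1 h2 h3 b hb
    have h4 := mem_res (p := 2) (c1_cN2 hc ho (c1_oc hc ho h1 h2)) (c1_odd h1)
    have h5 : b * o * b⁻¹ * o⁻¹ ∈ S.O :=
      (c1_res hc ho (mul_mem (conj_mem (le_norm_res (c1_nN2 hc ho) (hRN hb.1)) h4) (inv_mem h4))).1
    have h6 : b * o * b⁻¹ * o⁻¹ ∈ R := by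
      rw [mul_assoc, mul_assoc, ← mul_assoc o]; exact mul_mem hb.1 (conj_mem h3 (inv_mem hb.1))
    have := eq_one_of_coprime_of_mem hR.isPGroup (c1_odd h5) h6
    calc b * o = b * o * b⁻¹ * o⁻¹ * (o * b) := by group
      _ = o * b := by rw [this, one_mul]
  obtain ⟨n, hn, hnr⟩ := hR.frattini (c1_nN2 hc ho) (c1_rhoN (S := S))
  obtain ⟨x, hx, o, ho', rfl⟩ := exists_syl_mul_res hR hn
  obtain ⟨hO, hC⟩ := c1_res hc ho ho'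
  have hr : o * S.ρ0 ∈ 𝒩(R) := by
    have := mul_mem (inv_mem (le_normalizer hx)) hnr
    rwa [mul_assoc x, inv_mul_cancel_left] at this
  have hrN : o * S.ρ0 ∈ 𝒩(S.R1) := mul_mem (cent_le_norm _ hC) c1_rhoN
  have hρO : S.ρ0 ∈ 𝒩(S.O) := S.On (S.LH S.ρ0L)
  have e0 : o * S.ρ0 = S.ρ0 * (S.ρ0⁻¹ * o * S.ρ0) := by group
  refine ⟨R ⊓ 𝒞(S.Z0), o * S.ρ0, hc.ws, hc.al, hR.isPGroup.to_inf_left, fun n h => (comm_of_mem h.2 hs).symm,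
    fun n h => ho.nz n (hRN h.1), inf_le_left.trans hRN, fun g h => nW g (c1_S1N h) (hSR h), nW _ hrN hr,
    fun y => ⟨fun h => ?_, fun h => ⟨hι y h.1, c1_cz0 ?_ (S.z_comm y)⟩⟩, fun n h => c1_Wq hc ho h.1.2,
    fun n h => ?_, fun c h1 h2 => ?_, fun b hb => ?_, ?_, ?_, ?_⟩
  · have hk := (c1_iota hc ho).1 h.1.2
    exact ⟨hk, (c1_m2 _ hc.ws y hk).2.1 (S.inj (by rw [map_mul, map_mul]; exact (comm_of_mem h.2 hs).symm))⟩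
  · rw [← map_mul, (c1_m2 _ hc.ws y h.1).2.2 h.2, map_mul]
  · obtain ⟨v, hv, e⟩ := c1_chi hc ho (hRN h.1) (comm_of_mem h.2 hs).symm
    rw [e, ← mul_assoc, S.tt, one_mul]
    exact S.mem_map.2 hv
  · obtain ⟨n, hn, e⟩ := ho.orb c h1 h2
    exact e ▸ orbN n hn
  · rw [← conj_eq_of_mem hC (conj_mem c1_rhoN hb)]; group
  · refine cenW _ ?_ (pow_mem hrN 3) (pow_mem hr 3)
    obtain ⟨k, hk, e⟩ := exists_mul_pow_eq hρO (conj_mem' hρO hO) 3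
    rw [e0, e]
    exact mul_mem S.ρ03 hk
  · refine cenW _ ?_ (pow_mem (mul_mem (c1_S1N ⟨_, rfl⟩) hrN) 2) (pow_mem (mul_mem (hSR ⟨_, rfl⟩) hr) 2)
    have hw : S.w' ∈ S.H := mem_centralizer_singleton_iff.2 (by
      rw [← map_mul, ← map_mul, (by decide +kernel : ∀ p, mw' p * M.mt p = M.mt p * mw' p)])
    obtain ⟨k, hk, e⟩ := exists_mul_pow_eq (mul_mem (S.On hw) hρO) (conj_mem' hρO hO) 2
    rw [e0, ← mul_assoc, e]
    exact mul_mem S.ρ0i hk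
  · obtain ⟨n, hn, h⟩ := hc.np
    obtain ⟨x, hx, e⟩ := orbN n hn
    exact ⟨x, hx, e ▸ h⟩

end CL.H33
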