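/-
Project H33 (S3139): the subgroup `J` of order 64 in case (c).
-/
import Cfsg.Agent.H33.Defs3

set_option autoImplicit false
set_option linter.unusedSectionVars false
open Cfsg Subgroup CL.Even CL.Grp

namespace CL.H33
open M

universe u

/-- the action of `ρ₀` on `R₁` -/
def c2φ {p : Ty} (y : M p) : M p := cond y.d (md p) 1 * cond y.z (mz p) 1 * cond y.c (M.mt p) 1 * cond y.e (ms p) 1 *
  cond y.i (mq p) 1 * cond y.j (mu p * mq p) 1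

theorem c2_φ : ∀ (p : Ty) (y : M p), (c2φ y).d = y.d ∧ (c2φ y).c = y.c ∧ (c2φ y).k = false ∧ (c2φ y).i = y.j ∧
    (c2φ y).j = (y.i ^^ y.j) ∧ (y.k = false → c2φ (c2φ (c2φ y)) = y) := by decide +kernel

theorem c2_d0 : ∀ p : Ty, c2φ (M.mt p) = M.mt p ∧ c2φ (mz p) = mz p ∧ c2φ (ms p) = ms p ∧ c2φ (md p) = md p ∧
    mw' p * mw' p = 1 ∧ mw' p * M.mt p = M.mt p * mw' p ∧ mw p = mw' p * (mu p)⁻¹ ∧ mu p * mu p = mz p ∧
    mq p * mq p = mz p ∧ M.mt p * (md p * M.mt p * (md p)⁻¹) = 1 := by decide +kernel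

set_option synthInstance.maxSize 2048 in
theorem c2_d1 : ∀ (p : Ty) (y : M p), y.k = false → y.c = false →
    (M.mt p * (y * M.mt p * y⁻¹) = 1 ∨ M.mt p * (y * M.mt p * y⁻¹) = mz p) ∧ y * md p = md p * y ∧
    (y * mu p = mu p * y → y * mq p = mq p * y → y.i = false ∧ y.j = false) ∧
    (y.i = false → y.j = false → y = cond y.d (md p) 1 * cond y.z (mz p) 1 * cond y.e (ms p) 1 ∧
      (y * y = 1 ↔ y.d = false) ∧ (y.d = false → M.mt p * y * (M.mt p * y) = 1 → y = 1 ∨ y = mz p) ∧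
      (y.d = true → (md p).d = true)) := by decide +kernel

theorem c2_d2 : ∀ p : Ty, p.al = false → ∀ y : M p, y.k = false → y.c = false → y.d = false →
    ∀ g, g = M.mt p ∨ g = mw' p → (g * y * g⁻¹).k = false ∧ (g * y * g⁻¹).c = false ∧ (g * y * g⁻¹).d = false ∧
      (y.i = false → y.j = false → (g * y * g⁻¹).i = false ∧ (g * y * g⁻¹).j = false) := by
  intro p h y h1 h2 h3 g hg
  rcases hg with rfl | rfl <;> revert p <;> decide +kernel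

theorem c2_inv : ∀ (p : Ty) (y : M p), y.k = false → y⁻¹.k = false ∧ y⁻¹.c = y.c ∧ y⁻¹.d = y.d ∧ y⁻¹.i = y.i ∧
    y⁻¹.j = y.j := by decide +kernel

theorem c2_card (p : Ty) (h : p.ws = true) : Nat.card (sQ0 p) = 16 := by
  rw [Nat.card_congr (show sQ0 p ≃ Bool × Bool × Bool × Bool from
    ⟨fun x => (x.1.z, x.1.e, x.1.i, x.1.j), fun v => ⟨mk' p false v.1 false v.2.1 v.2.2.1 v.2.2.2 false, rfl, rfl, rfl⟩,
      fun x => Subtype.ext (M.ext x.2.2.2.symm rfl x.2.2.1.symm (by simp [mk', h]) rfl rfl x.2.1.symm),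
      fun v => by simp [mk', h]⟩)]
  simp

variable {G : Type u} [Group G]

theorem c2_quot (J Z : Subgroup G) (hc : ∀ a ∈ J, ∀ b ∈ J, a * b * a⁻¹ * b⁻¹ ∈ Z) :
    ∃ (A : Type u) (_ : CommGroup A) (f : G → A), (∀ a ∈ J, ∀ b ∈ J, f (a * b) = f a * f b) ∧
      ∀ a ∈ J, (f a = 1 ↔ a ∈ Z) := by
  classical
  have : (Z.subgroupOf J).Normal := ⟨fun z hz a => by
    have := Z.mul_mem (hc a a.2 z z.2) (show (z : G) ∈ Z from hz)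
    rwa [inv_mul_cancel_right] at this⟩
  refine ⟨J ⧸ Z.subgroupOf J, { (inferInstance : Group (J ⧸ Z.subgroupOf J)) with mul_comm := ?_ },
    fun g => if h : g ∈ J then ((⟨g, h⟩ : J) : J ⧸ Z.subgroupOf J) else 1, fun a ha b hb => ?_, fun a ha => ?_⟩
  · rintro ⟨a⟩ ⟨b⟩
    refine QuotientGroup.eq.2 ?_
    simpa [mem_subgroupOf, mul_assoc] using hc _ (J.inv_mem b.2) _ (J.inv_mem a.2)
  · simp only [dif_pos ha, dif_pos hb, dif_pos (J.mul_mem ha hb)]; rfl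
  · simp only [dif_pos ha]; exact QuotientGroup.eq_one_iff _

/-- `χ (x)` in the model -/
noncomputable def c2m (S : HD G) (x : G) : M S.p := Function.invFun S.ι (S.t * (x * S.t * x⁻¹))

theorem c2m_eq {S : HD G} {x : G} {y : M S.p} (h : S.t * (x * S.t * x⁻¹) = S.ι y) : c2m S x = y := by
  rw [c2m, h, Function.leftInverse_invFun S.inj]

theorem c2_comm {S : HD G} {g : G} (hs : g * S.s = S.s * g) (hz : g * S.z = S.z * g) {y : M S.p} (hy : y ∈ sZ1 S.p)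
    (hd : y.d = false ∨ g * S.δ = S.δ * g) : g * S.ι y = S.ι y * g := by
  have k : ∀ (b : Bool) (a : M S.p), b = false ∨ g * S.ι a = S.ι a * g → Commute g (S.ι (cond b a 1)) := by
    rintro (_ | _) a h
    · simp
    · exact h.resolve_left (by decide)
  rw [((c2_d1 _ y hy.1 hy.2.1).2.2.2 hy.2.2.1 hy.2.2.2).1, map_mul, map_mul]
  exact ((k _ _ hd).mul_right (k _ _ (.inr hz))).mul_right (k _ _ (.inr hs))

namespace HD.Cw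

variable [Finite G] {S : HD G} {W : Subgroup G} {r x x' : G} (h : S.Cw W r)
include h

theorem c2_ι (hx : x ∈ W) : S.ι (c2m S x) = S.t * (x * S.t * x⁻¹) ∧ c2m S x ∈ sQ1 S.p := by
  obtain ⟨y, hy, e⟩ := h.chi x hx
  rw [c2m_eq e.symm]
  exact ⟨e, hy⟩

theorem c2_Z0 (hx : x ∈ W) {ζ : G} (hζ : ζ ∈ S.Z0) : x * ζ = ζ * x := by
  obtain ⟨y, hy, rfl⟩ := hζ
  exact c2_comm (h.Ws x hx) (h.Wz x hx) ⟨hy.1, hy.2.1, hy.2.2.2⟩ (.inl hy.2.2.1)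

theorem c2_mul (hx : x ∈ W) (hx' : x' ∈ W) : (c2m S (x * x')).d = ((c2m S x).d ^^ (c2m S x').d) ∧
    (c2m S (x * x')).i = ((c2m S x).i ^^ (c2m S x').i) ∧ (c2m S (x * x')).j = ((c2m S x).j ^^ (c2m S x').j) := by
  obtain ⟨e, m⟩ := h.c2_ι hx
  obtain ⟨e', m'⟩ := h.c2_ι hx'
  obtain ⟨ζ, hζ, eζ⟩ := h.Wq x hx _ (h.chi x' hx')
  have : c2m S (x * x') = c2m S x * ζ * c2m S x' := c2m_eq (by
    rw [map_mul, map_mul, e, e', eζ]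
    calc S.t * (x * x' * S.t * (x * x')⁻¹) = S.t * (x * (S.t * S.t) * x' * S.t * (x * x')⁻¹) := by
          rw [S.tt, mul_one]
      _ = _ := by group)
  rw [this]
  simp [mul_d, mul_i, mul_j, mul_k, m.1, hζ.1, hζ.2.2.1, hζ.2.2.2.1, hζ.2.2.2.2]

theorem c2_r {y : M S.p} (hy : y.k = false) : r * S.ι y * r⁻¹ = S.ι (c2φ y) := by
  rw [h.ract _ (mem_map_of_mem _ hy)]
  have k : ∀ (b : Bool) (a a' : M S.p), S.ρ0 * S.ι a * S.ρ0⁻¹ = S.ι a' →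
      S.ρ0 * S.ι (cond b a 1) * S.ρ0⁻¹ = S.ι (cond b a' 1) := by
    rintro (_ | _) a a' h
    · simp
    · exact h
  have hz : S.ρ0 * S.z * S.ρ0⁻¹ = S.z := by
    obtain ⟨-, -, -, -, -, -, -, uu, qq, -⟩ := c2_d0 S.p
    conv_lhs => rw [HD.z, ← uu, map_mul, ← conj_mul, S.ρ0u, ← map_mul, qq]
  conv_lhs => rw [nf _ y, hy]
  simp only [c2φ, cond_false, mul_one, map_mul, ← conj_mul]
  rw [k _ _ _ S.ρ0d, k _ _ _ hz, k _ _ _ S.ρ0s, k _ _ _ S.ρ0u, k _ _ _ S.ρ0q,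
    k _ _ _ (mul_inv_eq_iff_eq_mul.2 (mem_centralizer_singleton_iff.1 (S.LH S.ρ0L)))]

theorem c2_r' {y : M S.p} (hy : y.k = false) : r⁻¹ * S.ι y * r = S.ι (c2φ (c2φ y)) := by
  conv_lhs => rw [← (c2_φ _ y).2.2.2.2.2 hy, ← h.c2_r (c2_φ _ _).2.2.1]
  group

theorem c2_rt : r * S.t * r⁻¹ = S.t := (h.c2_r rfl).trans (congrArg _ (c2_d0 _).1)

theorem c2_mr (hx : x ∈ W) : c2m S (r * x * r⁻¹) = c2φ (c2m S x) := c2m_eq (by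
  rw [← h.c2_r (h.c2_ι hx).2.1, (h.c2_ι hx).1]
  conv_lhs => rw [← h.c2_rt]
  group)

theorem c2_mr' (hx : x ∈ W) : c2m S (r⁻¹ * x * r) = c2φ (c2φ (c2m S x)) := c2m_eq (by
  rw [← h.c2_r' (h.c2_ι hx).2.1, (h.c2_ι hx).1]
  conv_rhs => rw [← h.c2_rt]
  group)

theorem c2_ker (hx : x ∈ W) (d : (c2m S x).d = false) (i : (c2m S x).i = false) (j : (c2m S x).j = false) :
    ∃ y ∈ sQ1 S.p, S.ι y = x := by
  obtain ⟨e, m⟩ := h.c2_ι hx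
  have e1 : x * S.t * x⁻¹ = S.t * S.ι (c2m S x) := by rw [e, ← mul_assoc, S.tt, one_mul]
  have := ((c2_d1 _ _ m.1 m.2).2.2.2 i j).2.2.1 d (S.inj (by
    rw [map_mul, map_mul, ← show _ = S.ι (M.mt _) * _ from e1, conj_mul, S.tt, map_one]; simp))
  obtain ⟨y, rfl⟩ := S.nT h.ws (isPGroup_sup S.isP1 h.two h.S1n) le_sup_left (mem_sup_right hx) (by
    rw [e1]
    exact this.imp (fun k => by rw [k, map_one, mul_one]) fun k => by rw [k])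
  exact ⟨y, (h.mem y).1 hx, rfl⟩

theorem c2_Q0 (hx : x ∈ W) : S.t * (x * S.t * x⁻¹) ∈ S.Q0 ↔ (c2m S x).d = false := by
  obtain ⟨e, m⟩ := h.c2_ι hx
  rw [← e, S.mem_map]
  exact ⟨fun k => k.2.2, fun k => ⟨m.1, m.2, k⟩⟩

theorem c2_N (hx : x ∈ W) (d : (c2m S x).d = false) :
    ∃ y ∈ sQ1 S.p, S.ι y = x * (r * x * r⁻¹) * (r⁻¹ * x * r) := by
  have a := conj_mem h.rn hx
  have b := conj_mem' h.rn hx
  obtain ⟨k1, k2, k3⟩ := h.c2_mul (mul_mem hx a) b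
  obtain ⟨l1, l2, l3⟩ := h.c2_mul hx a
  refine h.c2_ker (mul_mem (mul_mem hx a) b) ?_ ?_ ?_ <;>
    simp only [k1, k2, k3, l1, l2, l3, h.c2_mr hx, h.c2_mr' hx, c2_φ, d] <;>
    cases (c2m S x).i <;> cases (c2m S x).j <;> rfl

theorem c2_del (hx : x ∈ W) (d : (c2m S x).d = false) : x * S.δ = S.δ * x := by
  have hζ := h.Wq x hx S.δ (mem_map_of_mem _ ⟨rfl, rfl⟩)
  obtain ⟨ζ, e⟩ : ∃ ζ, x * S.δ * x⁻¹ = ζ * S.δ := ⟨x * S.δ * x⁻¹ * S.δ⁻¹, by group⟩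
  rw [e, mul_inv_cancel_right] at hζ
  have rδ : r * S.δ * r⁻¹ = S.δ := (h.c2_r rfl).trans (congrArg _ (c2_d0 _).2.2.2.1)
  obtain ⟨y, hy, rfl⟩ := id hζ
  have rζ : r * S.ι y = S.ι y * r := c2_comm
    (mul_inv_eq_iff_eq_mul.1 ((h.c2_r rfl).trans (congrArg _ (c2_d0 _).2.2.1)))
    (mul_inv_eq_iff_eq_mul.1 ((h.c2_r rfl).trans (congrArg _ (c2_d0 _).2.1))) ⟨hy.1, hy.2.1, hy.2.2.2⟩ (.inl hy.2.2.1)
  have yy : S.ι y * S.ι y = 1 := by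
    rw [← map_mul, ((c2_d1 _ y hy.1 hy.2.1).2.2.2 hy.2.2.2.1 hy.2.2.2.2).2.1.2 hy.2.2.1, map_one]
  generalize S.ι y = ζ at e hζ rζ yy
  have e1 : r * x * r⁻¹ * S.δ * (r * x * r⁻¹)⁻¹ = ζ * S.δ := by
    conv_lhs => rw [← rδ]
    calc _ = r * (x * S.δ * x⁻¹) * r⁻¹ := by group
      _ = _ := by rw [e, ← mul_assoc, rζ, mul_assoc, mul_assoc, ← mul_assoc r, rδ]
  have e2 : r⁻¹ * x * r * S.δ * (r⁻¹ * x * r)⁻¹ = ζ * S.δ := by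
    calc _ = r⁻¹ * (x * (r * S.δ * r⁻¹) * x⁻¹) * r := by group
      _ = r⁻¹ * (ζ * r * S.δ) := by rw [rδ, e, mul_assoc, mul_assoc, mul_assoc, mul_inv_eq_iff_eq_mul.1 rδ]
      _ = _ := by rw [← rζ]; group
  obtain ⟨v, hv, ev⟩ := h.c2_N hx d
  have e3 : S.ι v * S.δ * (S.ι v)⁻¹ = S.δ := by
    rw [← map_mul, (c2_d1 _ v hv.1 hv.2).2.1, map_mul, mul_inv_cancel_right]
  have a := h.c2_Z0 (conj_mem h.rn hx) hζ
  generalize r * x * r⁻¹ = x1 at e1 ev a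
  generalize r⁻¹ * x * r = x2 at e2 ev
  rw [ev, show x * x1 * x2 * S.δ * (x * x1 * x2)⁻¹ = x * (x1 * (x2 * S.δ * x2⁻¹) * x1⁻¹) * x⁻¹ by group, e2,
    ← mul_assoc x1, a, mul_assoc ζ, mul_assoc ζ, e1, ← mul_assoc ζ, yy, one_mul] at e3
  exact mul_inv_eq_iff_eq_mul.1 e3

theorem c2_sq (hx : x ∈ W) : ∃ y ∈ sZ1 S.p, S.ι y = x * x := by
  obtain ⟨k1, k2, k3⟩ := h.c2_mul hx hx
  obtain ⟨y, hy, e⟩ := h.c2_ker (mul_mem hx hx) (by simp [k1]) (by simp [k2]) (by simp [k3])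
  have k : ∀ v ∈ sQ1 S.p, y * v = v * y := fun v hv => S.inj (by
    have hζ := h.Wq x hx _ (mem_map_of_mem _ hv)
    obtain ⟨ζ, e1⟩ : ∃ ζ, x * S.ι v * x⁻¹ = ζ * S.ι v := ⟨x * S.ι v * x⁻¹ * (S.ι v)⁻¹, by group⟩
    rw [e1, mul_inv_cancel_right] at hζ
    have a := h.c2_Z0 hx hζ
    obtain ⟨c, hc, rfl⟩ := hζ
    have yy : S.ι c * S.ι c = 1 := by
      rw [← map_mul, ((c2_d1 _ c hc.1 hc.2.1).2.2.2 hc.2.2.2.1 hc.2.2.2.2).2.1.2 hc.2.2.1, map_one]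
    rw [map_mul, map_mul, e, ← mul_inv_eq_iff_eq_mul, show x * x * S.ι v * (x * x)⁻¹ = x * (x * S.ι v * x⁻¹) * x⁻¹ by group,
      e1, ← mul_assoc x, a, mul_assoc (S.ι c), mul_assoc (S.ι c), e1, ← mul_assoc, yy, one_mul])
  exact ⟨y, ⟨hy.1, hy.2, (c2_d1 _ y hy.1 hy.2).2.2.1 (k _ ⟨rfl, rfl⟩) (k _ ⟨rfl, rfl⟩)⟩, e⟩

theorem c2_cm (hx : x ∈ W) (d : (c2m S x).d = false) (hx' : x' ∈ W) (d' : (c2m S x').d = false) :
    x * x' * x⁻¹ * x'⁻¹ ∈ S.Z0 := by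
  obtain ⟨a, ha, ea⟩ := h.c2_sq hx
  obtain ⟨b, hb, eb⟩ := h.c2_sq hx'
  obtain ⟨c, hc, ec⟩ := h.c2_sq (mul_mem hx hx')
  have k : x' * (x * x) = x * x * x' := ea ▸ c2_comm (h.Ws _ hx') (h.Wz _ hx') ha (.inr (h.c2_del hx' d'))
  have m : c * a⁻¹ * b⁻¹ ∈ sZ1 S.p := mul_mem (mul_mem hc (inv_mem ha)) (inv_mem hb)
  have e : S.ι (c * a⁻¹ * b⁻¹) = x * x' * x⁻¹ * x'⁻¹ := by
    rw [map_mul, map_mul, map_inv, map_inv, ea, eb, ec]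
    calc _ = x * x' * x * (x' * (x * x)⁻¹) * (x' * x')⁻¹ := by group
      _ = x * x' * x * ((x * x)⁻¹ * x') * (x' * x')⁻¹ := by
        rw [show x' * (x * x)⁻¹ = (x * x)⁻¹ * x' from (Commute.inv_right k).eq]
      _ = _ := by group
  have k2 := c2_comm (h.Ws _ hx) (h.Wz _ hx) m (.inr (h.c2_del hx d))
  generalize c * a⁻¹ * b⁻¹ = g at m e k2
  refine ⟨g, ⟨m.1, m.2.1, ((c2_d1 _ g m.1 m.2.1).2.2.2 m.2.2.1 m.2.2.2).2.1.1 (S.inj ?_), m.2.2⟩, e⟩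
  have e1 : x * x' * x⁻¹ = S.ι g * x' := by rw [e]; group
  rw [map_mul, map_one, ← mul_right_cancel_iff (a := x'), one_mul]
  calc _ = S.ι g * x * x' * x⁻¹ := by rw [mul_assoc, ← e1]; group
    _ = x * (x * x' * x⁻¹) * x⁻¹ := by rw [← k2, e1]; group
    _ = x * x * x' * (x * x)⁻¹ := by group
    _ = x' := by rw [← k, mul_inv_cancel_right]

/-- `J₀ = {x ∈ W | χ (x) ∈ Q₀}` -/
def c2J0 : Subgroup G where
  carrier := {x | x ∈ W ∧ (c2m S x).d = false}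
  one_mem' := ⟨one_mem _, by rw [c2m_eq (y := 1) (by simp [S.tt])]; rfl⟩
  mul_mem' := fun {a b} ha hb => ⟨mul_mem ha.1 hb.1, by rw [(h.c2_mul ha.1 hb.1).1, ha.2, hb.2]; rfl⟩
  inv_mem' := fun {a} ha => ⟨inv_mem ha.1, by
    have := (h.c2_mul ha.1 (inv_mem ha.1)).1
    rw [mul_inv_cancel, c2m_eq (y := 1) (by simp [S.tt]), ha.2] at this
    exact (Bool.false_xor _).symm.trans this.symm⟩

theorem c2_conj {g : G} (hg : g ∈ 𝒩(W)) (ht : g * S.t * g⁻¹ = S.t) (hQ : ∀ v ∈ S.Q0, g * v * g⁻¹ ∈ S.Q0)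
    (hx : x ∈ h.c2J0) : g * x * g⁻¹ ∈ h.c2J0 := by
  refine ⟨conj_mem hg hx.1, (h.c2_Q0 (conj_mem hg hx.1)).1 ?_⟩
  have := hQ _ ((h.c2_Q0 hx.1).2 hx.2)
  convert this using 1
  conv_lhs => rw [← ht]
  group

theorem c2_ιm {y : M S.p} (hy : y ∈ sQ1 S.p) : S.ι y ∈ h.c2J0 ∧ (c2m S (S.ι y)).i = false ∧ (c2m S (S.ι y)).j = false := by
  have e : c2m S (S.ι y) = M.mt _ * (y * M.mt _ * y⁻¹) := c2m_eq (by simp only [map_mul, map_inv])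
  refine ⟨⟨(h.mem y).2 hy, ?_⟩, ?_, ?_⟩ <;> rw [e] <;> rcases (c2_d1 _ y hy.1 hy.2).1 with k | k <;> rw [k] <;> rfl

end HD.Cw

theorem c2 : C2S.{u} := by
  intro G _ _ S W r h
  obtain ⟨A, _, f, fm, f1⟩ := c2_quot h.c2J0 S.Z0 fun a ha b hb => h.c2_cm ha.1 ha.2 hb.1 hb.2
  have r1 : ∀ x ∈ h.c2J0, r * x * r⁻¹ ∈ h.c2J0 := fun x hx =>
    ⟨conj_mem h.rn hx.1, by rw [h.c2_mr hx.1, (c2_φ _ _).1, hx.2]⟩
  have r2 : ∀ x ∈ h.c2J0, r⁻¹ * x * r ∈ h.c2J0 := fun x hx =>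
    ⟨conj_mem' h.rn hx.1, by rw [h.c2_mr' hx.1, (c2_φ _ _).1, (c2_φ _ _).1, hx.2]⟩
  let N : G → G := fun x => x * (r * x * r⁻¹) * (r⁻¹ * x * r)
  have NJ : ∀ x ∈ h.c2J0, N x ∈ h.c2J0 := fun x hx => mul_mem (mul_mem hx (r1 x hx)) (r2 x hx)
  have fN : ∀ x ∈ h.c2J0, f (N x) = f x * f (r * x * r⁻¹) * f (r⁻¹ * x * r) := fun x hx => by
    rw [fm _ (mul_mem hx (r1 x hx)) _ (r2 x hx), fm _ hx _ (r1 x hx)]
  have Nm : ∀ x ∈ h.c2J0, ∀ y ∈ h.c2J0, f (N (x * y)) = f (N x) * f (N y) := fun x hx y hy => by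
    rw [fN _ (mul_mem hx hy), fN x hx, fN y hy, ← conj_mul, show r⁻¹ * (x * y) * r = r⁻¹ * x * r * (r⁻¹ * y * r) by group,
      fm x hx y hy, fm _ (r1 x hx) _ (r1 y hy), fm _ (r2 x hx) _ (r2 y hy)]
    ac_rfl
  have N1 : N 1 ∈ S.Z0 := by simp [N]
  let J : Subgroup G :=
    { carrier := {x | x ∈ h.c2J0 ∧ N x ∈ S.Z0}
      one_mem' := ⟨one_mem _, N1⟩
      mul_mem' := fun {a b} ha hb => ⟨mul_mem ha.1 hb.1, (f1 _ (NJ _ (mul_mem ha.1 hb.1))).1 (by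
        rw [Nm a ha.1 b hb.1, (f1 _ (NJ a ha.1)).2 ha.2, (f1 _ (NJ b hb.1)).2 hb.2, mul_one])⟩
      inv_mem' := fun {a} ha => ⟨inv_mem ha.1, (f1 _ (NJ _ (inv_mem ha.1))).1 (by
        have := Nm a ha.1 _ (inv_mem ha.1)
        rwa [mul_inv_cancel, (f1 _ (NJ _ (one_mem _))).2 N1, (f1 _ (NJ a ha.1)).2 ha.2, one_mul, eq_comm] at this)⟩ }
  have Nι : ∀ y ∈ sQ1 S.p, N (S.ι y) = S.ι (y * c2φ y * c2φ (c2φ y)) := fun y hy => by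
    simp only [N, map_mul, h.c2_r hy.1, h.c2_r' hy.1]
  have mem : ∀ y, S.ι y ∈ J ↔ y ∈ sQ0 S.p := fun y => by
    refine ⟨fun k => ?_, fun k => ⟨(h.c2_ιm ⟨k.1, k.2.1⟩).1, ?_⟩⟩
    · have m := (h.mem y).1 k.1.1
      have := k.2
      rw [Nι y m, S.mem_map] at this
      refine ⟨m.1, m.2, ?_⟩
      simpa [mul_d, mul_k, c2_φ, m.1] using this.2.2.1
    · rw [Nι y ⟨k.1, k.2.1⟩, S.mem_map]
      refine ⟨?_, ?_, ?_, ?_, ?_⟩ <;> simp [mul_d, mul_k, mul_c, mul_i, mul_j, c2_φ, k.1, k.2.1, k.2.2]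
  have rN : ∀ x ∈ h.c2J0, f (r * N x * r⁻¹) = f (N x) ∧ r * N x * r⁻¹ = N (r * x * r⁻¹) := fun x hx => by
    have e : r * (r * x * r⁻¹) * r⁻¹ = r⁻¹ * x * r := by
      calc _ = r⁻¹ * (r ^ 3 * x * (r ^ 3)⁻¹) * r := by rw [pow_three]; group
        _ = _ := by rw [conj_eq_of_mem h.r3 hx.1]
    refine ⟨?_, by simp only [N]; group⟩
    rw [fN x hx, show r * N x * r⁻¹ = r * x * r⁻¹ * (r * (r * x * r⁻¹) * r⁻¹) * x by simp only [N]; group, e,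
      fm _ (mul_mem (r1 x hx) (r2 x hx)) _ hx, fm _ (r1 x hx) _ (r2 x hx)]
    ac_rfl
  have rJ : ∀ x ∈ J, r * x * r⁻¹ ∈ J := fun x hx => ⟨r1 x hx.1, (f1 _ (NJ _ (r1 x hx.1))).1 (by
    rw [← (rN x hx.1).2, (rN x hx.1).1, (f1 _ (NJ x hx.1)).2 hx.2])⟩
  have δ0 : S.δ ∈ h.c2J0 := (h.c2_ιm (y := md _) ⟨rfl, rfl⟩).1
  have max : ∀ x ∈ h.c2J0, x ∈ J ∨ x * S.δ ∈ J := fun x hx => by
    obtain ⟨y, hy, e⟩ := h.c2_N hx.1 hx.2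
    have k := (rN x hx).1
    have hN := NJ x hx
    change S.ι y = N x at e
    have k2 : r * N x * r⁻¹ * (N x)⁻¹ ∈ S.Z0 := (f1 _ (mul_mem (r1 _ hN) (inv_mem hN))).1 (by
      rw [fm _ (r1 _ hN) _ (inv_mem hN), k, ← fm _ hN _ (inv_mem hN), mul_inv_cancel, f1 _ (one_mem _)]
      exact one_mem _)
    rw [← e, h.c2_r hy.1, ← map_inv, ← map_mul, S.mem_map] at k2
    have k3 := k2.2.2.2.1
    have k4 := k2.2.2.2.2
    simp only [mul_i, mul_j, c2_φ, c2_inv _ y hy.1] at k3 k4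
    have yi : y.i = false := by grind
    have yj : y.j = false := by grind
    cases yd : y.d
    · exact .inl ⟨hx, e ▸ mem_map_of_mem _ ⟨hy.1, hy.2, yd, yi, yj⟩⟩
    · refine .inr ⟨mul_mem hx δ0, (f1 _ (NJ _ (mul_mem hx δ0))).1 ?_⟩
      rw [Nm x hx _ δ0, ← fm _ hN _ (NJ _ δ0), f1 _ (mul_mem hN (NJ _ δ0)), ← e, Nι (md _) ⟨rfl, rfl⟩, ← map_mul,
        S.mem_map, (c2_d0 _).2.2.2.1, (c2_d0 _).2.2.2.1]
      have := ((c2_d1 _ y hy.1 hy.2).2.2.2 yi yj).2.2.2 yd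
      have e0 : (md S.p).k = false ∧ (md S.p).c = false ∧ (md S.p).i = false ∧ (md S.p).j = false := ⟨rfl, rfl, rfl, rfl⟩
      refine ⟨?_, ?_, ?_, ?_, ?_⟩ <;> simp [mul_d, mul_k, mul_c, mul_i, mul_j, hy.1, hy.2, yd, yi, yj, this, e0]
  have onto : ∀ i j : Bool, ∃ x ∈ J, (c2m S x).i = i ∧ (c2m S x).j = j := by
    obtain ⟨n, hn, np⟩ := h.np
    obtain ⟨x, hx, ne⟩ : ∃ x ∈ J, ¬ ((c2m S x).i = false ∧ (c2m S x).j = false) := by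
      obtain ⟨k1, k2, k3⟩ := h.c2_mul hn (conj_mem h.rn hn)
      simp only [h.c2_mr hn, c2_φ] at k1 k2 k3
      have n0 : ¬ ((c2m S n).i = false ∧ (c2m S n).j = false) := fun k => np (by
        obtain ⟨e, m⟩ := h.c2_ι hn
        rw [show n * S.t * n⁻¹ = S.ι (M.mt _ * c2m S n) by rw [map_mul, e, ← mul_assoc, S.tt, one_mul], S.mem_map]
        have e0 : (M.mt S.p).k = false ∧ (M.mt S.p).i = false ∧ (M.mt S.p).j = false := ⟨rfl, rfl, rfl⟩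
        refine ⟨?_, ?_, ?_⟩ <;> simp [mul_k, mul_i, mul_j, m.1, k, e0])
      have x0 : n * (r * n * r⁻¹) ∈ h.c2J0 := ⟨mul_mem hn (conj_mem h.rn hn), by simp [k1]⟩
      rcases max _ x0 with k | k
      · exact ⟨_, k, by rw [k2, k3]; grind⟩
      · obtain ⟨-, l2, l3⟩ := h.c2_mul x0.1 δ0.1
        obtain ⟨-, d2, d3⟩ := h.c2_ιm (y := md _) ⟨rfl, rfl⟩
        exact ⟨_, k, by rw [l2, l3, k2, k3, d2, d3]; grind⟩
    have a := h.c2_mr hx.1.1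
    have b := h.c2_mr (rJ x hx).1.1
    intro i j
    by_cases e0 : i = false ∧ j = false
    · refine ⟨1, one_mem _, ?_⟩
      rw [c2m_eq (y := 1) (by simp [S.tt]), e0.1, e0.2]; exact ⟨rfl, rfl⟩
    by_cases e1 : (c2m S x).i = i ∧ (c2m S x).j = j
    · exact ⟨x, hx, e1⟩
    by_cases e2 : (c2m S (r * x * r⁻¹)).i = i ∧ (c2m S (r * x * r⁻¹)).j = j
    · exact ⟨_, rJ x hx, e2⟩
    refine ⟨_, rJ _ (rJ x hx), ?_⟩
    simp only [a, b, c2_φ] at e2 ⊢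
    grind
  have nrm : ∀ g : M S.p, g = M.mt _ ∨ g = mw' _ → S.ι g * S.t * (S.ι g)⁻¹ = S.t →
      (∀ x ∈ J, (S.ι g)⁻¹ * N (S.ι g * x * (S.ι g)⁻¹) * S.ι g ∈ S.Z0) → S.ι g ∈ 𝒩(J) := fun g hg ht k =>
    mem_normalizer_fintype fun x hx => ⟨h.c2_conj (h.S1n ⟨g, rfl⟩) ht (by
      rintro _ ⟨v, hv, rfl⟩
      obtain ⟨a, b, c, -⟩ := c2_d2 _ h.al v hv.1 hv.2.1 hv.2.2 g hg
      exact ⟨g * v * g⁻¹, ⟨a, b, c⟩, by simp only [map_mul, map_inv]⟩) hx.1, by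
      obtain ⟨v, hv, e⟩ := k x hx
      obtain ⟨a, b, c, d⟩ := c2_d2 _ h.al v hv.1 hv.2.1 hv.2.2.1 g hg
      exact ⟨g * v * g⁻¹, ⟨a, b, c, d hv.2.2.2.1 hv.2.2.2.2⟩, by rw [map_mul, map_mul, map_inv, e]; group⟩⟩
  have tJ : S.t ∈ 𝒩(J) := nrm _ (.inl rfl) (mul_inv_cancel_right _ _) fun x hx => by
    convert hx.2 using 1
    have e : r * S.t = S.t * r := mul_inv_eq_iff_eq_mul.1 h.c2_rt
    have e' : r⁻¹ * S.t = S.t * r⁻¹ := (Commute.inv_left e).eq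
    calc _ = x * (S.t⁻¹ * (r * S.t) * x * (r * S.t)⁻¹ * S.t) * (S.t⁻¹ * (r⁻¹ * S.t) * x * (r⁻¹ * S.t)⁻¹ * S.t) := by
          simp only [N]; group
      _ = _ := by rw [e, e']; simp only [N]; group
  have wJ : S.w' ∈ 𝒩(J) := nrm _ (.inr rfl)
    (by rw [← map_mul, (c2_d0 _).2.2.2.2.2.1, map_mul, mul_inv_cancel_right]) fun x hx => by
    have ww : S.w'⁻¹ = S.w' := inv_eq_of_mul_eq_one_right (by rw [← map_mul, (c2_d0 _).2.2.2.2.1, map_one])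
    have e1 := conj_eq_of_mem h.ri (r2 x hx.1).1
    have e2 := conj_eq_of_mem (inv_mem h.ri) hx.1.1
    have : S.w'⁻¹ * N (S.w' * x * S.w'⁻¹) * S.w' = x * (r⁻¹ * x * r) * (r * x * r⁻¹) := by
      calc _ = x * (S.w'⁻¹ * r * S.w' * x * S.w'⁻¹ * r⁻¹ * S.w') * (S.w'⁻¹ * r⁻¹ * S.w' * x * S.w'⁻¹ * r * S.w') := by
            simp only [N]; group
        _ = x * (S.w' * r * S.w' * x * S.w'⁻¹ * r⁻¹ * S.w'⁻¹) * (S.w'⁻¹ * r⁻¹ * S.w'⁻¹ * x * S.w' * r * S.w') := by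
            rw [ww]
        _ = x * ((S.w' * r) ^ 2 * (r⁻¹ * x * r) * ((S.w' * r) ^ 2)⁻¹) *
            (r * (((S.w' * r) ^ 2)⁻¹ * x * ((S.w' * r) ^ 2)⁻¹⁻¹) * r⁻¹) := by rw [pow_two]; group
        _ = _ := by rw [e1, e2]
    rw [this, ← f1 _ (mul_mem (mul_mem hx.1 (r2 x hx.1)) (r1 x hx.1)), fm _ (mul_mem hx.1 (r2 x hx.1)) _ (r1 x hx.1),
      fm _ hx.1 _ (r2 x hx.1), mul_right_comm, ← fN x hx.1, f1 _ (NJ x hx.1)]
    exact hx.2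
  have dJ : ∀ x ∈ J, x * S.δ = S.δ * x := fun x hx => h.c2_del hx.1.1 hx.1.2
  refine ⟨J, h, fun x hx => hx.1.1, ?_, mem, ?_, mem_normalizer_fintype rJ, dJ, fun x hx => ?_,
    fun x hx y hy => h.c2_cm hx.1.1 hx.1.2 hy.1.1 hy.1.2, fun x hx => hx.2, fun x hx => (h.c2_Q0 hx.1.1).2 hx.1.2,
    ?_, fun x hx k => max x ⟨hx, (h.c2_Q0 hx).1 k⟩, fun x hx k l => ⟨⟨hx, (h.c2_Q0 hx).1 k⟩, l⟩⟩
  · let b : Bool → ZMod 2 := fun a => cond a 1 0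
    have hb : ∀ a a', b (a ^^ a') = b a + b a' := by decide
    let ψ : J →* Multiplicative (ZMod 2 × ZMod 2) :=
      MonoidHom.mk' (fun x => .ofAdd (b (c2m S x).i, b (c2m S x).j)) fun x y => by
        obtain ⟨-, k2, k3⟩ := h.c2_mul x.2.1.1 y.2.1.1
        rw [coe_mul, k2, k3, hb, hb]; rfl
    have rg : ψ.range = ⊤ := MonoidHom.range_eq_top.2 fun v => by
      obtain ⟨i, j, e⟩ := (by decide : ∀ v : ZMod 2 × ZMod 2, ∃ i j, (b i, b j) = v) (Multiplicative.toAdd v)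
      obtain ⟨x, hx, rfl, rfl⟩ := onto i j
      exact ⟨⟨x, hx⟩, congrArg Multiplicative.ofAdd e⟩
    have le : S.Q0 ≤ J := by rintro _ ⟨y, hy, rfl⟩; exact (mem y).2 hy
    have ker : ψ.ker = S.Q0.subgroupOf J := Subgroup.ext fun x => by
      refine ⟨fun k => ?_, fun ⟨y, hy, e⟩ => ?_⟩
      · obtain ⟨k1, k2⟩ := (by decide : ∀ i j, (b i, b j) = 0 → i = false ∧ j = false) _ _
          (congrArg Multiplicative.toAdd k)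
        obtain ⟨y, -, e⟩ := h.c2_ker x.2.1.1 x.2.1.2 k1 k2
        exact ⟨y, (mem y).1 (e ▸ x.2), e⟩
      · obtain ⟨-, k1, k2⟩ := h.c2_ιm (y := y) ⟨hy.1, hy.2.1⟩
        show Multiplicative.ofAdd (b (c2m S x).i, b (c2m S x).j) = 1
        rw [← show S.ι y = x from e, k1, k2]; rfl
    rw [← ψ.ker.card_mul_index, index_ker, rg, ker, Nat.card_congr (subgroupOfEquivOfLe le).toEquiv,
      card_map_of_injective S.inj, c2_card _ h.ws, card_top]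
    simp
  · rintro _ ⟨y, rfl⟩
    have k : ∀ (b : Bool) (a : M S.p), S.ι a ∈ 𝒩(J) → S.ι (cond b a 1) ∈ 𝒩(J) := by
      rintro (_ | _) a h
      · simp
      · exact h
    have m : ∀ a ∈ sQ0 S.p, S.ι a ∈ 𝒩(J) := fun a ha => le_normalizer ((mem a).2 ha)
    rw [nf _ y]
    simp only [map_mul]
    refine mul_mem (mul_mem (mul_mem (mul_mem (mul_mem (mul_mem (k _ _ ?_) (k _ _ (m _ ⟨rfl, rfl, rfl⟩))) (k _ _ tJ))
      (k _ _ (m _ ⟨rfl, rfl, rfl⟩))) (k _ _ (m _ ⟨rfl, rfl, rfl⟩))) (k _ _ (m _ ⟨rfl, rfl, rfl⟩))) (k _ _ ?_)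
    · exact cent_le_norm _ (mem_centralizer_iff.2 dJ)
    · rw [(c2_d0 _).2.2.2.2.2.2.1, map_mul, map_inv]
      exact mul_mem wJ (inv_mem (m _ ⟨rfl, rfl, rfl⟩))
  · obtain ⟨y, hy, e⟩ := h.c2_sq hx.1.1
    exact ⟨y, ⟨hy.1, hy.2.1, ((mem y).1 (e ▸ mul_mem hx hx)).2.2, hy.2.2⟩, e⟩
  · rintro _ ⟨v, hv, rfl⟩
    obtain ⟨x, hx, k1, k2⟩ := onto v.i v.j
    obtain ⟨e, m⟩ := h.c2_ι hx.1.1
    refine ⟨x, hx, ?_⟩
    rw [← e, ← map_inv, ← map_mul, S.mem_map]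
    refine ⟨?_, ?_, ?_, ?_, ?_⟩ <;>
      simp [mul_d, mul_k, mul_c, mul_i, mul_j, c2_inv _ v hv.1, m.1, m.2, hx.1.2, k1, k2, hv.2.2.1, hv.2.2.2]

end CL.H33
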