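/-
Project H33 (S3139): the bound for `N_T(R₁)` when `al = true`.
-/
import Cfsg.Agent.H33.Defs2

set_option autoImplicit false
set_option linter.unusedSectionVars false
open Cfsg Subgroup CL.Even CL.Grp

namespace CL.H33
open M

universe u

/-- representatives of the classes of involutions of `R₁` -/
def c2a_rp {p : Ty} (x : M p) : M p :=
  cond x.e (cond x.j (cond (x.i ^^ x.c) (ms p * md p * (mu p * mq p)) (ms p * md p * mq p))
      (cond x.i (ms p * md p * mu p) (ms p)))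
    (cond x.c (cond x.j (M.mt p * md p * mq p) (cond x.i (M.mt p * md p * mu p) (M.mt p)))
      (cond x.j (md p * mq p) (cond x.i (md p * mu p) (cond x.z (mz p) 1))))

/-- the candidates for the orbit of `t` -/
def c2a_v {p : Ty} (b2 b3 b4 : Bool) (x : M p) : Bool :=
  cond x.e (cond (x.i || x.j) b4 b2) (cond x.c (!(x.i || x.j)) ((x.i || x.j) && b3))

theorem c2a_cls : ∀ p : Ty, p.ws = true → p.al = true → p.big = true → ∀ x : M p, x.k = false → x * x = 1 →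
    ∃ g, g * c2a_rp x * g⁻¹ = x := by decide +kernel

theorem c2a_cnt : ∀ p : Ty, p.ws = true → p.big = true → ∀ b2 b3 b4 : Bool, (b3 = true → b2 ≠ b4) →
    ¬ 8 ∣ (Finset.univ.filter fun x : M p => x.k = false ∧ x * x = 1 ∧ c2a_v b2 b3 b4 x = true).card := by
  decide +kernel

theorem c2a_card : ∀ p : Ty, (Finset.univ.filter fun x : M p => x.e = false).card ≤ 64 := by decide +kernel

theorem c2a_e : ∀ (p : Ty) (x : M p), x.e = false → x * M.mt p = M.mt p * x := by decide +kernel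

theorem c2a_m : ∀ p : Ty, p.ws = true → p.al = true → p.big = true →
    (∃ g, g * mw p * g⁻¹ = M.mt p * mg p * mw p) ∧ (∃ g, g * (M.mt p * mg p * mz p) * g⁻¹ = M.mt p * md p * mu p) ∧
    md p * md p = mz p ∧ md p * mq p * (md p * mq p) = 1 ∧ M.mt p * md p * mq p * (M.mt p * md p * mq p) = 1 ∧
    md p * mq p * (md p * mu p) ≠ md p * mu p * (md p * mq p) ∧
    M.mt p * md p * mq p * (md p * mu p) ≠ md p * mu p * (M.mt p * md p * mq p) ∧ M.mt p ≠ 1 ∧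
    (md p * mq p).k = false ∧ (M.mt p * md p * mq p).k = false := by decide +kernel

theorem c2a_val {p : Ty} {P : M p → Prop} {b2 b3 b4 : Bool} (h1 : ¬ P 1) (hz : ¬ P (mz p)) (ht : P (M.mt p))
    (hu : ¬ P (M.mt p * md p * mu p)) (hq : ¬ P (M.mt p * md p * mq p)) (h2 : P (ms p) ↔ b2 = true)
    (h3 : P (md p * mu p) ↔ b3 = true) (h3' : P (md p * mq p) ↔ b3 = true) (h4 : P (ms p * md p * mu p) ↔ b4 = true)
    (h4' : P (ms p * md p * mq p) ↔ b4 = true) (h4'' : P (ms p * md p * (mu p * mq p)) ↔ b4 = true) (x : M p) :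
    P (c2a_rp x) ↔ c2a_v b2 b3 b4 x = true := by
  rw [c2a_rp, c2a_v]
  cases x.e <;> cases x.c <;> cases x.i <;> cases x.j <;> cases x.z <;> simp [*]

section
variable {G : Type u} [Group G] [Finite G] (S : HD G)

theorem c2a_orb (N : Subgroup G) (y : G) :
    {v | ∃ x ∈ N, x * y * x⁻¹ = v}.ncard = (centralizer ({y} : Set G)).relIndex N := by
  let _ : MulAction N G := MulAction.compHom G (MulAut.conj.comp N.subtype)
  have h1 : MulAction.orbit N y = {v | ∃ x ∈ N, x * y * x⁻¹ = v} := Set.ext fun t =>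
    ⟨fun ⟨x, hx⟩ => ⟨x, x.2, hx⟩, fun ⟨x, hx, h⟩ => ⟨⟨x, hx⟩, h⟩⟩
  have h2 : MulAction.stabilizer N y = (centralizer ({y} : Set G)).subgroupOf N := Subgroup.ext fun x => by
    rw [mem_subgroupOf, mem_centralizer_singleton_iff]
    exact mul_inv_eq_iff_eq_mul
  rw [← h1, ← MulAction.index_stabilizer, h2]; rfl

theorem c2a_ι (g : M S.p) : S.ι g ∈ 𝒩(S.R1) := mem_norm_of_cj_le (by
  rintro _ ⟨_, ⟨x, hx, rfl⟩, rfl⟩
  refine ⟨g * x * g⁻¹, ?_, by rw [map_mul, map_mul, map_inv]; rfl⟩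
  have h1 : x.k = false := hx
  have h2 := mul_k g g⁻¹
  rw [mul_inv_cancel] at h2
  show (g * x * g⁻¹).k = false
  rw [mul_k, mul_k, h1, Bool.xor_false, ← h2]; rfl)

theorem c2a_t0 : S.ρ0 * S.t * S.ρ0⁻¹ = S.t :=
  mul_inv_eq_iff_eq_mul.2 (mem_centralizer_singleton_iff.1 (S.LH S.ρ0L))

theorem c2a_ρ0 (hd : md S.p * md S.p = mz S.p) : S.ρ0 ∈ 𝒩(S.R1) := mem_norm_of_cj_le (by
  rintro _ ⟨_, ⟨x, hx, rfl⟩, rfl⟩
  have h1 : x.k = false := hx
  have k : ∀ (b : Bool) (a a' : M S.p), a'.k = false → S.ρ0 * S.ι a * S.ρ0⁻¹ = S.ι a' →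
      S.ι (cond b a 1) ∈ S.R1.comap (MulAut.conj S.ρ0).toMonoidHom := fun b a a' h e => by
    cases b
    · exact map_one S.ι ▸ one_mem _
    · exact ⟨a', h, e.symm⟩
  have hz : S.ρ0 * S.z * S.ρ0⁻¹ = S.z := by rw [HD.z, ← hd, map_mul, ← conj_mul, S.ρ0d]
  show S.ι x ∈ S.R1.comap (MulAut.conj S.ρ0).toMonoidHom
  rw [nf _ x, h1]
  simp only [map_mul]
  exact mul_mem (mul_mem (mul_mem (mul_mem (mul_mem (mul_mem (k _ _ _ rfl S.ρ0d) (k _ _ _ rfl hz))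
    (k _ _ _ rfl (c2a_t0 S))) (k _ _ _ rfl S.ρ0s)) (k _ _ _ rfl S.ρ0u)) (k _ _ _ rfl S.ρ0q))
    (map_one S.ι ▸ one_mem _))

/-- the orbit of `t` under `N(R₁)` -/
def c2a_Om (x : M S.p) : Prop := ∃ n ∈ 𝒩(S.R1), n * S.t * n⁻¹ = S.ι x

theorem c2a_iff {n : G} (hn : n ∈ 𝒩(S.R1)) {x y : M S.p} (h : n * S.ι x * n⁻¹ = S.ι y) : c2a_Om S x ↔ c2a_Om S y :=
  ⟨fun ⟨m, hm, e⟩ => ⟨n * m, mul_mem hn hm, by rw [← h, ← e]; group⟩,
    fun ⟨m, hm, e⟩ => ⟨n⁻¹ * m, mul_mem (inv_mem hn) hm, by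
      rw [mul_inv_rev, inv_inv, mul_assoc n⁻¹, mul_assoc n⁻¹, ← mul_assoc _ m⁻¹, e, ← h]; group⟩⟩

theorem c2a_eight (hw : S.p.ws = true) (ha : S.p.al = true) : ¬ 8 ∣ S.H.relIndex 𝒩(S.R1) := by
  classical
  have hb := S.alb ha
  obtain ⟨⟨g1, m1⟩, ⟨g2, m2⟩, m3, m4, m5, m6, m7, m8, m9, m10⟩ := c2a_m _ hw ha hb
  have r0 := c2a_ρ0 S m3
  have cm : ∀ a a' b b' : M S.p, S.ρ0 * S.ι a * S.ρ0⁻¹ = S.ι a' → S.ρ0 * S.ι b * S.ρ0⁻¹ = S.ι b' →
      S.ρ0 * S.ι (a * b) * S.ρ0⁻¹ = S.ι (a' * b') := fun a a' b b' h h' => by rw [map_mul, map_mul, ← conj_mul, h, h']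
  have sd := cm _ _ _ _ S.ρ0s S.ρ0d
  have hu : ¬ c2a_Om S (M.mt _ * md _ * mu _) := fun ⟨n, _, e⟩ => by
    have e1 : S.ρ * S.ι (M.mt _ * mg _ * mz _) * S.ρ⁻¹ = S.ι (M.mt _ * mg _ * mw _) := by
      simp only [map_mul, ← conj_mul, S.ρz, S.ρg hb,
        mul_inv_eq_iff_eq_mul.2 (mem_centralizer_singleton_iff.1 (S.LH S.ρL))]
    have c1 : IsConj S.w (S.ι (M.mt _ * mg _ * mw _)) := S.ι.map_isConj (isConj_iff.2 ⟨_, m1⟩)
    have c2 : IsConj (S.ι (M.mt _ * mg _ * mz _)) (S.ι (M.mt _ * md _ * mu _)) := S.ι.map_isConj (isConj_iff.2 ⟨_, m2⟩)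
    obtain ⟨c, hc⟩ := isConj_iff.1 ((isConj_iff.2 ⟨n, e⟩).trans
      (((S.conj_zw.trans c1).trans (isConj_iff.2 ⟨_, e1⟩).symm).trans c2).symm)
    exact S.ntz c hc
  have hq : ¬ c2a_Om S (M.mt _ * md _ * mq _) := fun h =>
    hu ((c2a_iff S r0 (cm _ _ _ _ (cm _ _ _ _ (c2a_t0 S) S.ρ0d) S.ρ0u)).2 h)
  have i3 := c2a_iff S r0 (cm _ _ _ _ S.ρ0d S.ρ0u)
  have i4 := c2a_iff S r0 (cm _ _ _ _ sd S.ρ0u)
  have i5 := c2a_iff S r0 (cm _ _ _ _ sd S.ρ0q)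
  have val := c2a_val (P := c2a_Om S) (fun ⟨n, _, e⟩ => m8 (S.inj (by rwa [map_one, conj_eq_one_iff, ← map_one S.ι] at e)))
    (fun ⟨n, _, e⟩ => S.ntz n e) ⟨1, one_mem _, by group⟩ hu hq decide_eq_true_iff.symm decide_eq_true_iff.symm
    (i3.symm.trans decide_eq_true_iff.symm) decide_eq_true_iff.symm (i4.symm.trans decide_eq_true_iff.symm)
    ((i4.trans i5).symm.trans decide_eq_true_iff.symm)
  generalize decide (c2a_Om S (ms S.p)) = b2, decide (c2a_Om S (ms S.p * md S.p * mu S.p)) = b4 at val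
  generalize h3 : decide (c2a_Om S (md S.p * mu S.p)) = b3 at val
  have key : ∀ x, x.k = false → x * x = 1 → (c2a_Om S x ↔ c2a_v b2 b3 b4 x = true) := fun x h1 h2 => by
    obtain ⟨g, hg⟩ := c2a_cls _ hw ha hb x h1 h2
    exact (c2a_iff S (c2a_ι S g) (by rw [← map_inv, ← map_mul, ← map_mul, hg])).symm.trans (val x)
  have hR : S.t ∈ S.R1 := ⟨_, rfl, rfl⟩
  have e : {v | ∃ x ∈ 𝒩(S.R1), x * S.t * x⁻¹ = v} = S.ι '' (Finset.univ.filter fun x : M S.p =>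
      x.k = false ∧ x * x = 1 ∧ c2a_v b2 b3 b4 x = true) := by
    ext v
    simp only [Set.mem_ofPred_eq, Set.mem_image, Finset.coe_filter, Finset.mem_univ, true_and]
    refine ⟨fun ⟨n, hn, e⟩ => ?_, ?_⟩
    · obtain ⟨x, hx, e'⟩ := conj_mem hn hR
      have h2 : x * x = 1 := S.inj (by rw [map_mul, e', conj_mul, S.tt, map_one]; group)
      exact ⟨x, ⟨hx, h2, (key x hx h2).1 ⟨n, hn, e'.symm⟩⟩, e'.trans e⟩
    · rintro ⟨x, ⟨h1, h2, h4⟩, rfl⟩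
      exact (key x h1 h2).2 h4
  rw [← c2a_orb, e, Set.ncard_image_of_injective _ S.inj, Set.ncard_coe_finset]
  refine c2a_cnt _ hw hb b2 b3 b4 fun h3' h24 => ?_
  have o3 := decide_eq_true_iff.1 (h3.trans h3')
  obtain ⟨n, hn, en⟩ := id o3
  have pull : ∀ a : M S.p, a.k = false → a * a = 1 → a * (md _ * mu _) ≠ md _ * mu _ * a →
      (c2a_Om S a ↔ b4 = true) := fun a a1 a2 a3 => by
    obtain ⟨x, hx, e'⟩ := conj_mem (inv_mem hn) (show S.ι a ∈ S.R1 from ⟨a, a1, rfl⟩)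
    have h2 : x * x = 1 := S.inj (by rw [map_mul, e', conj_mul, ← map_mul, a2, map_one]; group)
    have h5 : x.e = true := Bool.eq_true_of_not_eq_false fun h => a3 (S.inj (by
      have := congrArg S.ι (c2a_e _ x h)
      rw [map_mul, map_mul, e'] at this
      rw [map_mul S.ι a, map_mul S.ι _ a, ← en]
      calc _ = n * (n⁻¹ * S.ι a * n⁻¹⁻¹ * S.t) * n⁻¹ := by group
        _ = _ := by rw [this]; group))
    rw [c2a_iff S (inv_mem hn) e'.symm, key x hx h2, c2a_v, h5, h24]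
    simp
  exact hq ((pull _ m10 m5 m7).2 ((pull _ m9 m4 m6).1 (i3.1 o3)))

end

theorem c2a : C2aS.{u} := fun G _ _ S hw ha _ T hT hle => by
  have h0 : S.S0 ≤ 𝒩(S.R1) := by rintro _ ⟨x, -, rfl⟩; exact c2a_ι S x
  have h1 : S.S0 ≤ T ⊓ 𝒩(S.R1) := le_inf ((S.map_le _).trans hle) h0
  have h2 : Nat.card S.S0 ≤ 64 := by
    rw [card_map_of_injective S.inj, Nat.subtype_card (Finset.univ.filter fun x : M S.p => x.e = false)
      fun x => by rw [Finset.mem_filter]; exact ⟨fun h => h.2, fun h => ⟨Finset.mem_univ x, h⟩⟩]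
    exact c2a_card _
  have h3 := (S.sylS.of_le (le_inf S.sylS.le h0) inf_le_left).not_dvd
  have h4 := relIndex_mul_relIndex _ _ _ (le_inf S.sylS.le h0) (inf_le_right (a := S.H))
  have h5 := relIndex_mul_relIndex _ _ _ h1 (inf_le_right (a := T))
  rw [inf_relIndex_right] at h4
  obtain ⟨k, hk⟩ := ((hT.to_le (inf_le_left (b := 𝒩(S.R1)))).index (S.S0.subgroupOf _))
  have h6 : k ≤ 2 := by
    by_contra h
    refine c2a_eight S hw ha (Nat.Coprime.dvd_of_dvd_mul_left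
      (Nat.Coprime.pow_left 3 ((Nat.prime_two.coprime_iff_not_dvd).2 h3)) ?_)
    rw [h4, ← h5, relIndex, hk]
    exact (pow_dvd_pow 2 (show 3 ≤ k by omega)).mul_right _
  rw [← card_mul_relIndex h1, relIndex, hk]
  exact Nat.mul_le_mul h2 (Nat.pow_le_pow_right two_pos h6)

end CL.H33
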