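/-
Project H33 (S3139): case `al = true`, the subgroup `R₁` is normal in every 2-overgroup of `S₁`.
-/
import Cfsg.Agent.H33.Defs2

set_option autoImplicit false
set_option linter.unusedSectionVars false
open Cfsg Subgroup CL.Even CL.Grp

namespace CL.H33
open M

universe u

/-- `⟨t, δ, u⟩` -/
def c2bD (p : Ty) : Subgroup (M p) := sub (fun x => x.k = false ∧ x.e = false ∧ x.j = false) ⟨rfl, rfl, rfl⟩
  (by intro x y hx hy; simp_all [mul_k, mul_e, mul_j])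

/-- `a` and `b` commute modulo `z` -/
abbrev C2bZ {G : Type*} [Group G] (z a b : G) : Prop := a * b = b * a ∨ a * b = z * (b * a)

theorem C2bZ.conj {G : Type*} [Group G] {z a b g : G} (h : C2bZ z a b) (hg : g * z = z * g) :
    C2bZ z (g * a * g⁻¹) (g * b * g⁻¹) := by
  rcases h with h | h
  · exact .inl (by rw [conj_mul, conj_mul, h])
  · exact .inr (by rw [conj_mul, conj_mul, h, ← mul_assoc g, hg]; group)

theorem c2b_iff {G : Type u} [Group G] (S : HD G) {a b : M S.p} :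
    C2bZ S.z (S.ι a) (S.ι b) ↔ C2bZ (mz _) a b := by
  simp only [C2bZ, ← map_mul, S.eq_iff]

theorem c2b_card : ∀ p : Ty, p.ws = true → p.big = true → Fintype.card (M p) = 128 ∧
    (Finset.univ.filter fun x : M p => x.k = false).card = 64 ∧
    (Finset.univ.filter fun x : M p => x.k = false ∧ x.e = false ∧ x.j = false).card = 16 := by decide +kernel

theorem c2b_f1 : ∀ p : Ty, p.ws = true → p.al = true → p.big = true → ∀ a : M p, a.k = false → ∀ b : M p,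
    (b.k = false → C2bZ (mz p) a b) ∧ (b.k = true → C2bZ (mz p) a b → a.e = false ∧ a.j = false) := by decide +kernel

theorem c2b_f2 : ∀ p : Ty, p.ws = true → p.al = true → p.big = true → ∀ a : M p, C2bZ (mz p) (M.mt p) a ∧
    (a.k = false → a.e = false → a.j = false → a * a = 1 → a = 1 ∨ a = mz p ∨ (a = M.mt p ∨ a = M.mt p * mz p) ∨
      (a = M.mt p * mg p ∨ a = M.mt p * mg p * mz p) ∨ ∀ v ∈ [ms p, ms p * M.mt p], ∀ e ∈ [1, mz p],
        (a⁻¹ * (e * (M.mt p * v))) ^ 2 ≠ v ^ 2 ∧ (v ^ 2 = 1 ∨ v ^ 2 = mz p) ∧ v.k = false) := by decide +kernel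

theorem c2b_f3 : ∀ p : Ty, p.ws = true → p.al = true → p.big = true →
    (∃ m : M p, m * mw p * m⁻¹ = M.mt p * mg p * mw p ∨ m * mw p * m⁻¹ = M.mt p * mg p * (mz p * mw p)) ∧
    (∃ m : M p, m * (M.mt p * mg p * mz p) * m⁻¹ = M.mt p * mg p) ∧ mw p * (mz p * mw p) = mz p ∧
    M.mt p * M.mt p = 1 ∧ M.mt p ≠ 1 := by decide +kernel

theorem c2b_two {G : Type*} [Group G] [Finite G] {A B : Subgroup G} (hAB : A ≤ B) (h : Nat.card B ≤ 2 * Nat.card A)
    {x : G} (hx : x ∈ B) (hx' : x ∉ A) : A.relIndex B = 2 := by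
  have h1 := card_mul_relIndex hAB
  have h2 : A.relIndex B ≠ 1 := fun e => hx' (relIndex_eq_one.1 e hx)
  have h3 : A.relIndex B ≠ 0 := FiniteIndex.index_ne_zero
  have h4 : 0 < Nat.card A := Nat.card_pos
  have h5 : A.relIndex B ≤ 2 := Nat.le_of_mul_le_mul_left (by rw [h1, mul_comm]; exact h) h4
  omega

theorem c2b_half {G : Type*} [Group G] [Finite G] {A B C : Subgroup G} (hBC : B ≤ C) (h : A.relIndex C = 2) :
    Nat.card B ≤ 2 * Nat.card (A ⊓ B : Subgroup G) := by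
  rw [← card_mul_relIndex (inf_le_right : A ⊓ B ≤ B), inf_relIndex_right, mul_comm]
  exact Nat.mul_le_mul_right _ (h ▸ relIndex_le_of_le_right hBC (by omega))

/-- `t γ` and `t γ z` are conjugate to `z` -/
theorem c2b_conj {G : Type u} [Group G] [Finite G] (S : HD G) (hw : S.p.ws = true) (ha : S.p.al = true) :
    IsConj S.z (S.ι (M.mt _ * mg _)) ∧ IsConj S.z (S.ι (M.mt _ * mg _ * mz _)) := by
  obtain ⟨⟨m, hm⟩, ⟨n, hn⟩, e, -⟩ := c2b_f3 S.p hw ha (S.alb ha)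
  have cm : ∀ m a : M S.p, IsConj (S.ι a) (S.ι (m * a * m⁻¹)) := fun m a =>
    isConj_iff.2 ⟨S.ι m, by rw [map_mul, map_mul, map_inv]⟩
  have r : S.ρ * S.ι (M.mt _ * mg _) * S.ρ⁻¹ = S.ι (M.mt _ * mg _) := by
    rw [map_mul, ← conj_mul, S.ρg (S.alb ha), mem_centralizer_singleton_iff.1 (S.LH S.ρL), mul_inv_cancel_right]
  have k : IsConj S.z (S.ι (M.mt _ * mg _ * mz _)) := by
    refine S.conj_zw.trans ((cm m _).trans ?_)
    rcases hm with hm | hm <;> rw [hm]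
    · exact (isConj_iff.2 ⟨S.ρ, by rw [map_mul _ _ (mz _), ← conj_mul, r, S.ρz, ← map_mul]⟩).symm
    · exact isConj_iff.2 ⟨S.ρ, by
        rw [map_mul _ _ (_ * _), map_mul _ (mz _), ← conj_mul, ← conj_mul, r, S.ρz, S.ρw, ← map_mul, ← map_mul, e]⟩
  exact ⟨k.trans (by have := cm n (M.mt _ * mg _ * mz _); rwa [hn] at this), k⟩

theorem c2b : C2bS.{u} := by
  intro G _ _ S hw ha hO T hT hS hc
  have hb := S.alb ha
  by_contra hn
  obtain ⟨c1, c2, c3⟩ := c2b_card S.p hw hb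
  have cR : Nat.card (sR S.p) = 64 := (Nat.subtype_card _ fun x => by simp; rfl).trans c2
  have cD : Nat.card (c2bD S.p) = 16 := (Nat.subtype_card _ fun x => by simp; rfl).trans c3
  have cS : Nat.card S.S1 = 128 := by
    rw [← c1, ← Nat.card_eq_fintype_card]; exact (Nat.card_congr (MonoidHom.ofInjective S.inj).toEquiv).symm
  have iR : (sR S.p).relIndex ⊤ = 2 := c2b_two le_top (by rw [cR, card_top, Nat.card_eq_fintype_card, c1])
    (mem_top (mw _)) (fun e => by cases (e : true = false))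
  have nR : (sR S.p).Normal := normal_of_index_eq_two (by rwa [relIndex_top_right] at iR)
  have S12 : S.S1 ≤ T ⊓ 𝒩(S.R1) := le_inf hS (by
    rintro _ ⟨m, rfl⟩
    refine mem_norm_of_cj_le ?_
    rintro _ ⟨_, ⟨r, hr, rfl⟩, rfl⟩
    exact ⟨_, nR.conj_mem r hr m, by simp⟩)
  obtain ⟨g, ⟨gT, gN⟩, g2⟩ := SetLike.exists_of_lt (lt_inf_normalizer_of_isPGroup hT
    (lt_of_le_of_ne (inf_le_left : T ⊓ 𝒩(S.R1) ≤ T) fun e => hn (e.ge.trans inf_le_right)))
  have gz := S.zT hw hT hS gT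
  have R2 : cj g S.R1 ≤ T ⊓ 𝒩(S.R1) := cj_le_of_le ((S.map_le _).trans S12) gN
  obtain ⟨x, xR, xS⟩ := SetLike.not_le_iff_exists.1 fun h => g2 ⟨gT, hO.uq g gz h⟩
  have x2 := R2 xR
  have xz := S.zT hw hT hS x2.1
  have i2 := c2b_two S12 (by rw [cS]; exact hc) x2 xS
  have xN : x ∈ 𝒩(S.S1) := (normal_subgroupOf_iff_le_normalizer S12).1 (normal_of_index_eq_two i2) x2
  have cz : ∀ a ∈ cj g S.R1, ∀ b ∈ cj g S.R1, C2bZ S.z a b := by
    rintro _ ⟨_, ⟨a, ha', rfl⟩, rfl⟩ _ ⟨_, ⟨b, hb', rfl⟩, rfl⟩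
    exact ((c2b_iff S).2 ((c2b_f1 S.p hw ha hb a ha' b).1 hb')).conj gz
  have xt : ¬ (x * S.t * x⁻¹ = S.t ∨ x * S.t * x⁻¹ = S.t * S.z) := fun h => xS (S.nT hw hT hS x2.1 h)
  have cx : ∀ v, S.ι v ∈ cj g S.R1 → ∃ e ∈ [1, mz S.p], x * S.ι v * x⁻¹ = S.ι (e * v) := fun v hv => by
    rcases cz x xR _ hv with h | h
    · exact ⟨1, by simp, by rw [h, one_mul, mul_inv_cancel_right]⟩
    · exact ⟨mz _, by simp, by rw [h, map_mul]; group⟩
  have tJ : M.mt S.p ∉ (cj g S.R1).comap S.ι := fun h => by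
    obtain ⟨e, he, k⟩ := cx _ h
    simp only [List.mem_cons, List.not_mem_nil, or_false] at he
    rcases he with rfl | rfl
    · exact xt (.inl (by rw [k, one_mul]))
    · exact xt (.inr (by rw [k, map_mul, S.z_comm]))
  have cJ : 32 ≤ Nat.card ((cj g S.R1).comap S.ι) := by
    have := c2b_half R2 i2
    rw [card_cj, card_map_of_injective S.inj, cR, ← map_comap_eq, card_map_of_injective S.inj] at this
    omega
  have cJz : ∀ a ∈ (cj g S.R1).comap S.ι, ∀ b ∈ (cj g S.R1).comap S.ι, C2bZ (mz _) a b := fun a h b h' =>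
    (c2b_iff S).1 (cz _ h _ h')
  replace cx : ∀ v ∈ (cj g S.R1).comap S.ι, ∃ e ∈ [1, mz S.p], x * S.ι v * x⁻¹ = S.ι (e * v) := cx
  generalize (cj g S.R1).comap S.ι = J at tJ cJ cJz cx
  have JR : J ≤ sR S.p := fun y hy => by
    by_contra k
    have k' : y.k = true := Bool.eq_true_of_not_eq_false k
    have h1 := c2b_half (le_top : J ≤ ⊤) iR
    have h2 : sR S.p ⊓ J = c2bD S.p := eq_of_le_of_card_ge
      (fun r hr => ⟨hr.1, (c2b_f1 S.p hw ha hb r hr.1 y).2 k' (cJz r hr.2 y hy)⟩) (by omega)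
    exact tJ (h2.ge (show M.mt S.p ∈ c2bD S.p from ⟨rfl, rfl, rfl⟩)).2
  have tR : M.mt S.p ∈ sR S.p := rfl
  have iJ := c2b_two JR (by omega) tR tJ
  obtain ⟨a, aR, ea⟩ := conj_mem x2.2 (mem_map_of_mem S.ι tR)
  obtain ⟨m, em⟩ := conj_mem' xN (⟨mw _, rfl⟩ : S.w ∈ S.S1)
  have aw : C2bZ (mz _) a (mw _) := by
    have := ((c2b_iff S).2 (c2b_f2 S.p hw ha hb m).1).conj xz
    rw [← ea, em, show x * (x⁻¹ * S.w * x) * x⁻¹ = S.w by group] at this
    exact (c2b_iff S).1 this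
  obtain ⟨a1, a2⟩ := (c2b_f1 S.p hw ha hb a aR _).2 rfl aw
  have nz : ∀ {y}, IsConj S.z y → x * S.t * x⁻¹ ≠ y := fun h e => by
    obtain ⟨c, hc⟩ := isConj_iff.1 ((isConj_iff.2 ⟨x, e⟩).trans h.symm)
    exact S.ntz c hc
  rcases (c2b_f2 S.p hw ha hb a).2 aR a1 a2 (S.inj (by rw [map_mul, ea, conj_mul, S.tt, map_one]; group)) with
    rfl | rfl | k | k | k
  · rw [map_one, eq_comm, conj_eq_one_iff, ← map_one S.ι, S.eq_iff] at ea
    exact (c2b_f3 S.p hw ha hb).2.2.2.2 ea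
  · exact S.ntz x ea.symm
  · exact xt (k.imp (fun e => by rw [← ea, e]) fun e => by rw [← ea, e, map_mul])
  · rcases k with rfl | rfl
    exacts [nz (c2b_conj S hw ha).1 ea.symm, nz (c2b_conj S hw ha).2 ea.symm]
  obtain ⟨v, hv, vJ⟩ : ∃ v ∈ [ms S.p, ms S.p * M.mt S.p], v ∉ J := by
    by_cases h : ms S.p ∈ J
    · exact ⟨_, by simp, fun h' : ms S.p * M.mt S.p ∈ J => tJ ((mul_mem_cancel_left h).1 h')⟩
    · exact ⟨_, by simp, h⟩
  have vR : v ∈ sR S.p := (k v hv 1 (by simp)).2.2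
  obtain ⟨e, he, ev⟩ := cx (M.mt _ * v)
    ((mul_mem_iff_of_index_two iJ (a := ⟨_, tR⟩) (b := ⟨v, vR⟩)).2 (iff_of_false tJ vJ))
  obtain ⟨k1, k2, -⟩ := k v hv e he
  refine k1 (S.inj ?_)
  have e1 : S.ι (a⁻¹ * (e * (M.mt S.p * v))) = x * S.ι v * x⁻¹ := by
    rw [map_mul, map_inv, ea, ← ev, map_mul]
    group
  rw [map_pow, e1, conj_pow, ← map_pow]
  rcases k2 with h | h <;> rw [h]
  · rw [map_one]; group
  · rw [xz, mul_inv_cancel_right]

end CL.H33
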