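/-
Project H33, step (C3a): the two lines `A₁`, `A₂` of `J`.
-/
import Cfsg.Agent.H33.Defs3

set_option autoImplicit false
set_option linter.unusedSectionVars false
open Cfsg Subgroup CL.Even CL.Grp

namespace CL.H33
open M

universe u

theorem c3a_four {α : Type*} (S : Set α) {a b c d : α} (h : ∀ x, x ∈ S ↔ x = a ∨ x = b ∨ x = c ∨ x = d)
    (ab : a ≠ b) (ac : a ≠ c) (ad : a ≠ d) (bc : b ≠ c) (bd : b ≠ d) (cd : c ≠ d) : Nat.card S = 4 := by
  classical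
  have : S = (({a, b, c, d} : Finset α) : Set α) := by ext x; simp [h]
  rw [this, Nat.card_coe_set_eq, Set.ncard_coe_finset]
  simp [Finset.card_insert_of_notMem, ab, ac, ad, bc, bd, cd]

/-- abstract form of `J` -/
structure C3a (J V : Type u) [Group J] [Group V] where
  π : J →* V
  c : J →* V
  ρ : MulAut J
  z : J
  s : J
  v : ZMod 3 → J
  ker : ∀ x, π x = 1 ↔ x = 1 ∨ x = z ∨ x = s ∨ x = s * z
  cz : ∀ x, x * z = z * x
  cs : ∀ x, x * s = s * x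
  zz : z * z = 1
  ss : s * s = 1
  z1 : z ≠ 1
  s1 : s ≠ 1
  sz : s ≠ z
  sq : ∀ x, π x * π x = 1
  cm : ∀ x y, π x * π y = π y * π x
  nrm : ∀ x, π x * π (ρ x) * π (ρ⁻¹ x) = 1
  ρz : ρ z = z
  ρs : ρ s = s
  kc : ∀ x, c x = 1 ↔ π x = 1 ∨ ∃ i, π x = π (v i)
  im : ∀ x, c x = 1 ∨ ∃ i, c x = π (v i)
  onto : ∀ i, ∃ x, c x = π (v i)
  cρ : ∀ x i, c x = π (v i) → c (ρ x) = π (v (i + 1))
  cρ' : ∀ x i, c x = π (v (i + 1)) → c (ρ⁻¹ x) = π (v i)
  vv : ∀ i, v i * v i = z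
  vc : ∀ i j, i ≠ j → v i * v j = v j * v i * z
  l6 : ∀ x i, c x = π (v i) → (x * v i = v i * x ∧ (x * x = s ∨ x * x = s * z)) ∨
    (x * v i = v i * x * z ∧ (x * x = 1 ∨ x * x = z))

namespace C3a
variable {J V : Type u} [Group J] [Group V] (D : C3a J V)

theorem cen {x : J} (h : D.π x = 1) (y : J) : y * x = x * y := by
  rcases (D.ker x).1 h with rfl | rfl | rfl | rfl
  exacts [by simp, D.cz y, D.cs y, by rw [← mul_assoc, D.cs, mul_assoc, D.cz, mul_assoc]]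

theorem zsq {x : J} (h : D.π x = 1) : x * x = 1 := by
  rcases (D.ker x).1 h with rfl | rfl | rfl | rfl
  exacts [by simp, D.zz, D.ss, by rw [mul_assoc, ← D.cz, mul_assoc, D.zz, mul_one, D.ss]]

theorem ex {x y : J} (h : D.π x = D.π y) : ∃ ζ, D.π ζ = 1 ∧ x = y * ζ :=
  ⟨y⁻¹ * x, by rw [map_mul, map_inv, h, inv_mul_cancel], by group⟩

theorem sq_eq {x y : J} (h : D.π x = D.π y) : x * x = y * y := by
  obtain ⟨ζ, k, rfl⟩ := D.ex h
  rw [mul_assoc, ← mul_assoc ζ, ← D.cen k, mul_assoc, D.zsq k, mul_one]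

theorem cm_eq {x y w : J} (h : D.π x = D.π y) (c : y * w = w * y) : x * w = w * x := by
  obtain ⟨ζ, k, rfl⟩ := D.ex h
  rw [mul_assoc, ← D.cen k, ← mul_assoc, c, mul_assoc]

theorem zne {x : J} : x * D.z ≠ x := fun h => D.z1 (by simpa using h)

theorem πz : D.π D.z = 1 := (D.ker _).2 (by simp)

/-- `σ ∈ {s, sz}` -/
def Sg (σ : J) : Prop := σ = D.s ∨ σ = D.s * D.z

variable {D} {σ : J}

theorem Sg.π (h : D.Sg σ) : D.π σ = 1 := (D.ker _).2 (.inr (.inr h))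
theorem Sg.ne1 (h : D.Sg σ) : σ ≠ 1 := by
  rintro rfl
  rcases h with h | h
  · exact D.s1 h.symm
  · exact D.sz (by rw [← mul_one D.s, ← D.zz, ← mul_assoc, ← h, one_mul])
theorem Sg.mul (h : D.Sg σ) : D.Sg (σ * D.z) := by
  rcases h with rfl | rfl
  · exact .inr rfl
  · exact .inl (by rw [mul_assoc, D.zz, mul_one])
theorem Sg.nez (h : D.Sg σ) : σ ≠ D.z := fun e => h.mul.ne1 (by rw [e, D.zz])
theorem Sg.ρ (h : D.Sg σ) : D.ρ σ = σ := by rcases h with rfl | rfl <;> simp [D.ρs, D.ρz]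
theorem Sg.ρ' (h : D.Sg σ) : D.ρ⁻¹ σ = σ := by conv_lhs => rw [← h.ρ]; simp
theorem Sg.two {τ : J} (h : D.Sg σ) (h' : D.Sg τ) : τ = σ ∨ τ * D.z = σ := by
  rcases h with rfl | rfl <;> rcases h' with rfl | rfl <;> simp [mul_assoc, D.zz]
theorem Sg.sρ (h : D.Sg σ) {x : J} (hx : x * x = σ) : D.ρ x * D.ρ x = σ := by rw [← map_mul, hx, h.ρ]
theorem Sg.sρ' (h : D.Sg σ) {x : J} (hx : x * x = σ) : D.ρ⁻¹ x * D.ρ⁻¹ x = σ := by rw [← map_mul, hx, h.ρ']
theorem Sg.nz (h : D.Sg σ) {x : J} (hx : x * x = σ) : D.π x ≠ 1 := fun e => h.ne1 (by rw [← hx, D.zsq e])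

theorem Sg.cls (h : D.Sg σ) {x : J} (hx : x * x = σ) : ∃ i, D.c x = D.π (D.v i) ∧ x * D.v i = D.v i * x := by
  rcases D.im x with e | ⟨i, e⟩
  · rcases (D.kc x).1 e with e | ⟨i, e⟩
    · exact (h.nz hx e).elim
    · exact (h.nez (by rw [← hx, D.sq_eq e, D.vv])).elim
  · rcases D.l6 x i e with ⟨a, -⟩ | ⟨-, a | a⟩
    exacts [⟨i, e, a⟩, (h.ne1 (hx ▸ a)).elim, (h.nez (hx ▸ a)).elim]

theorem q0c {w : J} {i : ZMod 3} (h : D.c w = 1) (c : w * D.v i = D.v i * w) : D.π w = 1 ∨ D.π w = D.π (D.v i) := by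
  refine ((D.kc w).1 h).imp_right fun ⟨j, e⟩ => ?_
  by_cases ji : j = i
  · exact ji ▸ e
  · have := D.cm_eq e.symm c
    rw [D.vc j i ji] at this
    exact (D.zne this).elim

theorem cv (i : ZMod 3) : D.c (D.v i) = 1 := (D.kc _).2 (.inr ⟨i, rfl⟩)

theorem vinj {i j : ZMod 3} (h : D.π (D.v i) = D.π (D.v j)) : i = j := by
  by_contra ij
  have := D.cm_eq h (rfl : D.v j * D.v j = _)
  rw [D.vc i j ij] at this
  exact D.zne this

theorem v1 (i : ZMod 3) : D.π (D.v i) ≠ 1 := fun e => D.z1 (by rw [← D.vv i, D.zsq e])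

/-- two elements of the same class commuting with `v i` -/
theorem same {x y : J} {i : ZMod 3} (h : D.c x = D.c y) (cx : x * D.v i = D.v i * x) (cy : y * D.v i = D.v i * y) :
    D.π y = D.π x ∨ D.π y = D.π (x * D.v i) := by
  have := q0c (D := D) (w := x⁻¹ * y) (i := i) (by rw [map_mul, map_inv, h, inv_mul_cancel]) (by
    calc x⁻¹ * y * D.v i = x⁻¹ * (D.v i * x) * x⁻¹ * y := by rw [mul_assoc, cy]; group
      _ = _ := by rw [← cx]; group)
  rw [map_mul, map_inv, inv_mul_eq_one, inv_mul_eq_iff_eq_mul, ← map_mul] at this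
  exact this.imp_left Eq.symm

theorem sqv {x : J} {i : ZMod 3} (cx : x * D.v i = D.v i * x) : x * D.v i * (x * D.v i) = x * x * D.z := by
  rw [mul_assoc, ← mul_assoc (D.v i), ← cx, mul_assoc, D.vv, mul_assoc]

theorem Sg.k1 (h : D.Sg σ) {x y : J} (hx : x * x = σ) (hy : y * y = σ) (e : D.c x = D.c y) : D.π y = D.π x := by
  obtain ⟨i, a, b⟩ := h.cls hx
  obtain ⟨j, a', b'⟩ := h.cls hy
  obtain rfl : i = j := vinj (by rw [← a, e, a'])
  refine (same e b b').resolve_right fun k => ?_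
  have := D.sq_eq k
  rw [sqv b, hx, hy] at this
  exact D.zne this.symm

theorem Sg.k2 (h : D.Sg σ) (i : ZMod 3) : ∃ x, D.c x = D.π (D.v i) ∧ x * x = σ := by
  have k : ∀ x, D.c x = D.π (D.v i) → x * D.v i = D.v i * x → ∃ x, D.c x = D.π (D.v i) ∧ x * x = σ := fun x e c => by
    rcases D.l6 x i e with ⟨-, a⟩ | ⟨a, -⟩
    · rcases h.two a with b | b
      · exact ⟨x, e, b⟩
      · exact ⟨x * D.v i, by rw [map_mul, cv, mul_one, e], by rw [sqv c, b]⟩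
    · exact (D.zne (a.symm.trans c)).elim
  obtain ⟨x, e⟩ := D.onto i
  rcases D.l6 x i e with ⟨a, -⟩ | ⟨a, -⟩
  · exact k x e a
  · refine k (x * D.v (i + 1)) (by rw [map_mul, cv, mul_one, e]) ?_
    rw [mul_assoc, D.vc (i + 1) i ((by decide : ∀ i : ZMod 3, i + 1 ≠ i) i), ← mul_assoc, ← mul_assoc, a, mul_assoc _ D.z, ← D.cz]
    simp only [mul_assoc, D.zz, mul_one]

theorem Sg.k3 (h : D.Sg σ) {x y : J} (hx : x * x = σ) (hy : y * y = σ) :
    D.π y = D.π x ∨ D.π y = D.π (D.ρ x) ∨ D.π y = D.π (D.ρ⁻¹ x) := by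
  obtain ⟨i, a, -⟩ := h.cls hx
  obtain ⟨j, a', -⟩ := h.cls hy
  rcases (by decide : ∀ i j : ZMod 3, j = i ∨ j = i + 1 ∨ i = j + 1) i j with rfl | rfl | rfl
  · exact .inl (h.k1 hx hy (a.trans a'.symm))
  · exact .inr (.inl (h.k1 (h.sρ hx) hy ((D.cρ _ _ a).trans a'.symm)))
  · exact .inr (.inr (h.k1 (h.sρ' hx) hy ((D.cρ' _ _ a).trans a'.symm)))

theorem p12 (x : J) : D.π (x * D.ρ x) = D.π (D.ρ⁻¹ x) := by
  rw [map_mul, ← mul_one (_ * _), ← D.sq (D.ρ⁻¹ x), ← mul_assoc, D.nrm, one_mul]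

theorem p13 (x : J) : D.π (x * D.ρ⁻¹ x) = D.π (D.ρ x) := by
  rw [map_mul, ← mul_one (_ * _), ← D.sq (D.ρ x), ← mul_assoc, mul_assoc (D.π x), D.cm (D.ρ⁻¹ x), ← mul_assoc, D.nrm,
    one_mul]

/-- the line -/
def Sg.A (h : D.Sg σ) : Subgroup J where
  carrier := {x | x * x = σ ∨ D.π x = 1}
  one_mem' := .inr (map_one _)
  inv_mem' := fun {x} hx => by
    have : D.π x⁻¹ = D.π x := by rw [map_inv, inv_eq_of_mul_eq_one_right (D.sq x)]
    exact hx.imp (fun e => (D.sq_eq this).trans e) this.trans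
  mul_mem' := fun {x y} hx hy => by
    rcases hx with hx | hx <;> rcases hy with hy | hy
    · rcases h.k3 hx hy with e | e | e
      · exact .inr (by rw [map_mul, e, D.sq])
      · exact .inl ((D.sq_eq (by rw [← p12, map_mul, map_mul, e])).trans (h.sρ' hx))
      · exact .inl ((D.sq_eq (by rw [← p13, map_mul, map_mul, e])).trans (h.sρ hx))
    · exact .inl ((D.sq_eq (by rw [map_mul, hy, mul_one])).trans hx)
    · exact .inl ((D.sq_eq (by rw [map_mul, hx, one_mul])).trans hy)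
    · exact .inr (by rw [map_mul, hx, hy, one_mul])

theorem Sg.mem (h : D.Sg σ) {x : J} : x ∈ h.A ↔ x * x = σ ∨ D.π x = 1 := Iff.rfl

theorem c1 {x : J} (h : D.π x = 1) : D.c x = 1 := (D.kc x).2 (.inl h)

theorem Sg.card (h : D.Sg σ) : Nat.card h.A = 16 := by
  have h1 : Nat.card (D.c.comp h.A.subtype).range = 4 := by
    refine c3a_four _ (a := 1) (b := D.π (D.v 0)) (c := D.π (D.v 1)) (d := D.π (D.v 2)) (fun y => ⟨?_, ?_⟩)
      (v1 _).symm (v1 _).symm (v1 _).symm (fun e => absurd (vinj e) (by decide)) (fun e => absurd (vinj e) (by decide))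
      fun e => absurd (vinj e) (by decide)
    · rintro ⟨x, rfl⟩
      refine (D.im x).imp_right fun ⟨i, e⟩ => ?_
      rcases (by decide : ∀ i : ZMod 3, i = 0 ∨ i = 1 ∨ i = 2) i with rfl | rfl | rfl <;> simp [e]
    · have k : ∀ i, D.π (D.v i) ∈ (D.c.comp h.A.subtype).range := fun i =>
        let ⟨x, a, b⟩ := h.k2 i; ⟨⟨x, .inl b⟩, a⟩
      rintro (rfl | rfl | rfl | rfl)
      exacts [one_mem _, k _, k _, k _]
  have h2 : Nat.card (D.c.comp h.A.subtype).ker = 4 := by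
    rw [← card_map_of_injective h.A.subtype_injective]
    have s0 : D.Sg D.s := .inl rfl
    refine c3a_four _ (fun y => Iff.trans ⟨?_, fun e => ⟨⟨y, .inr e⟩, c1 e, rfl⟩⟩ (D.ker y)) D.z1.symm D.s1.symm
      s0.mul.ne1.symm D.sz.symm s0.mul.nez.symm D.zne.symm
    rintro ⟨⟨x, hx | hx⟩, e, rfl⟩
    · obtain ⟨i, a, -⟩ := h.cls hx
      exact (v1 i (a.symm.trans e)).elim
    · exact hx
  rw [← (D.c.comp h.A.subtype).ker.card_mul_index, index_ker, h1, h2]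

theorem gen {τ : J} (h : D.Sg σ) (h' : D.Sg τ) (ne : σ ≠ τ) (x : J) : ∃ a ∈ h.A, ∃ b ∈ h'.A, x = a * b := by
  have k : ∀ w, D.c w = 1 → ∃ a ∈ h.A, ∃ b ∈ h'.A, w = a * b := fun w hw => by
    rcases (D.kc w).1 hw with e | ⟨i, e⟩
    · exact ⟨1, one_mem _, w, .inr e, by simp⟩
    obtain ⟨a, a1, a2⟩ := h.k2 i
    obtain ⟨b, b1, b2⟩ := h'.k2 i
    obtain ⟨j, a3, a4⟩ := h.cls a2
    obtain ⟨k, b3, b4⟩ := h'.cls b2
    obtain rfl : i = j := vinj (a1.symm.trans a3)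
    obtain rfl : i = k := vinj (b1.symm.trans b3)
    rcases same (a1.trans b1.symm) a4 b4 with f | f
    · exact (ne (by rw [← a2, ← b2, D.sq_eq f])).elim
    · refine ⟨a⁻¹, inv_mem (.inl a2), a * w, .inl ((D.sq_eq ?_).trans b2), by group⟩
      rw [f, map_mul, map_mul, e]
  rcases D.im x with e | ⟨i, e⟩
  · exact k x e
  · obtain ⟨a, a1, a2⟩ := h.k2 i
    obtain ⟨a', h1, b, h2, f⟩ := k (a⁻¹ * x) (by rw [map_mul, map_inv, a1, e, inv_mul_cancel])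
    exact ⟨a * a', mul_mem (.inl a2) h1, b, h2, by rw [mul_assoc, ← f]; group⟩

theorem cmk (a b : J) : ∃ κ, D.π κ = 1 ∧ b * a = a * b * κ ∧ a * b * (a * b) = a * a * (b * b) * κ := by
  obtain ⟨κ, h, e⟩ := D.ex (x := b * a) (y := a * b) (by rw [map_mul, map_mul, D.cm])
  refine ⟨κ, h, e, ?_⟩
  calc _ = a * (b * a) * b := by group
    _ = a * (a * b) * (κ * b) := by rw [e]; group
    _ = _ := by rw [← D.cen h]; group

theorem c12 (h : D.Sg σ) {a b : J} (ha : a ∈ h.A) (hb : b ∈ h.mul.A) : a * b = b * a ∨ a * b = b * a * D.z := by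
  by_cases a1 : D.π a = 1
  · exact .inl (D.cen a1 b).symm
  by_cases b1 : D.π b = 1
  · exact .inl (D.cen b1 a)
  have a2 := (h.mem.1 ha).resolve_right a1
  have b2 := (h.mul.mem.1 hb).resolve_right b1
  obtain ⟨κ, k1, k2, k3⟩ := cmk (D := D) a b
  rw [a2, b2, ← mul_assoc σ, D.zsq h.π, one_mul, ← D.cz] at k3
  rcases (D.ker κ).1 k1 with rfl | rfl | k
  · exact .inl (by rw [k2, mul_one])
  · exact .inr (by rw [k2, mul_assoc, D.zz, mul_one])
  · exfalso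
    rcases h.two (Sg.mul k) with e | e
    · have : b ∈ h.A := by simpa using mul_mem (inv_mem ha) (show a * b ∈ h.A from .inl (k3.trans e))
      exact D.zne (b2.symm.trans (this.resolve_right b1))
    · have : a ∈ h.mul.A := by
        simpa using mul_mem (show a * b ∈ h.mul.A from .inl (by rw [k3, ← e, mul_assoc _ D.z, D.zz, mul_one])) (inv_mem hb)
      exact D.zne ((this.resolve_right a1).symm.trans a2)

theorem Sg.Aρ (h : D.Sg σ) {b : J} (hb : b ∈ h.A) : D.ρ b ∈ h.A ∧ D.ρ⁻¹ b ∈ h.A := by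
  have s0 : D.Sg D.s := .inl rfl
  rcases hb with hb | hb
  · exact ⟨.inl (h.sρ hb), .inl (h.sρ' hb)⟩
  · have : D.ρ b = b := by
      rcases (D.ker b).1 hb with rfl | rfl | k
      exacts [map_one _, D.ρz, Sg.ρ k]
    have h2 : D.ρ⁻¹ b = b := by conv_lhs => rw [← this]; simp
    rw [this, h2]; exact ⟨.inr hb, .inr hb⟩

theorem hom {τ : J} (h : D.Sg σ) (h' : D.Sg τ) {a : J} (ha : a ∈ h.A) (a1 : D.π a ≠ 1) (c : ∀ b ∈ h'.A, a * b = b * a)
    {x : J} (hx : x ∈ h.A) {b : J} (hb : b ∈ h'.A) : x * b = b * x := by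
  rcases hx with hx | hx
  · rcases h.k3 (ha.resolve_right a1) hx with e | e | e <;> refine D.cm_eq e ?_
    · exact c b hb
    · simpa using congrArg D.ρ (c _ (h'.Aρ hb).2)
    · simpa using congrArg (D.ρ⁻¹ : MulAut J) (c _ (h'.Aρ hb).1)
  · exact (D.cen hx b).symm

theorem Sg.cm (h : D.Sg σ) {a : J} (ha : a * a = σ) : D.ρ a * a = a * D.ρ a * σ := by
  obtain ⟨κ, -, k2, k3⟩ := cmk (D := D) a (D.ρ a)
  rw [D.sq_eq (p12 a), h.sρ' ha, ha, h.sρ ha, D.zsq h.π, one_mul] at k3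
  rw [k2, k3]

theorem nd (h : D.Sg σ) {x : J} (c : ∀ y, x * y = y * x ∨ x * y = y * x * D.z) : D.π x = 1 := by
  have k : ∀ {τ a b : J}, D.Sg τ → a * a = τ → (D.ρ a * b = b * D.ρ a ∨ D.ρ a * b = b * D.ρ a * D.z) → x = b * a → False := by
    intro τ a b t a2 c1 e
    have e1 : D.ρ a * x = x * D.ρ a * τ ∨ D.ρ a * x = x * D.ρ a * (τ * D.z) := by
      refine c1.imp (fun f => ?_) fun f => ?_ <;> rw [e, ← mul_assoc, f]
      · rw [mul_assoc, t.cm a2]; group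
      · rw [mul_assoc, ← D.cz, mul_assoc, ← mul_assoc (D.ρ a), t.cm a2]; group
    obtain ⟨μ, m, e2⟩ : ∃ μ, D.Sg μ ∧ D.ρ a * x = x * D.ρ a * μ := e1.elim (fun f => ⟨_, t, f⟩) fun f => ⟨_, t.mul, f⟩
    rcases c (D.ρ a) with f | f <;> rw [e2] at f
    · exact m.ne1 (by simpa using f)
    · exact m.mul.ne1 (by simpa [mul_assoc] using f)
  have sw : ∀ {a b : J}, a * b = b * a ∨ a * b = b * a * D.z → b * a = a * b ∨ b * a = a * b * D.z := fun f =>
    f.imp Eq.symm fun f => by rw [f, mul_assoc, D.zz, mul_one]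
  obtain ⟨a, ha, b, hb, e⟩ := gen h h.mul D.zne.symm x
  rcases hb with hb | hb
  · exact (k h.mul hb (sw (c12 h ha (h.mul.Aρ (.inl hb)).1)) e).elim
  rcases ha with ha | ha
  · exact (k h ha (.inl (D.cen hb _)) (e.trans (D.cen hb a))).elim
  · rw [e, map_mul, ha, hb, one_mul]

end C3a

/-- `u`, `q`, `uq` -/
def c3av (p : Ty) : ZMod 3 → M p := ![mu p, mq p, mu p * mq p]
/-- membership in `sZ0` -/
abbrev c3az {p : Ty} (x : M p) : Prop := x.k = false ∧ x.c = false ∧ x.d = false ∧ x.i = false ∧ x.j = false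

theorem c3a_z4 : ∀ p : Ty, p.ws = true → ∀ x : M p, c3az x ↔ x = 1 ∨ x = mz p ∨ x = ms p ∨ x = ms p * mz p := by
  decide +kernel
theorem c3a_zt : ∀ p : Ty, p.ws = true → ∀ x : M p, c3az x → (mt p * x) * (mt p * x) = 1 → x = 1 ∨ x = mz p := by
  decide +kernel
theorem c3a_q0 : ∀ (p : Ty) (x : M p), x.k = false ∧ x.c = false ∧ x.d = false →
    (c3az x ∨ ∃ i, c3az (x * (c3av p i)⁻¹)) ∧ c3az (mt p * (x * mt p * x⁻¹)) := by decide +kernel
theorem c3a_v : ∀ (p : Ty) (i : ZMod 3), ((c3av p i).k = false ∧ (c3av p i).e = false ∧ (c3av p i).c = false ∧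
    (c3av p i).d = false) ∧ c3av p i * c3av p i = mz p ∧ c3av p i * mt p = mt p * c3av p i ∧
    ∀ j, i ≠ j → c3av p i * c3av p j = c3av p j * c3av p i * mz p := by decide +kernel
theorem c3a_r : ∀ p : Ty, p.ws = true → ms p * ms p = 1 ∧ mz p ≠ 1 ∧ ms p ≠ 1 ∧ ms p ≠ mz p ∧
    mq p * (mu p * mq p) = mu p := by decide +kernel
theorem c3a_a : ∀ p : Ty, p.ws = true → ∀ (i : ZMod 3) (c : M p), c3az (c * (c3av p i)⁻¹) → ∀ ζ : M p, c3az ζ →
    mt p * c * (ζ * c3av p i) = ζ * c3av p i * (mt p * c) → (ζ = 1 ∨ ζ = mz p) ∧ c * c = mz p := by decide +kernel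
theorem c3a_b : ∀ p : Ty, p.ws = true → ∀ ζ : M p, c3az ζ →
    (ζ * mt p * ζ⁻¹ = mt p * mz p → ζ = ms p ∨ ζ = ms p * mz p) ∧
      (ζ * mt p * ζ⁻¹ = mt p * mz p * mz p → ζ = 1 ∨ ζ = mz p) := by decide +kernel

theorem c3a : C3aS.{u} := by
  intro G _ _ S W r J hj
  have hw := hj.cw
  have ws := hw.ws
  obtain ⟨r1, r2, r3, r4, r5⟩ := c3a_r _ ws
  have mZ : ∀ g, g ∈ S.Z0 ↔ g = 1 ∨ g = S.z ∨ g = S.s ∨ g = S.s * S.z := fun g => by
    constructor
    · rintro ⟨m, hm, rfl⟩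
      rw [← map_one S.ι, ← map_mul, S.eq_iff, S.eq_iff, S.eq_iff, S.eq_iff]
      exact (c3a_z4 _ ws m).1 hm
    · rintro (rfl | rfl | rfl | rfl)
      exacts [one_mem _, ⟨_, ⟨rfl, rfl, rfl, rfl, rfl⟩, rfl⟩, ⟨_, ⟨rfl, rfl, rfl, rfl, rfl⟩, rfl⟩,
        mul_mem ⟨_, ⟨rfl, rfl, rfl, rfl, rfl⟩, rfl⟩ ⟨_, ⟨rfl, rfl, rfl, rfl, rfl⟩, rfl⟩]
  have cZ : ∀ x ∈ J, ∀ g ∈ S.Z0, x * g = g * x := fun x hx g hg => by
    have a := hw.Wz x (hj.le hx)
    have b := hw.Ws x (hj.le hx)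
    rcases (mZ g).1 hg with rfl | rfl | rfl | rfl
    exacts [by simp, a, b, by rw [← mul_assoc, b, mul_assoc, a, mul_assoc]]
  have QJ : S.Q0 ≤ J := by rintro _ ⟨m, hm, rfl⟩; exact (hj.mem m).2 hm
  let Z : Subgroup J := S.Z0.subgroupOf J
  have nZ : Z.Normal := ⟨fun a ha n => by
    change (n : G) * a * (n : G)⁻¹ ∈ S.Z0
    rw [cZ _ n.2 (a : G) ha, mul_inv_cancel_right]; exact ha⟩
  let π : J →* J ⧸ Z := QuotientGroup.mk' Z
  have π1 : ∀ x, π x = 1 ↔ (x : G) ∈ S.Z0 := fun x => QuotientGroup.eq_one_iff x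
  have πe : ∀ x y, π x = π y ↔ (x : G) * (y : G)⁻¹ ∈ S.Z0 := fun x y => by
    rw [← mul_inv_eq_one, ← map_inv, ← map_mul, π1]; rfl
  have cm : ∀ x y, π x * π y = π y * π x := fun x y => by
    rw [← map_mul, ← map_mul, πe]
    have := hj.cm x x.2 y y.2
    rwa [mul_assoc ((x : G) * y), ← mul_inv_rev] at this
  let χ : J → J := fun x => ⟨S.t * (x * S.t * (x : G)⁻¹), QJ (hj.chi x x.2)⟩
  let c : J →* J ⧸ Z := MonoidHom.mk' (fun x => π (χ x)) fun x y => by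
    have : χ (x * y) = χ x * (x * χ y * x⁻¹) := Subtype.ext (by
      change S.t * ((x : G) * y * S.t * ((x : G) * y)⁻¹) =
        S.t * (x * S.t * (x : G)⁻¹) * (x * (S.t * (y * S.t * (y : G)⁻¹)) * (x : G)⁻¹)
      calc _ = S.t * x * 1 * (y * S.t * (y : G)⁻¹) * (x : G)⁻¹ := by group
        _ = _ := by rw [← S.tt]; group)
    rw [this, map_mul, map_mul, map_mul, cm x, map_inv, mul_inv_cancel_right]
  have hc : ∀ x, c x = π (χ x) := fun _ => rfl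
  let ρ : MulAut J :=
    { toFun := fun x => ⟨r * x * r⁻¹, conj_mem hj.rn x.2⟩
      invFun := fun x => ⟨r⁻¹ * x * r, conj_mem' hj.rn x.2⟩
      left_inv := fun x => Subtype.ext (by simp [mul_assoc])
      right_inv := fun x => Subtype.ext (by simp [mul_assoc])
      map_mul' := fun x y => Subtype.ext (by simp [mul_assoc]) }
  let z : J := ⟨S.z, (hj.mem _).2 ⟨rfl, rfl, rfl⟩⟩
  let s : J := ⟨S.s, (hj.mem _).2 ⟨rfl, rfl, rfl⟩⟩
  let v : ZMod 3 → J := fun i => ⟨S.ι (c3av _ i), (hj.mem _).2 (let h := (c3a_v _ i).1; ⟨h.1, h.2.2⟩)⟩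
  have ker : ∀ x, π x = 1 ↔ x = 1 ∨ x = z ∨ x = s ∨ x = s * z := fun x => by
    rw [π1, mZ]; simp only [Subtype.ext_iff]; rfl
  have rt : r * S.t * r⁻¹ = S.t := by
    rw [hw.ract _ ⟨_, rfl, rfl⟩, mem_centralizer_singleton_iff.1 (S.LH S.ρ0L), mul_inv_cancel_right]
  have ru : r * S.u * r⁻¹ = S.q := (hw.ract _ ⟨_, rfl, rfl⟩).trans S.ρ0u
  have rq : r * S.q * r⁻¹ = S.ι (mu _ * mq _) := (hw.ract _ ⟨_, rfl, rfl⟩).trans S.ρ0q
  have ρv : ∀ i, ρ (v i) = v (i + 1) := fun i => Subtype.ext (by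
    rcases (by decide : ∀ i : ZMod 3, i = 0 ∨ i = 1 ∨ i = 2) i with rfl | rfl | rfl
    · exact ru
    · exact rq
    · change r * S.ι (mu _ * mq _) * r⁻¹ = S.u
      rw [map_mul, ← conj_mul, ru, rq, ← map_mul, r5])
  have vv : ∀ i, v i * v i = z := fun i => Subtype.ext ((map_mul _ _ _).symm.trans (congrArg S.ι (c3a_v _ i).2.1))
  have ρz : ρ z = z := by rw [← vv 0, map_mul, ρv, vv, vv]
  have ρs : ρ s = s := Subtype.ext ((hw.ract _ ⟨_, rfl, rfl⟩).trans S.ρ0s)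
  have πρ : ∀ x y, π (ρ x) = π (ρ y) ↔ π x = π y := fun x y => by
    rw [← mul_inv_eq_one, ← map_inv, ← map_mul, ← map_inv, ← map_mul, ← mul_inv_eq_one (a := π x), ← map_inv, ← map_mul,
      ker, ker]
    conv_lhs => rw [← map_one ρ, ← ρz, ← ρs, ← map_mul]
    simp only [ρ.apply_eq_iff_eq]
  have χρ : ∀ x, χ (ρ x) = ρ (χ x) := fun x => Subtype.ext (by
    change S.t * (r * x * r⁻¹ * S.t * (r * x * r⁻¹)⁻¹) = r * (S.t * (x * S.t * (x : G)⁻¹)) * r⁻¹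
    conv_lhs => rw [← rt]
    group)
  have q0 : ∀ x : J, (x : G) ∈ S.Q0 → π x = 1 ∨ ∃ i, π x = π (v i) := by
    rintro ⟨_, hx⟩ ⟨m, hm, rfl⟩
    refine (c3a_q0 _ m hm).1.imp (fun h => (π1 _).2 ⟨m, h, rfl⟩) fun ⟨i, h⟩ => ⟨i, (πe _ _).2 ⟨_, h, ?_⟩⟩
    rw [map_mul, map_inv]
  let D : C3a J (J ⧸ Z) :=
    { π := π, c := c, ρ := ρ, z := z, s := s, v := v, ker := ker
      cz := fun x => Subtype.ext (hw.Wz x (hj.le x.2))
      cs := fun x => Subtype.ext (hw.Ws x (hj.le x.2))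
      zz := Subtype.ext S.zz
      ss := Subtype.ext ((map_mul _ _ _).symm.trans (by rw [r1, map_one]; rfl))
      z1 := fun h => r2 (S.inj ((congrArg Subtype.val h).trans (map_one _).symm))
      s1 := fun h => r3 (S.inj ((congrArg Subtype.val h).trans (map_one _).symm))
      sz := fun h => r4 (S.inj (congrArg Subtype.val h))
      sq := fun x => by rw [← map_mul, π1]; exact hj.sq x x.2
      cm := cm
      nrm := fun x => by rw [← map_mul, ← map_mul, π1]; exact hj.nrm x x.2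
      ρz := ρz
      ρs := ρs
      kc := fun x => by
        rw [hc, π1]
        refine ⟨fun ⟨m, hm, e⟩ => q0 x ?_, fun h => ?_⟩
        · have e' : (x : G) * S.t * (x : G)⁻¹ = S.ι (M.mt _ * m) := by
            rw [map_mul, e]
            change _ = S.t * (S.t * _)
            rw [← mul_assoc S.t, S.tt, one_mul]
          have h2 := c3a_zt _ ws m hm (S.inj (by
            rw [map_mul, ← e', map_one, conj_mul, S.tt]; group))
          obtain ⟨y, hy⟩ := S.nT ws (isPGroup_sup S.isP1 hw.two hw.S1n) le_sup_left (mem_sup_right (hj.le x.2))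
            (by rw [e']; exact h2.imp (fun h => by rw [h, mul_one]) fun h => by rw [h, map_mul])
          exact ⟨y, (hj.mem y).1 (hy ▸ x.2), hy⟩
        · obtain ⟨m, hm, e⟩ : (x : G) ∈ S.Q0 := by
            have le : S.Z0 ≤ S.Q0 := map_mono fun m hm => ⟨hm.1, hm.2.1, hm.2.2.1⟩
            rcases h with h | ⟨i, h⟩
            · exact le ((π1 _).1 h)
            · simpa using mul_mem (le ((πe _ _).1 h)) (show (v i : G) ∈ S.Q0 from ⟨_, (hj.mem _).1 (v i).2, rfl⟩)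
          refine ⟨_, (c3a_q0 _ m hm).2, ?_⟩
          rw [map_mul, map_mul, map_mul, map_inv, e]
      im := fun x => q0 _ (hj.chi x x.2)
      onto := fun i => let ⟨x, hx, h⟩ := hj.onto (v i) ⟨_, (c3a_v _ i).1, rfl⟩; ⟨⟨x, hx⟩, (πe _ _).2 h⟩
      cρ := fun x i h => by rw [hc, χρ, ← ρv, πρ, ← hc, h]
      cρ' := fun x i h => by rw [hc, ← πρ, ← χρ, ρv, ← h, ← hc]; simp
      vv := vv
      vc := fun i j h => Subtype.ext (by
        change S.ι _ * S.ι _ = S.ι _ * S.ι _ * S.ι _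
        rw [← map_mul, (c3a_v _ i).2.2.2 j h, map_mul, map_mul])
      l6 := fun x i h => by
        obtain ⟨m, -, e⟩ := hj.chi x x.2
        obtain ⟨ζ, hζ, f⟩ := hj.cm x x.2 _ (v i).2
        obtain ⟨η, hη, g⟩ := hj.sq x x.2
        have h0 : S.ι m * (v i : G)⁻¹ ∈ S.Z0 := e ▸ (πe _ _).1 h
        have h1 : c3az (m * (c3av _ i)⁻¹) :=
          (S.mem_map (K := sZ0 _) (x := m * (c3av _ i)⁻¹)).1 (by rw [map_mul, map_inv]; exact h0)
        have e1 : (x : G) * S.t * (x : G)⁻¹ = S.t * S.ι m := by rw [e, ← mul_assoc S.t, S.tt, one_mul]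
        have e2 : (x : G) * v i * (x : G)⁻¹ = S.ι ζ * v i := by rw [f]; group
        have vt : (v i : G) * S.t = S.t * v i := by
          change S.ι _ * S.ι _ = S.ι _ * S.ι _
          rw [← map_mul, (c3a_v _ i).2.2.1, map_mul]
        obtain ⟨h2, h3⟩ := c3a_a _ ws i m h1 ζ hζ (S.inj (by
          simp only [map_mul]
          change S.t * _ * (_ * (v i : G)) = _ * (v i : G) * (S.t * _)
          rw [← e1, ← e2, conj_mul, conj_mul, vt]))
        have e3 : (x : G) * S.ι m * (x : G)⁻¹ = S.ι m * S.ι ζ := by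
          calc _ = x * (S.ι m * (v i : G)⁻¹) * (x : G)⁻¹ * (x * v i * (x : G)⁻¹) := by group
            _ = S.ι m * (v i : G)⁻¹ * (v i * S.ι ζ) := by
              rw [cZ _ x.2 _ h0, e2, cZ _ (v i).2 _ ⟨ζ, hζ, rfl⟩, mul_inv_cancel_right]
            _ = _ := by group
        have e4 : η * M.mt _ * η⁻¹ = M.mt _ * mz _ * ζ := S.inj (by
          rw [← h3]
          simp only [map_mul, map_inv, g]
          calc _ = x * (x * S.t * (x : G)⁻¹) * (x : G)⁻¹ := by group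
            _ = (x * S.t * (x : G)⁻¹) * (x * S.ι m * (x : G)⁻¹) := by rw [conj_mul, ← e1]
            _ = _ := by rw [e1, e3]; group)
        have k : ∀ y : M S.p, ∀ w : J, S.ι y = w → η = y → x * x = w := fun y w a b =>
          Subtype.ext (by rw [← a, ← b, g]; rfl)
        rcases h2 with rfl | rfl
        · refine .inl ⟨Subtype.ext ?_, ((c3a_b _ ws η hη).1 (by rw [e4, mul_one])).imp (k _ _ rfl) (k _ _ (map_mul _ _ _))⟩
          rw [map_one, one_mul, mul_inv_eq_iff_eq_mul] at e2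
          exact e2
        · refine .inr ⟨Subtype.ext ?_, ((c3a_b _ ws η hη).2 e4).imp (k _ _ (map_one _)) (k _ _ rfl)⟩
          change (x : G) * v i = v i * x * S.z
          rw [mul_inv_eq_iff_eq_mul.1 e2, mul_assoc, ← cZ _ (mul_mem (v i).2 x.2) _ ⟨_, hζ, rfl⟩] }
  have s0 : D.Sg D.s := .inl rfl
  have mA : ∀ {σ : J} (h : D.Sg σ) (x : G), x ∈ h.A.map J.subtype ↔ x ∈ J ∧ (x * x = σ ∨ x ∈ S.Z0) := fun h x =>
    ⟨fun ⟨y, hy, e⟩ => e ▸ ⟨y.2, hy.imp (congrArg Subtype.val) (π1 y).1⟩,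
      fun ⟨a, b⟩ => ⟨⟨x, a⟩, b.imp Subtype.ext (π1 _).2, rfl⟩⟩
  have cl : ∀ w (h : w ∈ S.Q), w ∉ S.Z0 → ∃ (a : w ∈ J) (i : ZMod 3), π ⟨w, a⟩ = π (v i) := fun w h h' =>
    have a : w ∈ S.Q0 := map_mono (show sQ _ ≤ sQ0 _ from fun _ hm => ⟨hm.1, hm.2.2⟩) h
    ⟨QJ a, (q0 ⟨w, QJ a⟩ a).resolve_left fun e => h' ((π1 _).1 e)⟩
  refine ⟨s0.A.map J.subtype, s0.mul.A.map J.subtype, hj, mA s0, mA s0.mul, ?_, ?_, fun x hx => ?_, ?_, ?_,
    fun x hx w h h' e => ?_, fun w h => ?_, fun x hx h => ?_⟩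
  · rw [card_map_of_injective J.subtype_injective, s0.card]
  · rw [card_map_of_injective J.subtype_injective, s0.mul.card]
  · obtain ⟨a, ha, b, hb, e⟩ := C3a.gen s0 s0.mul D.zne.symm ⟨x, hx⟩
    exact ⟨a, ⟨a, ha, rfl⟩, b, ⟨b, hb, rfl⟩, congrArg Subtype.val e⟩
  · rintro _ ⟨a, ha, rfl⟩ _ ⟨b, hb, rfl⟩
    exact (C3a.c12 s0 ha hb).imp (congrArg Subtype.val) (congrArg Subtype.val)
  · by_contra h
    push Not at h
    obtain ⟨⟨_, ⟨x, hx, rfl⟩, _, ⟨b, hb, rfl⟩, h1⟩, _, ⟨a, ha, rfl⟩, h2, h3⟩ := h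
    exact h1 (congrArg Subtype.val (C3a.hom s0 s0.mul ha (fun e => h2 ((π1 _).1 e))
      (fun b hb => Subtype.ext (h3 _ ⟨b, hb, rfl⟩)) hx hb))
  · obtain ⟨a, i, f⟩ := cl w h h'
    have k : x * w = w * x ↔ (⟨x, hx⟩ : J) * v i = v i * ⟨x, hx⟩ :=
      ⟨fun g => (D.cm_eq f.symm (Subtype.ext g.symm)).symm, fun g => congrArg Subtype.val (D.cm_eq f g.symm).symm⟩
    rw [k]
    rcases D.l6 ⟨x, hx⟩ i (((πe _ ⟨w, a⟩).2 e).trans f) with ⟨g1, g2⟩ | ⟨g1, g2⟩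
    · exact ⟨fun _ => g2.imp (congrArg Subtype.val) (congrArg Subtype.val), fun _ => g1⟩
    · refine ⟨fun g => (D.zne (g1.symm.trans g)).elim, fun g => ?_⟩
      have : D.Sg (⟨x, hx⟩ * ⟨x, hx⟩) := g.imp Subtype.ext Subtype.ext
      exact (g2.elim this.ne1 this.nez).elim
  · by_cases h' : w ∈ S.Z0
    · exact ⟨1, one_mem _, by simpa [S.tt] using h'⟩
    · obtain ⟨a, i, f⟩ := cl w h h'
      obtain ⟨x, x1, x2⟩ := s0.k2 i
      exact ⟨x, ⟨x, .inl x2, rfl⟩, (πe _ ⟨w, a⟩).1 (x1.trans f.symm)⟩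
  · exact (π1 ⟨x, hx⟩).1 (C3a.nd s0 fun y => (h y y.2).imp Subtype.ext Subtype.ext)

end CL.H33
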