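/-
Project H33 (S3139): step C3B.
-/
import Cfsg.Agent.H33.Defs3

set_option autoImplicit false
set_option linter.unusedSectionVars false
open Cfsg Subgroup CL.Even CL.Grp

namespace CL.H33
open M

universe u

/-- the action of `ρ₀` on `R₁` -/
def c3bσ {p : Ty} (x : M p) : M p := cond x.d (md p) 1 * cond x.z (mz p) 1 * cond x.c (M.mt p) 1 *
  cond x.e (ms p) 1 * cond x.i (mq p) 1 * cond x.j (mu p * mq p) 1

theorem c3b_σ : ∀ (p : Ty) (m : M p), m.k = false → m.c = false →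
    (c3bσ m).d = m.d ∧ (c3bσ m = m → m.i = false ∧ m.j = false) ∧ (m.i = false → m.j = false → c3bσ m = m) := by
  decide +kernel

theorem c3b_z0 : ∀ p : Ty, p.ws = true → p.al = false → ∀ m : M p, m.k = false → m.c = false → m.d = false →
    m * m ≠ ms p ∧ m * m ≠ ms p * mz p ∧ (m.i = false → m.j = false →
      (m = 1 ∨ m = mz p ∨ m = ms p ∨ m = ms p * mz p) ∧ m * m = 1 ∧
      (M.mt p * m * (M.mt p * m) = 1 → m = 1 ∨ m = mz p)) := by decide +kernel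

set_option synthInstance.maxSize 1024 in
theorem c3b_q1 : ∀ p : Ty, p.ws = true → p.al = false → ∀ m : M p, m.k = false → m.c = false →
    (M.mt p * (m * M.mt p * m⁻¹) = 1 ∨ M.mt p * (m * M.mt p * m⁻¹) = mz p) ∧
    (m.i = false → m.j = false → m.d = true → M.mt p * m * (M.mt p * m) = 1 →
      p.big = true ∧ (m = my p ∨ m * mz p = my p)) := by decide +kernel

theorem c3b_rel : ∀ p : Ty, p.ws = true → p.al = false → mu p * mu p = mz p ∧ mq p * mq p = mz p ∧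
    mw' p * mw' p = 1 ∧ mw p = mw' p * (mu p)⁻¹ ∧ M.mt p * (ms p * M.mt p * (ms p)⁻¹) = mz p := by decide +kernel

namespace HD
variable {G : Type u} [Group G] [Finite G] {S : HD G} {W : Subgroup G} {r : G}

/-- coordinates of `χ(x) = t x t x⁻¹` -/
noncomputable def c3bf (S : HD G) (x : G) : M S.p := Function.invFun S.ι (S.t * (x * S.t * x⁻¹))

theorem c3b_eq {x : G} {m : M S.p} (h : S.ι m = S.t * (x * S.t * x⁻¹)) : S.c3bf x = m := by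
  unfold c3bf
  rw [← h]
  exact Function.leftInverse_invFun S.inj m

namespace Cw
variable (hW : S.Cw W r)
include hW

theorem c3b_f {x : G} (hx : x ∈ W) :
    S.ι (S.c3bf x) = S.t * (x * S.t * x⁻¹) ∧ (S.c3bf x).k = false ∧ (S.c3bf x).c = false := by
  obtain ⟨m, hm, e⟩ := hW.chi x hx
  rw [c3b_eq e]
  exact ⟨e, hm⟩

theorem c3b_cz {x v : G} (hx : x ∈ W) (hv : v ∈ S.Z0) : Commute x v := by
  obtain ⟨m, hm, rfl⟩ := hv
  have h1 : Commute x S.s := hW.Ws x hx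
  have h2 : Commute x S.z := hW.Wz x hx
  rcases ((c3b_z0 S.p hW.ws hW.al m hm.1 hm.2.1 hm.2.2.1).2.2 hm.2.2.2.1 hm.2.2.2.2).1 with h | h | h | h <;> rw [h]
  · rw [map_one]; exact Commute.one_right _
  · exact h2
  · exact h1
  · rw [map_mul]; exact h1.mul_right h2

theorem c3b_mul {x y : G} (hx : x ∈ W) (hy : y ∈ W) :
    (S.c3bf (x * y)).d = ((S.c3bf x).d ^^ (S.c3bf y).d) ∧ (S.c3bf (x * y)).i = ((S.c3bf x).i ^^ (S.c3bf y).i) ∧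
      (S.c3bf (x * y)).j = ((S.c3bf x).j ^^ (S.c3bf y).j) := by
  obtain ⟨m, hm, e⟩ := hW.Wq x hx _ (hW.chi y hy)
  obtain ⟨a1, a2, a3⟩ := hW.c3b_f hx
  obtain ⟨b1, b2, b3⟩ := hW.c3b_f hy
  have : S.c3bf (x * y) = S.c3bf x * (m * S.c3bf y) := c3b_eq (by
    rw [map_mul, map_mul, a1, b1, e, inv_mul_cancel_right]
    calc S.t * (x * S.t * x⁻¹) * (x * (S.t * (y * S.t * y⁻¹)) * x⁻¹)
        = S.t * (x * (S.t * S.t) * y * S.t * y⁻¹ * x⁻¹) := by group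
      _ = _ := by rw [S.tt]; group)
  rw [this]
  simp [mul_d, mul_i, mul_j, a2, hm.1, hm.2.2.1, hm.2.2.2.1, hm.2.2.2.2]

theorem c3b_one : S.c3bf 1 = 1 := c3b_eq (by rw [map_one, one_mul, inv_one, mul_one, S.tt])

theorem c3b_inv {x : G} (hx : x ∈ W) :
    (S.c3bf x⁻¹).d = (S.c3bf x).d ∧ (S.c3bf x⁻¹).i = (S.c3bf x).i ∧ (S.c3bf x⁻¹).j = (S.c3bf x).j := by
  have := hW.c3b_mul (inv_mem hx) hx
  rw [inv_mul_cancel, hW.c3b_one] at this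
  have k : ∀ a b : Bool, false = (a ^^ b) → a = b := by decide
  exact ⟨k _ _ this.1, k _ _ this.2.1, k _ _ this.2.2⟩

theorem c3b_conj {k x : G} (hk : k ∈ W) (hx : x ∈ W) :
    (S.c3bf (k * x * k⁻¹)).d = (S.c3bf x).d ∧ (S.c3bf (k * x * k⁻¹)).i = (S.c3bf x).i ∧
      (S.c3bf (k * x * k⁻¹)).j = (S.c3bf x).j := by
  obtain ⟨a1, a2, a3⟩ := hW.c3b_mul (mul_mem hk hx) (inv_mem hk)
  obtain ⟨b1, b2, b3⟩ := hW.c3b_mul hk hx
  obtain ⟨c1, c2, c3⟩ := hW.c3b_inv hk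
  have k : ∀ a b : Bool, ((a ^^ b) ^^ a) = b := by decide
  rw [a1, a2, a3, b1, b2, b3, c1, c2, c3]
  exact ⟨k _ _, k _ _, k _ _⟩

theorem c3b_inv' {x : G} (hx : x ∈ W) : M.mt S.p * S.c3bf x * (M.mt S.p * S.c3bf x) = 1 := S.inj (by
  rw [map_mul, map_mul, (hW.c3b_f hx).1, ← mul_assoc S.t S.t, S.tt, one_mul, conj_mul, S.tt, map_one]; group)

theorem c3b_ker {x : G} (hx : x ∈ W) (hd : (S.c3bf x).d = false) (hi : (S.c3bf x).i = false)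
    (hj : (S.c3bf x).j = false) : ∃ m ∈ sQ1 S.p, S.ι m = x := by
  obtain ⟨a1, a2, a3⟩ := hW.c3b_f hx
  have e : x * S.t * x⁻¹ = S.t * S.ι (S.c3bf x) := by rw [a1, ← mul_assoc, S.tt, one_mul]
  obtain ⟨m, rfl⟩ := S.nT hW.ws (isPGroup_sup' hW.two S.isP1 hW.S1n) le_sup_right (mem_sup_left hx) (by
    rw [e]
    rcases ((c3b_z0 S.p hW.ws hW.al _ a2 a3 hd).2.2 hi hj).2.2 (hW.c3b_inv' hx) with h | h <;> rw [h]
    · exact Or.inl (by rw [map_one, mul_one])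
    · exact Or.inr rfl)
  exact ⟨m, (hW.mem m).1 hx, rfl⟩

theorem c3b_fq {m : M S.p} (hm : m ∈ sQ1 S.p) : (S.c3bf (S.ι m)).d = false := by
  rw [c3b_eq (m := M.mt S.p * (m * M.mt S.p * m⁻¹)) (by simp only [map_mul, map_inv])]
  rcases (c3b_q1 S.p hW.ws hW.al m hm.1 hm.2).1 with h | h <;> rw [h] <;> rfl

theorem c3b_rt : r * S.t * r⁻¹ = S.t := by
  rw [hW.ract _ (S.mem_map.2 rfl), mem_centralizer_singleton_iff.1 (S.LH S.ρ0L), mul_inv_cancel_right]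

theorem c3b_r {m : M S.p} (hm : m.k = false) : r * S.ι m * r⁻¹ = S.ι (c3bσ m) := by
  have key : ∀ (b : Bool) (a a' : M S.p), r * S.ι a * r⁻¹ = S.ι a' →
      r * S.ι (cond b a 1) * r⁻¹ = S.ι (cond b a' 1) := by
    intro b a a' h
    cases b
    · simp
    · exact h
  have hu : r * S.u * r⁻¹ = S.q := (hW.ract _ (S.mem_map.2 rfl)).trans S.ρ0u
  have hz : r * S.z * r⁻¹ = S.z := by
    obtain ⟨e1, e2, -⟩ := c3b_rel S.p hW.ws hW.al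
    change r * S.ι (mz S.p) * r⁻¹ = S.ι (mz S.p)
    conv_lhs => rw [← e1, map_mul, ← conj_mul]
    rw [hu, ← map_mul, e2]
  conv_lhs => rw [nf S.p m, hm]
  simp only [c3bσ, map_mul, cond_false, mul_one, ← conj_mul]
  rw [key _ _ _ ((hW.ract _ (S.mem_map.2 rfl)).trans S.ρ0d), key _ _ _ hz, key _ _ _ hW.c3b_rt,
    key _ _ _ ((hW.ract _ (S.mem_map.2 rfl)).trans S.ρ0s), key _ _ _ hu,
    key _ _ _ ((hW.ract _ (S.mem_map.2 rfl)).trans S.ρ0q)]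

theorem c3b_fr {x : G} (hx : x ∈ W) : S.c3bf (r * x * r⁻¹) = c3bσ (S.c3bf x) := c3b_eq (by
  rw [← hW.c3b_r (hW.c3b_f hx).2.1, (hW.c3b_f hx).1]
  conv_rhs => rw [← hW.c3b_rt]
  group)

theorem c3b_rz1 {v : G} (hv : v ∈ S.Z1) : r * v = v * r := by
  obtain ⟨m, hm, rfl⟩ := hv
  refine mul_inv_eq_iff_eq_mul.1 ?_
  rw [hW.c3b_r hm.1, (c3b_σ S.p m hm.1 hm.2.1).2.2 hm.2.2.1 hm.2.2.2]

theorem c3b_z01 : S.Z0 ≤ S.Z1 := map_mono fun _ hm => ⟨hm.1, hm.2.1, hm.2.2.2.1, hm.2.2.2.2⟩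

theorem c3b_ij {a : G} (ha : a ∈ W) (hr : r * a = a * r) : (S.c3bf a).i = false ∧ (S.c3bf a).j = false := by
  refine (c3b_σ S.p _ (hW.c3b_f ha).2.1 (hW.c3b_f ha).2.2).2.1 ?_
  rw [← hW.c3b_fr ha, hr, mul_inv_cancel_right]

theorem c3b_pz {a : G} (ha : a ∈ W) (hr : r * a = a * r) (hd : (S.c3bf a).d = false) : a ∈ S.Z1 := by
  obtain ⟨m, hm, rfl⟩ := hW.c3b_ker ha hd (hW.c3b_ij ha hr).1 (hW.c3b_ij ha hr).2
  refine S.mem_map.2 ⟨hm.1, hm.2, (c3b_σ S.p m hm.1 hm.2).2.1 (S.inj ?_)⟩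
  rw [← hW.c3b_r hm.1, hr, mul_inv_cancel_right]

theorem c3b_q0 {x : G} (hx : x ∈ W) : S.t * (x * S.t * x⁻¹) ∈ S.Q0 ↔ (S.c3bf x).d = false := by
  rw [← (hW.c3b_f hx).1, S.mem_map]
  exact ⟨fun h => h.2.2, fun h => ⟨(hW.c3b_f hx).2.1, (hW.c3b_f hx).2.2, h⟩⟩

theorem c3b_fix {x : G} (hx : x ∈ W) (hd : (S.c3bf x).d = true) :
    ∃ k ∈ W, r * k = k * r ∧ (S.c3bf k).d = true := by
  classical
  let J0 : Subgroup G :=
    { carrier := {y | y ∈ W ∧ (S.c3bf y).d = false}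
      one_mem' := ⟨one_mem _, by rw [hW.c3b_one]; rfl⟩
      mul_mem' := fun {a b} ha hb => ⟨mul_mem ha.1 hb.1, by rw [(hW.c3b_mul ha.1 hb.1).1, ha.2, hb.2]; rfl⟩
      inv_mem' := fun {a} ha => ⟨inv_mem ha.1, by rw [(hW.c3b_inv ha.1).1, ha.2]⟩ }
  obtain ⟨n, hn⟩ := (hW.two.to_le (fun y hy => hy.1 : J0 ≤ W)).exists_card_eq
  let X := {y : G // y ∈ W ∧ (S.c3bf y).d = true}
  have e : X ≃ J0 :=
    { toFun := fun y => ⟨y.1 * x⁻¹, mul_mem y.2.1 (inv_mem hx), by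
        rw [(hW.c3b_mul y.2.1 (inv_mem hx)).1, (hW.c3b_inv hx).1, y.2.2, hd]; rfl⟩
      invFun := fun y => ⟨y.1 * x, mul_mem y.2.1 hx, by rw [(hW.c3b_mul y.2.1 hx).1, y.2.2, hd]; rfl⟩
      left_inv := fun y => Subtype.ext (inv_mul_cancel_right _ _)
      right_inv := fun y => Subtype.ext (mul_inv_cancel_right _ _) }
  have hd' : ∀ y ∈ W, (S.c3bf (r * y * r⁻¹)).d = (S.c3bf y).d := fun y hy => by
    rw [hW.c3b_fr hy, (c3b_σ S.p _ (hW.c3b_f hy).2.1 (hW.c3b_f hy).2.2).1]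
  let σ : Equiv.Perm X := Equiv.Perm.subtypePerm (MulAut.conj r).toEquiv fun y => by
    have hy : r * y * r⁻¹ ∈ W ↔ y ∈ W := (mem_normalizer_iff.1 hW.rn y).symm
    change r * y * r⁻¹ ∈ W ∧ (S.c3bf (r * y * r⁻¹)).d = true ↔ _
    exact ⟨fun h => ⟨hy.1 h.1, hd' y (hy.1 h.1) ▸ h.2⟩, fun h => ⟨hy.2 h.1, (hd' y h.1).trans h.2⟩⟩
  have : Fintype X := Fintype.ofFinite X
  have : Fact (Nat.Prime 3) := ⟨by norm_num⟩
  obtain ⟨k, hk⟩ := Equiv.Perm.exists_fixed_point_of_prime (p := 3) (n := 1) (σ := σ) (by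
    rw [← Nat.card_eq_fintype_card, Nat.card_congr e, hn]
    exact fun h => absurd (Nat.Prime.dvd_of_dvd_pow Nat.prime_three h) (by norm_num)) (by
    ext y
    change r * (r * (r * y * r⁻¹) * r⁻¹) * r⁻¹ = y
    refine Eq.trans ?_ (conj_eq_of_mem hW.r3 y.2.1)
    rw [pow_three]
    group)
  exact ⟨k, k.2.1, mul_inv_eq_iff_eq_mul.1 (congrArg Subtype.val hk), k.2.2⟩

end Cw

theorem Cl.c3b_jp {J A1 A2 : Subgroup G} (hL : S.Cl W r J A1 A2) {k x : G} (hk : k ∈ W) (hr : r * k = k * r)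
    (hx : x ∈ J) : k * x = x * k := by
  have hJ := hL.hj
  have hW := hJ.cw
  have cz : ∀ v ∈ S.Z0, k * v * k⁻¹ = v := fun v hv => by rw [(hW.c3b_cz hk hv).eq, mul_inv_cancel_right]
  have e1 : ∀ y, r * (k * y * k⁻¹) * r⁻¹ = k * (r * y * r⁻¹) * k⁻¹ := fun y => by
    calc r * (k * y * k⁻¹) * r⁻¹ = (r * k) * y * (r * k)⁻¹ := by group
      _ = _ := by rw [hr]; group
  have e2 : ∀ y, r⁻¹ * (k * y * k⁻¹) * r = k * (r⁻¹ * y * r) * k⁻¹ := fun y => by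
    calc r⁻¹ * (k * y * k⁻¹) * r = r⁻¹ * (k * (r * (r⁻¹ * y * r) * r⁻¹) * k⁻¹) * r := by group
      _ = _ := by rw [← e1]; group
  have nJ : ∀ y ∈ J, k * y * k⁻¹ ∈ J := fun y hy => by
    have hy' := hJ.le hy
    have h1 := mul_mem (mul_mem hk hy') (inv_mem hk)
    refine hJ.char _ h1 ((hW.c3b_q0 h1).2 (by
      rw [(hW.c3b_conj hk hy').1]; exact (hW.c3b_q0 hy').1 (hJ.chi y hy))) ?_
    rw [e1, e2, conj_mul, conj_mul, cz _ (hJ.nrm y hy)]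
    exact hJ.nrm y hy
  have line : ∀ (A : Subgroup G) (m : M S.p), m ∈ sZ0 S.p → (m = ms S.p ∨ m = ms S.p * mz S.p) →
      (∀ y, y ∈ A ↔ y ∈ J ∧ (y * y = S.ι m ∨ y ∈ S.Z0)) → ∀ a ∈ A, k * a * k⁻¹ * a⁻¹ ∈ S.Z0 := by
    intro A m hm hm' hA a ha
    obtain ⟨a1, a2⟩ := (hA a).1 ha
    have h1 : k * a * k⁻¹ ∈ A := (hA _).2 ⟨nJ a a1, a2.imp (fun h => by rw [conj_mul, h, cz _ (S.mem_map.2 hm)])
      fun h => by rw [cz a h]; exact h⟩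
    obtain ⟨b1, b2⟩ := (hA _).1 (mul_mem h1 (inv_mem ha))
    refine b2.resolve_left fun h => ?_
    have aW := hJ.le a1
    obtain ⟨c1, c2, c3⟩ := hW.c3b_mul (hJ.le (nJ a a1)) (inv_mem aW)
    obtain ⟨d1, d2, d3⟩ := hW.c3b_conj hk aW
    obtain ⟨f1, f2, f3⟩ := hW.c3b_inv aW
    obtain ⟨n, -, e⟩ := hW.c3b_ker (hJ.le b1) (by rw [c1, d1, f1, Bool.xor_self]) (by rw [c2, d2, f2, Bool.xor_self])
      (by rw [c3, d3, f3, Bool.xor_self])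
    rw [← e] at b1 h
    have hn := (hJ.mem n).1 b1
    have h2 := c3b_z0 S.p hW.ws hW.al n hn.1 hn.2.1 hn.2.2
    rw [← map_mul, S.eq_iff] at h
    rcases hm' with h3 | h3
    exacts [h2.1 (h.trans h3), h2.2.1 (h.trans h3)]
  obtain ⟨a, ha, b, hb, hab⟩ := hL.gen x hx
  have h1 := line A1 _ ⟨rfl, rfl, rfl, rfl, rfl⟩ (Or.inl rfl) hL.m1 a ha
  have h2 := line A2 _ (mul_mem (by exact ⟨rfl, rfl, rfl, rfl, rfl⟩) (by exact ⟨rfl, rfl, rfl, rfl, rfl⟩))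
    (Or.inr rfl) (fun y => by rw [map_mul]; exact hL.m2 y) b hb
  obtain ⟨ζ, hζ, e⟩ : ∃ ζ ∈ S.Z0, k * x * k⁻¹ = ζ * x := by
    refine ⟨_, mul_mem h1 h2, ?_⟩
    have := (hW.c3b_cz (hJ.le ((hL.m1 a).1 ha).1) h2).eq
    calc k * x * k⁻¹ = k * a * k⁻¹ * a⁻¹ * (a * (k * b * k⁻¹ * b⁻¹)) * b := by rw [hab]; group
      _ = _ := by rw [this, hab]; group
  have rz := hW.c3b_rz1 (hW.c3b_z01 hζ)
  have g1 : k * (r * x * r⁻¹) * k⁻¹ = ζ * (r * x * r⁻¹) := by rw [← e1, e, ← mul_assoc, rz]; group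
  have g2 : k * (r⁻¹ * x * r) * k⁻¹ = ζ * (r⁻¹ * x * r) := by
    rw [← e2, e]
    calc r⁻¹ * (ζ * x) * r = r⁻¹ * (ζ * r) * (r⁻¹ * x * r) := by group
      _ = _ := by rw [← rz]; group
  have g3 := cz _ (hJ.nrm x hx)
  rw [← conj_mul, ← conj_mul, e, g1, g2] at g3
  have c1 := (hW.c3b_cz (hJ.le hx) hζ).eq
  have c2 := (hW.c3b_cz (conj_mem hW.rn (hJ.le hx)) hζ).eq
  have zz : ζ * ζ = 1 := by
    obtain ⟨m, hm, rfl⟩ := hζ
    rw [← map_mul, ((c3b_z0 S.p hW.ws hW.al m hm.1 hm.2.1 hm.2.2.1).2.2 hm.2.2.2.1 hm.2.2.2.2).2.1, map_one]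
  have : ζ = 1 := by
    generalize r * x * r⁻¹ = x' at *
    generalize r⁻¹ * x * r = x'' at *
    have g4 : ζ * x * (ζ * x') * (ζ * x'') = ζ * (x * x' * x'') := by
      calc ζ * x * (ζ * x') * (ζ * x'') = ζ * x * (ζ * (x' * ζ)) * x'' := by group
        _ = _ := by rw [c2, ← mul_assoc ζ ζ, zz]; group
    rw [g4] at g3
    exact mul_eq_right.1 g3
  rw [this, one_mul] at e
  exact mul_inv_eq_iff_eq_mul.1 e

end HD

theorem c3b : C3bS.{u} := by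
  intro G _ _ S W r J A1 A2 hL
  have hJ := hL.hj
  have hW := hJ.cw
  obtain ⟨-, -, e1, e2, e3⟩ := c3b_rel S.p hW.ws hW.al
  have mP : ∀ x, x ∈ W ⊓ centralizer {r} ↔ x ∈ W ∧ r * x = x * r := fun x =>
    and_congr_right fun _ => mem_centralizer_singleton_iff.trans eq_comm
  have JP : J ≤ 𝒞(W ⊓ centralizer {r}) := fun x hx k hk => hL.c3b_jp hk.1 ((mP k).1 hk).2 hx
  have Z1P : S.Z1 ≤ W ⊓ centralizer {r} := fun v hv => (mP v).2 ⟨by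
    obtain ⟨m, hm, rfl⟩ := hv
    exact (hW.mem m).2 ⟨hm.1, hm.2.1⟩, hW.c3b_rz1 hv⟩
  have dP : S.δ ∈ W ⊓ centralizer {r} := Z1P (S.mem_map.2 ⟨rfl, rfl, rfl, rfl⟩)
  have sP : S.s ∈ W ⊓ centralizer {r} := Z1P (S.mem_map.2 ⟨rfl, rfl, rfl, rfl⟩)
  have dec0 : ∀ x ∈ W, (S.c3bf x).d = false → ∃ j ∈ J, ∃ a ∈ W ⊓ centralizer {r}, x = j * a := fun x hx hd => by
    rcases hJ.max x hx ((hW.c3b_q0 hx).2 hd) with h | h
    · exact ⟨x, h, 1, one_mem _, (mul_one x).symm⟩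
    · exact ⟨_, h, _, inv_mem dP, (mul_inv_cancel_right _ _).symm⟩
  refine ⟨W ⊓ centralizer {r}, hL, mP, JP, fun x hx => ?_, ?_, Z1P, fun x hx hp => ?_, ?_⟩
  · cases hd : (S.c3bf x).d
    · exact dec0 x hx hd
    · obtain ⟨k, hk, hr, hd'⟩ := hW.c3b_fix hx hd
      obtain ⟨j, hj, a, ha, e⟩ := dec0 _ (mul_mem hx (inv_mem hk)) (by
        rw [(hW.c3b_mul hx (inv_mem hk)).1, (hW.c3b_inv hk).1, hd, hd']; rfl)
      exact ⟨j, hj, a * k, mul_mem ha ((mP k).2 ⟨hk, hr⟩), by rw [← mul_assoc, ← e, inv_mul_cancel_right]⟩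
  · rintro _ ⟨m, rfl⟩
    have key : ∀ (b : Bool) (a : M S.p), S.ι a ∈ 𝒩(W ⊓ centralizer {r}) →
        S.ι (cond b a 1) ∈ 𝒩(W ⊓ centralizer {r}) := by
      intro b a h
      cases b
      · simp
      · exact h
    have j : ∀ a ∈ sQ0 S.p, S.ι a ∈ 𝒩(W ⊓ centralizer {r}) := fun a ha => cent_le_norm _ (JP ((hJ.mem a).2 ha))
    have ht : S.t ∈ 𝒩(W ⊓ centralizer {r}) :=
      le_norm_inf (L := zpowers S.t) ((zpowers_le.2 ⟨_, rfl⟩ : _ ≤ S.S1).trans hW.S1n)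
        (le_norm_of_le (zpowers_le.2
          (mem_centralizer_singleton_iff.2 (mul_inv_eq_iff_eq_mul.1 hW.c3b_rt).symm))) (mem_zpowers _)
    have hw' : S.w' ∈ 𝒩(W ⊓ centralizer {r}) := mem_norm_of_cj_le (by
      rintro _ ⟨a, ha, rfl⟩
      have ww : S.w' * S.w' = 1 := by rw [← map_mul, e1, map_one]
      have wi : S.w'⁻¹ = S.w' := inv_eq_of_mul_eq_one_left ww
      refine (mP _).2 ⟨conj_mem (hW.S1n ⟨_, rfl⟩) ha.1, ?_⟩
      have h1 := conj_eq_of_mem hW.ri ha.1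
      have h2 := ((mP a).1 ha).2
      change r * (S.w' * a * S.w'⁻¹) = S.w' * a * S.w'⁻¹ * r
      refine mul_inv_eq_iff_eq_mul.1 ?_
      calc r * (S.w' * a * S.w'⁻¹) * r⁻¹ = r * S.w' * (a * r) * r⁻¹ * S.w'⁻¹ * r⁻¹ := by group
        _ = S.w'⁻¹ * ((S.w' * r) ^ 2 * a * ((S.w' * r) ^ 2)⁻¹) * S.w' := by rw [← h2, pow_two]; group
        _ = _ := by rw [h1, wi])
    rw [nf S.p m]
    simp only [map_mul]
    refine mul_mem (mul_mem (mul_mem (mul_mem (mul_mem (mul_mem (key _ _ (le_normalizer dP))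
      (key _ _ (j _ ⟨rfl, rfl, rfl⟩))) (key _ _ ht)) (key _ _ (j _ ⟨rfl, rfl, rfl⟩))) (key _ _ (j _ ⟨rfl, rfl, rfl⟩)))
      (key _ _ (j _ ⟨rfl, rfl, rfl⟩))) (key _ _ ?_)
    rw [e2, map_mul, map_inv]
    exact mul_mem hw' (inv_mem (j _ ⟨rfl, rfl, rfl⟩))
  · have h1 := hJ.nrm x hx
    have h2 := ((mP x).1 hp).2
    rw [h2, mul_inv_cancel_right, mul_assoc r⁻¹, ← h2, inv_mul_cancel_left] at h1
    exact (mul_mem_cancel_left (hJ.sq x hx)).1 h1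
  · by_cases h : ∀ a ∈ W ⊓ centralizer {r}, (S.c3bf a).d = false
    · exact Or.inl (le_antisymm (fun a ha => hW.c3b_pz ha.1 ((mP a).1 ha).2 (h a ha)) Z1P)
    · push Not at h
      obtain ⟨a, ha, hd⟩ := h
      have hd' : (S.c3bf a).d = true := by simpa using hd
      obtain ⟨a1, a2, a3⟩ := hW.c3b_f ha.1
      have hij := hW.c3b_ij ha.1 ((mP a).1 ha).2
      obtain ⟨hb, hy⟩ := (c3b_q1 S.p hW.ws hW.al _ a2 a3).2 hij.1 hij.2 hd' (hW.c3b_inv' ha.1)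
      obtain ⟨k, hk, kd, kt⟩ : ∃ k ∈ W ⊓ centralizer {r}, (S.c3bf k).d = true ∧ S.t * (k * S.t * k⁻¹) = S.y := by
        rcases hy with hy | hy
        · exact ⟨a, ha, hd', by rw [← a1, hy]⟩
        · refine ⟨a * S.s, mul_mem ha sP, ?_, ?_⟩
          · rw [(hW.c3b_mul ha.1 sP.1).1, hd', hW.c3b_fq ⟨rfl, rfl⟩]; rfl
          · have h3 : S.t * (S.s * S.t * S.s⁻¹) = S.z := by rw [← map_inv, ← map_mul, ← map_mul, ← map_mul, e3]
            change _ = S.ι (my S.p)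
            rw [← hy, map_mul, a1]
            calc S.t * (a * S.s * S.t * (a * S.s)⁻¹) = S.t * a * (1 * S.s * S.t * S.s⁻¹) * a⁻¹ := by group
              _ = S.t * a * S.t * (S.t * (S.s * S.t * S.s⁻¹) * a⁻¹) := by rw [← S.tt]; group
              _ = _ := by rw [h3, ← hW.Wz _ (inv_mem ha.1)]; group
      refine Or.inr ⟨hb, k, hk, ?_, by rw [← kt, ← mul_assoc, S.tt, one_mul], fun b hb' => ?_⟩
      · rintro ⟨m, hm, rfl⟩
        rw [hW.c3b_fq ⟨hm.1, hm.2.1⟩] at kd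
        exact absurd kd (by decide)
      · cases bd : (S.c3bf b).d
        · exact Or.inl (hW.c3b_pz hb'.1 ((mP b).1 hb').2 bd)
        · have := mul_mem hb' (inv_mem hk)
          exact Or.inr (hW.c3b_pz this.1 ((mP _).1 this).2 (by
            rw [(hW.c3b_mul hb'.1 (inv_mem hk.1)).1, (hW.c3b_inv hk.1).1, bd, kd]; rfl))

end CL.H33
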