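/-
Project H33 (S3139): squares in `P°` (job H33-C4A).
-/
import Cfsg.Agent.H33.Defs3

set_option autoImplicit false
set_option linter.unusedSectionVars false
open Cfsg Subgroup CL.Even CL.Grp

namespace CL.H33
open M

universe u

theorem c4a_sq : ∀ (p : Ty) (x : M p), x.k = false ∧ x.c = false ∧ x.i = false ∧ x.j = false → ∀ y : M p,
    y.k = false ∧ y.c = false ∧ y.d = false ∧ y.i = false ∧ y.j = false →
      (x * y * x).k = false ∧ (x * y * x).c = false ∧ (x * y * x).d = false ∧ (x * y * x).i = false ∧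
        (x * y * x).j = false := by decide +kernel

theorem c4a_nf : ∀ (p : Ty) (x : M p), x.k = false ∧ x.c = false ∧ x.i = false ∧ x.j = false →
    x = cond x.d (md p) 1 * (cond x.z (mz p) 1 * cond x.e (ms p) 1) := by decide +kernel

theorem c4a_m : ∀ p : Ty, p.ws = true → p.al = false → p.big = true → ∀ x : M p,
    x.k = false ∧ x.c = false ∧ x.i = false ∧ x.j = false →
      (x.d = true → x * M.mt p * x⁻¹ = M.mt p * my p * my p → M.mt p * mws p * x * (M.mt p * mws p)⁻¹ = x ∧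
        x * x = mz p ∧ ms p * mu p ≠ x ∧ ms p * mu p ≠ x * x * x ∧ ms p * mu p ≠ x * (M.mt p * mw p) ∧
          ms p * mu p ≠ x * x * x * (M.mt p * mw p)) ∧
      (x * x = 1 → x * (M.mt p * my p) * x⁻¹ = M.mt p * my p → x = 1 ∨ x = mz p) ∧
      ∀ g : M p, g = (M.mt p * mws p)⁻¹ → (g * x * g⁻¹).k = false ∧ (g * x * g⁻¹).c = false ∧
        (g * x * g⁻¹).i = false ∧ (g * x * g⁻¹).j = false := by decide +kernel

theorem c4a_r : ∀ p : Ty, p.ws = true → p.al = false → p.big = true →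
    my p = ms p * md p ∧ M.mt p * mws p * M.mt p * (M.mt p * mws p)⁻¹ = M.mt p ∧
    M.mt p * mws p * my p * (M.mt p * mws p)⁻¹ = my p ∧ M.mt p * mws p * ms p * (M.mt p * mws p)⁻¹ = mz p * ms p ∧
    ms p * ms p = 1 ∧ ms p * md p = md p * ms p ∧ ms p * M.mt p * (ms p)⁻¹ = M.mt p * mz p ∧ mz p ≠ 1 ∧
    (p.ep = true → M.mt p * mws p = mw p) ∧ (p.ep = false → M.mt p * mws p = M.mt p * mw p) ∧
    ms p * mu p * (M.mt p * mws p) = M.mt p * mws p * (ms p * mu p) ∧ ms p * mu p * (ms p * mu p) = mz p ∧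
    ((ms p * mu p).k = false ∧ (ms p * mu p).c = false ∧ (ms p * mu p).d = false) ∧
    (ms p).k = false ∧ (ms p).c = false ∧ (ms p).i = false ∧ (ms p).j = false := by decide +kernel

theorem c4a_c : ∀ p : Ty, p.ws = true → p.al = false → p.big = true → p.ep = false → ∀ x : M p, x.e = false →
    x * x * (x * x) ≠ 1 → ∀ y : M p, y.e = false → x * y = y * x → y * y = x * x * (x * x) →
      y = x * x ∨ y = x * x * (x * x) * (x * x) ∨ y = x * x * M.mt p ∨ y = x * x * (x * x) * (x * x) * M.mt p := by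
  decide +kernel

theorem c4a : C4aS.{u} := by
  intro G _ _ S W r J A1 A2 Pz h
  have cw := h.cl.hj.cw
  have sq : ∀ a ∈ S.Z1, ∀ b ∈ S.Z0, a * b * a ∈ S.Z0 := by
    rintro _ ⟨a, ha, rfl⟩ _ ⟨b, hb, rfl⟩
    exact ⟨_, c4a_sq _ a ha b hb, by simp⟩
  rcases h.kk with e | ⟨hb, k, kP, kZ, kt, kk⟩
  · exact Or.inl fun a ha => by simpa using sq a (e ▸ ha) 1 (one_mem _)
  have kW := ((h.mP k).1 kP).1
  obtain ⟨m, hm, km⟩ : k * k ∈ S.Z1 := (kk _ (mul_mem kP kP)).resolve_right (by rwa [mul_inv_cancel_right])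
  cases d0 : m.d
  · refine Or.inl fun a ha => (kk a ha).elim (fun h1 => by simpa using sq a h1 1 (one_mem _)) fun h1 => ?_
    have h2 : a * k⁻¹ ∈ S.Q1 := map_mono (show sZ1 S.p ≤ sQ1 S.p from fun _ hx => ⟨hx.1, hx.2.1⟩) h1
    have := mul_mem (sq _ h1 _ (cw.Wq k kW _ h2)) (km ▸ S.mem_map.2 ⟨hm.1, hm.2.1, d0, hm.2.2⟩ : k * k ∈ S.Z0)
    convert this using 1
    group
  right
  obtain ⟨r1, r2, r3, r4, r5, r6, r7, r8, r9, r10, r11, r12, r13, r14⟩ := c4a_r _ cw.ws cw.al hb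
  have cs : Commute k S.s := cw.Ws k kW
  have cz : Commute k S.z := cw.Wz k kW
  have cc : ∀ (b : Bool) (a : M S.p), Commute k (S.ι a) → Commute k (S.ι (cond b a 1)) := fun b a ha => by
    cases b
    exacts [by simp, ha]
  have cd : Commute k S.δ := by
    have h1 : Commute k (S.ι m) := km ▸ (Commute.refl k).mul_right (Commute.refl k)
    rw [c4a_nf _ m hm, d0, map_mul, map_mul] at h1
    have h2 := h1.mul_right ((cc m.z _ cz).mul_right (cc m.e _ cs)).inv_right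
    rwa [mul_inv_cancel_right] at h2
  have c1 : ∀ a ∈ sZ1 S.p, Commute k (S.ι a) := fun a ha => by
    rw [c4a_nf _ a ha, map_mul, map_mul]
    exact (cc _ _ cd).mul_right ((cc _ _ cz).mul_right (cc _ _ cs))
  have cy : Commute k S.y := by rw [HD.y, r1, map_mul]; exact cs.mul_right cd
  obtain ⟨m1, m2, m3, m4, m5, m6⟩ := (c4a_m _ cw.ws cw.al hb m hm).1 d0 (S.inj (by
    simp only [map_mul, map_inv, km]
    calc _ = k * (k * S.t * k⁻¹) * k⁻¹ := by group
      _ = k * S.t * k⁻¹ * (k * S.y * k⁻¹) := by rw [conj_mul, kt]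
      _ = _ := by rw [kt, cy.eq, mul_inv_cancel_right]))
  obtain ⟨x, hx⟩ : ∃ x, x = S.ι (M.mt _ * mws _) := ⟨_, rfl⟩
  have cj1 : ∀ {a b : M S.p}, M.mt _ * mws _ * a * (M.mt _ * mws _)⁻¹ = b → x * S.ι a * x⁻¹ = S.ι b := fun e => by
    rw [hx, ← e, ← map_inv, ← map_mul, ← map_mul]
  obtain ⟨c, hc, kc⟩ : x * k * x⁻¹ * k⁻¹ ∈ S.Z1 := (kk _ (conj_mem (h.S1P ⟨_, hx.symm⟩) kP)).resolve_left
    fun ⟨c, hc, kc⟩ => kZ ⟨_, (c4a_m _ cw.ws cw.al hb c hc).2.2 _ rfl, by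
      rw [map_mul, map_mul, map_inv, map_inv, map_inv, ← hx, kc]; group⟩
  replace kc : x * k * x⁻¹ = S.ι c * k := by rw [kc]; group
  obtain ⟨e, eP, e1, e2, e3, e4⟩ : ∃ e ∈ Pz, e * x = x * e ∧ e * e = S.ι m ∧ e * S.δ = S.δ * e ∧
      (e * S.t * e⁻¹ = S.t * S.y ∨ e * S.t * e⁻¹ = S.t * S.y * S.z) := by
    rcases (c4a_m _ cw.ws cw.al hb c hc).2.1 (S.inj (by
      have h1 := cj1 m1
      rw [km, ← conj_mul, kc, mul_assoc, ← mul_assoc k, (c1 c hc).eq, mul_assoc, ← mul_assoc, mul_eq_right] at h1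
      rw [map_mul, h1, map_one])) (S.inj (by
      have h1 : x * (k * S.t * k⁻¹) * x⁻¹ = S.t * S.y := by rw [kt, ← conj_mul, cj1 r2, cj1 r3]
      simp only [map_mul, map_inv]
      calc _ = S.ι c * (k * S.t * k⁻¹) * (S.ι c)⁻¹ := by rw [kt]
        _ = x * k * x⁻¹ * (x * S.t * x⁻¹) * (x * k * x⁻¹)⁻¹ := by rw [kc, cj1 r2]; group
        _ = _ := by rw [← h1]; group)) with rfl | rfl
    · exact ⟨k, kP, by rw [map_one, one_mul, mul_inv_eq_iff_eq_mul] at kc; exact kc.symm, km.symm, cd, Or.inl kt⟩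
    · refine ⟨k * S.s, mul_mem kP (h.Z1P (S.mem_map.2 r14)), ?_, ?_, ?_, Or.inr ?_⟩
      · rw [eq_comm, ← mul_inv_eq_iff_eq_mul, ← conj_mul, kc, cj1 r4, map_mul, ← cz.eq, mul_assoc, ← mul_assoc S.z,
          S.zz, one_mul]
      · rw [cs.symm.mul_mul_mul_comm, ← map_mul, r5, map_one, mul_one, km]
      · rw [mul_assoc, ← map_mul, r6, map_mul, ← mul_assoc, cd.eq, mul_assoc]
      · have h1 : S.s * S.t * S.s⁻¹ = S.t * S.z := by rw [← map_inv, ← map_mul, ← map_mul, r7, map_mul]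
        calc _ = k * (S.s * S.t * S.s⁻¹) * k⁻¹ := by group
          _ = k * S.t * k⁻¹ * (k * S.z * k⁻¹) := by rw [h1]; group
          _ = _ := by rw [kt, cz.eq, mul_inv_cancel_right]
  cases ep : S.p.ep
  swap
  · exact ⟨hb, ep, e, eP, by rwa [hx, r9 ep] at e1, e3, e4⟩
  exfalso
  have vJ : S.ι (ms _ * mu _) ∈ J := (h.cl.hj.mem _).2 r13
  obtain ⟨g, g1, g2⟩ := S.cjS (e := x) (by rw [hx, r10 ep, map_mul]; exact S.conj_tw)
    (cw.two.to_inf_left (K := centralizer {x})) inf_le_right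
  obtain ⟨a, ha, ea⟩ := g2 (conj_mem_cj g ⟨((h.mP e).1 eP).1, mem_centralizer_singleton_iff.2 e1⟩)
  obtain ⟨b, hb', eb⟩ := g2 (conj_mem_cj g ⟨h.cl.hj.le vJ, mem_centralizer_singleton_iff.2 (by
    rw [hx, ← map_mul, ← map_mul, r11])⟩)
  have a2 : S.ι (a * a) = g * S.ι m * g⁻¹ := by rw [map_mul, ea, conj_mul, e2]
  have fin : ∀ {v : M S.p}, S.ι b = g * S.ι v * g⁻¹ → ms _ * mu _ = v := fun h1 =>
    S.inj ((MulAut.conj g).injective (eb.symm.trans h1))
  rw [hx, r10 ep] at g1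
  rcases c4a_c _ cw.ws cw.al hb ep a ha (fun h1 => r8 (S.inj (by
      have := congrArg S.ι h1
      rwa [map_mul, a2, conj_mul, ← map_mul, m2, map_one, conj_eq_one_iff, ← map_one S.ι] at this))) b hb'
    (S.inj (by rw [map_mul, map_mul, ea, eb, conj_mul, conj_mul, h.JP vJ e eP]))
    (S.inj (by rw [map_mul, map_mul _ (a * a), a2, eb, conj_mul, conj_mul, ← map_mul, ← map_mul, r12, m2]))
    with rfl | rfl | rfl | rfl
  · exact m3 (fin a2)
  · exact m4 (fin (by rw [map_mul, map_mul _ (a * a), a2, conj_mul, conj_mul, map_mul, map_mul]))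
  · exact m5 (fin (by rw [map_mul, a2, map_mul _ m, ← conj_mul, g1]))
  · exact m6 (fin (by
      rw [map_mul, map_mul, map_mul _ (a * a), a2, conj_mul, conj_mul, map_mul _ (m * m * m),
        ← conj_mul (a := S.ι (m * m * m)), g1, map_mul, map_mul]))

end CL.H33
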