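/-
Project H33 (S3139): the configuration `Ke` contradicts the structure of the normaliser of `E` (job H33-C4B).
-/
import Cfsg.Agent.H33.Defs3

set_option autoImplicit false
set_option linter.unusedSectionVars false
open Cfsg Subgroup CL.Even CL.Grp

namespace CL.H33
open M

universe u

theorem c4b_nf : ∀ (p : Ty) (x : M p), x.e = false ∧ x.j = false ∧ x.i = x.d → ∃ a : Bool,
    x = cond x.d (mg p) 1 * cond a (mz p) 1 * cond x.c (M.mt p) 1 * cond x.k (mw p) 1 := by decide +kernel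

/-- membership in `E` -/
abbrev c4b_E {p : Ty} (x : M p) : Prop := x.e = false ∧ x.j = false ∧ x.i = x.d
/-- membership in `Z₀` -/
abbrev c4b_Z {p : Ty} (x : M p) : Prop := x.k = false ∧ x.c = false ∧ x.d = false ∧ x.i = false ∧ x.j = false

theorem c4b_r : ∀ p : Ty, p.ws = true → p.big = true → p.al = false → p.ep = true →
    (c4b_E (M.mt p) ∧ c4b_E (mg p) ∧ c4b_E (mz p) ∧ c4b_E (mw p) ∧ c4b_E (M.mt p * mz p) ∧ c4b_E (M.mt p * mg p) ∧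
      c4b_E (mg p * mz p) ∧ c4b_E (mz p * mw p)) ∧
    (∀ g, g = ms p * mu p → g * M.mt p * g⁻¹ = M.mt p * mz p ∧ g * mg p * g⁻¹ = mg p ∧ g * mz p * g⁻¹ = mz p ∧
      g * mw p * g⁻¹ = mw p) ∧
    M.mt p * mg p * (mg p * mz p) = M.mt p * mz p ∧ M.mt p * mz p * mz p = M.mt p ∧ mg p * mz p * mw p ≠ mg p ∧
    M.mt p * mz p * mg p * mz p = M.mt p * mg p := by decide +kernel

set_option synthInstance.maxSize 1000 in
theorem c4b_s : ∀ p : Ty, p.ws = true → p.big = true → p.al = false → p.ep = true →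
    mw p * ms p * (mw p)⁻¹ = ms p * mz p ∧ mw p * M.mt p * (mw p)⁻¹ = M.mt p ∧ mw p * mw p = 1 ∧ ms p * mz p ≠ ms p ∧
    ms p * M.mt p * (ms p)⁻¹ = M.mt p * mz p ∧ c4b_Z (ms p) ∧ ¬ c4b_Z (mu p) ∧
    ((mu p).k = false ∧ (mu p).e = false ∧ (mu p).c = false ∧ (mu p).d = false) ∧
    ((mq p).k = false ∧ (mq p).e = false ∧ (mq p).c = false ∧ (mq p).d = false) ∧
    md p * (mz p * mu p) = mg p * mz p ∧
    (∀ x : M p, c4b_Z x → x * x ≠ ms p ∧ x * x ≠ ms p * mz p ∧ x.k = false ∧ x.c = false ∧ x.d = false) ∧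
    ∀ x : M p, c4b_Z x → ∀ c, c = mw p * (x * mq p) * (mw p)⁻¹ → (c.k = false ∧ c.c = false) ∧
      ∀ y : M p, c4b_Z y → c4b_Z (x * mq p * y * c * (mu p)⁻¹) ∧ c4b_Z (x * mq p * y * c * mz p * (mu p)⁻¹) := by
  decide +kernel

theorem c4b_q : ∀ p : Ty, ∀ x : M p, c4b_Z x → ∀ y : M p, c4b_Z y → M.mt p * (x * M.mt p * x⁻¹) ≠ y * mq p := by
  decide +kernel

theorem c4b_c : ∀ p : Ty, p.ws = true → p.big = true → p.al = false → p.ep = true → ∀ x : M p, c4b_Z x →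
    ∀ c, c = x * mu p → M.mt p * c * (M.mt p * c) = 1 → (c.k = false ∧ c.c = false ∧ c.d = false) ∧
      (M.mt p * my p * c = M.mt p * mg p ∧ M.mt p * my p * mz p * c = M.mt p * mg p * mz p ∨
        M.mt p * my p * c = M.mt p * mg p * mz p ∧ M.mt p * my p * mz p * c = M.mt p * mg p) ∧
      ∀ y : M p, c4b_Z y → y * mu p * (M.mt p * c) = M.mt p * c * (y * mu p) → y = 1 ∨ y = mz p := by
  decide +kernel

section
variable {G : Type u} [Group G] [Finite G] {S : HD G}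

/-- conjugation by `g` maps `a` to `b` -/
def c4b_A (S : HD G) (g : G) (a b : M S.p) : Prop := g * S.ι a * g⁻¹ = S.ι b

theorem c4b_A.mul {g : G} {a b a' b' : M S.p} (h : c4b_A S g a b) (h' : c4b_A S g a' b') :
    c4b_A S g (a * a') (b * b') := by
  rw [c4b_A, map_mul, map_mul, ← conj_mul, h, h']

theorem c4b_A.comp {g g' : G} {a b c : M S.p} (h : c4b_A S g a b) (h' : c4b_A S g' b c) : c4b_A S (g' * g) a c := by
  rw [c4b_A, ← h', ← h]; group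

theorem c4b_of {g a b : M S.p} (h : g * a * g⁻¹ = b) : c4b_A S (S.ι g) a b := by
  rw [c4b_A, ← map_inv, ← map_mul, ← map_mul, h]

theorem c4b_cm {g : G} {a : M S.p} (h : g * S.ι a = S.ι a * g) : c4b_A S g a a := mul_inv_eq_iff_eq_mul.2 h

theorem c4b_nE {g : G} {a b c d : M S.p} (h1 : c4b_A S g (M.mt _) a) (h2 : c4b_A S g (mg _) b)
    (h3 : c4b_A S g (mz _) c) (h4 : c4b_A S g (mw _) d) (ha : c4b_E a) (hb : c4b_E b) (hc : c4b_E c) (hd : c4b_E d) :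
    g ∈ 𝒩(S.E) := mem_norm_of_cj_le (by
  rintro _ ⟨_, ⟨x, hx, rfl⟩, rfl⟩
  have k : ∀ (b : Bool) {a a' : M S.p}, c4b_E a' → c4b_A S g a a' →
      S.ι (cond b a 1) ∈ S.E.comap (MulAut.conj g).toMonoidHom := fun b a a' h e => by
    cases b
    · exact map_one S.ι ▸ one_mem _
    · exact ⟨a', h, e.symm⟩
  obtain ⟨i, hi⟩ := c4b_nf _ x hx
  show S.ι x ∈ S.E.comap (MulAut.conj g).toMonoidHom
  rw [hi]
  simp only [map_mul]
  exact mul_mem (mul_mem (mul_mem (k _ hb h2) (k _ hc h3)) (k _ ha h1)) (k _ hd h4))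

theorem c4b_fin (hw : S.p.ws = true) (hb : S.p.big = true) (ha : S.p.al = false) (he : S.p.ep = true) (hN : S.Ne)
    {n : G} (h1 : c4b_A S n (M.mt _) (M.mt _ * mg _) ∨ c4b_A S n (M.mt _) (M.mt _ * mg _ * mz _))
    (h2 : c4b_A S n (mg _) (mg _ * mz _)) (h3 : c4b_A S n (mz _) (mz _)) (h4 : c4b_A S n (mw _) (mw _)) : False := by
  obtain ⟨⟨e1, e2, e3, e4, e5, e6, e7, e8⟩, k, r1, r2, r3, r4⟩ := c4b_r _ hw hb ha he
  obtain ⟨k1, k2, k3, k4⟩ := k _ rfl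
  replace k1 := c4b_of k1
  replace k2 := c4b_of k2
  replace k3 := c4b_of k3
  replace k4 := c4b_of k4
  wlog h : c4b_A S n (M.mt _) (M.mt _ * mg _) generalizing n
  · have h5 := (h1.resolve_left h).comp ((k1.mul k2).mul k3)
    rw [r4] at h5
    exact this (Or.inl h5) (h2.comp (k2.mul k3)) (h3.comp k3) (h4.comp k4) h5
  have t1 : c4b_A S S.ρ (M.mt _) (M.mt _) := c4b_cm (mem_centralizer_singleton_iff.1 (S.LH S.ρL))
  have t2 : c4b_A S S.ρ (mg _) (mg _) := S.ρg hb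
  have t3 : c4b_A S S.ρ (mz _) (mw _) := S.ρz
  have n1 := c4b_nE h h2 h3 h4 e6 e7 e3 e4
  have a1 := ((h.comp (t1.mul t2)).comp (r1 ▸ h.mul h2)).comp (r2 ▸ k1.mul k3)
  have a2 := ((h2.comp (t2.mul t3)).comp (h2.mul h4)).comp ((k2.mul k3).mul k4)
  exact r3 (S.inj (a2.symm.trans (hN.1 _ (mem_centralizer_singleton_iff.2 (mul_inv_eq_iff_eq_mul.1 a1))
    (mul_mem (c4b_nE k1 k2 k3 k4 e5 e2 e3 e4) (mul_mem n1 (mul_mem (c4b_nE t1 t2 t3 S.ρw e1 e2 e4 e8) n1)))).1))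

end

theorem c4b : C4bS.{u} := by
  rintro G _ _ S W r J A1 A2 Pz h hN ⟨hb, he, e, eP, ew, ed, et⟩
  have cl := h.cl
  have hj := cl.hj
  have cw := hj.cw
  obtain ⟨s1, s2, s3, s4, s5, s6, s7, s8, s9, s10, s11, s12⟩ := c4b_s _ cw.ws hb cw.al he
  obtain ⟨x, xA, _, ⟨a, ha, rfl⟩, hx⟩ : ∃ x ∈ A1, ∃ a ∈ S.Z0, S.t * (x * S.t * x⁻¹) = a * S.q := by
    obtain ⟨x, h1, h2⟩ := cl.l7 _ (S.mem_map.2 s9)
    exact ⟨x, h1, _, h2, by group⟩
  have ZJ : S.Z0 ≤ J := by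
    rintro _ ⟨y, hy, rfl⟩
    exact (hj.mem y).2 (s11 y hy).2.2
  have nZ : ∀ y ∈ S.Z0, y * y ≠ S.s ∧ y * y ≠ S.s * S.z := by
    rintro _ ⟨y, hy, rfl⟩
    rw [← map_mul, ← map_mul]
    exact ⟨S.inj.ne (s11 y hy).1, S.inj.ne (s11 y hy).2.1⟩
  have sz : S.s * S.z ≠ S.s := by rw [← map_mul]; exact S.inj.ne s4
  have xJ := ((cl.m1 x).1 xA).1
  have xx : x * x = S.s := ((cl.m1 x).1 xA).2.resolve_right fun ⟨v, hv, k⟩ =>
    c4b_q _ v hv a ha (S.inj (by simp only [map_mul, map_inv, k, hx]))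
  have ww : S.w * S.w = 1 := by rw [← map_mul, s3, map_one]
  have ws : S.w * S.s * S.w⁻¹ = S.s * S.z := (c4b_of s1).trans (map_mul _ _ _)
  obtain ⟨y, hy⟩ : ∃ y, y = S.w * x * S.w⁻¹ := ⟨_, rfl⟩
  have yJ : y ∈ J := hy ▸ conj_mem (hj.S1n ⟨_, rfl⟩) xJ
  have yy : y * y = S.s * S.z := by rw [hy, conj_mul, xx, ws]
  have yA : y ∈ A2 := (cl.m2 y).2 ⟨yJ, Or.inl yy⟩
  have wy : S.w * y * S.w⁻¹ = x := by
    rw [hy]
    calc _ = S.w * S.w * x * (S.w * S.w)⁻¹ := by group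
      _ = x := by rw [ww]; group
  obtain ⟨c1, c2⟩ := s12 a ha _ rfl
  have cy : S.t * (y * S.t * y⁻¹) = S.ι (mw _ * (a * mq _) * (mw _)⁻¹) := by
    have h1 : S.w * S.t * S.w⁻¹ = S.t := c4b_of s2
    rw [map_mul, map_mul, map_inv, map_mul, ← hx, ← conj_mul, h1, hy]
    calc _ = S.t * (S.w * x * S.w⁻¹ * (S.w * S.t * S.w⁻¹) * (S.w * x * S.w⁻¹)⁻¹) := by rw [h1]
      _ = _ := by group
  obtain ⟨η, hη, eη⟩ := cw.Wq x (hj.le xJ) _ (S.mem_map.2 c1)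
  have cxy : S.t * (x * y * S.t * (x * y)⁻¹) = S.ι (a * mq _ * η * (mw _ * (a * mq _) * (mw _)⁻¹)) := by
    rw [map_mul, map_mul, eη, ← cy, map_mul, ← hx]
    calc _ = S.t * x * (S.t * S.t) * (y * S.t * y⁻¹) * x⁻¹ := by rw [S.tt]; group
      _ = _ := by group
  have sA1 : S.s ∈ A1 := (cl.m1 _).2 ⟨ZJ (S.mem_map.2 s6), Or.inr (S.mem_map.2 s6)⟩
  have sA2 : S.s ∈ A2 := (cl.m2 _).2 ⟨ZJ (S.mem_map.2 s6), Or.inr (S.mem_map.2 s6)⟩
  obtain ⟨b, bJ, bw, bu, b1, b2⟩ : ∃ b ∈ J, S.w * b * S.w⁻¹ = b ∧ S.t * (b * S.t * b⁻¹) * S.u⁻¹ ∈ S.Z0 ∧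
      (b ∈ A1 → x * y ∈ A1) ∧ (b ∈ A2 → x * y ∈ A2) := by
    rcases cl.c12 x xA y yA with k | k
    · exact ⟨x * y, mul_mem xJ yJ, by rw [← conj_mul, wy, ← hy, k],
        ⟨_, (c2 η hη).1, by rw [cxy, map_mul, map_inv]⟩, id, id⟩
    · refine ⟨x * y * S.s, mul_mem (mul_mem xJ yJ) (ZJ (S.mem_map.2 s6)), ?_, ⟨_, (c2 η hη).2, ?_⟩,
        (mul_mem_cancel_right sA1).1, (mul_mem_cancel_right sA2).1⟩
      · rw [← conj_mul, ← conj_mul, wy, ← hy, ws, k, S.z_comm, mul_assoc (y * x)]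
      · have h1 : S.s * S.t * S.s⁻¹ = S.t * S.z := (c4b_of s5).trans (map_mul _ _ _)
        have h2 := cw.Wz _ (hj.le (mul_mem xJ yJ))
        rw [map_mul, map_mul, map_inv, ← cxy]
        calc _ = S.t * (x * y * S.t * (x * y)⁻¹ * (S.z * (x * y)) * (x * y)⁻¹) * S.u⁻¹ := by group
          _ = S.t * (x * y * (S.s * S.t * S.s⁻¹) * (x * y)⁻¹) * S.u⁻¹ := by rw [← h2, h1]; group
          _ = _ := by group
  have nu : b * S.u ≠ S.u * b := fun k => by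
    rcases (cl.l6 b bJ _ (S.mem_map.2 s8) (mt S.mem_map.1 s7) bu).1 k with k | k
    · rcases ((cl.m1 y).1 ((mul_mem_cancel_left xA).1 (b1 ((cl.m1 b).2 ⟨bJ, Or.inl k⟩)))).2 with k1 | k1
      exacts [sz (yy.symm.trans k1), (nZ y k1).2 yy]
    · rcases ((cl.m2 x).1 ((mul_mem_cancel_right yA).1 (b2 ((cl.m2 b).2 ⟨bJ, Or.inl k⟩)))).2 with k1 | k1
      exacts [sz (k1.symm.trans xx), (nZ x k1).1 xx]
  obtain ⟨ζ, hζ, eζ⟩ := bu
  have bt : c4b_A S b (M.mt _) (M.mt _ * (ζ * mu _)) := by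
    rw [c4b_A, map_mul, map_mul, eζ, inv_mul_cancel_right, ← mul_assoc, S.tt, one_mul]
  obtain ⟨d1, d2, d3⟩ := c4b_c _ cw.ws hb cw.al he ζ hζ _ rfl (S.inj (by
    rw [map_mul, ← bt, conj_mul, S.tt, map_one]; group))
  obtain ⟨θ, hθ, eθ⟩ := cw.Wq b (hj.le bJ) S.u (S.mem_map.2 ⟨s8.1, s8.2.2.1⟩)
  have bu' : c4b_A S b (mu _) (θ * mu _) := by rw [c4b_A, map_mul, eθ]; group
  have ut : mu S.p * M.mt S.p = M.mt S.p * mu S.p := (by decide +kernel : ∀ p, mu p * M.mt p = M.mt p * mu p) _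
  rcases d3 θ hθ (S.inj ((bu'.mul bt).symm.trans (ut ▸ bt.mul bu'))) with rfl | rfl
  · exact nu (mul_inv_eq_iff_eq_mul.1 (bu'.trans (by rw [one_mul])))
  have eW := ((h.mP e).1 eP).1
  have eJ : ∀ {v : M S.p}, v ∈ sQ0 S.p → c4b_A S e v v := fun hv => c4b_cm (h.JP ((hj.mem _).2 hv) e eP)
  have ez : c4b_A S e (mz _) (mz _) := c4b_cm (cw.Wz e eW)
  refine c4b_fin cw.ws hb cw.al he hN (n := e * b) ?_ ?_ ((c4b_cm (cw.Wz b (hj.le bJ))).comp ez)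
    ((c4b_cm ?_).comp (c4b_cm ew))
  · rcases et with k | k
    · have := bt.comp (c4b_A.mul (k.trans (map_mul _ _ _).symm) (eJ d1))
      rcases d2 with k1 | k1
      exacts [Or.inl (k1.1 ▸ this), Or.inr (k1.1 ▸ this)]
    · have := bt.comp (c4b_A.mul (b := M.mt _ * my _ * mz _) (k.trans (by rw [map_mul, map_mul])) (eJ d1))
      rcases d2 with k1 | k1
      exacts [Or.inr (k1.2 ▸ this), Or.inl (k1.2 ▸ this)]
  · exact s10 ▸ ((c4b_cm (hj.dJ b bJ)).mul bu').comp ((c4b_cm ed).mul (ez.mul (eJ ⟨s8.1, s8.2.2⟩)))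
  · exact (mul_inv_eq_iff_eq_mul.1 bw).symm

end CL.H33
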