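/-
Project H33 (S3139): step C5, `Z₀` is normal in `T` and the centraliser of `J / Z₀`.
-/
import Cfsg.Agent.H33.Defs3

set_option autoImplicit false
set_option linter.unusedSectionVars false
open Cfsg Subgroup CL.Even CL.Grp

namespace CL.H33
open M

universe u

theorem c5_z0 : ∀ (p : Ty) (x : M p), x.k = false ∧ x.c = false ∧ x.d = false ∧ x.i = false ∧ x.j = false →
    (x = 1 ∨ x = mz p ∨ x = ms p ∨ x = ms p * mz p) ∧
      (p.ws = true → M.mt p * x⁻¹ * (M.mt p * x⁻¹) = 1 → M.mt p * x⁻¹ = M.mt p ∨ M.mt p * x⁻¹ = M.mt p * mz p) := by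
  decide +kernel

theorem c5_cs : ∀ p : Ty, p.al = false → ∀ g : M p, g * ms p * g⁻¹ = ms p ∨ g * ms p * g⁻¹ = ms p * mz p := by
  decide +kernel

theorem c5_kj : ∀ (p : Ty) (m : M p), (mq p * m * (mq p)⁻¹ = m ∨ mq p * m * (mq p)⁻¹ = m * mz p) →
    (mw p * m * (mw p)⁻¹ = m ∨ mw p * m * (mw p)⁻¹ = m * mz p) → m.k = false ∧ m.j = false := by decide +kernel

set_option synthInstance.maxSize 4000 in
theorem c5_e : ∀ p : Ty, p.ws = true → p.al = false → ∀ m : M p, m.k = false → m.j = false → m * m = 1 → m ≠ 1 → m ≠ mz p →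
    ∀ a : M p, a.k = false ∧ a.c = false ∧ a.d = false ∧ a.i = false ∧ a.j = false →
    M.mt p * a * mq p * (M.mt p * a * mq p) = 1 →
    ∀ b : M p, b.k = false ∧ b.c = false ∧ b.d = false ∧ b.i = false ∧ b.j = false →
    M.mt p * a * mq p * (b * mu p) = b * mu p * (M.mt p * a * mq p) →
    (cond m.d (md p) 1 * cond m.z (mz p) 1 * cond m.c (M.mt p * a * mq p) 1 * cond m.e (ms p) 1 * cond m.i (b * mu p) 1 = m ∨
      cond m.d (md p) 1 * cond m.z (mz p) 1 * cond m.c (M.mt p * a * mq p) 1 * cond m.e (ms p) 1 * cond m.i (b * mu p) 1 =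
        m * mz p) → m = ms p ∨ m = ms p * mz p := by decide +kernel

theorem c5_q1 : ∀ p : Ty, p.ws = true → p.al = false → ∀ m : M p, m.e = false → m * ms p = ms p * m →
    (m.k = false ∧ m.c = false) ∨ ((m * mws p).k = false ∧ (m * mws p).c = false) := by decide +kernel

theorem c5_ne : ∀ p : Ty, p.ws = true → ms p * ms p = 1 ∧ ms p ≠ 1 ∧ ms p ≠ mz p ∧ M.mt p * ms p ≠ ms p * M.mt p ∧
    (mq p * mws p * (mq p)⁻¹ * (mws p)⁻¹).i = true := by decide +kernel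

variable {G : Type u} [Group G] [Finite G] {S : HD G} {W J A1 A2 Pz T : Subgroup G} {r x : G}

theorem c5_mem : x ∈ S.Z0 ↔ x = 1 ∨ x = S.z ∨ x = S.s ∨ x = S.s * S.z := by
  constructor
  · rintro ⟨y, hy, rfl⟩
    rcases (c5_z0 _ y hy).1 with rfl | rfl | rfl | rfl <;> simp
  · have a : S.z ∈ S.Z0 := S.mem_map.2 ⟨rfl, rfl, rfl, rfl, rfl⟩
    have b : S.s ∈ S.Z0 := S.mem_map.2 ⟨rfl, rfl, rfl, rfl, rfl⟩
    rintro (rfl | rfl | rfl | rfl)
    exacts [one_mem _, a, b, mul_mem b a]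

theorem c5_norm (hz : x * S.z = S.z * x) (h : x * S.s * x⁻¹ = S.s ∨ x * S.s * x⁻¹ = S.s * S.z) : x ∈ 𝒩(S.Z0) := by
  have a : x * S.z * x⁻¹ ∈ S.Z0 := by rw [hz, mul_inv_cancel_right]; exact c5_mem.2 (.inr (.inl rfl))
  have b : x * S.s * x⁻¹ ∈ S.Z0 := c5_mem.2 (.inr (.inr h))
  refine mem_norm_of_cj_le ?_
  rintro _ ⟨y, hy, rfl⟩
  change x * y * x⁻¹ ∈ _
  rcases c5_mem.1 hy with rfl | rfl | rfl | rfl
  exacts [by simp, a, b, by rw [← conj_mul]; exact mul_mem b a]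

theorem c5_S1 (al : S.p.al = false) : S.S1 ≤ 𝒩(S.Z0) := by
  rintro _ ⟨g, rfl⟩
  exact c5_norm (S.z_comm g) (by simpa only [← map_inv, ← map_mul, S.eq_iff] using c5_cs _ al g)

theorem c5_cent (hz : x * S.z = S.z * x) (hs : x * S.s = S.s * x) : x ∈ 𝒞(S.Z0) := mem_centralizer_iff.2 fun y hy => by
  rcases c5_mem.1 hy with rfl | rfl | rfl | rfl
  exacts [by simp, hz.symm, hs.symm, (Commute.mul_right hs hz).symm]

theorem c5_conj (ws : S.p.ws = true) (hz : x * S.z = S.z * x) (h : x * S.s * x⁻¹ ∈ S.Z0) :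
    x * S.s * x⁻¹ = S.s ∨ x * S.s * x⁻¹ = S.s * S.z := by
  rcases c5_mem.1 h with e | e | e
  · exact ((c5_ne _ ws).2.1 (S.inj ((conj_eq_one_iff.1 e).trans (map_one _).symm))).elim
  · rw [mul_inv_eq_iff_eq_mul, ← hz, mul_right_inj, S.eq_iff] at e
    exact ((c5_ne _ ws).2.2.1 e).elim
  · exact e

variable (h : S.Ct W r J A1 A2 Pz T)
include h

theorem c5_a : T ≤ 𝒩(S.Z0) := by
  have cw := h.cp.cl.hj.cw
  have hJ := h.cp.cl.hj
  have pT := h.syl.isPGroup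
  have zT : ∀ {x}, x ∈ T → x * S.z = S.z * x := S.zT cw.ws pT h.le
  refine inf_eq_left.1 (inf_le_left.eq_or_lt.resolve_right fun lt => ?_)
  obtain ⟨n, hn, nN⟩ := SetLike.exists_of_lt (lt_inf_normalizer_of_isPGroup pT lt)
  have eT : n * S.s * n⁻¹ ∈ T := conj_mem (le_normalizer hn.1) (h.le ⟨_, rfl⟩)
  have ee : n * S.s * n⁻¹ * (n * S.s * n⁻¹) = 1 := by rw [conj_mul, ← map_mul, (c5_ne _ cw.ws).1, map_one, mul_one, mul_inv_cancel]
  have key : ∀ g ∈ T ⊓ 𝒩(S.Z0), g * (n * S.s * n⁻¹) * g⁻¹ = n * S.s * n⁻¹ ∨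
      g * (n * S.s * n⁻¹) * g⁻¹ = n * S.s * n⁻¹ * S.z := fun g hg => by
    have k := conj_mem' hn.2 hg
    rw [show g * (n * S.s * n⁻¹) * g⁻¹ = n * (n⁻¹ * g * n * S.s * (n⁻¹ * g * n)⁻¹) * n⁻¹ by group]
    refine (c5_conj cw.ws (zT k.1) (conj_mem k.2 (c5_mem.2 (by simp)))).imp (fun e => by rw [e]) fun e => ?_
    rw [e, ← conj_mul, zT hn.1, mul_inv_cancel_right]
  have S1N : ∀ y, S.ι y ∈ T ⊓ 𝒩(S.Z0) := fun y => ⟨h.le ⟨y, rfl⟩, c5_S1 cw.al ⟨y, rfl⟩⟩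
  obtain ⟨m, hm⟩ := S.nT cw.ws pT h.le eT (by
    generalize n * S.s * n⁻¹ = e at *
    have i := eq_inv_of_mul_eq_one_left ee
    refine (key _ (S1N (M.mt _))).imp (fun k => ?_) fun k => ?_ <;> rw [mul_inv_eq_iff_eq_mul] at k ⊢
    · exact k.symm
    · rw [mul_assoc S.t, ← zT eT, ← mul_assoc, k, mul_assoc, mul_assoc, S.z_comm, ← mul_assoc S.z, S.zz, one_mul])
  rw [← hm] at key ee
  have kj := c5_kj _ m (by simpa only [← map_inv, ← map_mul, S.eq_iff] using key _ (S1N (mq _)))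
    (by simpa only [← map_inv, ← map_mul, S.eq_iff] using key _ (S1N (mw _)))
  obtain ⟨x, hx, a, ha, ea⟩ := hJ.onto S.q (S.mem_map.2 ⟨rfl, rfl, rfl, rfl⟩)
  have xW := hJ.le hx
  obtain ⟨b, hb, eb⟩ := cw.Wq x xW S.u (S.mem_map.2 ⟨rfl, rfl⟩)
  have et : x * S.t * x⁻¹ = S.ι (M.mt _ * a * mq _) := by
    rw [map_mul, map_mul, ea, ← mul_assoc, ← mul_assoc, S.tt, one_mul, inv_mul_cancel_right]
  have eu : x * S.u * x⁻¹ = S.ι (b * mu _) := by rw [map_mul, eb, inv_mul_cancel_right]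
  have cnd : ∀ (c : Bool) {y y' : M S.p}, x * S.ι y * x⁻¹ = S.ι y' → x * S.ι (cond c y 1) * x⁻¹ = S.ι (cond c y' 1) :=
    fun c _ _ e => by cases c; exacts [by simp, e]
  have k := key x ⟨h.WT xW, cent_le_norm _ (c5_cent (cw.Wz x xW) (cw.Ws x xW))⟩
  have k2 : x * S.ι m * x⁻¹ = S.ι (cond m.d (md _) 1 * cond m.z (mz _) 1 * cond m.c (M.mt _ * a * mq _) 1 *
      cond m.e (ms _) 1 * cond m.i (b * mu _) 1) := by
    conv_lhs => rw [nf _ m, kj.1, kj.2]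
    simp only [cond_false, mul_one, map_mul (M := M S.p) S.ι (_ * _) (cond _ _ _), map_mul S.ι (cond _ _ _), ← conj_mul]
    rw [cnd _ et, cnd _ eu, cnd _ (mul_inv_eq_of_eq_mul (hJ.dJ x hx)), cnd _ (mul_inv_eq_of_eq_mul (cw.Wz x xW)),
      cnd _ (mul_inv_eq_of_eq_mul (cw.Ws x xW))]
  rw [k2, ← map_mul, S.eq_iff, S.eq_iff] at k
  have k3 := c5_e _ cw.ws cw.al m kj.1 kj.2 (S.inj (by rw [map_mul, ee, map_one]))
    (fun e => (c5_ne _ cw.ws).2.1 (S.inj (by rw [map_one, ← conj_eq_one_iff (a := n), ← hm, e, map_one])))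
    (fun e => (c5_ne _ cw.ws).2.2.1 (S.inj (by
      rw [e, eq_mul_inv_iff_mul_eq, ← zT hn.1, mul_right_inj] at hm; exact hm.symm))) a ha
    (S.inj (by rw [map_mul, ← et, conj_mul, S.tt, map_one, mul_one, mul_inv_cancel])) b hb
    (S.inj (by
      rw [map_mul, map_mul S.ι (b * _), ← et, ← eu, conj_mul, conj_mul, ← map_mul, ← map_mul,
        (by decide +kernel : ∀ p, M.mt p * mu p = mu p * M.mt p)])) k
  exact nN ⟨hn.1, c5_norm (zT hn.1) (by simpa only [← hm, ← map_mul, S.eq_iff] using k3)⟩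

theorem c5_b (hx : x ∈ T) (hs : x * S.s = S.s * x) (hc : S.t * (x * S.t * x⁻¹) ∈ W) : x ∈ W ∨ x * S.ws ∈ W := by
  have cw := h.cp.cl.hj.cw
  have pT := h.syl.isPGroup
  have e1 : ∀ {c}, c = S.t * (x * S.t * x⁻¹) → x * S.t * x⁻¹ = S.t * c := fun e => by rw [e, ← mul_assoc, S.tt, one_mul]
  generalize ec : S.t * (x * S.t * x⁻¹) = c at hc
  replace e1 := e1 ec.symm
  have e2 : c * S.t * c⁻¹ = S.t * (c * c)⁻¹ := by
    have : S.t * c * (S.t * c) = 1 := by rw [← e1, conj_mul, S.tt, mul_one, mul_inv_cancel]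
    calc _ = S.t⁻¹ * (S.t * c * (S.t * c)) * (c * c)⁻¹ := by group
      _ = _ := by rw [this, mul_one, inv_eq_of_mul_eq_one_left S.tt]
  obtain ⟨y, hy, ey⟩ : c * c ∈ S.Z0 := by
    obtain ⟨j, hj, a, ha, rfl⟩ := h.cp.dec c hc
    rw [← Commute.mul_mul_mul_comm (comm_of_mem (h.cp.JP hj) ha).symm]
    exact mul_mem (h.cp.cl.hj.sq j hj) (h.el a ha)
  rw [← ey, ← map_inv, ← map_mul] at e2
  obtain ⟨v, rfl⟩ := S.nT cw.ws pT h.le (h.WT hc) (by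
    rw [e2, ← map_mul, S.eq_iff, S.eq_iff]
    exact (c5_z0 _ y hy).2 cw.ws (S.inj (by rw [map_mul, ← e2, conj_mul, S.tt, map_one, mul_one, mul_inv_cancel])))
  obtain ⟨n, hn, en⟩ := cw.orb x (S.zT cw.ws pT h.le hx) (by
    rw [e1, ← map_mul]
    exact S.mem_map.2 ((mul_k _ _).trans (by rw [((cw.mem v).1 hc).1]; rfl)))
  obtain ⟨m, hm, em⟩ := S.cT pT ((S.map_le _).trans h.le) (T.mul_mem (T.inv_mem (h.WT hn)) hx) (by
    rw [← mul_inv_eq_iff_eq_mul, mul_inv_rev, inv_inv, mul_assoc n⁻¹, mul_assoc n⁻¹, ← mul_assoc (x * _), ← en]; group)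
  rw [← mul_inv_cancel_left n x, ← em, mul_assoc, ← map_mul]
  exact (c5_q1 _ cw.ws cw.al m hm (S.inj (by
    rw [map_mul, map_mul, em]; exact (Commute.mul_left (Commute.inv_left (cw.Ws n hn)) hs)))).imp
      (fun k => mul_mem hn ((cw.mem _).2 k)) fun k => mul_mem hn ((cw.mem _).2 k)

theorem c5_c (hx : x ∈ T) (hs : x * S.s = S.s * x) (hn : x ∈ 𝒩(J)) (hc : ∀ j ∈ J, x * j * x⁻¹ * j⁻¹ ∈ S.Z0) : x ∈ W := by
  have hJ := h.cp.cl.hj
  have cw := hJ.cw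
  have pT := h.syl.isPGroup
  set K := T ⊓ 𝒞(S.Z0) ⊓ 𝒩(J) ⊓ cmod J S.Z0 with hK
  have mK : ∀ {x}, x ∈ T → x * S.s = S.s * x → x ∈ 𝒩(J) → (∀ j ∈ J, x * j * x⁻¹ * j⁻¹ ∈ S.Z0) → x ∈ K := fun a b c d =>
    ⟨⟨⟨a, c5_cent (S.zT cw.ws pT h.le a) b⟩, c⟩, c5_a h a, fun j hj => by
      rw [← commutatorElement_inv]; exact inv_mem (d j hj)⟩
  have WK : W ≤ K := fun y hy => by
    obtain ⟨j, hj, a, ha, rfl⟩ := h.cp.dec y hy
    have aJ : a ∈ 𝒞(J) := le_centralizer_iff.1 h.cp.JP ha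
    refine mK (h.WT hy) (cw.Ws _ hy) (mul_mem (le_normalizer hj) (cent_le_norm J aJ)) fun i hi => ?_
    rw [show j * a * i * (j * a)⁻¹ = j * (a * i * a⁻¹) * j⁻¹ by group, conj_eq_of_mem aJ hi]
    exact hJ.cm j hj i hi
  have nK : S.S1 ≤ 𝒩(K) := le_norm_inf (le_norm_inf (le_norm_inf (h.le.trans le_normalizer) (le_norm_cent (c5_S1 cw.al)))
    (hJ.S1n.trans le_normalizer)) (le_norm_cmod hJ.S1n (c5_S1 cw.al))
  have t1 : S.t ∈ S.S1 := ⟨_, rfl⟩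
  have tK : S.t ∉ K := fun k => (c5_ne _ cw.ws).2.2.2.1 (S.inj (by
    rw [map_mul, map_mul]; exact (comm_of_mem k.1.1.2 (c5_mem.2 (by simp))).symm))
  have sp : ∀ {y}, y ∈ W ⊔ zpowers S.t → y ∈ W ∨ y * S.t ∈ W := fun hy => by
    obtain ⟨a, ha, _, ⟨k, rfl⟩, rfl⟩ := (mem_sup_nl (zpowers_le.2 (cw.S1n t1))).1 hy
    have e : ∀ i : ℤ, S.t ^ (2 * i) = 1 := fun i => by rw [zpow_mul, zpow_two, S.tt, one_zpow]
    rcases Int.even_or_odd' k with ⟨i, rfl | rfl⟩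
    · exact .inl (by simpa only [e, mul_one] using ha)
    · exact .inr (by simpa only [zpow_add_one, e, one_mul, mul_assoc, S.tt, mul_one] using ha)
  by_contra xW
  have xK := mK hx hs hn hc
  obtain ⟨_, ⟨hy, yn⟩, yE⟩ := SetLike.exists_of_lt (lt_inf_normalizer_of_isPGroup (D := W ⊔ zpowers S.t)
    (P := W ⊔ zpowers S.t ⊔ K) (pT.to_le (sup_le (sup_le h.WT (zpowers_le.2 (h.le t1))) fun _ k => k.1.1.1))
    (left_lt_sup.2 fun e => (sp (e xK)).elim xW fun k => tK ((mul_mem_cancel_left xK).1 (WK k))))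
  obtain ⟨a, ha, y, yK, rfl⟩ := (mem_sup_nr (sup_le (WK.trans le_normalizer) (zpowers_le.2 (nK t1)))).1 hy
  have k := (sp (conj_mem ((mul_mem_cancel_left (le_normalizer ha)).1 yn) (mem_sup_right (mem_zpowers _)))).resolve_left
    fun k => tK (by simpa [mul_assoc] using K.mul_mem (K.mul_mem (K.inv_mem yK) (WK k)) yK)
  rcases c5_b h yK.1.1.1 (comm_of_mem yK.1.1.2 (c5_mem.2 (by simp))).symm
    (by simpa only [mul_assoc, mul_inv_cancel, mul_one] using conj_mem (cw.S1n t1) k) with e | e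
  · exact yE (mul_mem ha (mem_sup_left e))
  have k2 := ((mul_mem_cancel_left yK).1 (WK e)).2.2 S.q ((hJ.mem _).2 ⟨rfl, rfl, rfl⟩)
  rw [commutatorElement_def, ← map_inv, ← map_inv, ← map_mul, ← map_mul, ← map_mul, S.mem_map] at k2
  exact absurd ((c5_ne _ cw.ws).2.2.2.2.symm.trans k2.2.2.2.1) (by decide)

omit h in
theorem c5 : C5S.{u} := fun _ _ _ _ _ _ _ _ _ _ _ h => ⟨c5_a h, fun _ => c5_b h, fun _ => c5_c h⟩

end CL.H33
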