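/-
Project H33 (S3139): `N_T(W)` normalises `J`.
-/
import Cfsg.Agent.H33.Defs3
import Mathlib.GroupTheory.Transfer

set_option autoImplicit false
set_option linter.unusedSectionVars false
open Cfsg Subgroup CL.Even CL.Grp

namespace CL.H33
open M

universe u

theorem c6_avg0 {Γ : Type u} [Group Γ] [Finite Γ] (V Z : Subgroup Γ) (hZ : ∀ z ∈ Z, ∀ g, g * z = z * g)
    (hsq : ∀ v ∈ V, v * v ∈ Z) (hodd : ¬ 2 ∣ V.index) {r r' j a : Γ} (ha : a ∈ V) (hc : ∀ g, g * a = a * g)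
    (h1 : j * (r * j * r⁻¹) * (r⁻¹ * j * r) ∈ Z) (h2 : j * a * (r' * (j * a) * r'⁻¹) * (r'⁻¹ * (j * a) * r') ∈ Z) :
    a ∈ Z := by
  have : (Z.subgroupOf V).Normal := ⟨fun z hz g => by
    rw [mem_subgroupOf] at hz ⊢
    rwa [coe_mul, coe_mul, hZ _ hz, mul_assoc, ← coe_mul, mul_inv_cancel, coe_one, mul_one]⟩
  have hA : ∀ x : V ⧸ Z.subgroupOf V, x * x = 1 := fun x => by
    obtain ⟨v, rfl⟩ := QuotientGroup.mk_surjective x
    exact (QuotientGroup.eq_one_iff (v * v)).2 (hsq v v.2)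
  let _ : CommGroup (V ⧸ Z.subgroupOf V) := { (inferInstance : Group (V ⧸ Z.subgroupOf V)) with
    mul_comm := fun x y => by
      rw [eq_inv_of_mul_eq_one_left (hA (x * y)), mul_inv_rev, ← eq_inv_of_mul_eq_one_left (hA x),
        ← eq_inv_of_mul_eq_one_left (hA y)] }
  let ν : Γ →* V ⧸ Z.subgroupOf V := MonoidHom.transfer (QuotientGroup.mk' (Z.subgroupOf V))
  have cen : ∀ b : Γ, (∀ g, g * b = b * g) → (ν b = 1 ↔ b ^ V.index ∈ Z) := fun b hb => by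
    rw [MonoidHom.transfer_eq_pow _ b fun k g _ => by
      rw [mul_assoc, ← (Commute.pow_right (hb g) k).eq, inv_mul_cancel_left]]
    exact QuotientGroup.eq_one_iff _
  have nrm : ∀ r j : Γ, j * (r * j * r⁻¹) * (r⁻¹ * j * r) ∈ Z → ν j = 1 := fun r j h => by
    have := (cen _ (hZ _ h)).2 (Z.pow_mem h _)
    simp only [map_mul, map_inv, mul_inv_cancel_comm, inv_mul_cancel_comm] at this
    rwa [hA, one_mul] at this
  have e := nrm _ _ h2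
  rw [map_mul, nrm _ _ h1, one_mul, cen a hc] at e
  obtain ⟨m, hm⟩ := Nat.odd_iff.2 (Nat.two_dvd_ne_zero.1 hodd)
  rw [hm, pow_succ, pow_mul, pow_two] at e
  exact (Z.mul_mem_cancel_left (Z.pow_mem (hsq a ha) m)).1 e

theorem c6_avg {G : Type u} [Group G] [Finite G] {K V Z : Subgroup G} (hVK : V ≤ K) (hZ : K ≤ 𝒞(Z))
    (hsq : ∀ v ∈ V, v * v ∈ Z) (hodd : ¬ 2 ∣ V.relIndex K) {r r' j a : G} (hr : r ∈ K) (hr' : r' ∈ K) (hj : j ∈ V)
    (ha : a ∈ V) (hc : ∀ g ∈ K, g * a = a * g) (h1 : j * (r * j * r⁻¹) * (r⁻¹ * j * r) ∈ Z)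
    (h2 : j * a * (r' * (j * a) * r'⁻¹) * (r'⁻¹ * (j * a) * r') ∈ Z) : a ∈ Z :=
  c6_avg0 (V.subgroupOf K) (Z.subgroupOf K)
    (fun _ hz g => Subtype.ext (comm_of_mem (hZ g.2) hz).symm) (fun v hv => hsq v hv) hodd (r := ⟨r, hr⟩) (r' := ⟨r', hr'⟩)
    (j := ⟨j, hVK hj⟩) (a := ⟨a, hVK ha⟩) ha (fun g => Subtype.ext (hc g g.2)) h1 h2

theorem c6_zp {G : Type u} [Group G] {t b : G} (ht : t * t = 1) (hb : b ∈ zpowers t) : b = 1 ∨ b = t := by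
  obtain ⟨k, rfl⟩ := hb
  have h2 : t ^ (2 : ℤ) = 1 := by rw [zpow_two, ht]
  obtain ⟨m, rfl | rfl⟩ := Int.even_or_odd' k
  · left; show t ^ (2 * m) = 1; rw [zpow_mul, h2, one_zpow]
  · right; show t ^ (2 * m + 1) = t; rw [zpow_add, zpow_mul, h2, one_zpow, one_mul, zpow_one]

/-- a fixed point of `t` on `K/W` -/
theorem c6_fix {G : Type u} [Group G] [Finite G] {W K T : Subgroup G} {s t : G} (hT : IsPGroup 2 T) (hWK : W ≤ K)
    (hne : ¬ K ≤ W) (hKT : K ≤ T) (htT : t ∈ T) (tt : t * t = 1) (hs : ∀ x ∈ K, x * s = s * x) (ts : t * s ≠ s * t)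
    (tW : t ∈ 𝒩(W)) (tK : t ∈ 𝒩(K)) : ∃ x ∈ K, x ∉ W ∧ t * (x * t * x⁻¹) ∈ W := by
  have mem : ∀ {U : Subgroup G}, t ∈ 𝒩(U) → ∀ x ∈ zpowers t ⊔ U, x ∈ U ∨ t * x ∈ U := fun hU x hx => by
    obtain ⟨b, hb, a, ha, rfl⟩ := (mem_sup_nr (zpowers_le.2 hU)).1 hx
    rcases c6_zp tt hb with rfl | rfl
    · exact .inl (by rwa [one_mul])
    · exact .inr (by rwa [← mul_assoc, tt, one_mul])
  have hlt : zpowers t ⊔ W < zpowers t ⊔ K := lt_of_le_of_ne (sup_le_sup_left hWK _) fun e => hne fun x hx => by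
    refine (mem tW x (e ▸ mem_sup_right hx)).resolve_right fun k => ts ?_
    have := hs _ (hWK k)
    rw [mul_assoc, hs x hx, ← mul_assoc, ← mul_assoc] at this
    exact mul_right_cancel this
  obtain ⟨y, ⟨hy, hn⟩, hy'⟩ := SetLike.exists_of_lt
    (lt_inf_normalizer_of_isPGroup (hT.to_le (sup_le (zpowers_le.2 htT) hKT)) hlt)
  have ht : t ∈ zpowers t ⊔ W := mem_sup_left (mem_zpowers t)
  obtain ⟨x, hx, hxn, hx'⟩ : ∃ x ∈ K, x ∈ 𝒩(zpowers t ⊔ W) ∧ x ∉ W := by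
    rcases mem tK y hy with k | k
    · exact ⟨y, k, hn, fun e => hy' (mem_sup_right e)⟩
    · exact ⟨_, k, mul_mem (le_normalizer ht) hn, fun e => hy' ((mul_mem_cancel_left ht).1 (mem_sup_right e))⟩
  refine ⟨x, hx, hx', (mem tW _ (conj_mem hxn ht)).resolve_left fun k => ts ?_⟩
  have e1 : Commute (x * t * x⁻¹) s := hs _ (hWK k)
  have e2 : Commute x s := hs _ hx
  simpa [mul_assoc] using ((e2.inv_left.mul_left e1).mul_left e2).eq

theorem c6_E_mul {G : Type u} [Group G] {z a b c : G} (zz : z * z = 1) (hc : c * z = z * c)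
    (h1 : a * b = b * a ∨ a * b = b * a * z) (h2 : a * c = c * a ∨ a * c = c * a * z) :
    a * (b * c) = b * c * a ∨ a * (b * c) = b * c * a * z := by
  rw [← mul_assoc]
  rcases h1 with h1 | h1 <;> rcases h2 with h2 | h2 <;> rw [h1]
  · left; rw [mul_assoc, h2, mul_assoc]
  · right; rw [mul_assoc, h2]; group
  · right; rw [mul_assoc, ← hc, mul_assoc b, ← mul_assoc a, h2]; group
  · left; rw [mul_assoc, ← hc, mul_assoc b, ← mul_assoc a, h2, mul_assoc _ z, zz]; group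

theorem c6_E_symm {G : Type u} [Group G] {z a b : G} (zz : z * z = 1) (h : a * b = b * a ∨ a * b = b * a * z) :
    b * a = a * b ∨ b * a = a * b * z := h.imp Eq.symm fun e => by rw [e, mul_assoc, zz, mul_one]

theorem c6_m1 : ∀ (p : Ty) (x : M p), x.k = false ∧ x.c = false ∧ x.d = false ∧ x.i = false ∧ x.j = false →
    (x = 1 ∨ x = mz p ∨ x = ms p ∨ x = ms p * mz p) ∧ (p.ws = true → p.big = true →
      x * md p * (mt p * my p) = mt p * my p * (x * md p) → x = 1 ∨ x = mz p) := by decide +kernel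

theorem c6_m2 : ∀ (p : Ty) (x : M p), x.k = false ∧ x.c = false ∧ x.i = false ∧ x.j = false →
    x * md p = md p * x ∧ (x.d = false ∨ p.big = true ∧ ((md p)⁻¹ * x).k = false ∧ ((md p)⁻¹ * x).c = false ∧
      ((md p)⁻¹ * x).d = false ∧ ((md p)⁻¹ * x).i = false ∧ ((md p)⁻¹ * x).j = false) := by decide +kernel

theorem c6_m3 : ∀ p : Ty, (p.big = true → md p * mws p ≠ mws p * md p) ∧ (p.ws = true → mt p * ms p ≠ ms p * mt p) ∧
    md p * mt p = mt p * md p := by decide +kernel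

namespace HD
variable {G : Type u} [Group G] [Finite G] {S : HD G} {W J A1 A2 Pz T : Subgroup G} {r : G}

theorem c6_Z0 (h : S.Cw W r) {n a : G} (hn : n ∈ W) (ha : a ∈ S.Z0) : n * a = a * n := by
  obtain ⟨x, hx, rfl⟩ := ha
  rcases (c6_m1 _ x hx).1 with rfl | rfl | rfl | rfl
  · simp
  · exact h.Wz n hn
  · exact h.Ws n hn
  · rw [map_mul, ← mul_assoc, h.Ws n hn, mul_assoc, h.Wz n hn, mul_assoc]

theorem c6_Z1 {a : G} (ha : a ∈ S.Z1) : a * S.δ = S.δ * a ∧ (a ∈ S.Z0 ∨ S.p.big = true ∧ ∃ b ∈ S.Z0, a = S.δ * b) := by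
  obtain ⟨x, hx, rfl⟩ := ha
  obtain ⟨h1, h2⟩ := c6_m2 _ x hx
  refine ⟨by rw [← map_mul, h1, map_mul], h2.imp (fun e => ⟨x, ⟨hx.1, hx.2.1, e, hx.2.2⟩, rfl⟩) fun e =>
    ⟨e.1, _, ⟨_, e.2, rfl⟩, by rw [← map_mul, mul_inv_cancel_left]⟩⟩

theorem c6_Z0J (h : S.Cj W r J) : S.Z0 ≤ J := by
  rintro _ ⟨x, hx, rfl⟩
  exact (h.mem x).2 ⟨hx.1, hx.2.1, hx.2.2.1⟩

theorem c6_Z01 : S.Z0 ≤ S.Z1 := map_mono fun _ hx => ⟨hx.1, hx.2.1, hx.2.2.2⟩

theorem c6_dZ : S.δ ∈ S.Z1 := ⟨_, ⟨rfl, rfl, rfl, rfl⟩, rfl⟩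

theorem c6_PW (h : S.Cp W r J A1 A2 Pz) : Pz ≤ W := fun x hx => ((h.mP x).1 hx).1

/-- an element of `W` commuting with `δ` centralises `Z₁` -/
theorem c6_cZ1 (h : S.Cw W r) {n a : G} (hn : n ∈ W) (hd : n * S.δ = S.δ * n) (ha : a ∈ S.Z1) : n * a = a * n := by
  rcases (c6_Z1 ha).2 with e | ⟨-, b, hb, rfl⟩
  · exact c6_Z0 h hn e
  · rw [← mul_assoc, hd, mul_assoc, c6_Z0 h hn hb, mul_assoc]

theorem c6_PP (h : S.Cp W r J A1 A2 Pz) {a b : G} (ha : a ∈ Pz) (hb : b ∈ Pz) : a * b = b * a ∨ a * b = b * a * S.z := by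
  have cw := h.cl.hj.cw
  have zz : ∀ a ∈ S.Z1, ∀ b ∈ S.Z1, a * b = b * a := fun a ha b hb => c6_cZ1 cw (c6_PW h (h.Z1P ha)) (c6_Z1 ha).1 hb
  rcases h.kk with e | ⟨hb', k, hk, -, kt, hP⟩
  · exact .inl (zz a (e ▸ ha) b (e ▸ hb))
  have kW := c6_PW h hk
  have kd : k * S.δ = S.δ * k ∨ k * S.δ = S.δ * k * S.z := by
    obtain ⟨x, hx, e⟩ := cw.Wq k kW S.δ ⟨_, ⟨rfl, rfl⟩, rfl⟩
    have e1 : S.ι x * S.δ = k * S.δ * k⁻¹ := by rw [e]; group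
    have e2 : S.δ * S.t = S.t * S.δ := by rw [← map_mul, (c6_m3 _).2.2, map_mul]
    rcases (c6_m1 _ x hx).2 cw.ws hb' (S.inj (by
      simp only [map_mul]
      rw [e1, ← kt, conj_mul, conj_mul, e2])) with rfl | rfl
    · left; rw [map_one, one_mul] at e1; exact mul_inv_eq_iff_eq_mul.1 e1.symm
    · right; rw [mul_assoc, cw.Wz k kW, ← mul_assoc, S.z_comm, e1, inv_mul_cancel_right]
  have gen : ∀ c, (∀ b ∈ S.Z1, c * b = b * c ∨ c * b = b * c * S.z) → (c * k = k * c ∨ c * k = k * c * S.z) →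
      ∀ b ∈ Pz, c * b = b * c ∨ c * b = b * c * S.z := fun c h1 h2 b hb => by
    rcases hP b hb with e | e
    · exact h1 b e
    · have := c6_E_mul S.zz (cw.Wz k kW) (h1 _ e) h2
      rwa [inv_mul_cancel_right] at this
  have kZ : ∀ b ∈ S.Z1, k * b = b * k ∨ k * b = b * k * S.z := fun b hb => by
    rcases (c6_Z1 hb).2 with e | ⟨-, c, hc, rfl⟩
    · exact .inl (c6_Z0 cw kW e)
    · exact c6_E_mul S.zz (cw.Wz c (c6_PW h (h.Z1P (c6_Z01 hc)))) kd (.inl (c6_Z0 cw kW hc))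
  exact gen a (fun c hc => c6_E_symm S.zz (gen c (fun d hd => .inl (zz c hc d hd))
    (c6_E_symm S.zz (kZ c hc)) a ha)) (c6_E_symm S.zz (gen k kZ (.inl rfl) a ha)) b hb

theorem c6_char (h : S.Cp W r J A1 A2 Pz) {x : G} :
    x ∈ Pz ↔ x ∈ W ∧ ∀ y ∈ W, x * y = y * x ∨ x * y = y * x * S.z := by
  have cw := h.cl.hj.cw
  refine ⟨fun hx => ⟨c6_PW h hx, fun y hy => ?_⟩, fun ⟨hx, k⟩ => ?_⟩
  · obtain ⟨j, hj, a, ha, rfl⟩ := h.dec y hy
    exact c6_E_mul S.zz (cw.Wz a (c6_PW h ha)) (.inl (comm_of_mem (h.JP hj) hx)) (c6_PP h hx ha)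
  · obtain ⟨j, hj, a, ha, rfl⟩ := h.dec x hx
    refine Pz.mul_mem (h.Z1P (c6_Z01 (h.cl.nd j hj fun y hy => ?_))) ha
    have e := comm_of_mem (h.JP hy) ha
    refine (k y (h.cl.hj.le hy)).imp (fun e' => mul_right_cancel (b := a) ?_) fun e' => mul_right_cancel (b := a) ?_
    · rw [mul_assoc, ← e, ← mul_assoc, e', mul_assoc]
    · rw [mul_assoc, ← e, ← mul_assoc, e', mul_assoc _ S.z, ← cw.Wz a (c6_PW h ha)]; group

theorem c6_nP (h : S.Ct W r J A1 A2 Pz T) : T ⊓ 𝒩(W) ≤ 𝒩(Pz) := fun n hn => mem_norm_of_cj_le fun x hx => by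
  obtain ⟨h1, h2⟩ := (c6_char h.cp).1 (mem_cj.1 hx)
  have nz := S.zT h.cp.cl.hj.cw.ws h.syl.isPGroup h.le hn.1
  refine (c6_char h.cp).2 ⟨by simpa [mul_assoc] using conj_mem hn.2 h1, fun y hy => ?_⟩
  refine (h2 _ (conj_mem' hn.2 hy)).imp (fun e => ?_) fun e => ?_
  · calc x * y = n * (n⁻¹ * x * n * (n⁻¹ * y * n)) * n⁻¹ := by group
      _ = _ := by rw [e]; group
  · calc x * y = n * (n⁻¹ * x * n * (n⁻¹ * y * n)) * n⁻¹ := by group
      _ = y * x * (n * S.z) * n⁻¹ := by rw [e]; group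
      _ = _ := by rw [nz]; group

theorem c6_ab (h : S.Ct W r J A1 A2 Pz T) (h5 : S.K5 W J T) (hb : S.p.big = true) (hP : Pz ≤ 𝒞(Pz)) :
    T ⊓ 𝒩(W) ≤ 𝒩(J) := by
  have cp := h.cp
  have cJ := cp.cl.hj
  have cw := cJ.cw
  have WC : W ≤ 𝒞(Pz) := fun x hx => by
    obtain ⟨j, hj, a, ha, rfl⟩ := cp.dec x hx
    exact mul_mem (cp.JP hj) (hP ha)
  have WK : W ≤ 𝒩(W) ⊓ 𝒞(Pz) := le_inf le_normalizer WC
  have rK : r ∈ 𝒩(W) ⊓ 𝒞(Pz) := ⟨cw.rn, fun x hx => ((cp.mP x).1 hx).2.symm⟩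
  have nK : T ⊓ 𝒩(W) ≤ 𝒩(𝒩(W) ⊓ 𝒞(Pz)) := le_norm_inf (le_norm_of_le inf_le_right) (le_norm_cent (c6_nP h))
  have syl := syl_inf_of_norm h.sylN inf_le_left nK
  have sP : S.s ∈ Pz := cp.Z1P ⟨_, ⟨rfl, rfl, rfl, rfl⟩, rfl⟩
  have tT : S.t ∈ T ⊓ 𝒩(W) := ⟨h.le ⟨_, rfl⟩, cw.S1n ⟨_, rfl⟩⟩
  have e : T ⊓ 𝒩(W) ⊓ (𝒩(W) ⊓ 𝒞(Pz)) = W := by
    have le : W ≤ T ⊓ 𝒩(W) ⊓ (𝒩(W) ⊓ 𝒞(Pz)) := le_inf (le_inf h.WT le_normalizer) WK
    refine le_antisymm ?_ le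
    by_contra hne
    obtain ⟨x, hx, hx', k⟩ := c6_fix (s := S.s) h.syl.isPGroup le hne (inf_le_left.trans inf_le_left) tT.1 S.tt
      (fun x hx => (comm_of_mem hx.2.2 sP).symm)
      (fun e => (c6_m3 _).2.1 cw.ws (S.inj (by rwa [map_mul, map_mul]))) tT.2
      (le_norm_inf (le_norm_of_le le_rfl) nK tT)
    have := (Subgroup.mul_mem_cancel_left _ hx.2.2).1 (WC ((h5.kx x hx.1.1 (comm_of_mem hx.2.2 sP).symm k).resolve_left hx'))
    exact (c6_m3 _).1 hb (S.inj (by rw [map_mul, map_mul]; exact comm_of_mem this (cp.Z1P c6_dZ)))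
  rw [e] at syl
  refine fun n hn => mem_norm_of_cj_le fun x hx => ?_
  obtain ⟨y, hy, rfl⟩ := hx
  obtain ⟨j, hj, a, ha, e'⟩ := cp.dec _ (conj_mem hn.2 (cJ.le hy))
  show n * y * n⁻¹ ∈ J
  rw [e']
  refine J.mul_mem hj (c6_Z0J cJ (c6_avg WK
    (inf_le_right.trans (cent_mono (c6_Z01.trans cp.Z1P))) (fun v hv => ?_) syl.not_dvd rK (conj_mem (nK hn) rK)
    (cJ.le hj) (c6_PW cp ha) (fun g hg => (comm_of_mem hg.2 ha).symm) (cJ.nrm j hj) ?_))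
  · obtain ⟨j, hj, a, ha, rfl⟩ := cp.dec v hv
    rw [mul_assoc, ← mul_assoc a, comm_of_mem (cp.JP hj) ha, mul_assoc, ← mul_assoc]
    exact mul_mem (cJ.sq j hj) (h.el a ha)
  · rw [← e']
    convert conj_mem (h5.z0 hn.1) (cJ.nrm y hy) using 1
    group

end HD

theorem c6 : C6S.{u} := by
  intro G _ _ S W r J A1 A2 Pz T h h5
  have cp := h.cp
  have cJ := cp.cl.hj
  have cw := cJ.cw
  have zz : ∀ a ∈ S.Z1, ∀ b ∈ S.Z1, a * b = b * a := fun a ha b hb =>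
    HD.c6_cZ1 cw (HD.c6_PW cp (cp.Z1P ha)) (HD.c6_Z1 ha).1 hb
  rcases cp.kk with e | ⟨hb, k, hk, -, -, hP⟩
  · cases hb : S.p.big
    · have : J = W := le_antisymm cJ.le fun x hx => by
        obtain ⟨j, hj, a, ha, rfl⟩ := cp.dec x hx
        exact J.mul_mem hj (HD.c6_Z0J cJ ((HD.c6_Z1 (e ▸ ha)).2.resolve_right fun k => by simp [hb] at k))
      rw [this]; exact inf_le_right
    · exact HD.c6_ab h h5 hb fun a ha b hb => zz b (e ▸ hb) a (e ▸ ha)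
  have kW := HD.c6_PW cp hk
  by_cases kd : k * S.δ = S.δ * k
  · have gen : ∀ c, (∀ b ∈ S.Z1, b * c = c * b) → k * c = c * k → c ∈ 𝒞(Pz) := fun c h1 h2 b hb => by
      rcases hP b hb with e | e
      · exact h1 b e
      · have := (Commute.mul_left (h1 _ e) h2).eq
        rwa [inv_mul_cancel_right] at this
    exact HD.c6_ab h h5 hb fun a ha => gen a (fun b hb => (gen b (fun c hc => zz c hc b hb) (HD.c6_cZ1 cw kW kd hb)
      a ha).symm) (gen k (fun c hc => (HD.c6_cZ1 cw kW kd hc).symm) rfl a ha).symm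
  · have : J = W ⊓ 𝒞(Pz) := le_antisymm (le_inf cJ.le cp.JP) fun x hx => by
      obtain ⟨j, hj, a, ha, rfl⟩ := cp.dec x hx.1
      have ha' : a ∈ 𝒞(Pz) := (Subgroup.mul_mem_cancel_left _ (cp.JP hj)).1 hx.2
      refine J.mul_mem hj (HD.c6_Z0J cJ ?_)
      rcases hP a ha with e | e
      · refine (HD.c6_Z1 e).2.resolve_right ?_
        rintro ⟨-, b, hb, rfl⟩
        have := comm_of_mem ha' hk
        rw [mul_assoc, ← HD.c6_Z0 cw kW hb, ← mul_assoc, ← mul_assoc] at this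
        exact kd (mul_right_cancel this)
      · have e1 : Commute (a * k⁻¹) S.δ := (HD.c6_Z1 e).1
        have e2 : Commute a S.δ := (comm_of_mem ha' (cp.Z1P HD.c6_dZ)).symm
        exact (kd (by simpa using (e1.inv_left.mul_left e2).eq)).elim
    rw [this]
    exact le_norm_inf inf_le_right (le_norm_cent (HD.c6_nP h))

end CL.H33
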