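/-
Project H33 (S3139): case (c), a second conjugate of `J` in `T` forces `[A₁, A₂] = 1`.
-/
import Cfsg.Agent.H33.Defs3
import Cfsg.Agent.Loc.Chief

set_option autoImplicit false
set_option linter.unusedSectionVars false
open Cfsg Subgroup CL.Even CL.Grp CL.Loc
open scoped commutatorElement

namespace CL.H33
open M

universe u

section abs
variable {G : Type u} [Group G] {A B X Y Z N I T J A1 A2 : Subgroup G} {a b x : G}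

theorem c7a_half (h : ∀ a ∈ A, ∀ b ∈ A, a ∉ N → b ∉ N → a * b ∈ N) :
    Nat.card A ≤ 2 * Nat.card (A ⊓ N : Subgroup G) := by
  by_cases e : A ≤ N
  · rw [inf_eq_left.2 e]; omega
  obtain ⟨a, ha, hn⟩ := SetLike.not_le_iff_exists.1 e
  have h2 : N.relIndex A = 2 := relIndex_eq_two_iff.2 ⟨a, ha, fun b hb => by
    by_cases c : b ∈ N
    exacts [.inr ⟨c, fun d => hn ((mul_mem_cancel_left c).1 d)⟩, .inl ⟨h b hb a ha c hn, c⟩]⟩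
  rw [← card_inf_mul_relIndex N A, h2, inf_comm, mul_comm]

theorem c7a_mr (a b c : G) : ⁅a, b * c⁆ = ⁅a, b⁆ * (b * ⁅a, c⁆ * b⁻¹) := by
  simp only [commutatorElement_def]; group

/-- the elements `a` with `[x, a] ∈ Z` -/
def c7aF (x : G) (Z : Subgroup G) : Subgroup G where
  carrier := {a | a ∈ 𝒩(Z) ∧ ⁅x, a⁆ ∈ Z}
  one_mem' := ⟨one_mem _, by rw [commutatorElement_one_right]; exact one_mem _⟩
  mul_mem' := by
    rintro a b ⟨ha, e⟩ ⟨hb, e'⟩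
    exact ⟨mul_mem ha hb, c7a_mr x a b ▸ mul_mem e (conj_mem ha e')⟩
  inv_mem' := by
    rintro a ⟨ha, e⟩
    refine ⟨inv_mem ha, ?_⟩
    rw [commutatorElement_inv_right, ← commutatorElement_inv]
    exact conj_mem' ha (inv_mem e)

theorem c7a_sup (hX : X ≤ 𝒩(N)) (hY : Y ≤ 𝒩(N)) (xx : ⁅X, X⁆ ≤ N) (xy : ⁅X, Y⁆ ≤ N) (yy : ⁅Y, Y⁆ ≤ N) :
    ⁅X ⊔ Y, X ⊔ Y⁆ ≤ N := by
  refine commutator_sup_le_of_le_normalizer hX hY ?_ ?_ <;> rw [commutator_comm]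
  · exact commutator_sup_le_of_le_normalizer hX hY xx (commutator_comm X Y ▸ xy)
  · exact commutator_sup_le_of_le_normalizer hX hY xy yy

theorem c7a_sqcm {σ : G} (ha : a * a = σ) (hb : b * b = σ) (hab : a * b * (a * b) = σ) : ⁅a, b⁆ = σ⁻¹ := by
  calc ⁅a, b⁆ = a * b * (a * b) * (b⁻¹ * (a * a)⁻¹ * b⁻¹) := by simp only [commutatorElement_def]; group
    _ = σ⁻¹ := by rw [hab, ha, ← hb]; group

variable [Finite G]

theorem c7a_idx (h : B ≤ A) (hc : Nat.card A ≤ 2 * Nat.card B) (ha : a ∈ A) (hb : b ∈ A) (na : a ∉ B) (nb : b ∉ B) :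
    a * b ∈ B := by
  have h1 := card_mul_relIndex h
  have h2 : B.relIndex A ≠ 1 := fun e => na (relIndex_eq_one.1 e ha)
  have h3 : 0 < Nat.card B := Nat.card_pos
  have h4 : 0 < Nat.card A := Nat.card_pos
  have h5 : B.relIndex A = 2 := by
    generalize B.relIndex A = k at h1 h2
    rcases k with _ | _ | _ | k
    · omega
    · omega
    · rfl
    · nlinarith
  exact (mul_mem_iff_of_index_two (H := B.subgroupOf A) h5 (a := ⟨a, ha⟩) (b := ⟨b, hb⟩)).2 (iff_of_false na nb)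

theorem c7a_lt (h : B ≤ A) (hn : ¬ A ≤ B) : 2 * Nat.card B ≤ Nat.card A := by
  have h1 := card_mul_relIndex h
  have h2 : B.relIndex A ≠ 1 := fun e => hn (relIndex_eq_one.1 e)
  have h4 : 0 < Nat.card A := Nat.card_pos
  generalize B.relIndex A = k at h1 h2
  rcases k with _ | _ | k
  · omega
  · omega
  · nlinarith

theorem c7a_ab (hZ : Z ≤ X) (hc : X ≤ 𝒞(Z)) (h : Nat.card X ≤ 2 * Nat.card Z) : ⁅X, X⁆ ≤ N :=
  commutator_le.2 fun a ha b hb => by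
    rw [commutatorElement_eq_one_iff_mul_comm.2 ?_]
    · exact one_mem _
    by_cases na : a ∈ Z
    · exact comm_of_mem (hc hb) na
    by_cases nb : b ∈ Z
    · exact (comm_of_mem (hc ha) nb).symm
    have := comm_of_mem (hc ha) (c7a_idx hZ h ha hb na nb)
    rwa [mul_assoc, mul_right_inj, eq_comm] at this

/-- a 2-group acts on a four-group as a group of order at most two -/
theorem c7a_line (hT : IsPGroup 2 T) (hA : A ≤ T) (hN : N ≤ T) (nA : N ≤ 𝒩(A)) (nZ : T ≤ 𝒩(Z)) (ZA : Z ≤ A)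
    (cA : Nat.card A = 16) (cZ : Nat.card Z = 4) {x y : G} (hx : x ∈ N) (hy : y ∈ N) (nx : x ∉ commStab A Z)
    (ny : y ∉ commStab A Z) : x * y ∈ commStab A Z := by
  obtain ⟨k, hk, kZ, kc⟩ := exists_not_mem_commutator_mem (D := Z) hT.isNilpotent hA hN nA fun e => by
    have := card_le_of_le e
    omega
  have ZF : Z ≤ A ⊓ commStab N Z := le_inf ZA (le_commStab.2 ⟨le_normalizer, commutator_le_of_le_norm (hN.trans nZ)⟩)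
  have h1 := c7a_lt ZF fun e => kZ (e ⟨hk, nZ (hA hk), kc⟩)
  have nF : N ≤ 𝒩(A ⊓ commStab N Z) := le_norm_inf nA (le_normalizer_commStab le_normalizer (hN.trans nZ))
  have cF : ∀ m ∈ N, ∀ f ∈ A ⊓ commStab N Z, ⁅m, f⁆ ∈ Z := fun m hm f hf =>
    commutatorElement_inv f m ▸ inv_mem (hf.2.2 m hm)
  obtain ⟨a, ha, e⟩ : ∃ a ∈ A, ⁅x, a⁆ ∉ Z := by
    by_contra c
    push Not at c
    exact nx ⟨nZ (hN hx), c⟩
  have aF : a ∉ A ⊓ commStab N Z := fun c => e (cF x hx a c)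
  have aF' : a⁻¹ ∉ A ⊓ commStab N Z := fun c => aF (inv_mem_iff.1 c)
  have h2 := c7a_lt (inf_le_left : A ⊓ commStab N Z ≤ A) fun c => aF (c ha)
  have k1 : ∀ m ∈ N, ⁅m, a⁆ ∈ A ⊓ commStab N Z := fun m hm =>
    c7a_idx inf_le_left (by omega) (conj_mem (nA hm) ha) (inv_mem ha)
      (fun c => aF ((mem_normalizer_iff.1 (nF hm) a).2 c)) aF'
  have k2 : ∀ m ∈ N, ⁅m, a⁆ ∈ Z → m ∈ commStab A Z := fun m hm c => ⟨nZ (hN hm), fun b hb => by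
    by_cases bF : b ∈ A ⊓ commStab N Z
    · exact cF m hm b bF
    have := c7a_idx inf_le_left (by omega) hb (inv_mem ha) bF aF'
    rw [← inv_mul_cancel_right b a, c7a_mr]
    exact mul_mem (cF m hm _ this) (conj_mem this.2.1 c)⟩
  refine k2 _ (mul_mem hx hy) ?_
  rw [commutatorElement_mul_left_eq_conj_mul]
  exact c7a_idx ZF (by omega) (conj_mem (nF hx) (k1 y hy)) (k1 x hx)
    (fun c => ny (k2 y hy ((mem_normalizer_iff.1 (nZ (hN hx)) _).2 c))) e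

theorem c7a_fin0 (cA : Nat.card A = 16) (cZ : Nat.card Z = 4)
    (k : ∀ a ∈ A, ∀ b ∈ A, a ∉ Z → b ∉ Z → a * b ∉ Z → ⁅a, b⁆ ∉ N) : ¬ ⁅A, A⁆ ≤ N := fun h => by
  have h1 := c7a_half (A := A) (N := Z) fun a ha b hb na nb =>
    by_contra fun c => k a ha b hb na nb c (h (commutator_mem_commutator ha hb))
  have h2 := card_le_of_le (inf_le_right : A ⊓ Z ≤ Z)
  omega

theorem c7a_fin (c1 : Nat.card A1 = 16) (c2 : Nat.card A2 = 16) (cZ : Nat.card Z = 4) (l1 : A1 ≤ J) (l2 : A2 ≤ J)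
    (k1 : ∀ a ∈ A1, ∀ b ∈ A1, a ∉ Z → b ∉ Z → a * b ∉ Z → ⁅a, b⁆ ∉ N)
    (k2 : ∀ a ∈ A2, ∀ b ∈ A2, a ∉ Z → b ∉ Z → a * b ∉ Z → ⁅a, b⁆ ∉ N) (c12 : ⁅A1, A2⁆ ≤ N) (nJ : J ≤ 𝒩(N))
    (ZI : Z ≤ I) (hf : ∀ a ∈ J, ∀ b ∈ J, a ∉ I → b ∉ I → a * b ∈ I) : ¬ ⁅J ⊓ I, J ⊓ I⁆ ≤ N := fun h => by
  by_cases e1 : A1 ≤ I
  · exact c7a_fin0 c1 cZ k1 ((commutator_mono (le_inf l1 e1) (le_inf l1 e1)).trans h)
  by_cases e2 : A2 ≤ I
  · exact c7a_fin0 c2 cZ k2 ((commutator_mono (le_inf l2 e2) (le_inf l2 e2)).trans h)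
  obtain ⟨a, ha, na⟩ := SetLike.not_le_iff_exists.1 e1
  obtain ⟨b, hb, nb⟩ := SetLike.not_le_iff_exists.1 e2
  have h1 := c7a_half (A := A1) (N := I) fun a ha b hb => hf a (l1 ha) b (l1 hb)
  obtain ⟨c, hc, nc⟩ := SetLike.not_le_iff_exists.1 fun e : A1 ⊓ I ≤ Z => by
    have := card_le_of_le e
    omega
  have h2 := h (commutator_mem_commutator ⟨l1 hc.1, hc.2⟩ ⟨mul_mem (l1 ha) (l2 hb), hf a (l1 ha) b (l2 hb) na nb⟩)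
  rw [c7a_mr] at h2
  exact k1 c hc.1 a ha nc (fun e => na (ZI e)) (fun e => na ((Subgroup.mul_mem_cancel_left _ hc.2).1 (ZI e)))
    ((mul_mem_cancel_right (conj_mem (nJ (l1 ha)) (c12 (commutator_mem_commutator hc.1 hb)))).1 h2)

end abs

theorem c7a_m0 : ∀ (p : Ty) (x : M p), x.k = false ∧ x.c = false ∧ x.d = false ∧ x.i = false ∧ x.j = false →
    x = 1 ∨ x = mz p ∨ x = ms p ∨ x = ms p * mz p := by decide +kernel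

theorem c7a_m1 : ∀ p : Ty, p.ws = true → mz p ≠ 1 ∧ ms p ≠ 1 ∧ ms p * mz p ≠ 1 ∧ mz p ≠ ms p ∧ mz p ≠ ms p * mz p ∧
    ms p ≠ ms p * mz p ∧ M.mt p * ms p * (M.mt p)⁻¹ = ms p * mz p ∧
      M.mt p * (ms p * mz p) * (M.mt p)⁻¹ = ms p := by decide +kernel

theorem c7a_m2 {p : Ty} {x y : M p} (hx : x ∈ sZ1 p) (hy : y ∈ sZ1 p) : x * y = y * x := by
  obtain ⟨a1, a2, a3, a4⟩ := hx
  obtain ⟨b1, b2, b3, b4⟩ := hy
  refine M.ext ?_ ?_ ?_ ?_ ?_ ?_ ?_ <;> simp [mul_def, m0, a1, a2, a3, a4, b1, b2, b3, b4, Bool.xor_comm, Bool.and_comm]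

theorem c7a_m3 : ∀ p : Ty, p.ws = true → p.big = true → ∀ x : M p,
    x.k = false ∧ x.c = false ∧ x.i = false ∧ x.j = false →
    (x * M.mt p * x⁻¹ = M.mt p ∧ ms p * x * (M.mt p * my p) * (ms p * x)⁻¹ ≠ M.mt p * my p ∧
      ms p * mz p * x * (M.mt p * my p) * (ms p * mz p * x)⁻¹ ≠ M.mt p * my p) ∨
    (x * M.mt p * x⁻¹ = M.mt p * mz p ∧ ms p * x * (M.mt p * my p) * (ms p * x)⁻¹ ≠ M.mt p * my p * mz p ∧
      ms p * mz p * x * (M.mt p * my p) * (ms p * mz p * x)⁻¹ ≠ M.mt p * my p * mz p) := by decide +kernel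

namespace HD
variable {G : Type u} [Group G] [Finite G] {S : HD G} {W J A1 A2 Pz T : Subgroup G} {r x n : G}

theorem c7a_zZ (S : HD G) : S.z ∈ S.Z0 := S.mem_map.2 ⟨rfl, rfl, rfl, rfl, rfl⟩

theorem c7a_sZ (S : HD G) : S.s ∈ S.Z0 := S.mem_map.2 ⟨rfl, rfl, rfl, rfl, rfl⟩

theorem c7a_memZ : x ∈ S.Z0 ↔ x = 1 ∨ x = S.z ∨ x = S.s ∨ x = S.s * S.z := by
  refine ⟨?_, ?_⟩
  · rintro ⟨m, hm, rfl⟩
    rw [← map_one S.ι, ← map_mul]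
    simpa only [S.eq_iff] using c7a_m0 _ m hm
  · rintro (rfl | rfl | rfl | rfl)
    exacts [one_mem _, S.c7a_zZ, S.c7a_sZ, mul_mem S.c7a_sZ S.c7a_zZ]

theorem c7a_ne (hw : S.p.ws = true) : S.z ≠ 1 ∧ S.s ≠ 1 ∧ S.s * S.z ≠ 1 ∧ S.z ≠ S.s ∧ S.z ≠ S.s * S.z ∧
    S.s ≠ S.s * S.z ∧ S.t * S.s * S.t⁻¹ = S.s * S.z ∧ S.t * (S.s * S.z) * S.t⁻¹ = S.s := by
  rw [← map_one S.ι]
  simpa only [← map_mul, ← map_inv, ne_eq, S.eq_iff] using c7a_m1 _ hw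

theorem c7a_cZ (hw : S.p.ws = true) : Nat.card S.Z0 = 4 := by
  obtain ⟨a, b, c, d, e, f, -⟩ := c7a_ne hw
  have : (S.Z0 : Set G) = {1, S.z, S.s, S.s * S.z} := Set.ext fun _ => c7a_memZ
  rw [← SetLike.coe_sort_coe, Nat.card_coe_set_eq, this, Set.ncard_insert_of_notMem (by simp [a.symm, b.symm, c.symm]),
    Set.ncard_insert_of_notMem (by simp only [Set.mem_insert_iff, Set.mem_singleton_iff, d, e, or_self, not_false_iff]),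
    Set.ncard_pair f]

theorem c7a_zp (hx : x ∈ zpowers S.z) : x = 1 ∨ x = S.z := by
  obtain ⟨n, rfl⟩ := mem_zpowers_iff.mp hx
  have h2 : S.z ^ (2 : ℤ) = 1 := by rw [zpow_two, S.zz]
  rcases Int.even_or_odd' n with ⟨k, rfl | rfl⟩
  · exact .inl (by rw [zpow_mul, h2, one_zpow])
  · exact .inr (by rw [zpow_add, zpow_mul, h2, one_zpow, one_mul, zpow_one])

theorem c7a_cenZ (hs : x * S.s = S.s * x) (hz : x * S.z = S.z * x) : x ∈ 𝒞(S.Z0) :=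
  mem_centralizer_iff.2 fun y hy => by
    rcases c7a_memZ.1 hy with rfl | rfl | rfl | rfl
    exacts [by rw [mul_one, one_mul], hz.symm, hs.symm, by rw [mul_assoc, ← hz, ← mul_assoc, ← hs, mul_assoc]]

variable (h : S.Ct W r J A1 A2 Pz T)
include h

theorem Ct.c7a_z (hx : x ∈ T) : x * S.z = S.z * x := S.zT h.cp.cl.hj.cw.ws h.syl.isPGroup h.le hx

theorem Ct.c7a_nz : T ≤ 𝒩(zpowers S.z) := fun _ hx => cent_le_norm _ (mem_centralizer_iff.2 fun y hy => by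
  rcases c7a_zp hy with rfl | rfl
  exacts [by rw [mul_one, one_mul], (h.c7a_z hx).symm])

theorem Ct.c7a_WZ : W ≤ 𝒞(S.Z0) := fun x hx => c7a_cenZ (h.cp.cl.hj.cw.Ws x hx) (h.cp.cl.hj.cw.Wz x hx)

theorem Ct.c7a_ZJ : S.Z0 ≤ J := by
  rintro _ ⟨m, hm, rfl⟩
  exact (h.cp.cl.hj.mem m).2 ⟨hm.1, hm.2.1, hm.2.2.1⟩

theorem Ct.c7a_ZP : S.Z0 ≤ Pz := by
  rintro _ ⟨m, hm, rfl⟩
  exact h.cp.Z1P (S.mem_map.2 ⟨hm.1, hm.2.1, hm.2.2.2⟩)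

theorem Ct.c7a_PW : Pz ≤ W := fun x hx => ((h.cp.mP x).1 hx).1

theorem Ct.c7a_WW {y : G} (hx : x ∈ W) (hy : y ∈ W) : ⁅x, y⁆ ∈ S.Z0 := by
  have sq : ∀ w ∈ W, w * w ∈ S.Z0 := fun w hw => by
    obtain ⟨j, hj, a, ha, rfl⟩ := h.cp.dec w hw
    rw [(show Commute a j from comm_of_mem (h.cp.JP hj) ha).mul_mul_mul_comm]
    exact mul_mem (h.cp.cl.hj.sq j hj) (h.el a ha)
  rw [show ⁅x, y⁆ = x * y * (x * y) * ((y * y)⁻¹ * (y * (x * x)⁻¹ * y⁻¹)) by simp only [commutatorElement_def]; group]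
  exact mul_mem (sq _ (mul_mem hx hy)) (mul_mem (inv_mem (sq y hy))
    (conj_mem (cent_le_norm _ (h.c7a_WZ hy)) (inv_mem (sq x hx))))

theorem Ct.c7a_WJ : W ≤ 𝒩(J) := le_norm_of_cj_le fun w hw => by
  rintro _ ⟨j, hj, rfl⟩
  have := mul_mem (h.c7a_ZJ (h.c7a_WW hw (h.cp.cl.hj.le hj))) hj
  rwa [commutatorElement_def, inv_mul_cancel_right] at this

theorem Ct.c7a_PP : ⁅Pz, Pz⁆ ≤ zpowers S.z := by
  have nz : Pz ≤ 𝒩(zpowers S.z) := (h.c7a_PW.trans h.WT).trans h.c7a_nz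
  have ab : ⁅S.Z1, S.Z1⁆ ≤ zpowers S.z := commutator_le.2 (by
    rintro _ ⟨a, ha, rfl⟩ _ ⟨b, hb, rfl⟩
    rw [commutatorElement_eq_one_iff_mul_comm.2 (by rw [← map_mul, c7a_m2 ha hb, map_mul])]
    exact one_mem _)
  rcases h.cp.kk with e | ⟨hb, k, hk, -, kt, kd⟩
  · rwa [e]
  have kz := h.c7a_z (h.WT (h.c7a_PW hk))
  have h1 : ∀ a ∈ S.Z1, ⁅k, a⁆ ∈ zpowers S.z := by
    rintro _ ⟨a, ha, rfl⟩
    have e : ∀ v, k * S.ι a * k⁻¹ * (S.t * S.y) * (k * S.ι a * k⁻¹)⁻¹ = v ↔ k * (S.ι a * S.t * (S.ι a)⁻¹) * k⁻¹ = v :=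
      fun v => by rw [← kt]; group
    have e' : k * S.ι a * k⁻¹ = ⁅k, S.ι a⁆ * S.ι a := by rw [commutatorElement_def, inv_mul_cancel_right]
    have e1 : k * (S.t * S.z) * k⁻¹ = S.t * S.y * S.z := by
      rw [← kt, ← conj_mul, kz, mul_inv_cancel_right]
    rw [e'] at e
    rcases c7a_memZ.1 (h.c7a_WW (h.c7a_PW hk) (h.c7a_PW (h.cp.Z1P ⟨a, ha, rfl⟩))) with c | c | c | c
    · exact c ▸ one_mem _
    · exact c ▸ mem_zpowers _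
    all_goals
      exfalso
      rw [c] at e
      rcases c7a_m3 _ h.cp.cl.hj.cw.ws hb a ha with ⟨d1, d2, d3⟩ | ⟨d1, d2, d3⟩ <;>
        have := congrArg S.ι d1 <;> simp only [map_mul, map_inv] at this <;> rw [this] at e
      · have := (e _).2 kt
        simp only [← map_mul, ← map_inv, S.eq_iff] at this
        contradiction
      · have := (e _).2 e1
        simp only [← map_mul, ← map_inv, S.eq_iff] at this
        contradiction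
  have h2 : Pz ≤ S.Z1 ⊔ zpowers k := fun a ha => (kd a ha).elim mem_sup_left fun c =>
    inv_mul_cancel_right a k ▸ mul_mem_sup c (mem_zpowers k)
  refine (commutator_mono h2 h2).trans (c7a_sup (h.cp.Z1P.trans nz) (zpowers_le.2 (nz hk)) ab ?_ ?_)
  · rw [commutator_comm]
    exact (le_commStab.1 (zpowers_le.2 ⟨nz hk, h1⟩)).2
  · exact (commutator_eq_bot_iff_le_centralizer.2 (le_centralizer _)).le.trans bot_le

omit h in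
theorem c7a_cA {g σ τ a : G} {A B Z : Subgroup G} (mA : ∀ x, x ∈ A ↔ x ∈ J ∧ (x * x = σ ∨ x ∈ Z))
    (mB : ∀ x, x ∈ B ↔ x ∈ J ∧ (x * x = τ ∨ x ∈ Z)) (hJ : g ∈ 𝒩(J)) (hZ : g ∈ 𝒩(Z)) (e : g * σ * g⁻¹ = τ)
    (ha : a ∈ A) : g * a * g⁻¹ ∈ B :=
  (mB _).2 ⟨conj_mem hJ ((mA a).1 ha).1, ((mA a).1 ha).2.imp (fun c => by rw [conj_mul, c, e]) (conj_mem hZ)⟩

omit h in
theorem c7a_k {σ : G} {A Z : Subgroup G} (mA : ∀ x, x ∈ A ↔ x ∈ J ∧ (x * x = σ ∨ x ∈ Z)) (hσ : σ ∉ zpowers S.z) :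
    ∀ a ∈ A, ∀ b ∈ A, a ∉ Z → b ∉ Z → a * b ∉ Z → ⁅a, b⁆ ∉ zpowers S.z := fun a ha b hb na nb nab c => by
  rw [c7a_sqcm (((mA a).1 ha).2.resolve_right na) (((mA b).1 hb).2.resolve_right nb)
    (((mA _).1 (mul_mem ha hb)).2.resolve_right nab)] at c
  exact hσ (inv_mem_iff.1 c)

/-- `N_T(J) ∩ C(s)` -/
abbrev c7aM (S : HD G) (J T : Subgroup G) : Subgroup G := T ⊓ 𝒩(J) ⊓ centralizer {S.s}

theorem Ct.c7a_l1 : A1 ≤ J := fun a ha => ((h.cp.cl.m1 a).1 ha).1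

theorem Ct.c7a_l2 : A2 ≤ J := fun a ha => ((h.cp.cl.m2 a).1 ha).1

theorem Ct.c7a_JT : J ≤ T := h.cp.cl.hj.le.trans h.WT

theorem Ct.c7a_MZ : S.c7aM J T ≤ 𝒞(S.Z0) := fun _ hx =>
  c7a_cenZ (mem_centralizer_singleton_iff.1 hx.2) (h.c7a_z hx.1.1)

theorem Ct.c7a_WM : W ≤ S.c7aM J T := fun x hx =>
  ⟨⟨h.WT hx, h.c7a_WJ hx⟩, mem_centralizer_singleton_iff.2 (h.cp.cl.hj.cw.Ws x hx)⟩

theorem Ct.c7a_fix (hx : x ∈ S.c7aM J T) {ζ : G} (hζ : ζ ∈ S.Z0) : x * ζ * x⁻¹ = ζ := by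
  rw [← comm_of_mem (h.c7a_MZ hx) hζ, mul_inv_cancel_right]

theorem Ct.c7a_n1 : S.c7aM J T ≤ 𝒩(A1) := le_norm_of_cj_le fun g hg => by
  rintro _ ⟨a, ha, rfl⟩
  exact c7a_cA h.cp.cl.m1 h.cp.cl.m1 hg.1.2 (cent_le_norm _ (h.c7a_MZ hg)) (h.c7a_fix hg S.c7a_sZ) ha

theorem Ct.c7a_n2 : S.c7aM J T ≤ 𝒩(A2) := le_norm_of_cj_le fun g hg => by
  rintro _ ⟨a, ha, rfl⟩
  exact c7a_cA h.cp.cl.m2 h.cp.cl.m2 hg.1.2 (cent_le_norm _ (h.c7a_MZ hg))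
    (h.c7a_fix hg (mul_mem S.c7a_sZ S.c7a_zZ)) ha

theorem Ct.c7a_inf (h1 : x ∈ A1) (h2 : x ∈ A2) : x ∈ S.Z0 := by
  rcases ((h.cp.cl.m1 x).1 h1).2 with a | a
  · exact ((h.cp.cl.m2 x).1 h2).2.resolve_left fun b => (c7a_ne h.cp.cl.hj.cw.ws).2.2.2.2.2.1 (a.symm.trans b)
  · exact a

theorem Ct.c7a_12 : ⁅A1, A2⁆ ≤ zpowers S.z := commutator_le.2 fun a ha b hb => by
  rw [commutatorElement_def]
  rcases h.cp.cl.c12 a ha b hb with e | e <;> rw [e]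
  · simp
  · rw [mul_assoc _ a⁻¹, ← mul_inv_rev]
    exact conj_mem (h.c7a_nz (h.c7a_JT (mul_mem (h.c7a_l2 hb) (h.c7a_l1 ha)))) (mem_zpowers _)

variable (k : S.K5 W J T)
include k

theorem Ct.c7a_both (hx : x ∈ S.c7aM J T) (h1 : x ∈ commStab A1 S.Z0) (h2 : x ∈ commStab A2 S.Z0) : x ∈ W :=
  k.c1 x hx.1.1 (mem_centralizer_singleton_iff.1 hx.2) hx.1.2 fun j hj => by
    obtain ⟨a, ha, b, hb, rfl⟩ := h.cp.cl.gen j hj
    rw [← commutatorElement_def, c7a_mr]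
    exact mul_mem (h1.2 a ha) (conj_mem (k.z0 (h.c7a_JT (h.c7a_l1 ha))) (h2.2 b hb))

section
variable (H : ∀ a ∈ A1, a ∉ S.Z0 → ∃ b ∈ A2, a * b ≠ b * a)
include H

theorem Ct.c7a_W2 (hx : x ∈ S.c7aM J T) (h2 : x ∈ commStab A2 S.Z0) : x ∈ W := by
  refine h.c7a_both k hx ⟨h2.1, fun a ha => by_contra fun c => ?_⟩ h2
  have kA : ⁅x, a⁆ ∈ A1 := mul_mem (conj_mem (h.c7a_n1 hx) ha) (inv_mem ha)
  obtain ⟨b, hb, e⟩ := H _ kA c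
  have JZ := h.cp.cl.hj.le.trans h.c7a_WZ
  have e1 := h.c7a_fix hx (h.cp.cl.hj.cm a (h.c7a_l1 ha) b (h.c7a_l2 hb))
  rw [← commutatorElement_def, conjugate_commutatorElement,
    show x * a * x⁻¹ = ⁅x, a⁆ * a by rw [commutatorElement_def, inv_mul_cancel_right],
    show x * b * x⁻¹ = ⁅x, b⁆ * b by rw [commutatorElement_def, inv_mul_cancel_right], c7a_mr,
    commutatorElement_eq_one_iff_mul_comm.2 (comm_of_mem (JZ (h.c7a_l1 (mul_mem kA ha))) (h2.2 b hb)).symm, one_mul,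
    comm_of_mem (JZ (h.c7a_ZJ (h.c7a_WW (h.cp.cl.hj.le (h.c7a_l1 (mul_mem kA ha))) (h.cp.cl.hj.le (h.c7a_l2 hb)))))
      (h2.2 b hb), mul_inv_cancel_right, commutatorElement_mul_left_eq_conj_mul,
    h.c7a_fix (h.c7a_WM (h.cp.cl.hj.le (h.c7a_l1 kA))) (ζ := ⁅a, b⁆) (h.cp.cl.hj.cm a (h.c7a_l1 ha) b (h.c7a_l2 hb)),
    mul_eq_left] at e1
  exact e (commutatorElement_eq_one_iff_mul_comm.1 e1)

theorem Ct.c7a_W1 (hx : x ∈ S.c7aM J T) (h1 : x ∈ commStab A1 S.Z0) : x ∈ W := by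
  have tT : S.t ∈ T := h.le ⟨_, rfl⟩
  have tJ : S.t ∈ 𝒩(J) := h.cp.cl.hj.S1n ⟨_, rfl⟩
  refine (mem_normalizer_iff.1 (h.cp.cl.hj.cw.S1n ⟨M.mt S.p, rfl⟩) x).2 (h.c7a_W2 k H
    ⟨⟨conj_mem (le_normalizer tT) hx.1.1, conj_mem (le_normalizer tJ) hx.1.2⟩, mem_centralizer_singleton_iff.2
      (comm_of_mem (conj_mem (le_norm_cent k.z0 tT) (h.c7a_MZ hx)) S.c7a_sZ).symm⟩
    ⟨k.z0 (conj_mem (le_normalizer tT) hx.1.1), fun b hb => ?_⟩)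
  have := conj_mem (k.z0 tT) (h1.2 _ (c7a_cA h.cp.cl.m2 h.cp.cl.m1 tJ (k.z0 tT)
    (c7a_ne h.cp.cl.hj.cw.ws).2.2.2.2.2.2.2 hb))
  rwa [conjugate_commutatorElement, show S.t * (S.t * b * S.t⁻¹) * S.t⁻¹ = S.t * S.t * b * (S.t * S.t)⁻¹ by group, S.tt,
    inv_one, one_mul, mul_one] at this

theorem Ct.c7a_hf {y : G} (hx : x ∈ S.c7aM J T) (hy : y ∈ S.c7aM J T) (nx : x ∉ W) (ny : y ∉ W) : x * y ∈ W :=
  h.c7a_W1 k H (mul_mem hx hy) (c7a_line h.syl.isPGroup (h.c7a_l1.trans h.c7a_JT) (inf_le_left.trans inf_le_left) h.c7a_n1 k.z0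
    (fun z hz => (h.cp.cl.m1 z).2 ⟨h.c7a_ZJ hz, .inr hz⟩) h.cp.cl.c1 (c7a_cZ h.cp.cl.hj.cw.ws) hx hy
    (fun c => nx (h.c7a_W1 k H hx c)) fun c => ny (h.c7a_W1 k H hy c))

theorem Ct.c7a_nP (hx : x ∈ S.c7aM J T) {a : G} (ha : a ∈ Pz) : x * a * x⁻¹ ∈ Pz := by
  have h1 : x * a * x⁻¹ ∈ W := by
    by_cases e : x ∈ W
    · exact conj_mem (le_normalizer e) (h.c7a_PW ha)
    · exact h.c7a_hf k H (mul_mem hx (h.c7a_WM (h.c7a_PW ha))) (inv_mem hx)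
        (fun c => e ((mul_mem_cancel_right (h.c7a_PW ha)).1 c)) fun c => e (inv_mem_iff.1 c)
  have PJ := le_centralizer_iff.1 h.cp.JP
  have h2 := conj_mem (le_norm_cent le_rfl hx.1.2) (PJ ha)
  obtain ⟨j, hj, b, hb, e⟩ := h.cp.dec _ h1
  rw [e] at h2 ⊢
  exact mul_mem (h.c7a_ZP (h.cp.cl.nd j hj fun y hy =>
    .inl (comm_of_mem ((mul_mem_cancel_right (PJ hb)).1 h2) hy).symm)) hb

theorem Ct.c7a_II (hx : x ∈ S.c7aM J T) (nx : x ∉ W) :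
    ⁅W ⊓ c7aF x S.Z0, W ⊓ c7aF x S.Z0⁆ ≤ zpowers S.z := by
  have JW := h.cp.cl.hj.le
  have cZ := c7a_cZ h.cp.cl.hj.cw.ws
  have ab : ∀ A ≤ J, Nat.card A = 16 → S.Z0 ≤ A → x ∉ commStab A S.Z0 →
      ⁅A ⊓ c7aF x S.Z0, A ⊓ c7aF x S.Z0⁆ ≤ zpowers S.z := fun A hA cA ZA e => by
    have := c7a_lt (inf_le_left : A ⊓ c7aF x S.Z0 ≤ A) fun c => e ⟨k.z0 hx.1.1, fun a ha => (c ha).2.2⟩
    exact c7a_ab (Z := S.Z0) (le_inf ZA fun z hz => ⟨le_normalizer hz, mul_mem (conj_mem (k.z0 hx.1.1) hz) (inv_mem hz)⟩)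
      (inf_le_left.trans (hA.trans (JW.trans h.c7a_WZ))) (by omega)
  have h1 : W ⊓ c7aF x S.Z0 ≤ A1 ⊓ c7aF x S.Z0 ⊔ A2 ⊓ c7aF x S.Z0 ⊔ Pz := fun i hi => by
    obtain ⟨j, hj, p, hp, rfl⟩ := h.cp.dec i hi.1
    have e1 := hi.2.2
    rw [c7a_mr] at e1
    have e2 := h.cp.JPi _ (mul_mem (conj_mem hx.1.2 hj) (inv_mem hj)) ((mul_mem_cancel_right (conj_mem
      (cent_le_norm _ (h.cp.JP hj)) (mul_mem (h.c7a_nP k H hx hp) (inv_mem hp)))).1 (h.c7a_ZP e1))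
    obtain ⟨a, ha, b, hb, rfl⟩ := h.cp.cl.gen j hj
    rw [← commutatorElement_def, c7a_mr] at e2
    have aM := h.c7a_WM (JW (h.c7a_l1 ha))
    have e3 : ⁅x, a⁆ ∈ S.Z0 := h.c7a_inf (mul_mem (conj_mem (h.c7a_n1 hx) ha) (inv_mem ha))
      ((mul_mem_cancel_right (conj_mem (h.c7a_n2 aM) (mul_mem (conj_mem (h.c7a_n2 hx) hb) (inv_mem hb)))).1
        ((h.cp.cl.m2 _).2 ⟨h.c7a_ZJ e2, .inr e2⟩))
    exact mul_mem_sup (mul_mem_sup ⟨ha, k.z0 aM.1.1, e3⟩ ⟨hb, k.z0 (h.c7a_JT (h.c7a_l2 hb)),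
      (mem_normalizer_iff.1 (k.z0 aM.1.1) _).2 ((mul_mem_cancel_left e3).1 e2)⟩) hp
  have nJ := h.c7a_JT.trans h.c7a_nz
  have h2 : A1 ⊓ c7aF x S.Z0 ⊔ A2 ⊓ c7aF x S.Z0 ≤ J := sup_le (inf_le_left.trans h.c7a_l1) (inf_le_left.trans h.c7a_l2)
  refine (commutator_mono h1 h1).trans (c7a_sup (h2.trans nJ) ((h.c7a_PW.trans h.WT).trans h.c7a_nz)
    (c7a_sup ((le_sup_left.trans h2).trans nJ) ((le_sup_right.trans h2).trans nJ)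
      (ab A1 h.c7a_l1 h.cp.cl.c1 (fun z hz => (h.cp.cl.m1 z).2 ⟨h.c7a_ZJ hz, .inr hz⟩) fun c => nx (h.c7a_W1 k H hx c))
      ((commutator_mono inf_le_left inf_le_left).trans h.c7a_12)
      (ab A2 h.c7a_l2 h.cp.cl.c2 (fun z hz => (h.cp.cl.m2 z).2 ⟨h.c7a_ZJ hz, .inr hz⟩) fun c => nx (h.c7a_W2 k H hx c)))
    ((commutator_eq_bot_iff_le_centralizer.2 (h2.trans h.cp.JP)).le.trans bot_le) h.c7a_PP)

theorem Ct.c7a_no (hn : S.J1 W J T n) : False := by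
  obtain ⟨nT, -, h1, h2⟩ := hn
  have JW := h.cp.cl.hj.le
  have hM : ∀ j ∈ J, n * j * n⁻¹ ∈ S.c7aM J T := fun j hj =>
    ⟨⟨conj_mem (le_normalizer nT) (h.c7a_JT hj), h1 (conj_mem_cj n hj)⟩, mem_centralizer_singleton_iff.2
      (comm_of_mem (conj_mem (le_norm_cent k.z0 nT) (h.c7a_WZ (JW hj))) S.c7a_sZ).symm⟩
  obtain ⟨_, ⟨x, hx, rfl⟩, nx⟩ := SetLike.not_le_iff_exists.1 h2
  obtain ⟨z1, s1, s2, s3, s4, -⟩ := c7a_ne h.cp.cl.hj.cw.ws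
  have h3 : ∀ j ∈ J ⊓ W.comap (MulAut.conj n).toMonoidHom, n * j * n⁻¹ ∈ W ⊓ c7aF (n * x * n⁻¹) S.Z0 := fun j hj =>
    ⟨hj.2, k.z0 (hM j hj.1).1.1, conjugate_commutatorElement x j n ▸ conj_mem (k.z0 nT) (h.cp.cl.hj.cm x hx j hj.1)⟩
  refine c7a_fin (I := W.comap (MulAut.conj n).toMonoidHom) h.cp.cl.c1 h.cp.cl.c2 (c7a_cZ h.cp.cl.hj.cw.ws)
    h.c7a_l1 h.c7a_l2 (c7a_k h.cp.cl.m1 fun c => (c7a_zp c).elim s1 s3.symm)
    (c7a_k h.cp.cl.m2 fun c => (c7a_zp c).elim s2 s4.symm) h.c7a_12 (h.c7a_JT.trans h.c7a_nz)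
    (fun z hz => JW (h.c7a_ZJ (conj_mem (k.z0 nT) hz))) (fun a ha b hb na nb => ?_) (commutator_le.2 fun a ha b hb => ?_)
  · rw [mem_comap, map_mul]
    exact h.c7a_hf k H (hM a ha) (hM b hb) na nb
  · refine (mem_normalizer_iff.1 (h.c7a_nz nT) _).2 ?_
    rw [conjugate_commutatorElement]
    exact h.c7a_II k H (hM x hx) nx (commutator_mem_commutator (h3 a ha) (h3 b hb))

end

theorem Ct.c7a_ex (hN : T ⊓ 𝒩(W) ≤ 𝒩(J)) (hT : ¬ T ≤ 𝒩(J)) : ∃ n, S.J1 W J T n := by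
  obtain ⟨n, hn, nn⟩ := SetLike.exists_of_lt (lt_inf_normalizer_of_isPGroup h.syl.isPGroup
    (lt_of_le_of_ne (inf_le_left : T ⊓ 𝒩(J) ≤ T) fun e => hT (inf_eq_left.1 e)))
  have h1 : T ⊓ 𝒩(J) ≤ 𝒩(cj n J) := by
    rw [← cj_norm, ← cj_eq hn.2]
    exact cj_mono n inf_le_right
  refine ⟨n, hn.1, h1 ⟨h.le ⟨_, rfl⟩, h.cp.cl.hj.S1n ⟨_, rfl⟩⟩,
    (cj_le_of_le (le_inf h.c7a_JT le_normalizer) hn.2).trans inf_le_right, fun c => nn ⟨hn.1, hN ⟨hn.1, ?_⟩⟩⟩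
  refine (Subgroup.inv_mem_iff _).1 (mem_norm_of_cj_le ?_)
  rintro _ ⟨w, hw, rfl⟩
  have h2 := conj_mem (inv_mem hn.2) ⟨h.WT hw, h.c7a_WJ hw⟩
  refine k.c1 _ h2.1 (comm_of_mem (conj_mem (le_norm_cent k.z0 (inv_mem hn.1)) (h.c7a_WZ hw)) S.c7a_sZ).symm h2.2
    fun j hj => ?_
  have := conj_mem (k.z0 (inv_mem hn.1)) (h.c7a_WW hw (c (conj_mem_cj n hj)))
  rwa [conjugate_commutatorElement, show n⁻¹ * (n * j * n⁻¹) * n⁻¹⁻¹ = j by group] at this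

end HD

theorem c7a : C7aS.{u} := fun _ _ _ _ _ _ _ _ _ _ _ h k hN => or_iff_not_imp_left.2 fun hT =>
  have ⟨n, hn⟩ := h.c7a_ex k hN hT
  ⟨h.cp.cl.hom.resolve_right fun H => h.c7a_no k H hn, n, hn⟩

end CL.H33
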