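/-
Project H33 (S3139): steps C7b and C8a.
-/
import Cfsg.Agent.H33.Defs3
import Cfsg.Agent.Even.Blk1

set_option autoImplicit false
set_option linter.unusedSectionVars false
set_option linter.unusedVariables false
open Cfsg Subgroup CL.Even CL.Grp

namespace CL.H33
open M

universe u

namespace C7b

section pure
variable {G : Type u} [Group G]

/-- the elements normalising `Z` and acting trivially on `B` modulo `Z` -/
def trv (Z : Subgroup G) (B : Set G) : Subgroup G where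
  carrier := {x | x ∈ 𝒩(Z) ∧ ∀ b ∈ B, x * b * x⁻¹ * b⁻¹ ∈ Z}
  one_mem' := ⟨one_mem _, fun b _ => by simp⟩
  mul_mem' := fun {x y} hx hy => ⟨mul_mem hx.1 hy.1, fun b hb => by
    have := mul_mem (conj_mem hx.1 (hy.2 b hb)) (hx.2 b hb)
    convert this using 1
    group⟩
  inv_mem' := fun {x} hx => ⟨inv_mem hx.1, fun b hb => by
    have := conj_mem' hx.1 (inv_mem (hx.2 b hb))
    convert this using 1
    group⟩

theorem mem_trv {Z : Subgroup G} {B : Set G} {x : G} :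
    x ∈ trv Z B ↔ x ∈ 𝒩(Z) ∧ ∀ b ∈ B, x * b * x⁻¹ * b⁻¹ ∈ Z := Iff.rfl

theorem swap {Z : Subgroup G} {x b : G} (h : x * b * x⁻¹ * b⁻¹ ∈ Z) : b * x * b⁻¹ * x⁻¹ ∈ Z := by
  convert inv_mem h using 1
  group

theorem le_trv {Z P : Subgroup G} (h : P ≤ 𝒩(Z)) : Z ≤ trv Z P := fun z hz => ⟨le_normalizer hz, fun b hb => by
  rw [mul_assoc, mul_assoc, ← mul_assoc b]
  exact mul_mem hz (conj_mem (h hb) (inv_mem hz))⟩

variable [Finite G]

theorem two_mem {K L : Subgroup G} (h : K ≤ L) (hc : Nat.card L = 2 * Nat.card K) {a b : G} (ha : a ∈ L) (hb : b ∈ L)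
    (ha' : a ∉ K) (hb' : b ∉ K) : a * b ∈ K := by
  have h1 := card_mul_index (K.subgroupOf L)
  rw [Nat.card_congr (subgroupOfEquivOfLe h).toEquiv, hc, mul_comm] at h1
  have hi : (K.subgroupOf L).index = 2 := Nat.eq_of_mul_eq_mul_right Nat.card_pos h1
  exact (mul_mem_iff_of_index_two hi (a := ⟨a, ha⟩) (b := ⟨b, hb⟩)).2 ⟨fun h => (ha' h).elim, fun h => (hb' h).elim⟩

theorem card_two {A K : Subgroup G} (f : G → Prop) (h : ∀ a ∈ A, ∀ b ∈ A, (f a ↔ f b) → a⁻¹ * b ∈ K) :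
    Nat.card A ≤ 2 * Nat.card (A ⊓ K : Subgroup G) := by
  have := card_le_mul_of_fiber (A := A) (K := K) f (S := Set.univ) Set.finite_univ (fun _ _ => trivial)
    fun a ha b hb e => h a ha b hb (iff_of_eq e)
  rwa [Set.ncard_univ, Nat.card_eq_fintype_card (α := Prop), Fintype.card_prop] at this

theorem mid {Z Y A : Subgroup G} (h1 : Z ≤ Y) (h2 : Y ≤ A) (cZ : Nat.card Z = 4) (cA : Nat.card A = 16)
    (h : ¬ Y ≤ Z) : A ≤ Y ∨ Nat.card Y = 8 := by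
  have d1 := card_dvd_of_le h1
  have d2 := card_dvd_of_le h2
  rw [cA] at d2
  rw [cZ] at d1
  have : Nat.card Y = 4 ∨ Nat.card Y = 8 ∨ Nat.card Y = 16 := by
    have := Nat.le_of_dvd (by norm_num) d2
    generalize Nat.card Y = n at *
    interval_cases n <;> simp_all
  rcases this with e | e | e
  · exact (h (eq_of_le_of_card_ge h1 (by omega)).ge).elim
  · exact Or.inr e
  · exact Or.inl (eq_of_le_of_card_ge h2 (by omega)).ge

theorem le_of_three {Z Y A : Subgroup G} (h1 : Z ≤ Y) (h2 : Y ≤ A) (cZ : Nat.card Z = 4) (cA : Nat.card A = 16)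
    {a b : G} (ha : a ∈ Y) (hb : b ∈ Y) (ha' : a ∉ Z) (hb' : b ∉ Z) (hab : a * b ∉ Z) : A ≤ Y :=
  (mid h1 h2 cZ cA fun h => ha' (h ha)).resolve_right fun e => hab (two_mem h1 (by omega) ha hb ha' hb')

theorem idx2 {Z A P : Subgroup G} (hZ : Z ≤ A) (cZ : Nat.card Z = 4) (cA : Nat.card A = 16) (hn : A ≤ 𝒩(Z))
    (hP : IsPGroup 2 P) (hPA : P ≤ 𝒩(A)) (hPZ : P ≤ 𝒩(Z)) :
    Nat.card P ≤ 2 * Nat.card (P ⊓ trv Z A : Subgroup G) := by
  have hA : IsPGroup 2 A := IsPGroup.of_card (n := 4) cA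
  obtain ⟨a, ha, ha', hf⟩ := exists_fix_mod (U₀ := Z) hA hP hPA fun h => by
    have := card_le_of_le h
    omega
  have hZY : Z ≤ A ⊓ trv Z P := le_inf hZ (le_trv hPZ)
  rcases mid hZY inf_le_left cZ cA (fun h => ha' (h ⟨ha, hn ha, fun x hx => swap (hf x hx)⟩)) with h | h
  · rw [inf_eq_left.2 (show P ≤ trv Z A from fun x hx => ⟨hPZ hx, fun b hb => swap ((h hb).2.2 x hx)⟩)]
    omega
  obtain ⟨b, hb, hb'⟩ : ∃ b ∈ A, b ∉ A ⊓ trv Z P := by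
    by_contra hc
    push Not at hc
    have := card_le_of_le (show A ≤ A ⊓ trv Z P from hc)
    omega
  have g : ∀ x ∈ P, x * b * x⁻¹ * b⁻¹ ∈ A ⊓ trv Z P := fun x hx => by
    refine two_mem inf_le_left (by omega) (conj_mem (hPA hx) hb) (inv_mem hb) (fun hc => hb' ?_)
      fun hc => hb' (inv_mem_iff.1 hc)
    have := mul_mem (hZY (swap (hc.2.2 _ (inv_mem hx)))) hc
    convert this using 1
    group
  refine card_two (fun x => x * b * x⁻¹ * b⁻¹ ∈ Z) fun x hx y hy e => ?_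
  have hp : x⁻¹ * y ∈ P := mul_mem (inv_mem hx) hy
  have k : x⁻¹ * y * b * (x⁻¹ * y)⁻¹ * b⁻¹ ∈ Z := by
    have k1 : y * b * y⁻¹ * b⁻¹ * (x * b * x⁻¹ * b⁻¹)⁻¹ ∈ Z := by
      by_cases hx' : x * b * x⁻¹ * b⁻¹ ∈ Z
      · exact mul_mem (e.1 hx') (inv_mem hx')
      · exact two_mem hZY (by omega) (g y hy) (inv_mem (g x hx)) (fun h => hx' (e.2 h))
          fun h => hx' (inv_mem_iff.1 h)
    convert conj_mem' (hPZ hx) k1 using 1
    group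
  have kb : b ∈ trv Z {x⁻¹ * y} := ⟨hn hb, by rintro _ rfl; exact swap k⟩
  have kY : A ⊓ trv Z P ≤ trv Z {x⁻¹ * y} := fun c hc => ⟨hc.2.1, by rintro _ rfl; exact hc.2.2 _ hp⟩
  refine ⟨hPZ hp, fun c hc => swap ((?_ : c ∈ trv Z {x⁻¹ * y}).2 _ rfl)⟩
  by_cases hc' : c ∈ A ⊓ trv Z P
  · exact kY hc'
  · exact (mul_mem_cancel_right kb).1 (kY (two_mem inf_le_left (by omega) hc hb hc' hb'))

end pure

theorem z0_M : ∀ p : Ty, p.ws = true → ∀ x : M p,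
    (x.k = false ∧ x.c = false ∧ x.d = false ∧ x.i = false ∧ x.j = false) ↔
      x = 1 ∨ x = mz p ∨ x = ms p ∨ x = ms p * mz p := by decide +kernel

theorem ne_M : ∀ p : Ty, p.ws = true → mz p ≠ 1 ∧ ms p ≠ 1 ∧ ms p * mz p ≠ 1 ∧ ms p ≠ mz p ∧ ms p * mz p ≠ mz p ∧
    ms p * mz p ≠ ms p ∧ ms p * (ms p * mz p) = mz p ∧ ms p * ms p = 1 ∧ (ms p * mz p) * (ms p * mz p) = 1 ∧
    (ms p * mt p) * (ms p * mt p) ≠ 1 ∧ (ms p * mz p * mt p) * (ms p * mz p * mt p) ≠ 1 := by decide +kernel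

theorem sq_M : ∀ p : Ty, p.ws = true → ∀ x : M p, x.k = false → x.c = false → x.d = false →
    x * x ≠ ms p ∧ x * x ≠ ms p * mz p := by decide +kernel

theorem one_M : ∀ p : Ty, p.ws = true → p.al = false → ∀ x : M p, x * ms p = ms p * x →
    ((x * x).k = false ∧ (x * x).c = false ∧ (x * x).d = false ∧ (x * x).i = false ∧ (x * x).j = false) → x * x ≠ 1 →
    x.k = false ∧ x.c = false ∧ (x.d = false ∨ (x.i = false ∧ x.j = false)) := by decide +kernel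

theorem card_Z1 (p : Ty) : Nat.card (sZ1 p) ≤ 8 := by
  have : Nat.card (sZ1 p) ≤ Nat.card (Bool × Bool × Bool) :=
    Nat.card_le_card_of_injective (fun x => (x.1.d, x.1.z, x.1.e)) fun x y e => by
      simp only [Prod.mk.injEq] at e
      obtain ⟨h1, h2, h3, h4⟩ := x.2
      obtain ⟨k1, k2, k3, k4⟩ := y.2
      exact Subtype.ext (M.ext e.1 e.2.1 (h2.trans k2.symm) e.2.2 (h3.trans k3.symm) (h4.trans k4.symm)
        (h1.trans k1.symm))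
  simpa using this

variable {G : Type u} [Group G] [Finite G] {S : HD G}

theorem mem_Z0 (hw : S.p.ws = true) {x : G} : x ∈ S.Z0 ↔ x = 1 ∨ x = S.z ∨ x = S.s ∨ x = S.s * S.z := by
  constructor
  · rintro ⟨m, hm, rfl⟩
    rcases (z0_M _ hw m).1 hm with rfl | rfl | rfl | rfl <;> simp
  · rw [← map_mul, ← map_one S.ι]
    rintro (rfl | rfl | rfl | rfl) <;> exact mem_map_of_mem _ ((z0_M _ hw _).2 (by simp))

theorem ne_G (hw : S.p.ws = true) : S.z ≠ 1 ∧ S.s ≠ 1 ∧ S.s * S.z ≠ 1 ∧ S.s ≠ S.z ∧ S.s * S.z ≠ S.z ∧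
    S.s * S.z ≠ S.s ∧ S.s * (S.s * S.z) = S.z ∧ S.s * S.s = 1 ∧ (S.s * S.z) * (S.s * S.z) = 1 ∧
    (S.s * S.t) * (S.s * S.t) ≠ 1 ∧ (S.s * S.z * S.t) * (S.s * S.z * S.t) ≠ 1 := by
  simp only [← map_one S.ι, ← map_mul, Ne, S.eq_iff]
  exact ne_M _ hw

theorem card_Z0 (hw : S.p.ws = true) : Nat.card S.Z0 = 4 := by
  obtain ⟨h1, h2, h3, h4, h5, h6, -⟩ := ne_G hw
  have : (S.Z0 : Set G) = {1, S.z, S.s, S.s * S.z} := Set.ext fun x => mem_Z0 hw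
  change Nat.card (S.Z0 : Set G) = 4
  rw [this, Nat.card_coe_set_eq, Set.ncard_insert_of_notMem (by simp [h1.symm, h2.symm, h3.symm]),
    Set.ncard_insert_of_notMem (by simp [h4.symm, h5.symm]), Set.ncard_pair h6.symm]

theorem cent_Z0 (hw : S.p.ws = true) {x : G} (h1 : x * S.s = S.s * x) (h2 : x * S.z = S.z * x) : x ∈ 𝒞(S.Z0) := by
  intro c hc
  rcases (mem_Z0 hw).1 hc with rfl | rfl | rfl | rfl
  · simp
  · exact h2.symm
  · exact h1.symm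
  · rw [mul_assoc, ← h2, ← mul_assoc, ← h1, mul_assoc]

theorem sq_Z0 (hw : S.p.ws = true) {x : G} (hx : x ∈ S.Z0) : x * x = 1 := by
  obtain ⟨-, -, -, -, -, -, -, h1, h2, -⟩ := ne_G hw
  rcases (mem_Z0 hw).1 hx with rfl | rfl | rfl | rfl
  exacts [mul_one 1, S.zz, h1, h2]

variable {W J A1 A2 Pz T : Subgroup G} {r : G}

section
variable (h : S.Cl W r J A1 A2)
include h

theorem Z0_J : S.Z0 ≤ J := by
  rintro _ ⟨m, hm, rfl⟩
  exact (h.hj.mem m).2 ⟨hm.1, hm.2.1, hm.2.2.1⟩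

theorem J_cent : J ≤ 𝒞(S.Z0) := fun x hx =>
  cent_Z0 h.hj.cw.ws (h.hj.cw.Ws x (h.hj.le hx)) (h.hj.cw.Wz x (h.hj.le hx))

theorem Z0_A1 : S.Z0 ≤ A1 := fun x hx => (h.m1 x).2 ⟨Z0_J h hx, Or.inr hx⟩
theorem Z0_A2 : S.Z0 ≤ A2 := fun x hx => (h.m2 x).2 ⟨Z0_J h hx, Or.inr hx⟩
theorem A1_J : A1 ≤ J := fun x hx => ((h.m1 x).1 hx).1
theorem A2_J : A2 ≤ J := fun x hx => ((h.m2 x).1 hx).1

theorem A12 {x : G} (h1 : x ∈ A1) (h2 : x ∈ A2) : x ∈ S.Z0 := by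
  rcases ((h.m1 x).1 h1).2 with e | e
  · exact ((h.m2 x).1 h2).2.resolve_left fun e' => (ne_G h.hj.cw.ws).2.2.2.2.2.1 (e'.symm.trans e)
  · exact e

theorem Q0_A {m : M S.p} (hm : m ∈ sQ0 S.p) (hA : S.ι m ∈ A1 ∨ S.ι m ∈ A2) : S.ι m ∈ S.Z0 := by
  obtain ⟨k1, k2⟩ := sq_M _ h.hj.cw.ws m hm.1 hm.2.1 hm.2.2
  rcases hA with hA | hA
  · exact ((h.m1 _).1 hA).2.resolve_left fun e => k1 (S.inj (by rw [map_mul]; exact e))
  · exact ((h.m2 _).1 hA).2.resolve_left fun e => k2 (S.inj (by rw [map_mul, map_mul]; exact e))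

theorem norm_A {x : G} (hc : x ∈ 𝒞(S.Z0)) (hn : x ∈ 𝒩(J)) : x ∈ 𝒩(A1) ∧ x ∈ 𝒩(A2) := by
  have k : ∀ a c, c ∈ S.Z0 → (a * a = c ∨ a ∈ S.Z0) → (x * a * x⁻¹ * (x * a * x⁻¹) = c ∨ x * a * x⁻¹ ∈ S.Z0) := by
    rintro a c hc' (e | e)
    · refine Or.inl ?_
      rw [← conj_eq_of_mem hc hc', ← e]
      group
    · exact Or.inr (conj_mem (cent_le_norm _ hc) e)
  constructor <;> refine mem_norm_of_cj_le ?_ <;> rintro _ ⟨a, ha, rfl⟩
  · exact (h.m1 _).2 ⟨conj_mem hn ((h.m1 a).1 ha).1, k a _ ((mem_Z0 h.hj.cw.ws).2 (by simp)) ((h.m1 a).1 ha).2⟩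
  · exact (h.m2 _).2 ⟨conj_mem hn ((h.m2 a).1 ha).1, k a _ ((mem_Z0 h.hj.cw.ws).2 (by simp)) ((h.m2 a).1 ha).2⟩

theorem triv (k : S.K5 W J T) {x : G} (hx : x ∈ T) (hs : x * S.s = S.s * x) (hn : x ∈ 𝒩(J)) (h1 : x ∈ trv S.Z0 A1)
    (h2 : x ∈ trv S.Z0 A2) : x ∈ W := by
  refine k.c1 x hx hs hn fun j hj => ?_
  obtain ⟨a, ha, b, hb, rfl⟩ := h.gen j hj
  have := mul_mem (h1.2 a ha) (conj_mem (cent_le_norm _ (J_cent h (A1_J h ha))) (h2.2 b hb))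
  convert this using 1
  group

theorem sq_ne (hc : ∀ a ∈ A1, ∀ b ∈ A2, a * b = b * a) {x : G} (hx : x ∈ J) (h1 : x * x = 1) : x ∈ S.Z0 := by
  obtain ⟨a, ha, b, hb, rfl⟩ := h.gen x hx
  obtain ⟨n1, n2, n3, -, -, -, n4, -⟩ := ne_G h.hj.cw.ws
  have e : a * b * (a * b) = a * a * (b * b) := by
    rw [mul_assoc, ← mul_assoc b, ← hc a ha b hb]; group
  rw [e] at h1
  rcases ((h.m1 a).1 ha).2 with e1 | e1 <;> rcases ((h.m2 b).1 hb).2 with e2 | e2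
  · rw [e1, e2, n4] at h1; exact (n1 h1).elim
  · rw [e1, sq_Z0 h.hj.cw.ws e2, mul_one] at h1; exact (n2 h1).elim
  · rw [e2, sq_Z0 h.hj.cw.ws e1, one_mul] at h1; exact (n3 h1).elim
  · exact mul_mem e1 e2

/-- an element acting trivially on `Q₀ / Z₀` acts trivially on `A₁ / Z₀` and `A₂ / Z₀` -/
theorem triv_Q (hc : ∀ a ∈ A1, ∀ b ∈ A2, a * b = b * a) {x : G} (hz : x ∈ 𝒞(S.Z0)) (hn : x ∈ 𝒩(J))
    (hu : x * S.u * x⁻¹ * S.u⁻¹ ∈ S.Z0) (hq : x * S.q * x⁻¹ * S.q⁻¹ ∈ S.Z0) : x ∈ trv S.Z0 A1 ∧ x ∈ trv S.Z0 A2 := by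
  obtain ⟨n1, n2⟩ := norm_A h hz hn
  have nZ : J ≤ 𝒩(S.Z0) := (J_cent h).trans (cent_le_norm _)
  have key : ∀ a ∈ A1, ∀ b ∈ A2, x * (a * b) * x⁻¹ * (a * b)⁻¹ ∈ S.Z0 →
      a ∈ A1 ⊓ trv S.Z0 {x} ∧ b ∈ A2 ⊓ trv S.Z0 {x} := by
    intro a ha b hb e
    have e1 : a⁻¹ * (x * a * x⁻¹) ∈ S.Z0 := by
      refine A12 h (mul_mem (inv_mem ha) (conj_mem n1 ha)) ?_
      have := mul_mem (mul_mem (Z0_A2 h (conj_mem' (nZ (A1_J h ha)) e)) hb) (inv_mem (conj_mem n2 hb))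
      convert this using 1
      group
    refine ⟨⟨ha, nZ (A1_J h ha), ?_⟩, hb, nZ (A2_J h hb), ?_⟩ <;> rintro _ rfl <;> refine swap ?_
    · convert conj_mem (nZ (A1_J h ha)) e1 using 1
      group
    · convert mul_mem (inv_mem e1) (conj_mem' (nZ (A1_J h ha)) e) using 1
      group
  have mu : mu S.p ∈ sQ0 S.p := ⟨rfl, rfl, rfl⟩
  have mq : mq S.p ∈ sQ0 S.p := ⟨rfl, rfl, rfl⟩
  obtain ⟨a, ha, b, hb, eu⟩ := h.gen _ ((h.hj.mem _).2 mu)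
  obtain ⟨a', ha', b', hb', eq⟩ := h.gen _ ((h.hj.mem _).2 mq)
  obtain ⟨k1, k2⟩ := key a ha b hb (eu ▸ hu)
  obtain ⟨k3, k4⟩ := key a' ha' b' hb' (eq ▸ hq)
  have euq : S.ι (M.mu S.p * M.mq S.p) = a * a' * (b * b') := by
    rw [map_mul, eu, eq, mul_assoc, ← mul_assoc b, ← hc a' ha' b hb]; group
  have nn : ∀ {m : M S.p} {c d : G}, m ∈ sQ0 S.p → m ∉ sZ0 S.p → c ∈ A1 → d ∈ A2 → S.ι m = c * d →
      c ∉ S.Z0 ∧ d ∉ S.Z0 := fun hm hm' hc hd e =>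
    ⟨fun hz => hm' (S.mem_map.1 (Q0_A h hm (Or.inr (e ▸ mul_mem (Z0_A2 h hz) hd)))),
      fun hz => hm' (S.mem_map.1 (Q0_A h hm (Or.inl (e ▸ mul_mem hc (Z0_A1 h hz)))))⟩
  obtain ⟨p1, p2⟩ := nn mu (fun e => by cases e.2.2.2.1) ha hb eu
  obtain ⟨p3, p4⟩ := nn mq (fun e => by cases e.2.2.2.2) ha' hb' eq
  obtain ⟨p5, p6⟩ := nn (mul_mem mu mq) (fun e => by have := e.2.2.2.2; rw [mul_j] at this; cases this)
    (mul_mem ha ha') (mul_mem hb hb') euq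
  have zt : S.Z0 ≤ trv S.Z0 {x} := fun c hc => ⟨le_normalizer hc, by
    rintro _ rfl; rw [comm_of_mem hz hc]; simp⟩
  have c4 := card_Z0 h.hj.cw.ws
  exact ⟨⟨cent_le_norm _ hz, fun c hc => swap
      ((le_of_three (le_inf (Z0_A1 h) zt) inf_le_left c4 h.c1 k1 k3 p1 p3 p5 hc).2.2 _ rfl)⟩,
    cent_le_norm _ hz, fun c hc => swap
      ((le_of_three (le_inf (Z0_A2 h) zt) inf_le_left c4 h.c2 k2 k4 p2 p4 p6 hc).2.2 _ rfl)⟩

end

set_option synthInstance.maxSize 2000 in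
theorem two_B : ∀ d i j d' i' j' : Bool, ¬ (d = false ∧ i = false ∧ j = false) → ¬ (d' = false ∧ i' = false ∧ j' = false) →
    ¬ ((d ^^ d') = false ∧ (i ^^ i') = false ∧ (j ^^ j') = false) → (d = false ∨ (i = false ∧ j = false)) →
    (d' = false ∨ (i' = false ∧ j' = false)) → ((d ^^ d') = false ∨ ((i ^^ i') = false ∧ (j ^^ j') = false)) →
    d = false ∧ d' = false ∧ ∀ a b : Bool, (a = false ∧ b = false) ∨ ((i ^^ a) = false ∧ (j ^^ b) = false) ∨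
      ((i' ^^ a) = false ∧ (j' ^^ b) = false) ∨ ((i ^^ i' ^^ a) = false ∧ (j ^^ j' ^^ b) = false) := by
  decide

end C7b

open C7b

theorem c7b : C7bS.{u} := by
  rintro G _ _ S W r J A1 A2 Pz T ht k hc n ⟨hnT, htn, hJn, hne⟩
  have h := ht.cp.cl
  have hw := h.hj.cw.ws
  have hnZ := k.z0 hnT
  have c4 := card_Z0 hw
  have back : ∀ {x : G}, n⁻¹ * x * n ∈ S.Z0 → x ∈ S.Z0 := fun hx => by
    simpa [mul_assoc] using conj_mem hnZ hx
  have J1T : cj n J ≤ T := cj_le_of_mem (h.hj.le.trans ht.WT) hnT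
  have J1c : cj n J ≤ 𝒞(S.Z0) := cj_le_of_le (J_cent h) (norm_le_norm_cent _ hnZ)
  have J1n : cj n J ≤ 𝒩(S.Z0) := J1c.trans (cent_le_norm _)
  have ZJ1 : S.Z0 ≤ cj n J := (cj_eq hnZ).ge.trans (cj_mono n (Z0_J h))
  have sq1 : ∀ x ∈ cj n J, x * x ∈ S.Z0 := fun x hx => back (by
    convert h.hj.sq _ (mem_cj.1 hx) using 1
    group)
  have sq2 : ∀ x ∈ cj n J, x * x = 1 → x ∈ S.Z0 := fun x hx e => back (sq_ne h hc (mem_cj.1 hx) (by
    calc n⁻¹ * x * n * (n⁻¹ * x * n) = n⁻¹ * (x * x) * n := by group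
      _ = 1 := by rw [e]; group))
  have cm1 : ∀ x ∈ cj n J, ∀ y ∈ cj n J, x * y * x⁻¹ * y⁻¹ ∈ S.Z0 := fun x hx y hy => back (by
    convert h.hj.cm _ (mem_cj.1 hx) _ (mem_cj.1 hy) using 1
    group)
  have sZ : S.s ∈ S.Z0 := (mem_Z0 hw).2 (by simp)
  have ti : S.t⁻¹ = S.t := inv_eq_of_mul_eq_one_right S.tt
  obtain ⟨x1, hx1, x2, hx2, p1, p2, p3⟩ : ∃ x1 ∈ cj n J ⊓ trv S.Z0 {S.t}, ∃ x2 ∈ cj n J ⊓ trv S.Z0 {S.t},
      x1 ∉ S.Z0 ∧ x2 ∉ S.Z0 ∧ x1 * x2 ∉ S.Z0 := by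
    by_contra hcon
    push Not at hcon
    have l1 := card_two (A := cj n J ⊓ trv S.Z0 {S.t}) (K := S.Z0) (fun x => x ∈ S.Z0) fun a ha b hb e => by
      by_cases ha' : a ∈ S.Z0
      · exact mul_mem (inv_mem ha') (e.1 ha')
      · exact hcon _ (inv_mem ha) _ hb (fun h => ha' (inv_mem_iff.1 h)) fun h => ha' (e.2 h)
    have g : ∀ x ∈ cj n J, x * S.t * x⁻¹ * S.t⁻¹ ∈ cj n J ⊓ trv S.Z0 {S.t} := fun x hx => by
      have m : x * S.t * x⁻¹ * S.t⁻¹ ∈ cj n J := by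
        rw [mul_assoc, mul_assoc, ← mul_assoc S.t]
        exact mul_mem hx (conj_mem htn (inv_mem hx))
      refine ⟨m, J1n m, ?_⟩
      rintro _ rfl
      convert sq1 _ m using 1
      calc x * S.t * x⁻¹ * S.t⁻¹ * S.t * (x * S.t * x⁻¹ * S.t⁻¹)⁻¹ * S.t⁻¹
          = x * S.t * x⁻¹ * S.t * x * S.t⁻¹ * x⁻¹ * S.t⁻¹ := by group
        _ = x * S.t * x⁻¹ * S.t⁻¹ * x * S.t * x⁻¹ * S.t⁻¹ := by rw [ti]
        _ = _ := by group
    have l2 := card_two (A := cj n J) (K := trv S.Z0 {S.t}) (fun x => x * S.t * x⁻¹ * S.t⁻¹ ∈ S.Z0)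
      fun a ha b hb e => by
      refine ⟨J1n (mul_mem (inv_mem ha) hb), ?_⟩
      rintro _ rfl
      have k1 : b * S.t * b⁻¹ * S.t⁻¹ * (a * S.t * a⁻¹ * S.t⁻¹)⁻¹ ∈ S.Z0 := by
        by_cases ha' : a * S.t * a⁻¹ * S.t⁻¹ ∈ S.Z0
        · exact mul_mem (e.1 ha') (inv_mem ha')
        · exact hcon _ (g b hb) _ (inv_mem (g a ha)) (fun h => ha' (e.2 h)) fun h => ha' (inv_mem_iff.1 h)
      convert conj_mem' (J1n ha) k1 using 1
      group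
    have l3 := card_le_of_le (inf_le_right : cj n J ⊓ trv S.Z0 {S.t} ⊓ S.Z0 ≤ S.Z0)
    rw [card_cj, h.hj.card] at l2
    omega
  have inS : ∀ x ∈ cj n J ⊓ trv S.Z0 {S.t}, x ∈ S.S1 := fun x hx => by
    refine S.nT hw ht.syl.isPGroup ht.le (J1T hx.1) ?_
    have e2 : x * S.t * x⁻¹ * (x * S.t * x⁻¹) = 1 := by
      calc x * S.t * x⁻¹ * (x * S.t * x⁻¹) = x * (S.t * S.t) * x⁻¹ := by group
        _ = 1 := by rw [S.tt]; group
    obtain ⟨-, -, -, -, -, -, -, -, -, n1, n2⟩ := ne_G hw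
    rcases (mem_Z0 hw).1 (hx.2.2 _ rfl) with e | e | e | e <;> rw [mul_inv_eq_iff_eq_mul] at e
    · exact Or.inl (e.trans (one_mul _))
    · exact Or.inr (e.trans (S.z_comm _).symm)
    · exact (n1 (e ▸ e2)).elim
    · exact (n2 (e ▸ e2)).elim
  obtain ⟨m1, rfl⟩ := inS _ hx1
  obtain ⟨m2, rfl⟩ := inS _ hx2
  rw [← map_mul] at p3
  have one : ∀ m : M S.p, S.ι m ∈ cj n J → S.ι m ∉ S.Z0 → m.k = false ∧ m.c = false ∧
      (m.d = false ∨ (m.i = false ∧ m.j = false)) ∧ ¬ (m.d = false ∧ m.i = false ∧ m.j = false) := fun m hm hm' => by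
    obtain ⟨a, b, c⟩ := one_M _ hw h.hj.cw.al m
      (S.inj (by rw [map_mul, map_mul]; exact (comm_of_mem (J1c hm) sZ).symm))
      (S.mem_map.1 (show S.ι (m * m) ∈ S.Z0 by rw [map_mul]; exact sq1 _ hm))
      fun e => hm' (sq2 _ hm (by rw [← map_mul, e, map_one]))
    exact ⟨a, b, c, fun e => hm' (S.mem_map.2 ⟨a, b, e⟩)⟩
  obtain ⟨a1, a2, a3, a4⟩ := one m1 hx1.1 p1
  obtain ⟨b1, b2, b3, b4⟩ := one m2 hx2.1 p2
  obtain ⟨c1, c2, c3, c4⟩ := one (m1 * m2) (map_mul S.ι m1 m2 ▸ mul_mem hx1.1 hx2.1) p3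
  simp only [mul_d, mul_i, mul_j, a1, Bool.false_and, Bool.xor_false] at c3 c4
  obtain ⟨d1, d2, d3⟩ := two_B _ _ _ _ _ _ a4 b4 c4 a3 b3 c3
  have q1 : S.ι m1 ∈ cj n J := hx1.1
  have q2 : S.ι m2 ∈ cj n J := hx2.1
  have QJ : ∀ v ∈ sQ0 S.p, S.ι v ∈ cj n J := fun v hv => by
    obtain ⟨v1, v2, v3⟩ := hv
    rcases d3 v.i v.j with e | e | e | e
    · exact ZJ1 (S.mem_map.2 ⟨v1, v2, v3, e⟩)
    · refine (mul_mem_cancel_left q1).1 (map_mul S.ι _ _ ▸ ZJ1 (S.mem_map.2 ?_))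
      refine ⟨?_, ?_, ?_, ?_, ?_⟩ <;> simp [mul_k, mul_c, mul_d, mul_i, mul_j, *]
    · refine (mul_mem_cancel_left q2).1 (map_mul S.ι _ _ ▸ ZJ1 (S.mem_map.2 ?_))
      refine ⟨?_, ?_, ?_, ?_, ?_⟩ <;> simp [mul_k, mul_c, mul_d, mul_i, mul_j, *]
    · refine (mul_mem_cancel_left (mul_mem q1 q2)).1 ?_
      rw [← map_mul, ← map_mul]
      refine ZJ1 (S.mem_map.2 ?_)
      refine ⟨?_, ?_, ?_, ?_, ?_⟩ <;> simp only [mul_k, mul_c, mul_d, mul_i, mul_j, a1, a2, b1, b2, d1, d2, v1, v2, v3,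
        Bool.false_and, Bool.xor_false, e.1, e.2]
  refine hne fun x hx => ?_
  obtain ⟨t1, t2⟩ := triv_Q h hc (J1c hx) (hJn hx) (cm1 x hx _ (QJ _ ⟨rfl, rfl, rfl⟩)) (cm1 x hx _ (QJ _ ⟨rfl, rfl, rfl⟩))
  exact triv h k (J1T hx) (comm_of_mem (J1c hx) sZ).symm (hJn hx) t1 t2

theorem c8a : C8aS.{u} := by
  intro G _ _ S W r J A1 A2 Pz T ht k hn
  have h := ht.cp.cl
  have hw := h.hj.cw.ws
  have c4 := card_Z0 hw
  have hT := ht.syl.isPGroup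
  have sZ : S.s ∈ S.Z0 := (mem_Z0 hw).2 (by simp)
  obtain ⟨n1, n2, n3, n4, n5, n6, -⟩ := ne_G hw
  have l0 : Nat.card T ≤ 2 * Nat.card (T ⊓ centralizer {S.s} : Subgroup G) := by
    refine card_two (fun x => x * S.s * x⁻¹ = S.s) fun a ha b hb e => ?_
    have f : ∀ x ∈ T, x * S.s * x⁻¹ = S.s ∨ x * S.s * x⁻¹ = S.s * S.z := fun x hx => by
      rcases (mem_Z0 hw).1 (conj_mem (k.z0 hx) sZ) with e | e | e | e
      · exact (n2 (by simpa using e)).elim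
      · refine (n4 ?_).elim
        have := S.zT hw hT ht.le hx
        calc S.s = x⁻¹ * (x * S.s * x⁻¹ * x) := by group
          _ = S.z := by rw [e, ← this]; group
      · exact Or.inl e
      · exact Or.inr e
    have e' : a * S.s * a⁻¹ = b * S.s * b⁻¹ := by
      by_cases ha' : a * S.s * a⁻¹ = S.s
      · exact ha'.trans (e.1 ha').symm
      · exact ((f a ha).resolve_left ha').trans ((f b hb).resolve_left fun h => ha' (e.2 h)).symm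
    rw [mem_centralizer_singleton_iff]
    calc a⁻¹ * b * S.s = a⁻¹ * (b * S.s * b⁻¹) * b := by group
      _ = _ := by rw [← e']; group
  set T0 := T ⊓ centralizer {S.s} with hT0
  have cs : ∀ x ∈ T0, x * S.s = S.s * x := fun x hx => mem_centralizer_singleton_iff.1 hx.2
  have cZ : T0 ≤ 𝒞(S.Z0) := fun x hx => cent_Z0 hw (cs x hx) (S.zT hw hT ht.le hx.1)
  have nZ : J ≤ 𝒩(S.Z0) := (J_cent h).trans (cent_le_norm _)
  have l2 := idx2 (P := T0) (Z0_A2 h) c4 h.c2 ((A2_J h).trans nZ) (hT.to_le inf_le_left)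
    (fun x hx => (norm_A h (cZ hx) (hn hx.1)).2) (cZ.trans (cent_le_norm _))
  have l1 := idx2 (P := T0 ⊓ trv S.Z0 A2) (Z0_A1 h) c4 h.c1 ((A1_J h).trans nZ)
    (hT.to_le (inf_le_left.trans inf_le_left)) (fun x hx => (norm_A h (cZ hx.1) (hn hx.1.1)).1)
    (inf_le_left.trans (cZ.trans (cent_le_norm _)))
  have l3 := card_le_of_le (show T0 ⊓ trv S.Z0 A2 ⊓ trv S.Z0 A1 ≤ W from fun x hx =>
    triv h k hx.1.1.1 (cs x hx.1.1) (hn hx.1.1.1) hx.2 hx.1.2)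
  have l4 : Nat.card W ≤ 16 * Nat.card Pz := by
    have e1 := card_sup_mul_card_inf (ht.cp.JP.trans (cent_le_norm _))
    have e2 := card_le_of_le (show W ≤ J ⊔ Pz from fun x hx => by
      obtain ⟨j, hj, a, ha, rfl⟩ := ht.cp.dec x hx
      exact mul_mem_sup hj ha)
    have e3 := card_le_of_le (show S.Z0 ≤ J ⊓ Pz from le_inf (Z0_J h)
      (le_trans (map_mono (show sZ0 S.p ≤ sZ1 S.p from fun m hm => ⟨hm.1, hm.2.1, hm.2.2.2⟩)) ht.cp.Z1P))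
    rw [h.hj.card] at e1
    have := Nat.mul_le_mul e2 e3
    rw [c4, e1] at this
    omega
  have l5 : Nat.card S.Z1 ≤ 8 := by rw [card_map_of_injective S.inj]; exact card_Z1 _
  by_cases hP : Pz = S.Z1
  · rw [hP] at l4
    exact Or.inl (by omega)
  obtain ⟨-, c, -, -, -, hc⟩ := ht.cp.kk.resolve_left hP
  have l6 := card_two (A := Pz) (K := S.Z1) (fun x => x ∈ S.Z1) fun a ha b hb e => by
    by_cases ha' : a ∈ S.Z1
    · exact mul_mem (inv_mem ha') (e.1 ha')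
    · have := mul_mem ((hc _ (inv_mem ha)).resolve_left fun h => ha' (inv_mem_iff.1 h))
        (inv_mem ((hc _ (inv_mem hb)).resolve_left fun h => ha' (e.2 (inv_mem_iff.1 h))))
      convert this using 1
      group
  have l7 := card_le_of_le (inf_le_right : Pz ⊓ S.Z1 ≤ S.Z1)
  by_cases hv : S.Tv J A1 A2 T
  · exact Or.inr ⟨by omega, hP, hv⟩
  have l8 := card_le_of_le (show T0 ⊓ trv S.Z0 A2 ≤ W from fun x hx => by
    refine triv h k hx.1.1 (cs x hx.1) (hn hx.1.1) ⟨hx.2.1, fun a ha => ?_⟩ hx.2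
    by_contra hc
    exact hv ⟨x, hx.1.1, cs x hx.1, hn hx.1.1, hx.2.2, a, ha, hc⟩)
  exact Or.inl (by omega)

end CL.H33
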