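/-
Project H33 (S3139): the last case, a transvection and an extremal conjugate of `t`.
-/
import Cfsg.Agent.H33.C5
import Cfsg.Agent.H33.C6

set_option autoImplicit false
set_option linter.unusedSectionVars false
open Cfsg Subgroup CL.Even CL.Grp
open scoped commutatorElement

namespace CL.H33
open M

universe u

/-- a 2-group acts on a section of order four as a group of order at most two -/
theorem c8c_four {G : Type u} [Group G] [Finite G] {P A Z : Subgroup G} (hP : IsPGroup 2 P) (hA2 : IsPGroup 2 A)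
    (hA : P ≤ 𝒩(A)) (hZ : P ≤ 𝒩(Z)) (hZA : Z ≤ A) (hn : A ≤ 𝒩(Z)) (h4 : Nat.card A = 4 * Nat.card Z) {x y : G}
    (hx : x ∈ P) (hy : y ∈ P) (h1 : x ∉ cmod A Z) (h2 : y ∉ cmod A Z) : x * y ∈ cmod A Z := by
  have two : ∀ {H K : Subgroup G}, H.relIndex K = 2 → ∀ a ∈ K, ∀ b ∈ K, a ∉ H → b ∉ H → a * b ∈ H :=
    fun {H K} h a ha b hb h1 h2 => (mul_mem_iff_of_index_two h (a := ⟨a, ha⟩) (b := ⟨b, hb⟩)).2 (iff_of_false h1 h2)
  have inv : ∀ {H : Subgroup G} {a b : G}, ⁅a, b⁆ ∈ H → ⁅b, a⁆ ∈ H := fun h => by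
    rw [← commutatorElement_inv]; exact inv_mem h
  have nt : ∀ {x}, x ∈ P → x ∉ cmod A Z → ∃ a ∈ A, ⁅a, x⁆ ∉ Z := fun hx h => by
    by_contra hc
    exact h (mem_cmod.2 ⟨hZ hx, fun a ha => by_contra fun e => hc ⟨a, ha, e⟩⟩)
  set B := A ⊓ cmod P Z with hB
  have hZB : Z ≤ B := fun z hz => ⟨hZA hz, mem_cmod.2 ⟨le_normalizer hz, fun v hv =>
    mul_mem (conj_mem (hZ hv) hz) (inv_mem hz)⟩⟩
  have hBZ : ∀ b ∈ B, ∀ v ∈ P, ⁅b, v⁆ ∈ Z := fun b hb v hv => inv ((mem_cmod.1 hb.2).2 v hv)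
  have hPB : P ≤ 𝒩(B) := le_norm_inf hA (le_norm_cmod le_normalizer hZ)
  obtain ⟨a₀, ha₀, hx₀⟩ := nt hx h1
  have e0 : Z.relIndex B * B.relIndex A = 4 := by
    rw [relIndex_mul_relIndex _ _ _ hZB inf_le_left]
    exact Nat.eq_of_mul_eq_mul_left Nat.card_pos ((card_mul_relIndex hZA).trans (by rw [h4, mul_comm]))
  have e1 : B.relIndex A ≠ 1 := fun e => hx₀ (hBZ _ (relIndex_eq_one.1 e ha₀) x hx)
  have e2 : Z.relIndex B ≠ 1 := fun e => by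
    obtain ⟨i, h5, h6⟩ := exists_iter_not_le (A := Z) (exists_iter_eq_bot hA2 hP hA) fun e' =>
      hx₀ (hBZ _ (hZB (e' ha₀)) x hx)
    exact h5 fun k hk => relIndex_eq_one.1 e ⟨iter_le hA i hk, mem_cmod.2 ⟨hn (iter_le hA i hk), fun v hv =>
      inv (h6 (commutator_mem_commutator hk hv))⟩⟩
  obtain ⟨e3, e4⟩ : Z.relIndex B = 2 ∧ B.relIndex A = 2 := by
    have : Z.relIndex B ≤ 4 := Nat.le_of_dvd (by norm_num) ⟨_, e0.symm⟩
    generalize Z.relIndex B = m at *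
    interval_cases m <;> omega
  have k1 : ∀ a ∈ A, a ∉ B → ∀ v ∈ P, ⁅a, v⁆ ∈ B := fun a ha hb v hv => by
    have := two e4 a ha (v * a⁻¹ * v⁻¹) (conj_mem (hA hv) (inv_mem ha)) hb fun e =>
      hb (inv_mem_iff.1 ((mem_normalizer_iff.1 (hPB hv) _).2 e))
    rwa [← mul_assoc, ← mul_assoc] at this
  have k2 : ∀ a ∈ A, a ∉ B → ∀ v ∈ P, v ∉ cmod A Z → ⁅a, v⁆ ∉ Z := fun a ha hb v hv hv' e => by
    obtain ⟨c, hc, hc'⟩ := nt hv hv'
    have h5 := two e4 c hc a⁻¹ (inv_mem ha) (fun e' => hc' (hBZ c e' v hv)) fun e' => hb (inv_mem_iff.1 e')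
    refine hc' ?_
    rw [show ⁅c, v⁆ = c * a⁻¹ * ⁅a, v⁆ * (c * a⁻¹)⁻¹ * ⁅c * a⁻¹, v⁆ by simp only [commutatorElement_def]; group]
    exact mul_mem (conj_mem (hn h5.1) e) (hBZ _ h5 v hv)
  refine mem_cmod.2 ⟨hZ (mul_mem hx hy), fun a ha => ?_⟩
  by_cases hb : a ∈ B
  · exact hBZ a hb _ (mul_mem hx hy)
  · rw [show ⁅a, x * y⁆ = ⁅a, x⁆ * (x * ⁅a, y⁆ * x⁻¹) by simp only [commutatorElement_def]; group]
    exact two e3 _ (k1 a ha hb x hx) _ (conj_mem (hPB hx) (k1 a ha hb y hy)) (k2 a ha hb x hx h1) fun e =>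
      k2 a ha hb y hy h2 ((mem_normalizer_iff.1 (hZ hx) _).2 e)

theorem c8c_two {G : Type u} [Group G] [Finite G] {H : Subgroup G} {x : G} (h : x ∉ H) :
    2 * Nat.card H ≤ Nat.card (H ⊔ zpowers x : Subgroup G) := by
  rw [← card_mul_relIndex (le_sup_left : H ≤ H ⊔ zpowers x), mul_comm]
  have h1 : H.relIndex (H ⊔ zpowers x) ≠ 1 := fun e => h (relIndex_eq_one.1 e (mem_sup_right (mem_zpowers x)))
  have h2 : H.relIndex (H ⊔ zpowers x) ≠ 0 := index_ne_zero_of_finite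
  exact Nat.mul_le_mul_left _ (by omega)

theorem c8c_cs {G : Type u} [Group G] {H : Subgroup G} {x g : G} (h : g ∈ 𝒞(H)) (e : x * g = g * x) :
    g ∈ 𝒞(H ⊔ zpowers x) :=
  mem_centralizer_iff.2 fun _ hy => mem_centralizer_singleton_iff.1
    (sup_le (fun _ ha => mem_centralizer_singleton_iff.2 (comm_of_mem h ha))
      (zpowers_le.2 (mem_centralizer_singleton_iff.2 e)) hy)

theorem c8c_ab {G : Type u} [Group G] {H : Subgroup G} {x : G} (h : H ≤ 𝒞(H)) (e : x ∈ 𝒞(H)) :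
    H ⊔ zpowers x ≤ 𝒞(H ⊔ zpowers x) :=
  sup_le (fun _ ha => c8c_cs (h ha) (comm_of_mem e ha).symm) (zpowers_le.2 (c8c_cs e rfl))

theorem c8c_m : ∀ p : Ty, p.ws = true → p.al = false → p.big = true →
    (M.mt p * ms p * (M.mt p)⁻¹ = ms p * mz p ∧ mws p * mws p = 1 ∧ mws p * ms p = ms p * mws p ∧
      mws p * M.mt p = M.mt p * mws p ∧ mws p * md p * (mws p)⁻¹ = md p * mz p ∧ md p * md p = mz p ∧
      my p = ms p * md p ∧ md p * M.mt p = M.mt p * md p ∧ md p * ms p = ms p * md p ∧ ms p * ms p = 1 ∧ mz p ≠ 1 ∧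
      ms p ≠ 1 ∧ ms p ≠ mz p) ∧ (mws p).k = true ∧ (md p).d = true ∧
    (Finset.univ.filter fun x : M p => x.k = false ∧ x.c = false ∧ x.d = false ∧ x.i = false ∧ x.j = false).card = 4 ∧
    (Finset.univ.filter fun x : M p => x.k = false ∧ x.c = false ∧ x.i = false ∧ x.j = false).card = 8 := by
  decide +kernel

theorem c8c_sw {G : Type u} [Group G] {B B' Z : Subgroup G} {g x : G} (hg : g ∈ 𝒩(Z)) (h : ∀ a ∈ B, g * a * g⁻¹ ∈ B')
    (hx : x ∈ cmod B' Z) : g⁻¹ * x * g ∈ cmod B Z := by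
  refine mem_cmod.2 ⟨mul_mem (mul_mem (inv_mem hg) (mem_cmod.1 hx).1) hg, fun a ha => ?_⟩
  rw [show ⁅a, g⁻¹ * x * g⁆ = g⁻¹ * ⁅g * a * g⁻¹, x⁆ * g by simp only [commutatorElement_def]; group]
  exact conj_mem' hg ((mem_cmod.1 hx).2 _ (h a ha))

/-- an involution acting non-trivially inverts a commutator -/
theorem c8c_inv {G : Type u} [Group G] {A Z : Subgroup G} {e : G} (ee : e * e = 1) (hA : e ∈ 𝒩(A)) (hZ : e ∈ 𝒩(Z))
    (h : e ∉ cmod A Z) : ∃ c ∈ A, c ∉ Z ∧ e * c * e⁻¹ = c⁻¹ := by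
  by_contra hc
  refine h (mem_cmod.2 ⟨hZ, fun a ha => by_contra fun e1 => hc ⟨⁅a, e⁆, ?_, e1, ?_⟩⟩)
  · rw [commutatorElement_def, mul_assoc, mul_assoc, ← mul_assoc e]
    exact mul_mem ha (conj_mem hA (inv_mem ha))
  · rw [commutatorElement_inv]
    calc e * ⁅a, e⁆ * e⁻¹ = e * a * e⁻¹ * (e * e) * a⁻¹ * (e * e)⁻¹ := by simp only [commutatorElement_def]; group
      _ = _ := by rw [ee]; simp only [commutatorElement_def]; group

theorem c8c : C8cS.{u} := by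
  intro G _ _ S W r J A1 A2 Pz T h h5 hJ hne ⟨x1, x1T, x1s, _, x1b, a, ha, x1a⟩ e hx
  have hp := h.cp
  have hl := hp.cl
  have hj := hl.hj
  have hw := hj.cw
  obtain ⟨big, k, kP, kZ, kt, kk⟩ := hp.kk.resolve_left hne
  obtain ⟨⟨m1, m2, m3, m4, m5, m6, m7, m8, m9, m10, m11, m12, m13⟩, n1, n2, n3, n4⟩ := c8c_m S.p hw.ws hw.al big
  have ts : S.t * S.s * S.t⁻¹ = S.s * S.z := by simpa only [map_mul, map_inv] using congrArg S.ι m1
  have ww : S.ws * S.ws = 1 := by simpa only [map_mul, map_one] using congrArg S.ι m2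
  have ws : S.ws * S.s = S.s * S.ws := by simpa only [map_mul] using congrArg S.ι m3
  have wt : S.ws * S.t = S.t * S.ws := by simpa only [map_mul] using congrArg S.ι m4
  have wd : S.ws * S.δ * S.ws⁻¹ = S.δ * S.z := by simpa only [map_mul, map_inv] using congrArg S.ι m5
  have dd : S.δ * S.δ = S.z := by simpa only [map_mul] using congrArg S.ι m6
  have hy : S.y = S.s * S.δ := by simpa only [map_mul] using congrArg S.ι m7
  have dt : S.δ * S.t = S.t * S.δ := by simpa only [map_mul] using congrArg S.ι m8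
  have ds : S.δ * S.s = S.s * S.δ := by simpa only [map_mul] using congrArg S.ι m9
  have ss : S.s * S.s = 1 := by simpa only [map_mul, map_one] using congrArg S.ι m10
  have z1 : S.z ≠ 1 := fun e => m11 (S.inj (e.trans (map_one _).symm))
  have s1 : S.s ≠ 1 := fun e => m12 (S.inj (e.trans (map_one _).symm))
  have sz : S.s ≠ S.z := fun e => m13 (S.inj e)
  have wW : S.ws ∉ W := fun e => by simpa [n1] using ((hw.mem _).1 e).1
  have dJ : S.δ ∉ J := fun e => by simpa [n2] using ((hj.mem _).1 e).2.2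
  have cZ0 : Nat.card S.Z0 = 4 := by
    rw [card_map_of_injective S.inj, ← n3]
    exact Nat.subtype_card _ fun x => by rw [Finset.mem_filter, and_iff_right (Finset.mem_univ _)]; rfl
  have cZ1 : Nat.card S.Z1 = 8 := by
    rw [card_map_of_injective S.inj, ← n4]
    exact Nat.subtype_card _ fun x => by rw [Finset.mem_filter, and_iff_right (Finset.mem_univ _)]; rfl
  have tt := S.tt
  have zz := S.zz
  have hT : IsPGroup 2 T := h.syl.isPGroup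
  have zT : ∀ x ∈ T, x * S.z = S.z * x := fun x hx => S.zT hw.ws hT h.le hx
  have tT : S.t ∈ T := h.le ⟨_, rfl⟩
  have wT : S.ws ∈ T := h.le ⟨_, rfl⟩
  have sT : S.s ∈ T := h.le ⟨_, rfl⟩
  have PW : Pz ≤ W := HD.c6_PW hp
  have ZJ : S.Z0 ≤ J := HD.c6_Z0J hj
  have ZP : S.Z0 ≤ Pz := HD.c6_Z01.trans hp.Z1P
  have dP : S.δ ∈ Pz := hp.Z1P HD.c6_dZ
  have WZ : ∀ n ∈ W, ∀ a ∈ S.Z0, n * a = a * n := fun n hn a ha => HD.c6_Z0 hw hn ha
  have JP : ∀ j ∈ J, ∀ a ∈ Pz, a * j = j * a := fun j hj a ha => comm_of_mem (hp.JP hj) ha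
  have sZ : S.s ∈ S.Z0 := c5_mem.2 (by simp)
  have zZ : S.z ∈ S.Z0 := c5_mem.2 (by simp)
  have A1J : A1 ≤ J := fun a ha => ((hl.m1 a).1 ha).1
  have A2J : A2 ≤ J := fun a ha => ((hl.m2 a).1 ha).1
  have ZA1 : S.Z0 ≤ A1 := fun a ha => (hl.m1 a).2 ⟨ZJ ha, .inr ha⟩
  have ZA2 : S.Z0 ≤ A2 := fun a ha => (hl.m2 a).2 ⟨ZJ ha, .inr ha⟩
  have JT : J ≤ T := hj.le.trans h.WT
  have PT : Pz ≤ T := PW.trans h.WT
  have inv : ∀ {a b : G}, ⁅a, b⁆ ∈ S.Z0 ↔ b * a * b⁻¹ * a⁻¹ ∈ S.Z0 := by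
    intro a b; rw [← S.Z0.inv_mem_iff, commutatorElement_inv]; rfl
  -- the action on `J / Z₀`
  have WJ : W ≤ cmod J S.Z0 := fun n hn => by
    obtain ⟨j, hj', b, hb, rfl⟩ := hp.dec n hn
    refine mul_mem (mem_cmod.2 ⟨h5.z0 (JT hj'), fun v hv => hj.cm v hv j hj'⟩) (mem_cmod.2 ⟨h5.z0 (PT hb), fun v hv => ?_⟩)
    rw [commutatorElement_eq_one_iff_mul_comm.2 (JP v hv b hb).symm]
    exact one_mem _
  have W1 : W ≤ cmod A1 S.Z0 := fun n hn => mem_cmod.2 ⟨(mem_cmod.1 (WJ hn)).1, fun v hv => (mem_cmod.1 (WJ hn)).2 v (A1J hv)⟩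
  have W2 : W ≤ cmod A2 S.Z0 := fun n hn => mem_cmod.2 ⟨(mem_cmod.1 (WJ hn)).1, fun v hv => (mem_cmod.1 (WJ hn)).2 v (A2J hv)⟩
  have c1 : ∀ x ∈ T ⊓ centralizer {S.s}, x ∈ cmod A1 S.Z0 → x ∈ cmod A2 S.Z0 → x ∈ W := fun x hx h1 h2 =>
    h5.c1 x hx.1 (mem_centralizer_singleton_iff.1 hx.2) (hJ hx.1) fun j hj' => by
      obtain ⟨a, ha, b, hb, rfl⟩ := hl.gen j hj'
      rw [← inv, show ⁅a * b, x⁆ = a * ⁅b, x⁆ * a⁻¹ * ⁅a, x⁆ by simp only [commutatorElement_def]; group]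
      exact mul_mem (conj_mem (h5.z0 (JT (A1J ha))) ((mem_cmod.1 h2).2 b hb)) ((mem_cmod.1 h1).2 a ha)
  have nP : T ≤ 𝒩(Pz) := fun x hx => HD.c6_nP h ⟨hx, mem_norm_of_cj_le (by
    rintro _ ⟨n, hn, rfl⟩
    have h1 : x * n * x⁻¹ ∈ 𝒞(S.Z0) := conj_mem (le_norm_cent h5.z0 hx) (c5_cent (hw.Wz n hn) (hw.Ws n hn))
    have h2 : x * n * x⁻¹ ∈ T := mul_mem (mul_mem hx (h.WT hn)) (inv_mem hx)
    exact h5.c1 _ h2 (comm_of_mem h1 sZ).symm (hJ h2) fun j hj' =>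
      inv.1 ((mem_cmod.1 (conj_mem (le_norm_cmod hJ h5.z0 hx) (WJ hn))).2 j hj'))⟩
  have cjA : ∀ x ∈ T, ∀ {B B' : Subgroup G} {σ σ' : G}, (∀ a, a ∈ B ↔ a ∈ J ∧ (a * a = σ ∨ a ∈ S.Z0)) →
      (∀ a, a ∈ B' ↔ a ∈ J ∧ (a * a = σ' ∨ a ∈ S.Z0)) → x * σ * x⁻¹ = σ' → ∀ a ∈ B, x * a * x⁻¹ ∈ B' :=
    fun x hx B B' σ σ' h1 h2 e a ha => (h2 _).2 ⟨conj_mem (hJ hx) ((h1 a).1 ha).1,
      ((h1 a).1 ha).2.imp (fun e' => by rw [conj_mul, e', e]) (conj_mem (h5.z0 hx))⟩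
  have n1A : T ⊓ centralizer {S.s} ≤ 𝒩(A1) := fun x hx => mem_norm_of_cj_le (by
    rintro _ ⟨a, ha, rfl⟩
    exact cjA x hx.1 hl.m1 hl.m1 (by rw [mem_centralizer_singleton_iff.1 hx.2, mul_inv_cancel_right]) a ha)
  have n2A : T ⊓ centralizer {S.s} ≤ 𝒩(A2) := fun x hx => mem_norm_of_cj_le (by
    rintro _ ⟨a, ha, rfl⟩
    exact cjA x hx.1 hl.m2 hl.m2 (by
      rw [← mul_assoc, mem_centralizer_singleton_iff.1 hx.2, mul_assoc S.s, zT x hx.1]; group) a ha)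
  have t12 := cjA _ tT hl.m1 hl.m2 ts
  have t21 := cjA _ tT hl.m2 hl.m1 (by
    rw [← conj_mul, ts, zT _ tT, mul_inv_cancel_right, mul_assoc, zz, mul_one])
  have tP : ∀ a ∈ Pz, S.t * a * S.t⁻¹ ∈ Pz := fun a ha => conj_mem (nP tT) ha
  have t2 : ∀ x : G, S.t⁻¹ * (S.t⁻¹ * x * S.t) * S.t = x := fun x => by
    calc _ = (S.t * S.t)⁻¹ * x * (S.t * S.t) := by group
      _ = x := by rw [tt]; group
  have hx1 : x1 ∈ T ⊓ centralizer {S.s} := ⟨x1T, mem_centralizer_singleton_iff.2 x1s⟩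
  have hx2 : S.t⁻¹ * x1 * S.t ∈ T ⊓ centralizer {S.s} := ⟨T.mul_mem (T.mul_mem (T.inv_mem tT) x1T) tT,
    mem_centralizer_singleton_iff.2 (by
      have e1 : x1 * (S.t * S.s * S.t⁻¹) = S.t * S.s * S.t⁻¹ * x1 := by
        rw [ts, ← mul_assoc, x1s, mul_assoc, zT _ x1T, mul_assoc]
      calc _ = S.t⁻¹ * (x1 * (S.t * S.s * S.t⁻¹)) * S.t := by group
        _ = _ := by rw [e1]; group)⟩
  have hw0 : S.ws ∈ T ⊓ centralizer {S.s} := ⟨wT, mem_centralizer_singleton_iff.2 ws⟩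
  have he0 : e ∈ T ⊓ centralizer {S.s} := ⟨hx.eT, mem_centralizer_singleton_iff.2 hx.es⟩
  have x12 : x1 ∈ cmod A2 S.Z0 := mem_cmod.2 ⟨h5.z0 x1T, fun b hb => inv.2 (x1b b hb)⟩
  have x11 : x1 ∉ cmod A1 S.Z0 := fun e => x1a (inv.1 ((mem_cmod.1 e).2 a ha))
  have x21 := c8c_sw (h5.z0 tT) t12 x12
  have x22 : S.t⁻¹ * x1 * S.t ∉ cmod A2 S.Z0 := fun e => x11 (t2 x1 ▸ c8c_sw (h5.z0 tT) t12 e)
  have tw : S.t⁻¹ * S.ws * S.t = S.ws := by rw [mul_assoc, wt, inv_mul_cancel_left]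
  have e1 : e ∉ cmod A1 S.Z0 := fun e' => by
    have := (mul_mem_cancel_left e').1 (W1 hx.ew)
    exact wW (c1 _ hw0 this (tw ▸ c8c_sw (h5.z0 tT) t21 this))
  have e2 : e ∉ cmod A2 S.Z0 := fun e' => by
    have := (mul_mem_cancel_left e').1 (W2 hx.ew)
    exact wW (c1 _ hw0 (tw ▸ c8c_sw (h5.z0 tT) t12 this) this)
  have hT0 : IsPGroup 2 (T ⊓ centralizer {S.s} : Subgroup G) := hT.to_le inf_le_left
  have exW : e * (x1 * (S.t⁻¹ * x1 * S.t)) ∈ W := c1 _ (mul_mem he0 (mul_mem hx1 hx2))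
    (c8c_four hT0 (hT.to_le (A1J.trans JT)) n1A (inf_le_left.trans h5.z0) ZA1 ((A1J.trans JT).trans h5.z0)
      (by rw [hl.c1, cZ0]) he0 (mul_mem hx1 hx2) e1 fun e' => x11 ((mul_mem_cancel_right x21).1 e'))
    (c8c_four hT0 (hT.to_le (A2J.trans JT)) n2A (inf_le_left.trans h5.z0) ZA2 ((A2J.trans JT).trans h5.z0)
      (by rw [hl.c2, cZ0]) he0 (mul_mem hx1 hx2) e2 fun e' => x22 ((mul_mem_cancel_left x12).1 e'))
  -- the action on `P° / Z₀`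
  have cP : Nat.card Pz = 4 * Nat.card S.Z0 := by
    rw [← card_mul_relIndex hp.Z1P, cZ1, cZ0, relIndex_eq_two_iff.2 ⟨k⁻¹, inv_mem kP, fun b hb => ?_⟩]
    by_cases hb' : b ∈ S.Z1
    · exact .inr ⟨hb', fun e' => kZ (inv_mem_iff.1 ((mul_mem_cancel_left hb').1 e'))⟩
    · exact .inl ⟨(kk b hb).resolve_left hb', hb'⟩
  have WP : W ≤ cmod Pz S.Z0 := fun n hn => by
    obtain ⟨j, hj', b, hb, rfl⟩ := hp.dec n hn
    refine mul_mem (mem_cmod.2 ⟨h5.z0 (JT hj'), fun v hv => ?_⟩) (mem_cmod.2 ⟨h5.z0 (PT hb), fun v hv => ?_⟩)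
    · rw [commutatorElement_eq_one_iff_mul_comm.2 (JP j hj' v hv)]
      exact one_mem _
    · rcases HD.c6_PP hp hv hb with e' | e'
      · rw [commutatorElement_eq_one_iff_mul_comm.2 e']
        exact one_mem _
      · rw [commutatorElement_def, e', zT _ (mul_mem (PT hb) (PT hv))]
        simpa [mul_assoc] using zZ
  have wP : S.ws ∈ cmod Pz S.Z0 := by
    refine (mul_mem_cancel_left ((mul_mem_cancel_right ?_).1 (WP exW))).1 (WP hx.ew)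
    by_cases h1 : x1 ∈ cmod Pz S.Z0
    · exact mul_mem h1 (c8c_sw (h5.z0 tT) tP h1)
    · exact c8c_four hT (hT.to_le PT) nP h5.z0 ZP (PT.trans h5.z0) cP x1T hx2.1 h1 fun e' =>
        h1 (t2 x1 ▸ c8c_sw (h5.z0 tT) tP e')
  -- `A₁` and `A₂` commute
  have c12 : ∀ a ∈ A1, ∀ b ∈ A2, a * b = b * a := hl.hom.resolve_right fun hh => by
    obtain ⟨b, hb, hne⟩ := hh (x1 * a * x1⁻¹ * a⁻¹) (mul_mem (conj_mem (n1A hx1) ha) (inv_mem ha)) x1a
    have h1 := WZ _ (hj.le (conj_mem (hJ x1T) (A1J ha))) _ (x1b b hb)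
    have h2 : ∀ g ∈ T, g * ⁅a, b⁆ = ⁅a, b⁆ * g := fun g hg => by
      rcases hl.c12 a ha b hb with e' | e'
      · rw [commutatorElement_eq_one_iff_mul_comm.2 e', mul_one, one_mul]
      · rw [show ⁅a, b⁆ = S.z by
          rw [commutatorElement_def, e', zT _ (mul_mem (JT (A2J hb)) (JT (A1J ha)))]; group, zT g hg]
    have h3 : ⁅x1 * a * x1⁻¹, b⁆ = ⁅a, b⁆ := by
      calc _ = ⁅x1 * a * x1⁻¹, b⁆ * (x1 * b * x1⁻¹ * b⁻¹) * (x1 * b * x1⁻¹ * b⁻¹)⁻¹ := by group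
        _ = (x1 * b * x1⁻¹ * b⁻¹) * ⁅x1 * a * x1⁻¹, b⁆ * (x1 * b * x1⁻¹ * b⁻¹)⁻¹ := by
          rw [show ⁅x1 * a * x1⁻¹, b⁆ * (x1 * b * x1⁻¹ * b⁻¹) = _ from
            WZ _ (hj.le (ZJ (hj.cm _ (conj_mem (hJ x1T) (A1J ha)) b (A2J hb)))) _ (x1b b hb)]
          rfl
        _ = (x1 * b * x1⁻¹ * b⁻¹) * (x1 * a * x1⁻¹) * b * (x1 * a * x1⁻¹)⁻¹ * b⁻¹ * (x1 * b * x1⁻¹ * b⁻¹)⁻¹ := by
          simp only [commutatorElement_def]; group
        _ = x1 * ⁅a, b⁆ * x1⁻¹ := by rw [← h1]; simp only [commutatorElement_def]; group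
        _ = _ := by rw [h2 x1 x1T, mul_inv_cancel_right]
    have h4 := h2 _ (JT (mul_mem (conj_mem (hJ x1T) (A1J ha)) (inv_mem (A1J ha))))
    refine hne (commutatorElement_eq_one_iff_mul_comm.1 (mul_left_cancel (a := ⁅a, b⁆) ?_))
    calc _ = ⁅a, b⁆ * (x1 * a * x1⁻¹ * a⁻¹) * (b * (x1 * a * x1⁻¹ * a⁻¹)⁻¹ * b⁻¹) := by
          simp only [commutatorElement_def]; group
      _ = ⁅x1 * a * x1⁻¹, b⁆ := by rw [← h4]; simp only [commutatorElement_def]; group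
      _ = _ := by rw [h3, mul_one]
  have Ls : ∀ n ∈ W, ∀ g, n * (S.s * g) = S.s * (n * g) := fun n hn g => by rw [← mul_assoc, hw.Ws n hn, mul_assoc]
  have Lz : ∀ n ∈ T, ∀ g, n * (S.z * g) = S.z * (n * g) := fun n hn g => by rw [← mul_assoc, zT n hn, mul_assoc]
  have ss' : ∀ g, S.s * (S.s * g) = g := fun g => by rw [← mul_assoc, ss, one_mul]
  have zz' : ∀ g, S.z * (S.z * g) = g := fun g => by rw [← mul_assoc, zz, one_mul]
  obtain ⟨k1, k1A, k1Z, ek1⟩ := c8c_inv hx.ee (n1A he0) (h5.z0 hx.eT) e1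
  obtain ⟨k2, k2A, k2Z, ek2⟩ := c8c_inv hx.ee (n2A he0) (h5.z0 hx.eT) e2
  have q1 : k1 * k1 = S.s := ((hl.m1 k1).1 k1A).2.resolve_right k1Z
  have q2 : k2 * k2 = S.s * S.z := ((hl.m2 k2).1 k2A).2.resolve_right k2Z
  have szz : S.s * S.z * (S.s * S.z) = 1 := by rw [mul_assoc, ← Lz _ sT, zz, mul_one, ss]
  rw [inv_eq_of_mul_eq_one_right (show k1 * (k1 * S.s) = 1 by rw [← mul_assoc, q1, ss])] at ek1
  rw [inv_eq_of_mul_eq_one_right (show k2 * (k2 * (S.s * S.z)) = 1 by rw [← mul_assoc, q2, szz])] at ek2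
  have k1W := hj.le (A1J k1A)
  have k2W := hj.le (A2J k2A)
  have kW := PW kP
  obtain ⟨j, jJ, b, bP, eb⟩ := hp.dec _ hx.ew
  have ecj : ∀ v ∈ Pz, e * v * e⁻¹ = b * (S.ws * v * S.ws⁻¹) * b⁻¹ := fun v hv => by
    have h1 : e = j * b * S.ws := by rw [← eb, mul_assoc, ww, mul_one]
    have h2 := JP j jJ _ (mul_mem (mul_mem bP (conj_mem (nP wT) hv)) (inv_mem bP))
    calc _ = j * (b * (S.ws * v * S.ws⁻¹) * b⁻¹) * j⁻¹ := by rw [h1]; group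
      _ = _ := by rw [← h2, mul_inv_cancel_right]
  obtain ⟨η, hη, ek⟩ : ∃ η, (η = S.s ∨ η = S.s * S.z) ∧ e * k * e⁻¹ = k * η := by
    have h1 := inv.1 ((mem_cmod.1 wP).2 k kP)
    have h2 : (S.ws * k * S.ws⁻¹ * k⁻¹) * (S.t * S.y) * (S.ws * k * S.ws⁻¹ * k⁻¹)⁻¹ = S.t * S.y * S.z := by
      calc _ = S.ws * k * (S.ws⁻¹ * S.t * S.ws) * k⁻¹ * S.ws⁻¹ := by rw [← kt]; group
        _ = S.ws * S.t * S.s * S.ws⁻¹ * (S.ws * S.δ * S.ws⁻¹) := by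
          rw [mul_assoc S.ws⁻¹, ← wt, inv_mul_cancel_left, mul_assoc S.ws k, mul_assoc S.ws, kt, hy]; group
        _ = _ := by rw [wd, wt, mul_assoc S.t, ws, hy]; group
    have h3 : S.ws * k * S.ws⁻¹ = k * (S.ws * k * S.ws⁻¹ * k⁻¹) := by rw [WZ k kW _ h1]; group
    have h4 := WZ b (PW bP) _ h1
    rw [ecj k kP, h3]
    generalize S.ws * k * S.ws⁻¹ * k⁻¹ = ζ at *
    have h6 : b * (k * ζ) * b⁻¹ = k * ζ ∨ b * (k * ζ) * b⁻¹ = k * (ζ * S.z) := by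
      rcases HD.c6_PP hp bP kP with e' | e'
      · exact .inl (by rw [← mul_assoc, e', mul_assoc k, h4]; group)
      · exact .inr (by rw [← mul_assoc, e', mul_assoc k, zT b (PT bP), mul_assoc k, mul_assoc S.z, h4,
          zT ζ (JT (ZJ h1))]; group)
    rcases c5_mem.1 h1 with rfl | rfl | rfl | rfl
    · exact absurd (by simpa using h2) z1
    · rw [← zT _ (mul_mem tT (h.le ⟨_, rfl⟩)), mul_inv_cancel_right] at h2
      exact absurd (by simpa using h2) z1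
    · exact h6.elim (fun e' => ⟨_, .inl rfl, e'⟩) fun e' => ⟨_, .inr rfl, e'⟩
    · exact h6.elim (fun e' => ⟨_, .inr rfl, e'⟩) fun e' => ⟨_, .inl rfl, by rw [e', mul_assoc, zz, mul_one]⟩
  obtain ⟨c, cJ, cc, ec, ck1, ck2⟩ : ∃ c ∈ J, c * c = η ∧ e * c * e⁻¹ = c * η ∧ c * k1 = k1 * c ∧ c * k2 = k2 * c := by
    rcases hη with rfl | rfl
    · exact ⟨k1, A1J k1A, q1, ek1, rfl, c12 _ k1A _ k2A⟩
    · exact ⟨k2, A2J k2A, q2, ek2, (c12 _ k1A _ k2A).symm, rfl⟩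
  have ηη : η * η = 1 := by rcases hη with rfl | rfl <;> assumption
  have kc := JP c cJ k kP
  have fW : k * c ∈ W := mul_mem kW (hj.le cJ)
  have ef : k * c * e = e * (k * c) := by
    rw [eq_comm, ← mul_inv_eq_iff_eq_mul, ← conj_mul, ek, ec, ← cc]
    calc _ = k * c * (c * c * (c * c)) := by group
      _ = _ := by rw [cc, ηη, mul_one]
  have kd : k * S.δ = S.δ * k := (HD.c6_PP hp kP dP).resolve_right fun e' => by
    have h1 : S.t * k * S.t⁻¹ = S.s * S.δ * k := by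
      calc _ = S.t * (k * S.t * k⁻¹) * k * (S.t * S.t)⁻¹ := by group
        _ = _ := by rw [kt, tt, ← mul_assoc, tt, hy]; group
    have h2 : S.t * (k * k) * S.t⁻¹ = k * k := by
      rw [← conj_mul, h1]
      calc _ = S.s * (S.δ * (k * (S.s * S.δ))) * k := by group
        _ = S.δ * S.δ * (k * S.z) * k := by rw [Ls k kW, Ls _ (PW dP), ss', e']; group
        _ = _ := by rw [dd, zT k (PT kP), zz']
    have h3 : k * c * (k * c) = k * k * η := by rw [← cc, mul_assoc, ← mul_assoc c, ← kc]; group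
    have h4 : k * k = η ∨ k * k = S.z * η := by
      refine (hx.sq _ (h.WT fW) (hw.Ws _ fW) ef).imp (fun e'' => ?_) fun e'' => ?_
      · rw [← mul_one (k * k), ← ηη, ← mul_assoc, ← h3, e'', one_mul]
      · rw [← mul_one (k * k), ← ηη, ← mul_assoc, ← h3, e'']
    have h6 : k * k = S.s ∨ k * k = S.s * S.z := by
      rcases hη with rfl | rfl <;> rcases h4 with e'' | e''
      exacts [.inl e'', .inr (e''.trans (zT _ sT).symm), .inr e'', .inl (by rw [e'', zT _ sT, zz'])]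
    rcases h6 with e'' | e'' <;> rw [e''] at h2
    · exact z1 (by simpa [ts] using h2)
    · rw [← conj_mul, ts, zT _ tT, mul_inv_cancel_right, mul_assoc, zz] at h2
      exact z1 (by simpa using h2.symm)
  have ed : e * S.δ * e⁻¹ = S.δ * S.z := by
    have h1 : b * S.δ = S.δ * b := (kk b bP).elim (fun e' => (HD.c6_Z1 e').1) fun e' => by
      rw [← inv_mul_cancel_right b k, mul_assoc, kd, ← mul_assoc, (HD.c6_Z1 e').1, mul_assoc]
    rw [ecj _ dP, wd, ← mul_assoc, h1, mul_assoc S.δ, zT b (PT bP)]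
    group
  have dW : S.δ * (k1 * k2) ∈ W := mul_mem (PW dP) (mul_mem k1W k2W)
  have de : S.δ * (k1 * k2) * e = e * (S.δ * (k1 * k2)) := by
    rw [eq_comm, ← mul_inv_eq_iff_eq_mul, ← conj_mul, ← conj_mul, ed, ek1, ek2]
    simp only [mul_assoc, Ls _ k2W, ss', zT _ (h.WT k2W), Lz _ (h.WT k1W), zz']
  have df : S.δ * (k1 * k2) * (k * c) = k * c * (S.δ * (k1 * k2)) :=
    ((((show Commute k S.δ from kd).mul_right (Commute.mul_right (JP _ (A1J k1A) k kP) (JP _ (A2J k2A) k kP))).mul_left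
      (Commute.mul_right (JP c cJ _ dP).symm (Commute.mul_right ck1 ck2))).eq).symm
  have cW : W ≤ 𝒞(S.Z0) := fun n hn => c5_cent (hw.Wz n hn) (hw.Ws n hn)
  have ab := c8c_ab (c8c_ab (c8c_ab ((ZJ.trans hj.le).trans cW) (cW dW)) (c8c_cs (cW fW) df))
    (c8c_cs (c8c_cs (c5_cent (zT e hx.eT) hx.es) de) ef)
  have b1 : S.δ * (k1 * k2) ∉ S.Z0 := fun e' => dJ ((J.mul_mem_cancel_right (mul_mem (A1J k1A) (A2J k2A))).1 (ZJ e'))
  have b2 : k * c ∉ S.Z0 ⊔ zpowers (S.δ * (k1 * k2)) := fun e' => by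
    have h1 : k * c ∈ J ⊔ S.Z1 := sup_le (ZJ.trans le_sup_left) (zpowers_le.2 (mul_mem (mem_sup_right HD.c6_dZ)
      (mem_sup_left (mul_mem (A1J k1A) (A2J k2A))))) e'
    obtain ⟨i, hi, v, hv, e''⟩ := (mem_sup_nl ((S.map_le _).trans hj.S1n)).1
      (((J ⊔ S.Z1).mul_mem_cancel_right (mem_sup_left cJ)).1 h1)
    exact kZ (e'' ▸ mul_mem (HD.c6_Z01 (hp.JPi i hi ((Pz.mul_mem_cancel_right (hp.Z1P hv)).1 (e'' ▸ kP)))) hv)
  have bW : S.Z0 ⊔ zpowers (S.δ * (k1 * k2)) ⊔ zpowers (k * c) ≤ W :=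
    sup_le (sup_le (ZJ.trans hj.le) (zpowers_le.2 dW)) (zpowers_le.2 fW)
  have i1 := c8c_two b1
  have i2 := c8c_two b2
  have i3 := c8c_two fun e' => hx.eW (bW e')
  have hle : S.Z0 ⊔ zpowers (S.δ * (k1 * k2)) ⊔ zpowers (k * c) ⊔ zpowers e ≤
      T ⊓ centralizer {S.s} ⊓ centralizer {e} := fun g hg =>
    ⟨sup_le (fun n hn => ⟨h.WT (bW hn), mem_centralizer_singleton_iff.2 (hw.Ws n (bW hn))⟩) (zpowers_le.2 he0) hg,
      mem_centralizer_singleton_iff.2 (comm_of_mem (ab (mem_sup_right (mem_zpowers e))) hg)⟩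
  obtain ⟨g, hg, g', hg', hne⟩ := hx.na
  rw [← eq_of_le_of_card_ge hle (by rw [hx.card]; omega)] at hg hg'
  exact hne (comm_of_mem (ab hg') hg)

end CL.H33
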