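/-
Project H33 (S3139): the pull-back lemma, first part.
-/
import Cfsg.Agent.H33.Abs

set_option autoImplicit false
open Cfsg Subgroup CL.Even CL.Grp

namespace CL.H33

universe u

theorem pb1_sq {G : Type u} [Group G] (N : Subgroup G) (k : ℕ) : ∀ x : G, x ∉ N → x ^ 2 ^ k = 1 →
    ∃ j : ℕ, x ^ j ∉ N ∧ x ^ j * x ^ j ∈ N := by
  induction k with
  | zero => intro x h e; rw [pow_zero, pow_one] at e; exact absurd (e ▸ one_mem N) h
  | succ k ih =>
    intro x h e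
    by_cases h2 : x ^ 2 ∈ N
    · exact ⟨1, by rwa [pow_one], by rwa [pow_one, ← pow_two]⟩
    · obtain ⟨j, hj⟩ := ih _ h2 (by rw [← pow_mul, ← pow_succ', e])
      exact ⟨2 * j, by simpa only [pow_mul] using hj⟩

theorem pb1_cj {G : Type u} [Group G] {g x y : G} (h : Commute g y) (e : g * x * g⁻¹ = y) : x = y := by
  rw [← h.mul_inv_cancel] at e
  simpa using e

theorem pb1_l {G : Type u} [Group G] {g a b : G} (h : Commute g a) (e : Commute g (a * b)) : Commute g b :=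
  inv_mul_cancel_left a b ▸ h.inv_right.mul_right e

theorem pb1_r {G : Type u} [Group G] {g a b : G} (h : Commute g b) (e : Commute g (a * b)) : Commute g a :=
  mul_inv_cancel_right a b ▸ e.mul_right h.inv_right

theorem pb1 : Pb1S.{u} := by
  intro G _ _ P
  have : Fact (Nat.Prime 2) := ⟨Nat.prime_two⟩
  refine or_iff_not_imp_left.2 fun hn => ?_
  have nT : ∀ x ∈ P.T0, ∀ g, g * x * g⁻¹ ∈ P.T0 := fun x hx g => by
    by_cases hg : g ∈ P.T0
    · exact mul_mem (mul_mem hg hx) (inv_mem hg)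
    · exact P.idx _ _ (fun e => hg ((P.T0.mul_mem_cancel_right hx).1 e)) fun e => hg (inv_mem_iff.1 e)
  have mV : P.μ ∈ P.V0 := (P.memV _).2 (.inr (.inl rfl))
  have nV : P.ν ∈ P.V0 := (P.memV _).2 (.inr (.inr (.inl rfl)))
  have cV : ∀ g, Commute g P.μ → Commute g P.ν → ∀ v ∈ P.V0, Commute g v := fun g a b v hv => by
    rcases (P.memV v).1 hv with rfl | rfl | rfl | rfl
    exacts [Commute.one_right g, a, b, a.mul_right b]
  have cτ := cV P.τ P.τμ P.τν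
  have cκ := cV P.κ P.κμ P.κν
  have cν := cV P.ν P.μν.symm (Commute.refl _)
  have ωi : P.ω⁻¹ = P.ω := inv_eq_of_mul_eq_one_right P.ωω
  have nων : ¬ Commute P.ω P.ν := fun e => P.μ1 (by
    have := P.ων
    rw [e.eq, mul_assoc, P.ωω, mul_one] at this
    exact right_eq_mul.1 this)
  have fixω : ∀ v ∈ P.V0, Commute P.ω v → v = 1 ∨ v = P.μ := fun v hv e => by
    rcases (P.memV v).1 hv with rfl | rfl | rfl | rfl
    · exact .inl rfl
    · exact .inr rfl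
    · exact (nων e).elim
    · exact (nων (pb1_l P.ωμ e)).elim
  have inN : ∀ g, (∀ v ∈ P.V0, Commute g v) → g ∈ 𝒩(P.V0) := fun g h => cent_le_norm _ fun v hv => (h v hv).symm
  have τN := inN _ cτ
  have νN := inN _ cν
  have ωN : P.ω ∈ 𝒩(P.V0) := mem_norm_of_cj_le (by
    have a : P.ω * P.μ * P.ω⁻¹ ∈ P.V0 := (Commute.mul_inv_cancel P.ωμ).symm ▸ mV
    have b : P.ω * P.ν * P.ω⁻¹ ∈ P.V0 := by rw [ωi, P.ων]; exact mul_mem mV nV
    rintro _ ⟨v, hv, rfl⟩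
    rcases (P.memV v).1 hv with rfl | rfl | rfl | rfl
    · simp
    · exact a
    · exact b
    · rw [map_mul]; exact mul_mem a b)
  have cμ : ∀ g ∈ 𝒩(P.V0), Commute g P.μ := by
    obtain ⟨z, ⟨h1, h2⟩, h3⟩ := (P.V0 ⊓ 𝒞(𝒩(P.V0))).bot_or_exists_ne_one.resolve_left
      (inf_cent_ne_bot (P.two.to_subgroup _) (P.two.to_subgroup _) le_rfl fun e => P.μ1 (mem_bot.1 (e ▸ mV)))
    exact (fixω z h1 (h2 _ ωN)).resolve_left h3 ▸ h2
  obtain ⟨n0, ⟨-, h0⟩, h1⟩ := SetLike.exists_of_lt (lt_inf_normalizer_of_isPGroup (P.two.to_subgroup ⊤)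
    (lt_top_iff_ne_top.2 fun e => hn (normalizer_eq_top_iff.1 e)))
  obtain ⟨k, hk⟩ := P.two n0
  obtain ⟨j, n1, n2⟩ := pb1_sq _ k n0 h1 hk
  have n3 : n0 ^ j ∈ 𝒩(𝒩(P.V0)) := Subgroup.pow_mem _ h0 j
  generalize n0 ^ j = n at n1 n2 n3
  have cm : ∀ g ∈ 𝒩(P.V0), Commute g (n * P.μ * n⁻¹) := fun g hg => by
    simpa [mul_assoc] using (cμ _ (conj_mem' n3 hg)).map (MulAut.conj n)
  have nV1 : ∀ g ∈ 𝒩(P.V0), ∀ x ∈ cj n P.V0, g * x * g⁻¹ ∈ cj n P.V0 := fun g hg x hx =>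
    mem_cj.2 (by simpa [mul_assoc] using conj_mem (conj_mem' n3 hg) (mem_cj.1 hx))
  have mem1 : ∀ x ∈ cj n P.V0, x = 1 ∨ x = n * P.μ * n⁻¹ ∨ x = n * P.ν * n⁻¹ ∨
      x = n * P.μ * n⁻¹ * (n * P.ν * n⁻¹) := by
    rintro _ ⟨v, hv, rfl⟩
    rcases (P.memV v).1 hv with rfl | rfl | rfl | rfl <;> simp
  have ν1 : n * P.ν * n⁻¹ ∈ cj n P.V0 := conj_mem_cj n nV
  have νN' : n * P.ν * n⁻¹ ∈ 𝒩(P.V0) := conj_mem n3 νN
  have νν' : n * P.ν * n⁻¹ * (n * P.ν * n⁻¹) = 1 := by simp [P.νν]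
  have hν : n * (n * P.ν * n⁻¹) * n⁻¹ = n * n * P.ν * (n * n)⁻¹ := by group
  have hμ : n * (n * P.μ * n⁻¹) * n⁻¹ = P.μ := (by group : _ = n * n * P.μ * (n * n)⁻¹).trans (cμ _ n2).mul_inv_cancel
  have m1 : n * P.μ * n⁻¹ ≠ 1 := by simpa using P.μ1
  have mT := nT _ (P.VT mV) n
  have νT := nT _ (P.VT nV) n
  generalize hν' : n * P.ν * n⁻¹ = ν' at *
  generalize hm : n * P.μ * n⁻¹ = m at *
  have nτ : ¬ Commute P.τ ν' := fun e => n1 (cj_eq_iff_mem.1 (P.uq n fun x hx => by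
    rw [mem_centralizer_singleton_iff]
    rcases mem1 x hx with rfl | rfl | rfl | rfl
    exacts [Commute.one_left _, (cm _ τN).symm, e.symm, ((cm _ τN).mul_right e).symm]))
  have e1 : ν' * P.τ * ν' = P.τ * m := by
    rcases mem1 _ (nV1 _ (inv_mem τN) _ ν1) with e | e | e | e
    · exact (nτ (pb1_cj (Commute.one_right _) e ▸ Commute.one_right _)).elim
    · exact (nτ (pb1_cj (cm _ τN).inv_left e ▸ cm _ τN)).elim
    · exact (nτ (Commute.inv_left_iff.1 (mul_inv_eq_iff_eq_mul.1 e))).elim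
    · calc ν' * P.τ * ν' = P.τ * (P.τ⁻¹ * ν' * P.τ⁻¹⁻¹) * ν' := by group
        _ = P.τ * m := by rw [e, mul_assoc, mul_assoc, νν', mul_one]
  have e2 : m = P.κ := by
    have nf := P.nf ν' P.μ mV P.μ1
    rw [inv_eq_of_mul_eq_one_right νν', e1] at nf
    obtain ⟨v, hv, e | e | e | e⟩ := P.cτ m mT (cm _ τN).symm
    · rcases fixω v hv (e ▸ cm _ ωN) with rfl | rfl
      · exact (m1 e).elim
      · exact (nf.1 (by rw [e])).elim
    · rcases fixω v hv (pb1_r P.κω.symm (e ▸ cm _ ωN)) with rfl | rfl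
      · rw [e, one_mul]
      · exact (nf.2 (by rw [e, mul_assoc])).elim
    · exact (nων (pb1_l (cν v hv) (e ▸ cm _ νN)).symm).elim
    · exact (nων (pb1_l ((cν v hv).mul_right P.κν.symm) (e ▸ cm _ νN)).symm).elim
  subst e2
  refine ⟨n, ν', νT, νν', cμ _ νN', ?_, cm _ νN', e1, ?_, hm, hμ, hν', ?_⟩
  · have a : ν' * P.ν * ν'⁻¹ * P.ν⁻¹ ∈ P.V0 := mul_mem (conj_mem νN' nV) (inv_mem nV)
    have b : ν' * P.ν * ν'⁻¹ * P.ν⁻¹ ∈ cj n P.V0 := by
      simpa [mul_assoc] using mul_mem ν1 (nV1 _ νN _ (inv_mem ν1))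
    rcases mem1 _ b with e | e | e | e
    · exact commutatorElement_eq_one_iff_mul_comm.1 e
    · exact (P.κV (e ▸ a)).elim
    · exact (nτ (cτ _ (e ▸ a))).elim
    · exact (nτ (pb1_l P.τκ (cτ _ (e ▸ a)))).elim
  · rcases mem1 _ (nV1 _ ωN _ ν1) with e | e | e | e
    · exact (nτ (pb1_cj (Commute.one_right _) e ▸ Commute.one_right _)).elim
    · exact (nτ (pb1_cj P.κω.symm e ▸ P.τκ)).elim
    · exact .inl (by rwa [ωi] at e)
    · exact .inr (by rw [cm _ νN', ← e, ωi])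
  · rw [hν]
    rcases (P.memV _).1 (conj_mem n2 nV) with e | e | e | e
    · exact (nων (pb1_cj (Commute.one_right _) e ▸ Commute.one_right _)).elim
    · exact (nων (pb1_cj (cμ _ n2) e ▸ P.ωμ)).elim
    · exact .inl e
    · exact .inr e

end CL.H33
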