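/-
Project H33 (S3139): the action of `N(R₁)` on `R₁ / Z(R₁)` in the case `al = false`.
-/
import Cfsg.Agent.H33.Defs2
import Cfsg.Agent.H33.Pb1

set_option autoImplicit false
set_option linter.unusedSectionVars false
set_option synthInstance.maxSize 2048
open Cfsg Subgroup CL.Even CL.Grp

namespace CL.H33
open M

universe u

namespace Ci

/-- vectors `(c, e, i, j)` -/
abbrev V : Type := Bool × Bool × Bool × Bool
instance (priority := high) decV : DecidableEq V := fun v w => instDecidableEqProd v w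
instance (priority := high) decAllV (P : V → Prop) [DecidablePred P] : Decidable (∀ v, P v) :=
  decidable_of_iff (∀ a b c d, P (a, b, c, d)) ⟨fun h _ => h _ _ _ _, fun h _ _ _ _ => h _⟩
def va (v w : V) : V := (v.1 ^^ w.1, v.2.1 ^^ w.2.1, v.2.2.1 ^^ w.2.2.1, v.2.2.2 ^^ w.2.2.2)
def B (v w : V) : Bool := (v.1 && w.2.1) ^^ (v.2.1 && w.1) ^^ (v.2.2.1 && w.2.2.2) ^^ (v.2.2.2 && w.2.2.1)
def tv (a v : V) : V := cond (B v a) (va v a) v
def rho (v : V) : V := (v.1, v.2.1, v.2.2.2, v.2.2.1 ^^ v.2.2.2)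
abbrev vt : V := (true, false, false, false)
abbrev vs : V := (false, true, false, false)
abbrev vu : V := (false, false, true, false)
abbrev vq : V := (false, false, false, true)
def vec {p : Ty} (x : M p) : V := (x.c, x.e, x.i, x.j)
def lift (p : Ty) (v : V) : M p := mk' p false false v.1 v.2.1 v.2.2.1 v.2.2.2 false

theorem vec_lift : ∀ p : Ty, p.ws = true → ∀ v, vec (lift p v) = v := by decide +kernel
theorem vec_mul {p : Ty} {x : M p} (h : x.k = false) (y : M p) : vec (x * y) = va (vec x) (vec y) := by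
  simp [vec, va, mul_c, mul_e, mul_i, mul_j, h]
theorem comm_iff {p : Ty} {x y : M p} (hx : x.k = false) (hy : y.k = false) :
    x * y = y * x ↔ B (vec x) (vec y) = false := by
  rw [mul_def, mul_def, hx, hy, M.ext_iff]
  simp only [m0, cond_false, B, vec]
  generalize x.d = a, x.z = b, x.c = c, x.e = d, x.i = e, x.j = f, x.k = g, y.d = a', y.z = b', y.c = c', y.e = d',
    y.i = e', y.j = f', y.k = g'
  revert a b c d e f g a' b' c' d' e' f' g'
  decide +kernel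
theorem nondeg : ∀ v w : V, B v vt = B w vt → B v vs = B w vs → B v vu = B w vu → B v vq = B w vq → v = w := by
  decide +kernel

/-- the renaming `s ↦ t s δ` -/
def fl (p : Ty) : Ty := ⟨p.big, p.ws, p.al, !p.ep⟩
def th (p : Ty) (x : M (fl p)) : M p := mk' p (x.d ^^ x.e) (x.z ^^ (x.d && x.e)) (x.c ^^ x.e) x.e x.i x.j x.k
theorem th_mul : ∀ p : Ty, p.big = true → p.ws = true → p.al = false → ∀ x y, th p (x * y) = th p x * th p y := by
  intro p h1 h2 h3 x y
  have e1 : (fl p).al = false := h3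
  have e2 : (fl p).ep = !p.ep := rfl
  rw [mul_def, mul_def, show (th p x).k = x.k from rfl]
  cases x.k <;> refine M.ext ?_ ?_ ?_ ?_ ?_ ?_ ?_ <;> simp only [th, mk', m0, sg, cond_true, cond_false, e1, e2, h1, h2, h3] <;>
    cases x.d <;> cases x.e <;> cases y.d <;> cases y.e <;> cases y.c <;> simp [Bool.xor_comm, Bool.xor_left_comm]
theorem th_one : ∀ p : Ty, p.big = true → p.ws = true → ∀ x, th p x = 1 → x = 1 := by decide +kernel
theorem th_surj : ∀ p : Ty, p.big = true → p.ws = true → ∀ y, ∃ x, th p x = y := by decide +kernel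
theorem th_co : ∀ (p : Ty) (x : M (fl p)), (th p x).e = x.e ∧ (x.e = false → (th p x).d = x.d ∧ (th p x).c = x.c) := by
  decide +kernel
theorem th_gen : ∀ p : Ty, p.big = true → p.ws = true → th p (mt _) = mt p ∧ th p (mz _) = mz p ∧ th p (md _) = md p ∧
    th p (mu _) = mu p ∧ th p (mq _) = mq p ∧ th p (mw _) = mw p ∧ th p (mg _) = mg p ∧ th p (mw' _) = mw' p ∧
    th p (ms _) = mt p * ms p * md p ∧ th p (my _) = mt p * ms p * mz p := by decide +kernel

variable {G : Type u} [Group G] [Finite G]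

theorem ren (S : HD G) (hb : S.p.big = true) (hw : S.p.ws = true) (ha : S.p.al = false) :
    ∃ S' : HD G, S'.p.ws = true ∧ S'.p.al = false ∧ S'.t = S.t ∧ S'.z = S.z ∧ S'.S1 = S.S1 ∧ S'.R1 = S.R1 ∧
      S'.P = S.P ∧ S'.s = S.ι (M.mt _ * ms _ * md _) ∧ S'.y = S.ι (M.mt _ * ms _ * mz _) := by
  let θ : M (fl S.p) →* M S.p := MonoidHom.mk' (th S.p) (th_mul _ hb hw ha)
  have hs : Function.Surjective θ := th_surj _ hb hw
  obtain ⟨e1, e2, e3, e4, e5, e6, e7, e8, e9, e10⟩ := th_gen _ hb hw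
  have a : ∀ x, (S.ι.comp θ) x = S.ι (th S.p x) := fun _ => rfl
  have m : ∀ (K' : Subgroup (M (fl S.p))) (K : Subgroup (M S.p)), (∀ x, x ∈ K' ↔ th S.p x ∈ K) →
      K'.map (S.ι.comp θ) = K.map S.ι := fun K' K h => by
    rw [← Subgroup.map_map, show K' = K.comap θ from Subgroup.ext h, map_comap_eq_self_of_surjective hs]
  have r : (S.ι.comp θ).range = S.ι.range := by
    rw [MonoidHom.range_comp, MonoidHom.range_eq_top.2 hs, ← MonoidHom.range_eq_map]
  have ct := mem_centralizer_singleton_iff.1 (S.LH S.ρ0L)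
  refine ⟨{ p := fl S.p, ι := S.ι.comp θ, O := S.O, L := S.L, ρ := S.ρ, ρ0 := S.ρ0
            inj := S.inj.comp ((injective_iff_map_eq_one θ).2 (th_one _ hb hw))
            alb := fun _ => hb, oddO := S.oddO, OL := S.OL
            LH := by rw [a, e1]; exact S.LH
            On := by rw [a, e1]; exact S.On
            Ln := by rw [a, e1]; exact S.Ln
            sqL := by rw [a, e1]; exact S.sqL
            ιL := fun x hx => by
              rw [a, S.ιL _ ((th_co _ x).1.trans hx), ((th_co _ x).2 hx).1, ((th_co _ x).2 hx).2]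
            sylS := by
              rw [a, e1, m _ (sS S.p) fun x => by change x.e = false ↔ (th _ x).e = false; rw [(th_co _ x).1]]
              exact S.sylS
            syl1 := by rw [a, a, e1, e2, r]; exact S.syl1
            ρL := S.ρL, ρ0L := S.ρ0L
            ρz := by rw [a, a, e2, e6]; exact S.ρz
            ρw := by rw [map_mul, a, a, e2, e6, ← map_mul]; exact S.ρw
            ρg := by rw [a, e7]; exact S.ρg
            ρ3 := S.ρ3
            ρi := by rw [a, e8]; exact S.ρi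
            ρ0u := by rw [a, a, e4, e5]; exact S.ρ0u
            ρ0q := by rw [map_mul, a, a, e4, e5, ← map_mul]; exact S.ρ0q
            ρ0d := by rw [a, e3]; exact S.ρ0d
            ρ0s := by rw [a, e9, map_mul, map_mul, ← conj_mul, ← conj_mul, S.ρ0s, S.ρ0d, ct, mul_inv_cancel_right]
            ρ03 := S.ρ03
            ρ0i := by rw [a, e8]; exact S.ρ0i
            cz := by
              rw [a, a, e1, e2]
              intro h h1 h2
              obtain ⟨o, ho, x, hx, i, e⟩ := S.cz h h1 h2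
              obtain ⟨x, rfl⟩ := hs x
              exact ⟨o, ho, x, (th_co _ x).1.symm.trans hx, i, e⟩
            cV := by
              rw [a, a, a, e1, e2, e6]
              intro h h1 h2 h3
              obtain ⟨o, ho, x, hx, h4, h5, e⟩ := S.cV h h1 h2 h3
              obtain ⟨x, rfl⟩ := hs x
              have := (th_co _ x).1.symm.trans hx
              exact ⟨o, ho, x, this, h4.trans ((th_co _ x).2 this).1, h5, e⟩
            tz := by rw [map_mul, a, a, e1, e2, ← map_mul]; exact S.tz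
            ntz := by rw [a, a, e1, e2]; exact S.ntz }, hw, ha, congrArg S.ι e1, congrArg S.ι e2, r,
    m _ _ fun _ => Iff.rfl, m _ _ fun _ => Iff.rfl, congrArg S.ι e9, congrArg S.ι e10⟩

variable (S : HD G)

/-- the action on the model -/
noncomputable def f (n : G) (x : M S.p) : M S.p := Function.invFun S.ι (n * S.ι x * n⁻¹)
/-- the action on vectors -/
noncomputable def F (n : G) (v : V) : V := vec (f S n (lift _ v))

variable {S} {n m : G} {x y : M S.p}

theorem f_eq (h : n * S.ι x * n⁻¹ = S.ι y) : f S n x = y := by rw [f, h, Function.leftInverse_invFun S.inj]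

theorem f_spec (hn : n ∈ 𝒩(S.R1)) (hx : x.k = false) : n * S.ι x * n⁻¹ = S.ι (f S n x) ∧ (f S n x).k = false := by
  obtain ⟨y, hy, e⟩ := conj_mem hn (S.mem_map.2 (show x ∈ sR _ from hx))
  rw [f_eq e.symm]
  exact ⟨e.symm, hy⟩

theorem f_mul (hn : n ∈ 𝒩(S.R1)) (hx : x.k = false) (hy : y.k = false) : f S n (x * y) = f S n x * f S n y :=
  f_eq (by rw [map_mul, map_mul, ← (f_spec hn hx).1, ← (f_spec hn hy).1, conj_mul])

theorem f_comp (hn : n ∈ 𝒩(S.R1)) (hm : m ∈ 𝒩(S.R1)) (hx : x.k = false) : f S (n * m) x = f S n (f S m x) :=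
  f_eq (by rw [← (f_spec hn (f_spec hm hx).2).1, ← (f_spec hm hx).1]; group)

theorem f_B (hn : n ∈ 𝒩(S.R1)) (hx : x.k = false) (hy : y.k = false) :
    B (vec (f S n x)) (vec (f S n y)) = B (vec x) (vec y) := by
  rw [Bool.eq_iff_iff, ← not_iff_not, Bool.not_eq_true, Bool.not_eq_true, ← comm_iff hx hy,
    ← comm_iff (f_spec hn hx).2 (f_spec hn hy).2, ← S.eq_iff, ← S.eq_iff (x := x * y), map_mul, map_mul, map_mul, map_mul,
    ← (f_spec hn hx).1, ← (f_spec hn hy).1, conj_mul, conj_mul, mul_left_inj, mul_right_inj]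

theorem f_sq (hn : n ∈ 𝒩(S.R1)) (hx : x.k = false) (h : x * x = 1) : f S n x * f S n x = 1 := by
  rw [← f_mul hn hx hx, h]
  exact f_eq (by simp)

variable (hw : S.p.ws = true)
include hw

theorem F_vec (hn : n ∈ 𝒩(S.R1)) (hx : x.k = false) : vec (f S n x) = F S n (vec x) := by
  have k : ∀ r, B (vec (f S n x)) r = B (F S n (vec x)) r := fun r => by
    have h1 := (f_spec (inv_mem hn) (x := lift _ r) rfl).2
    have h2 : f S n (f S n⁻¹ (lift _ r)) = lift _ r := by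
      rw [← f_comp hn (inv_mem hn) rfl, mul_inv_cancel]; exact f_eq (by simp)
    rw [← vec_lift _ hw r, ← h2, F, f_B hn hx h1, f_B hn rfl h1, vec_lift _ hw]
  exact nondeg _ _ (k _) (k _) (k _) (k _)

theorem F_B (hn : n ∈ 𝒩(S.R1)) (v w : V) : B (F S n v) (F S n w) = B v w := by
  rw [F, F, f_B hn rfl rfl, vec_lift _ hw, vec_lift _ hw]

theorem F_comp (hn : n ∈ 𝒩(S.R1)) (hm : m ∈ 𝒩(S.R1)) (v : V) : F S (n * m) v = F S n (F S m v) := by
  rw [F, f_comp hn hm rfl, F_vec hw hn (f_spec hm rfl).2]; rfl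

theorem F_cen (h : n ∈ 𝒞(S.R1)) (v : V) : F S n v = v := by
  rw [F, f_eq (y := lift _ v) (by
    rw [← comm_of_mem h (S.mem_map.2 (show lift _ v ∈ sR _ from rfl)), mul_inv_cancel_right]), vec_lift _ hw]

theorem F_inv (hn : n ∈ 𝒩(S.R1)) (v : V) : F S n (F S n⁻¹ v) = v := by
  rw [← F_comp hw hn (inv_mem hn), mul_inv_cancel, F_cen hw (one_mem _)]

theorem F_inv' (hn : n ∈ 𝒩(S.R1)) (v : V) : F S n⁻¹ (F S n v) = v := by
  rw [← F_comp hw (inv_mem hn) hn, inv_mul_cancel, F_cen hw (one_mem _)]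

theorem F_add (hn : n ∈ 𝒩(S.R1)) (v w : V) : F S n (va v w) = va (F S n v) (F S n w) := by
  have := F_vec hw hn (x := lift _ v * lift _ w) (by rw [mul_k]; rfl)
  rw [vec_mul rfl, vec_lift _ hw, vec_lift _ hw, f_mul hn rfl rfl, vec_mul (f_spec hn rfl).2] at this
  exact this.symm

omit hw in
theorem ι_mem (x : M S.p) : S.ι x ∈ 𝒩(S.R1) := mem_norm_of_cj_le (by
  rintro _ ⟨_, ⟨y, hy, rfl⟩, rfl⟩
  refine ⟨x * y * x⁻¹, show (x * y * x⁻¹).k = false from ?_, by simp⟩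
  rw [mul_k, mul_k, show y.k = false from hy, Bool.xor_false, ← mul_k, mul_inv_cancel]
  rfl)

omit hw in
theorem F_ι (x : M S.p) (v : V) : F S (S.ι x) v = vec (x * lift _ v * x⁻¹) := by
  rw [F, f_eq (y := x * lift _ v * x⁻¹) (by simp)]

omit hw in
theorem ρ0_t : S.ρ0 * S.t * S.ρ0⁻¹ = S.t := by
  rw [mem_centralizer_singleton_iff.1 (S.LH S.ρ0L), mul_inv_cancel_right]

omit hw in
theorem ρ0_mem : S.ρ0 ∈ 𝒩(S.R1) := mem_norm_of_cj_le (by
  let K := (S.R1.comap (MulAut.conj S.ρ0).toMonoidHom).comap S.ι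
  have k : ∀ {x y : M S.p}, S.ρ0 * S.ι x * S.ρ0⁻¹ = S.ι y → y.k = false → ∀ b, cond b x 1 ∈ K := fun e h b => by
    cases b
    · exact one_mem K
    · exact ⟨_, h, e.symm⟩
  have hz : S.ρ0 * S.z * S.ρ0⁻¹ = S.z := by
    rw [HD.z, ← (by decide +kernel : ∀ p, mu p * mu p = mz p), map_mul, ← conj_mul, S.ρ0u, ← map_mul, ← map_mul, S.eq_iff]
    exact (by decide +kernel : ∀ p, mq p * mq p = mu p * mu p) _
  rintro _ ⟨_, ⟨y, hy, rfl⟩, rfl⟩
  change y ∈ K
  rw [nf _ y, show y.k = false from hy, cond_false, mul_one]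
  exact mul_mem (mul_mem (mul_mem (mul_mem (mul_mem (k S.ρ0d rfl _) (k hz rfl _)) (k ρ0_t rfl _)) (k S.ρ0s rfl _))
    (k S.ρ0u rfl _)) (k S.ρ0q rfl _))

theorem F_ρ0 (v : V) : F S S.ρ0 v = rho v := by
  have e : ∀ {x y : M S.p} (a b : V), S.ρ0 * S.ι x * S.ρ0⁻¹ = S.ι y → x.k = false → vec x = a → vec y = b →
      B (F S S.ρ0 v) b = B v a := fun a b e h1 h2 h3 => by
    rw [← h2, ← h3, ← f_eq e, F_vec hw ρ0_mem h1, F_B hw ρ0_mem]
  have hs : vec (ms S.p) = vs := vec_lift _ hw vs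
  exact (by decide +kernel : ∀ x v : V, B x vt = B v vt → B x vs = B v vs → B x vq = B v vu → B x (va vu vq) = B v vq →
    x = rho v) _ _ (e _ _ ρ0_t rfl rfl rfl) (e _ _ S.ρ0s rfl hs hs) (e _ _ S.ρ0u rfl rfl rfl) (e _ _ S.ρ0q rfl rfl rfl)

theorem inv_of {a : M S.p} (hn : n ∈ 𝒩(S.R1)) (hx : x.k = false) (h : x * x = 1) (ha : a.k = false) (h2 : a * a = 1)
    (e : F S n (vec x) = vec a) (h3 : a.i = false ∧ a.j = false) :
    n * S.ι x * n⁻¹ = S.ι a ∨ n * S.ι x * n⁻¹ = S.ι a * S.z := by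
  rw [(f_spec hn hx).1, ← map_mul, S.eq_iff, S.eq_iff]
  exact (by decide +kernel : ∀ (p : Ty) (a : M p), a.k = false → a.i = false ∧ a.j = false → a * a = 1 → ∀ y : M p,
    y.k = false → vec y = vec a → y * y = 1 → y = a ∨ y = a * mz p) _ a ha h3 h2 _ (f_spec hn hx).2
      ((F_vec hw hn hx).trans e) (f_sq hn hx h)

theorem t_of (hn : n ∈ 𝒩(S.R1)) (e : F S n vt = vt) : n * S.t * n⁻¹ = S.t ∨ n * S.t * n⁻¹ = S.t * S.z :=
  have := (by decide +kernel : ∀ p, M.mt p * M.mt p = 1) S.p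
  inv_of hw hn rfl this rfl this e ⟨rfl, rfl⟩

variable (ha : S.p.al = false)
include ha

theorem F_ι' (x : M S.p) (v : V) : (F S (S.ι x) v).1 = v.1 ∧ (F S (S.ι x) v).2.1 = v.2.1 ∧ F S (S.ι x) vt = vt := by
  rw [F_ι, F_ι]
  exact (by decide +kernel : ∀ p : Ty, p.ws = true → p.al = false → ∀ (x : M p) (v : V), (vec (x * lift _ v * x⁻¹)).1 = v.1 ∧
    (vec (x * lift _ v * x⁻¹)).2.1 = v.2.1 ∧ vec (x * lift _ vt * x⁻¹) = vt) _ hw ha x v

theorem stab (h : S.Or) (hn : n ∈ 𝒩(S.R1)) (e : F S n vt = vt) (v : V) :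
    (F S n v).1 = v.1 ∧ (F S n v).2.1 = v.2.1 := by
  obtain ⟨o, -, ho, x, i, rfl⟩ := h.stab n hn (t_of hw hn e)
  have h1 := cent_le_norm _ ho
  have h2 : (F S (S.ρ0 ^ i) v).1 = v.1 ∧ (F S (S.ρ0 ^ i) v).2.1 = v.2.1 := by
    clear hn e
    induction i with
    | zero => rw [pow_zero, F_cen hw (one_mem _)]; exact ⟨rfl, rfl⟩
    | succ i ih => rw [pow_succ', F_comp hw ρ0_mem (Subgroup.pow_mem _ ρ0_mem i), F_ρ0 hw]; exact ih
  rw [F_comp hw (mul_mem h1 (ι_mem x)) (Subgroup.pow_mem _ ρ0_mem i), F_comp hw h1 (ι_mem x), F_cen hw ho,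
    (F_ι' hw ha x _).1, (F_ι' hw ha x _).2.1]
  exact h2

theorem trv (hn : n ∈ 𝒩(S.R1)) : ∃ m ∈ 𝒩(S.R1), ∀ v, F S m v = tv (F S n vu) v := by
  have h1 := ι_mem (S := S) (mw _)
  refine ⟨n * S.w * n⁻¹, mul_mem (mul_mem hn h1) (inv_mem hn), fun v => ?_⟩
  rw [F_comp hw (mul_mem hn h1) (inv_mem hn), F_comp hw hn h1, F_ι, (by decide +kernel : ∀ p : Ty, p.ws = true →
    p.al = false → ∀ v, vec (mw p * lift _ v * (mw p)⁻¹) = tv vu v) _ hw ha, tv, tv, ← F_B hw hn, F_inv hw hn]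
  cases B v (F S n vu)
  · exact F_inv hw hn v
  · rw [cond_true, cond_true, F_add hw hn, F_inv hw hn]

theorem two (h : S.Or) (hn : n ∈ 𝒩(S.R1)) (e : (F S n vu).2.1 = false) : (F S n vu).1 = false := by
  obtain ⟨m, hm, k⟩ := trv hw ha hn
  have := (stab hw ha h hm (by
    rw [k]; exact (by decide : ∀ a : V, a.2.1 = false → tv a vt = vt) _ e) vs).1
  rw [k] at this
  exact (by decide : ∀ a : V, (tv a vs).1 = false → a.1 = false) _ this

theorem caseB (h : S.Or) (hn : n ∈ 𝒩(S.R1)) (e : (F S n vu).2.1 = true) :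
    (∀ m ∈ 𝒩(S.R1), F S m ((F S n vu).1, true, false, false) = ((F S n vu).1, true, false, false)) ∧
      F S n vu ≠ ((F S n vu).1, true, false, false) := by
  have h1 : ∀ m ∈ 𝒩(S.R1), B ((F S n vu).1, true, false, false) (F S m vu) = false := fun m hm => by
    obtain ⟨g, hg, k⟩ := trv hw ha hm
    have a0 := two hw ha h (mul_mem hg hn)
    have a1 := two hw ha h (mul_mem hg (mul_mem ρ0_mem hn))
    have a2 := two hw ha h (mul_mem hg (mul_mem ρ0_mem (mul_mem ρ0_mem hn)))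
    rw [F_comp hw hg (mul_mem ρ0_mem (mul_mem ρ0_mem hn)), F_comp hw ρ0_mem (mul_mem ρ0_mem hn)] at a2
    simp only [F_comp hw, k, F_ρ0 hw, mul_mem, hg, hn, ρ0_mem] at a0 a1 a2
    exact (by decide +kernel : ∀ a b : V, a.2.1 = true → (b.2.1 = false → b.1 = false) →
      ((tv b a).2.1 = false → (tv b a).1 = false) → ((tv b (rho a)).2.1 = false → (tv b (rho a)).1 = false) →
      ((tv b (rho (rho a))).2.1 = false → (tv b (rho (rho a))).1 = false) → B (a.1, true, false, false) b = false)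
        _ _ e (two hw ha h hm) a0 a1 a2
  have h2 : ∀ m ∈ 𝒩(S.R1), F S m ((F S n vu).1, true, false, false) = ((F S n vu).1, true, false, false) := fun m hm => by
    have k : ∀ g ∈ 𝒩(S.R1), B (F S m ((F S n vu).1, true, false, false)) (F S g vu) = false := fun g hg => by
      rw [← F_inv hw hm (F S g vu), F_B hw hm, ← F_comp hw (inv_mem hm) hg, h1 _ (mul_mem (inv_mem hm) hg)]
    have a0 := k 1 (one_mem _)
    have a1 := k _ ρ0_mem
    rw [F_cen hw (one_mem _)] at a0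
    rw [F_ρ0 hw] at a1
    exact (by decide +kernel : ∀ a x y : V, a.2.1 = true → B x vu = false → B x (rho vu) = false → B x a = false →
      B x y = B (a.1, true, false, false) vt → x = (a.1, true, false, false)) _ _ _ e a0 a1 (k n hn) (F_B hw hm _ _)
  refine ⟨h2, fun e' => ?_⟩
  have := F_inv' hw hn vu
  rw [e', h2 _ (inv_mem hn)] at this
  simp at this

theorem caseA (h : S.Or) (e : ∀ n ∈ 𝒩(S.R1), (F S n vu).2.1 = false) (hn : n ∈ 𝒩(S.R1)) :
    F S n vt = vt ∨ F S n vt = vs ∨ F S n vt = va vt vs := by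
  have h1 := mul_mem hn (ρ0_mem (S := S))
  have a := e _ h1
  have b := two hw ha h h1 a
  rw [F_comp hw hn ρ0_mem, F_ρ0 hw] at a b
  exact (by decide +kernel : ∀ a b : V, a.2.1 = false → a.1 = false → b.2.1 = false → b.1 = false →
    B a b = B vu (rho vu) → ∀ x y : V, B x a = B vt vu → B x b = B vt (rho vu) → B x y = B vt vs →
      x = vt ∨ x = vs ∨ x = va vt vs) _ _ (e n hn) (two hw ha h hn (e n hn)) a b (F_B hw hn _ _) _ _ (F_B hw hn _ _)
        (F_B hw hn _ _) (F_B hw hn _ _)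

theorem orbit (h : S.Or) (e : ∀ n ∈ 𝒩(S.R1), (F S n vu).2.1 = false) {k : G} (hk : k ∈ 𝒩(S.R1)) (h1 : F S k vt ≠ vt)
    (h2 : F S k (F S k vt) = vt) (hn : n ∈ 𝒩(S.R1)) : F S n vt = vt ∨ F S n vt = F S k vt := by
  by_contra hc
  have h3 : F S n vt = va vt (F S k vt) := by
    have a := caseA hw ha h e hn
    have b := caseA hw ha h e hk
    revert a b h1 hc
    generalize F S n vt = x, F S k vt = y
    revert x y
    decide
  have hm := mul_mem (mul_mem (inv_mem hn) hk) hn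
  have h4 := stab hw ha h hm (by
    rw [F_comp hw (mul_mem (inv_mem hn) hk) hn, F_comp hw (inv_mem hn) hk, h3, F_add hw hk, h2,
      (by decide : ∀ v : V, va v vt = va vt v), ← h3, F_inv' hw hn]) (F S n⁻¹ vt)
  rw [← F_comp hw hm (inv_mem hn), mul_inv_cancel_right] at h4
  have h5 : F S (n⁻¹ * k) vt = F S n⁻¹ vt := by
    have a := caseA hw ha h e (mul_mem (inv_mem hn) hk)
    have b := caseA hw ha h e (inv_mem hn)
    revert a b h4
    generalize F S (n⁻¹ * k) vt = x, F S n⁻¹ vt = y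
    revert x y
    decide
  apply h1
  rw [← F_inv hw hn (F S k vt), ← F_comp hw (inv_mem hn) hk, h5, F_inv hw hn]

theorem bd {T : Subgroup G} {k : G} (hT : IsSylowIn 2 T ⊤) (le : S.S1 ≤ T)
    (bc : ∀ c, c * S.z = S.z * c → c * S.t * c⁻¹ ∈ S.R1 → c * S.t * c⁻¹ = S.t ∨ c * S.t * c⁻¹ = S.t * S.z ∨
      c * S.t * c⁻¹ = S.t * S.y ∨ c * S.t * c⁻¹ = S.t * S.y * S.z)
    (kT : k ∈ T) (kS : k ∈ 𝒩(S.S1)) (kR : k ∈ 𝒩(S.R1)) (kk : k * k ∈ S.S1)
    (kt : k * S.t * k⁻¹ = S.t * S.y ∨ k * S.t * k⁻¹ = S.t * S.y * S.z) : ∃ k, S.BD T k := by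
  rcases kt with kt | kt
  · exact ⟨k, hw, ha, hT, le, bc, kT, kS, kR, kk, kt⟩
  have tS : S.t ∈ S.S1 := ⟨_, rfl⟩
  refine ⟨S.t * k, hw, ha, hT, le, bc, mul_mem (le tS) kT, mul_mem (le_normalizer tS) kS, mul_mem (ι_mem _) kR, ?_, ?_⟩
  · rw [show S.t * k * (S.t * k) = S.t * (k * S.t * k⁻¹) * (k * k) by group]
    exact mul_mem (mul_mem tS (conj_mem kS tS)) kk
  · rw [show S.t * k * S.t * (S.t * k)⁻¹ = S.t * (k * S.t * k⁻¹) * S.t⁻¹ by group, kt]
    simp only [← map_mul, ← map_inv, S.eq_iff]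
    exact (by decide +kernel : ∀ p : Ty, p.ws = true → M.mt p * (M.mt p * my p * mz p) * (M.mt p)⁻¹ = M.mt p * my p) _ hw

end Ci

open Ci in
theorem ci : CiS.{u} := by
  intro G _ _ S hw ha h T hT le
  have : Fact (Nat.Prime 2) := ⟨Nat.prime_two⟩
  have tt := (by decide +kernel : ∀ p, M.mt p * M.mt p = 1) S.p
  obtain ⟨s1, s2, s3, s4, s5⟩ := (by decide +kernel : ∀ p : Ty, p.ws = true → vec (ms p) = vs ∧ ms p * ms p = 1 ∧
    (p.big = true → vec (M.mt p * ms p * md p) = va vt vs ∧ M.mt p * ms p * md p * (M.mt p * ms p * md p) = 1 ∧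
      M.mt p * my p = M.mt p * ms p * md p ∧ M.mt p * (M.mt p * ms p * mz p) = ms p * mz p ∧
      M.mt p * (M.mt p * ms p * mz p) * mz p = ms p) ∧
    (p.big = false → M.mt p * my p = ms p) ∧ (p.big = false → ∀ x : M p, x.k = false → x.c = true → x.e = true →
      (vec x = va vt vs → x * x ≠ 1) ∧ (vec x ≠ va vt vs → x * x ≠ mz p))) S.p hw
  by_cases e : ∀ n ∈ 𝒩(S.R1), (F S n vu).2.1 = false
  · refine or_iff_not_imp_left.2 fun hn => .inl ?_
    obtain ⟨k0, ⟨h0, h0'⟩, h1⟩ := SetLike.exists_of_lt (lt_inf_normalizer_of_isPGroup hT.isPGroup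
      (lt_of_le_of_ne le fun e => hn e.ge))
    obtain ⟨i, hi⟩ := hT.isPGroup ⟨k0, h0⟩
    obtain ⟨j, n1, kk⟩ := pb1_sq _ i k0 h1 (congrArg Subtype.val hi)
    have kT : k0 ^ j ∈ T := Subgroup.pow_mem _ h0 j
    have kS : k0 ^ j ∈ 𝒩(S.S1) := Subgroup.pow_mem _ h0' j
    generalize k0 ^ j = k at n1 kk kT kS
    have kR := h.uq k (S.zT hw hT.isPGroup le kT) ((cj_mono k (S.map_le _)).trans (cj_eq kS).le)
    have k1 : F S k vt ≠ vt := fun e => n1 (S.nT hw hT.isPGroup le kT (t_of hw kR e))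
    have k2 : F S k (F S k vt) = vt := by
      obtain ⟨x, hx⟩ := kk
      rw [← F_comp hw kR kR, ← hx, (F_ι' hw ha x vt).2.2]
    have key : ∀ a : M S.p, a.k = false → a * a = 1 → a.i = false ∧ a.j = false → F S k vt = vec a →
        (k * S.t * k⁻¹ = S.ι a ∨ k * S.t * k⁻¹ = S.ι a * S.z) ∧ ∀ c, c * S.z = S.z * c → c * S.t * c⁻¹ ∈ S.R1 →
          c * S.t * c⁻¹ = S.t ∨ c * S.t * c⁻¹ = S.t * S.z ∨ c * S.t * c⁻¹ = S.ι a ∨ c * S.t * c⁻¹ = S.ι a * S.z :=
      fun a a1 a2 a3 a4 => ⟨inv_of hw kR rfl tt a1 a2 a4 a3, fun c c1 c2 => by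
        obtain ⟨n, hn, e1⟩ := h.orb c c1 c2
        rw [← e1, ← or_assoc]
        exact (orbit hw ha h e kR k1 k2 hn).imp (t_of hw hn) fun e2 => inv_of hw hn rfl tt a1 a2 (e2.trans a4) a3⟩
    rcases (caseA hw ha h e kR).resolve_left k1 with e1 | e1 <;> rcases hb : S.p.big with _ | _
    · obtain ⟨a, b⟩ := key _ rfl s2 ⟨rfl, rfl⟩ (e1.trans s1.symm)
      rw [← s4 hb, map_mul] at a b
      exact ⟨S, bd hw ha hT le b kT kS kR kk a⟩
    · obtain ⟨a, b⟩ := key _ rfl s2 ⟨rfl, rfl⟩ (e1.trans s1.symm)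
      obtain ⟨S', w', a', r1, r2, r3, r4, -, -, r5⟩ := ren S hb hw ha
      have y1 : S.t * S'.y = S.ι (ms _) * S.z := by rw [r5, ← map_mul, ← map_mul, (s3 hb).2.2.2.1]
      have y2 : S.t * S'.y * S.z = S.ι (ms _) := by rw [r5, ← map_mul, ← map_mul, (s3 hb).2.2.2.2]
      refine ⟨S', bd w' a' hT (r3 ▸ le) ?_ kT (r3 ▸ kS) (r4 ▸ kR) (r3 ▸ kk) ?_⟩
      · rw [r1, r2, r4, y2, y1]
        exact fun c c1 c2 => (b c c1 c2).imp_right (Or.imp_right Or.symm)
      · rw [r1, r2, y2, y1]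
        exact a.symm
    · have h2 := (F_vec hw kR (x := M.mt _) rfl).trans e1
      exact ((s5 hb _ (f_spec kR rfl).2 (congrArg (·.1) h2) (congrArg (·.2.1) h2)).1 h2 (f_sq kR rfl tt)).elim
    · obtain ⟨a, b⟩ := key _ rfl (s3 hb).2.1 ⟨rfl, rfl⟩ (e1.trans (s3 hb).1.symm)
      rw [← (s3 hb).2.2.1, map_mul] at a b
      exact ⟨S, bd hw ha hT le b kT kS kR kk a⟩
  refine .inr (.inr ?_)
  push Not at e
  obtain ⟨n, hn, e⟩ := e
  rw [ne_eq, Bool.not_eq_false] at e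
  obtain ⟨b1, b2⟩ := caseB hw ha h hn e
  have np : ∃ n ∈ 𝒩(S.R1), n * S.t * n⁻¹ ∉ S.P := by
    obtain ⟨m, hm, k⟩ := trv hw ha hn
    refine ⟨m, hm, fun hP => ?_⟩
    rw [(f_spec hm (x := M.mt _) rfl).1, S.mem_map] at hP
    have h2 := (F_vec hw hm (x := M.mt _) rfl).trans (k _)
    exact b2 ((by decide : ∀ a : V, a.2.1 = true → (tv a vt).2.2.1 = false → (tv a vt).2.2.2 = false →
      a = (a.1, true, false, false)) _ e ((congrArg (·.2.2.1) h2).symm.trans hP.2.1)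
        ((congrArg (·.2.2.2) h2).symm.trans hP.2.2))
  rcases hc : (F S n vu).1 with _ | _ <;> rw [hc] at b1 b2
  · exact ⟨S, hw, ha, fun m hm => inv_of hw hm rfl s2 rfl s2 (s1 ▸ b1 m hm) ⟨rfl, rfl⟩, np⟩
  rcases hb : S.p.big with _ | _
  · have h2 : vec (f S n (mu _)) = F S n vu := F_vec hw hn rfl
    refine ((s5 hb _ (f_spec hn rfl).2 ((congrArg (·.1) h2).trans hc) ((congrArg (·.2.1) h2).trans e)).2
      (h2 ▸ b2) ?_).elim
    rw [← f_mul hn rfl rfl, (by decide +kernel : ∀ p, mu p * mu p = mz p)]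
    exact f_eq (by rw [h.nz n hn, mul_inv_cancel_right])
  · obtain ⟨S', w', a', r1, r2, -, r4, r5, r6, -⟩ := ren S hb hw ha
    refine ⟨S', w', a', ?_, by rwa [r1, r4, r5]⟩
    rw [r2, r4, r6]
    exact fun m hm => inv_of hw hm rfl (s3 hb).2.1 rfl (s3 hb).2.1 ((s3 hb).1 ▸ b1 m hm) ⟨rfl, rfl⟩

end CL.H33
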