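/-
Project H33 (S3139): an involution with two fixed points on a normal section gives a cyclic normal section.
-/
import Cfsg.Agent.H33.Abs
import Cfsg.Agent.Grp.PGroupBasic
import Cfsg.Agent.Grp.FrobPartition

set_option autoImplicit false
set_option linter.unusedSectionVars false
open Cfsg Subgroup CL.Even CL.Grp
open scoped commutatorElement

namespace CL.H33

universe u

theorem cyc_two {X : Type*} [Group X] (h : ∀ a b : X, a ≠ 1 → b ≠ 1 → a = b) : Nat.card X ≤ 2 := by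
  have := Nat.card_le_card_of_injective (fun a : X => a = 1) fun a b e => by
    by_cases ha : a = 1
    · rw [ha, (iff_of_eq e).1 ha]
    · exact h a b ha fun hb => ha ((iff_of_eq e).2 hb)
  rwa [Nat.card_eq_fintype_card (α := Prop), Fintype.card_prop] at this

theorem cyc_abs {Q : Type*} [Group Q] [Finite Q] (hQ : IsPGroup 2 Q) (C : Subgroup Q) [C.Normal] {t : Q}
    (ht : t * t = 1) (m : ℕ) (hu : ∀ x ∈ C, ∀ y ∈ C, x * t = t * x → y * t = t * y → x ≠ 1 → y ≠ 1 → x = y)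
    (hc : 2 ^ (m + 2) ≤ Nat.card C) : ∃ x ∈ C, orderOf (x⁻¹ * (t * x * t)) = 2 ^ (m + 1) ∧
      ∀ g, x⁻¹ * (g * x * g⁻¹) ∈ zpowers (x⁻¹ * (t * x * t)) ∧
        g * (x⁻¹ * (t * x * t)) * g⁻¹ ∈ zpowers (x⁻¹ * (t * x * t)) := by
  have := Fact.mk Nat.prime_two
  have hp : 0 < 2 ^ (m + 1) := by positivity
  obtain ⟨X, hX, XC, cX⟩ := exists_normal_card_eq_pow_le hQ C (b := m + 1) (by rw [pow_succ 2 (m + 1)] at hc; omega)
  obtain ⟨Y, -, -, YC, cY, -, hY⟩ := exists_normal_card_eq_mul hQ (lt_of_le_of_ne XC fun e => by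
    rw [← e, cX, pow_succ 2 (m + 1)] at hc; omega)
  have hm : ∀ g ∈ Y, ∀ h, ⁅g, h⁆ ∈ X := fun g hg h => hY (commutator_mem_commutator hg (mem_top h))
  have ti : t⁻¹ = t := inv_eq_of_mul_eq_one_right ht
  have h1 : Nat.card ((centralizer {t}).subgroupOf Y) ≤ 2 := cyc_two fun a b ha hb => Subtype.ext (Subtype.ext
    (hu _ (YC a.1.2) _ (YC b.1.2) (mem_centralizer_singleton_iff.1 a.2) (mem_centralizer_singleton_iff.1 b.2)
      (fun e => ha (Subtype.ext (Subtype.ext e))) fun e => hb (Subtype.ext (Subtype.ext e))))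
  have h2 := ((centralizer {t}).subgroupOf Y).card_mul_index
  have h3 : Function.Injective fun q : Y ⧸ (centralizer {t}).subgroupOf Y => (⟨⁅(q.out : Q), t⁆, hm _ q.out.2 t⟩ : X) :=
    fun q₁ q₂ hq => by
    have h1 : ⁅(q₁.out : Q), t⁆ = ⁅(q₂.out : Q), t⁆ := congrArg Subtype.val hq
    rw [← q₁.out_eq', ← q₂.out_eq', Quotient.eq'', QuotientGroup.leftRel_apply, mem_subgroupOf,
      mem_centralizer_singleton_iff, Subgroup.coe_mul, Subgroup.coe_inv]
    generalize (q₁.out : Q) = a at h1 ⊢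
    generalize (q₂.out : Q) = b at h1 ⊢
    rw [commutatorElement_def, commutatorElement_def, mul_left_inj] at h1
    calc a⁻¹ * b * t = a⁻¹ * (b * t * b⁻¹) * b := by group
      _ = t * (a⁻¹ * b) := by rw [← h1]; group
  have h4 : ∀ y ∈ X, ∃ g ∈ Y, y = g * (t * g⁻¹ * t) := fun y hy => by
    obtain ⟨q, hq⟩ := (h3.bijective_of_nat_card_le (by
      rw [cY] at h2
      change _ ≤ ((centralizer {t}).subgroupOf Y).index
      nlinarith)).2 ⟨y, hy⟩
    exact ⟨_, q.out.2, by rw [← show ⁅(q.out : Q), t⁆ = y from congrArg Subtype.val hq, commutatorElement_def, ti]; group⟩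
  have h5 : ∀ y ∈ X, t * y * t = y⁻¹ := fun y hy => by
    obtain ⟨g, -, rfl⟩ := h4 y hy
    simp only [mul_inv_rev, inv_inv, ti, mul_assoc, ht, mul_one]
  let _ : CommGroup X := { (inferInstance : Group X) with
    mul_comm := fun a b => Subtype.ext (inv_injective (by
      rw [coe_mul, coe_mul, ← h5 _ (mul_mem a.2 b.2), mul_inv_rev, ← h5 a a.2, ← h5 b b.2]
      calc t * (a * b) * t = t * a * (t * t) * b * t := by rw [ht]; group
        _ = _ := by group)) }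
  have h6 : IsCyclic X := isCyclic_of_card_ker_pow_prime_le fun p hp => le_trans (cyc_two fun a b ha hb => by
    have key : ∀ a : (powMonoidHom p : X →* X).ker, (a : Q) * t = t * a := fun a => by
      have e : (a : Q) * a = 1 := by
        obtain ⟨k, hk⟩ := IsPGroup.iff_orderOf.1 hQ (a : Q)
        have e1 : orderOf (a : Q) ∣ p := orderOf_dvd_of_pow_eq_one (congrArg Subtype.val (a.2 : (a : X) ^ p = 1))
        rw [← pow_two, ← orderOf_dvd_iff_pow_eq_one]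
        rcases (Nat.dvd_prime hp).1 e1 with e2 | e2
        · rw [e2]; exact one_dvd _
        · rw [e2, (Nat.Prime.pow_eq_iff hp).1 (hk.symm.trans e2) |>.1]
      have e1 := h5 a a.1.2
      rw [inv_eq_of_mul_eq_one_right e] at e1
      calc (a : Q) * t = t * a * t * t := by rw [e1]
        _ = _ := by rw [mul_assoc, ht, mul_one]
    exact Subtype.ext (Subtype.ext (hu _ (XC a.1.2) _ (XC b.1.2) (key a) (key b)
      (fun e => ha (Subtype.ext (Subtype.ext e))) fun e => hb (Subtype.ext (Subtype.ext e))))) hp.two_le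
  obtain ⟨c, hc'⟩ := IsCyclic.exists_generator (α := X)
  obtain ⟨g, hg, e⟩ := h4 c c.2
  have h7 : ∀ y ∈ X, y ∈ zpowers (c : Q) := fun y hy =>
    let ⟨k, hk⟩ := hc' ⟨y, hy⟩
    ⟨k, congrArg Subtype.val hk⟩
  refine ⟨g⁻¹, inv_mem (YC hg), ?_, fun h => ?_⟩ <;> rw [inv_inv, ← e]
  · rw [orderOf_coe, orderOf_eq_card_of_forall_mem_zpowers hc', cX]
  · refine ⟨h7 _ ?_, h7 _ (hX.conj_mem _ c.2 h)⟩
    simpa only [commutatorElement_def, mul_assoc] using hm g hg h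

theorem cyc : CycS.{u} := fun G _ _ T C N t κ m hT NC CT nN nC tT ht hf hc => by
  have hN : (N.subgroupOf T).Normal := (normal_subgroupOf_iff_le_normalizer (NC.trans CT)).2 nN
  have hC : (C.subgroupOf T).Normal := (normal_subgroupOf_iff_le_normalizer CT).2 nC
  let π := QuotientGroup.mk' (N.subgroupOf T)
  have hπ : Function.Surjective π := QuotientGroup.mk'_surjective _
  have h1 : ∀ x : T, π x = 1 ↔ (x : G) ∈ N := fun x => QuotientGroup.eq_one_iff x
  have := hC.map π hπ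
  have tt : (⟨t, tT⟩ : T) * ⟨t, tT⟩ = 1 := Subtype.ext ht
  obtain ⟨_, ⟨x, hx, rfl⟩, h2, h3⟩ := cyc_abs (hT.to_quotient _) ((C.subgroupOf T).map π) (t := π ⟨t, tT⟩)
    (by rw [← map_mul, tt, map_one]) m (by
      rintro _ ⟨x, hx, rfl⟩ _ ⟨y, hy, rfl⟩ e1 e2 x1 y1
      have key : ∀ x : T, (x : G) ∈ C → π x * π ⟨t, tT⟩ = π ⟨t, tT⟩ * π x → π x ≠ 1 → x * κ⁻¹ ∈ N := fun x hx e x1 =>
        (hf x hx ((h1 (x⁻¹ * (⟨t, tT⟩ * x * ⟨t, tT⟩))).1 (by
          rw [map_mul, map_mul, map_mul, ← e, mul_assoc (π x), ← map_mul π ⟨t, tT⟩, tt, map_one, mul_one, map_inv,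
            inv_mul_cancel]))).resolve_left fun e => x1 ((h1 x).2 e)
      rw [← mul_inv_eq_one, ← map_inv, ← map_mul, h1]
      simpa using mul_mem (key x hx e1 x1) (inv_mem (key y hy e2 y1))) (by
      have e := card_comap_of_surjective hπ ((C.subgroupOf T).map π)
      rw [comap_map_eq, QuotientGroup.ker_mk', sup_eq_left.2 (show N.subgroupOf T ≤ C.subgroupOf T from comap_mono NC),
        card_subgroupOf_of_le CT,
        card_subgroupOf_of_le (NC.trans CT)] at e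
      rw [e, mul_comm] at hc
      exact Nat.le_of_mul_le_mul_left hc Nat.card_pos)
  rw [← map_inv, ← map_mul, ← map_mul, ← map_mul] at h2 h3
  have hcC : (x : G)⁻¹ * (t * x * t) ∈ C := mul_mem (inv_mem hx) (by
    have := conj_mem (nC tT) hx
    rwa [inv_eq_of_mul_eq_one_right ht] at this)
  have h4 : ∀ k : ℕ, ((x : G)⁻¹ * (t * x * t)) ^ k ∈ N ↔ 2 ^ (m + 1) ∣ k := fun k => by
    rw [← h2, orderOf_dvd_iff_pow_eq_one, ← map_pow, h1]; rfl
  have h5 : ((x : G)⁻¹ * (t * x * t)) ^ 2 ^ m ∉ N := fun e => by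
    have := Nat.le_of_dvd (by positivity) ((h4 _).1 e)
    have h0 : 0 < 2 ^ m := by positivity
    rw [pow_succ] at this
    omega
  have h6 : ∀ y : T, π y ∈ zpowers (π (x⁻¹ * (⟨t, tT⟩ * x * ⟨t, tT⟩))) →
      ∃ j : ℕ, ∃ a ∈ N, (y : G) = ((x : G)⁻¹ * (t * x * t)) ^ j * a := fun y hy => by
    obtain ⟨j, hj⟩ := mem_powers_iff_mem_zpowers.2 hy
    refine ⟨j, _, (h1 (((x⁻¹ * (⟨t, tT⟩ * x * ⟨t, tT⟩)) ^ j)⁻¹ * y)).1 (by
      rw [map_mul, map_inv, map_pow, ← hj, inv_mul_cancel]), ?_⟩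
    simp
  refine ⟨x, hx, _, rfl, h5, (hf _ (pow_mem hcC _) ?_).resolve_left h5, (h4 _).2 dvd_rfl, fun g hg => ⟨?_, ?_⟩⟩
  · have e : t * ((x : G)⁻¹ * (t * x * t)) * t⁻¹ = ((x : G)⁻¹ * (t * x * t))⁻¹ := by
      simp only [mul_inv_rev, inv_inv, inv_eq_of_mul_eq_one_right ht, mul_assoc, ht, mul_one]
    have e2 := conj_pow (a := t) (b := (x : G)⁻¹ * (t * x * t)) (i := 2 ^ m)
    rw [e, inv_eq_of_mul_eq_one_right ht] at e2
    rw [← e2, inv_pow, ← mul_inv_rev, ← pow_add, inv_mem_iff, h4, ← mul_two, pow_succ]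
  · obtain ⟨j, a, ha, e⟩ := h6 (x⁻¹ * (⟨g, hg⟩ * x * (⟨g, hg⟩ : T)⁻¹)) (by simpa only [map_mul, map_inv] using (h3 (π ⟨g, hg⟩)).1)
    exact ⟨j, a, ha, by rw [← e]; simp⟩
  · exact h6 (⟨g, hg⟩ * (x⁻¹ * (⟨t, tT⟩ * x * ⟨t, tT⟩)) * (⟨g, hg⟩ : T)⁻¹)
      (by simpa only [map_mul, map_inv] using (h3 (π ⟨g, hg⟩)).2)

end CL.H33
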