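/-
Project H33 (S3139): `γ`, `tγ` are fused to `t` only in `C(z)`.
-/
import Cfsg.Agent.H33.Defs2

set_option autoImplicit false
set_option linter.unusedSectionVars false
open Cfsg Subgroup CL.Even CL.Grp

namespace CL.H33
open M

universe u

/-- the linear map of `𝔽₂⁴` with the images `a, b, c, d` of the basis `1, 2, 4, 8` -/
def emLin (a b c d e : Fin 16) : Fin 16 :=
  cond (e.1.testBit 0) a 0 ^^^ cond (e.1.testBit 1) b 0 ^^^ cond (e.1.testBit 2) c 0 ^^^ cond (e.1.testBit 3) d 0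
def emCl (k2 k3 : Bool) (e : Fin 16) : Bool :=
  cond (e.1.testBit 1) (cond (e.1.testBit 0) k3 k2) (e.1.testBit 0)
def emR : Fin 16 → Fin 16 := emLin 1 2 8 12
def emN (v : Fin 16) : Fin 16 → Fin 16 := emLin (1 ^^^ v) 2 4 8
def emBad (f : Fin 16 → Fin 16) : Prop := f 1 = 1 ∧ ¬ (f 2 = 2 ∧ (f 4).1 % 4 = 0)
instance (f : Fin 16 → Fin 16) : Decidable (emBad f) := by unfold emBad; infer_instance

theorem em_core : ∀ x : Fin 16, x = 2 ∨ x = 3 → ∀ k2 k3 : Bool, emCl k2 k3 x = true → ∀ c, emCl k2 k3 c = false →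
    ∀ d, emCl k2 k3 d = false → emCl k2 k3 (c ^^^ d) = false → ∀ b, emCl k2 k3 b = k2 → (∀ e, emCl k2 k3 (emLin x b c d e) = emCl k2 k3 e) → ∀ a', emLin x b c d a' = 1 → ∀ b', emLin x b c d b' = 2 →
    ∀ c', emLin x b c d c' = 4 → ∀ d', emLin x b c d d' = 8 → (c = 4 ∨ emR c = 4 ∨ emR (emR c) = 4) ∨
      ∃ v : Fin 16, v.1 % 4 = 0 ∧ (emBad (emN v ∘ (emLin x b c d ∘ emN 4 ∘ emLin a' b' c' d') ∘ emN v) ∨
        emBad ((emLin x b c d ∘ emN 4 ∘ emLin a' b' c' d') ∘ emN v ∘ emLin x b c d)) := by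
  decide +kernel

/-- the parametrisation of `E` -/
def emP (p : Ty) (e : Fin 16) : M p :=
  cond (e.1.testBit 0) (M.mt p) 1 * cond (e.1.testBit 1) (mg p) 1 * cond (e.1.testBit 2) (mz p) 1 *
    cond (e.1.testBit 3) (mw p) 1

theorem em_P : ∀ p : Ty, p.big = true → (∀ a b, emP p (a ^^^ b) = emP p a * emP p b) ∧
    (∀ a b, emP p a = emP p b → a = b) ∧ (∀ x : M p, (x.e = false ∧ x.j = false ∧ x.i = x.d) ↔ ∃ a, emP p a = x) ∧
    (∀ a, (let x := emP p a; x.e = false ∧ x.c = false ∧ x.d = false ∧ x.i = false ∧ x.j = false) ↔ a.1 % 4 = 0) ∧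
    emP p 0 = 1 ∧ emP p 1 = M.mt p ∧ emP p 2 = mg p ∧ emP p 3 = M.mt p * mg p ∧ emP p 4 = mz p ∧ emP p 8 = mw p ∧
    emP p 12 = mz p * mw p ∧ ma p * emP p 2 * (ma p)⁻¹ = emP p 6 ∧ ma p * emP p 3 * (ma p)⁻¹ = emP p 7 := by
  decide +kernel

theorem em_N : ∀ p : Ty, p.big = true → p.ws = true → p.al = false →
    ∀ e, (ms p * cond p.ep (mu p) 1) * emP p e * (ms p * cond p.ep (mu p) 1)⁻¹ = emP p (emN 4 e) := by decide +kernel

theorem em_lin : ∀ e : Fin 16, e = emLin 1 2 4 8 e ∧ emR (emR (emR e)) = e ∧ emN 8 e = emR (emN 4 (emR (emR e))) ∧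
    emN 12 e = emN 4 (emN 8 e) ∧ emN 0 e = e := by decide +kernel

theorem em_bas : ∀ a b c d : Fin 16, emLin a b c d 1 = a ∧ emLin a b c d 2 = b ∧ emLin a b c d 4 = c ∧
    emLin a b c d 8 = d ∧ emLin a b c d 12 = c ^^^ d := fun a b c d => by
  have h : ∀ a : Fin 16, a ^^^ 0 = a ∧ 0 ^^^ a = a := by decide
  have e : ∀ e : Fin 16, emLin a b c d e = cond (e.1.testBit 0) a 0 ^^^ cond (e.1.testBit 1) b 0 ^^^
    cond (e.1.testBit 2) c 0 ^^^ cond (e.1.testBit 3) d 0 := fun _ => rfl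
  refine ⟨?_, ?_, ?_, ?_, ?_⟩
  · change a ^^^ 0 ^^^ 0 ^^^ 0 = a
    simp only [h]
  · change 0 ^^^ b ^^^ 0 ^^^ 0 = b
    simp only [h]
  · change 0 ^^^ 0 ^^^ c ^^^ 0 = c
    simp only [h]
  · change 0 ^^^ 0 ^^^ 0 ^^^ d = d
    simp only [h]
  · change 0 ^^^ 0 ^^^ c ^^^ d = c ^^^ d
    simp only [h]

namespace HD
variable {G : Type u} [Group G] (S : HD G)

/-- the elements of `E` -/
def emψ (e : Fin 16) : G := S.ι (emP S.p e)
/-- `g` acts on `E` as `f` -/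
def EmAct (g : G) (f : Fin 16 → Fin 16) : Prop := ∀ e, g * S.emψ e * g⁻¹ = S.emψ (f e)

variable {S} {g h : G} {f f' : Fin 16 → Fin 16}

theorem EmAct.mul (a : S.EmAct g f) (b : S.EmAct h f') : S.EmAct (g * h) (f ∘ f') := fun e => by
  rw [show g * h * S.emψ e * (g * h)⁻¹ = g * (h * S.emψ e * h⁻¹) * g⁻¹ by group, b, a]; rfl

theorem EmAct.conj' (a : S.EmAct g f) {e e' : Fin 16} (m : f e = e') : IsConj (S.emψ e) (S.emψ e') :=
  isConj_iff.2 ⟨g, m ▸ a e⟩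

theorem EmAct.conj (a : S.EmAct g f) (e : Fin 16) : IsConj (S.emψ e) (S.emψ (f e)) := isConj_iff.2 ⟨g, a e⟩

variable (hb : S.p.big = true)
include hb

theorem em_mul (a b : Fin 16) : S.emψ (a ^^^ b) = S.emψ a * S.emψ b := by
  rw [emψ, (em_P _ hb).1, map_mul]; rfl
theorem em_inj {a b : Fin 16} (e : S.emψ a = S.emψ b) : a = b := (em_P _ hb).2.1 _ _ (S.inj e)
theorem em_memE {x : G} : x ∈ S.E ↔ ∃ a, S.emψ a = x :=
  ⟨by rintro ⟨y, hy, rfl⟩; exact (((em_P _ hb).2.2.1 y).1 hy).imp fun _ e => congrArg S.ι e,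
    by rintro ⟨a, rfl⟩; exact S.mem_map.2 (((em_P _ hb).2.2.1 _).2 ⟨a, rfl⟩)⟩
theorem em_memV {a : Fin 16} : S.emψ a ∈ S.V ↔ a.1 % 4 = 0 := S.mem_map.trans ((em_P _ hb).2.2.2.1 a)
theorem em_val : S.emψ 0 = 1 ∧ S.emψ 1 = S.t ∧ S.emψ 2 = S.γ ∧ S.emψ 3 = S.t * S.γ ∧ S.emψ 4 = S.z ∧ S.emψ 8 = S.w ∧
    S.emψ 12 = S.ι (mz S.p * mw S.p) := by
  obtain ⟨-, -, -, -, h0, h1, h2, h3, h4, h8, h12, -⟩ := em_P _ hb
  simp only [emψ, h0, h1, h2, h3, h4, h8, h12, map_one, map_mul, and_self]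

theorem em_act {a b c d : Fin 16} (h1 : g * S.emψ 1 * g⁻¹ = S.emψ a) (h2 : g * S.emψ 2 * g⁻¹ = S.emψ b)
    (h4 : g * S.emψ 4 * g⁻¹ = S.emψ c) (h8 : g * S.emψ 8 * g⁻¹ = S.emψ d) : S.EmAct g (emLin a b c d) := fun e => by
  have k : ∀ (β : Bool) {x y : Fin 16}, g * S.emψ x * g⁻¹ = S.emψ y →
      g * S.emψ (cond β x 0) * g⁻¹ = S.emψ (cond β y 0) := fun β x y m => by
    cases β
    · simp [(em_val hb).1]
    · exact m
  conv_lhs => rw [(em_lin e).1]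
  simp only [emLin, em_mul hb, ← conj_mul]
  rw [k _ h1, k _ h2, k _ h4, k _ h8]

theorem em_ex (hg : g ∈ 𝒩(S.E)) : ∃ a b c d, S.EmAct g (emLin a b c d) := by
  have k : ∀ e, ∃ a, S.emψ a = g * S.emψ e * g⁻¹ := fun e =>
    (em_memE hb).1 (conj_mem hg ((em_memE hb).2 ⟨e, rfl⟩))
  obtain ⟨a, ha⟩ := k 1
  obtain ⟨b, hb'⟩ := k 2
  obtain ⟨c, hc⟩ := k 4
  obtain ⟨d, hd⟩ := k 8
  exact ⟨a, b, c, d, em_act hb ha.symm hb'.symm hc.symm hd.symm⟩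

theorem em_rho : S.EmAct S.ρ emR := by
  obtain ⟨-, h1, h2, -, h4, h8, h12⟩ := em_val hb
  refine em_act hb ?_ (h2 ▸ S.ρg hb) (by rw [h4, h8]; exact S.ρz) (by rw [h8, h12]; exact S.ρw)
  rw [h1, mem_centralizer_singleton_iff.1 (S.LH S.ρL), mul_inv_cancel_right]

theorem em_n (hw : S.p.ws = true) (ha : S.p.al = false) (v : Fin 16) (hv : v.1 % 4 = 0) : ∃ n, S.EmAct n (emN v) := by
  have h4 : S.EmAct (S.ι (ms S.p * cond S.p.ep (mu S.p) 1)) (emN 4) := fun e => by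
    rw [emψ, ← map_inv, ← map_mul, ← map_mul, em_N _ hb hw ha]; rfl
  have r := em_rho hb
  have h8 : S.EmAct _ (emN 8) := fun e => (r.mul (h4.mul (r.mul r)) e).trans (congrArg _ (em_lin e).2.2.1.symm)
  obtain rfl | rfl | rfl | rfl : v = 0 ∨ v = 4 ∨ v = 8 ∨ v = 12 := by revert v; decide
  exacts [⟨1, fun e => by simp [(em_lin e).2.2.2.2]⟩, ⟨_, h4⟩, ⟨_, h8⟩,
    ⟨_, fun e => (h4.mul h8 e).trans (congrArg _ (em_lin e).2.2.2.1.symm)⟩]

theorem em_cl (hw : S.p.ws = true) (ha : S.p.al = false) {k2 k3 : Bool} (e2 : IsConj S.t (S.emψ 2) ↔ k2 = true)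
    (e3 : IsConj S.t (S.emψ 3) ↔ k3 = true) (e : Fin 16) : IsConj S.t (S.emψ e) ↔ emCl k2 k3 e = true := by
  obtain ⟨h0, h1, -, -, h4, -, -⟩ := em_val hb
  have r := em_rho hb
  have k : ∀ {a b : Fin 16} {P : Prop}, IsConj (S.emψ a) (S.emψ b) → (IsConj S.t (S.emψ a) ↔ P) →
      (IsConj S.t (S.emψ b) ↔ P) := fun c m => ⟨fun x => m.1 (x.trans c.symm), fun x => (m.2 x).trans c⟩
  have c0 : IsConj S.t (S.emψ 0) ↔ false = true := iff_of_false (fun m => absurd (em_inj hb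
    (h1.trans ((isConj_one_left.1 (h0 ▸ m)).trans h0.symm))) (by decide)) (by decide)
  have c1 : IsConj S.t (S.emψ 1) ↔ true = true := iff_of_true (h1 ▸ IsConj.refl _) rfl
  have c4 : IsConj S.t (S.emψ 4) ↔ false = true := iff_of_false (fun m =>
    have ⟨g, hg⟩ := isConj_iff.1 m
    S.ntz g (hg.trans h4)) (by decide)
  obtain ⟨n, hn⟩ := em_n hb hw ha 4 rfl
  have c5 : IsConj S.t (S.emψ 5) ↔ true = true := k (hn.conj' (by decide)) c1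
  obtain ⟨-, -, -, -, -, -, -, -, -, -, -, a2, a3⟩ := em_P _ hb
  have c6 : IsConj S.t (S.emψ 6) ↔ k2 = true := k (isConj_iff.2 ⟨S.ι (ma S.p), by
    rw [emψ, ← map_inv, ← map_mul, ← map_mul, a2]; rfl⟩) e2
  have c7 : IsConj S.t (S.emψ 7) ↔ k3 = true := k (isConj_iff.2 ⟨S.ι (ma S.p), by
    rw [emψ, ← map_inv, ← map_mul, ← map_mul, a3]; rfl⟩) e3
  have c8 : IsConj S.t (S.emψ 8) ↔ false = true := k (r.conj' (by decide)) c4
  have c9 : IsConj S.t (S.emψ 9) ↔ true = true := k (r.conj' (by decide)) c5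
  have c10 : IsConj S.t (S.emψ 10) ↔ k2 = true := k (r.conj' (by decide)) c6
  have c11 : IsConj S.t (S.emψ 11) ↔ k3 = true := k (r.conj' (by decide)) c7
  have c12 : IsConj S.t (S.emψ 12) ↔ false = true := k (r.conj' (by decide)) c8
  have c13 : IsConj S.t (S.emψ 13) ↔ true = true := k (r.conj' (by decide)) c9
  have c14 : IsConj S.t (S.emψ 14) ↔ k2 = true := k (r.conj' (by decide)) c10
  have c15 : IsConj S.t (S.emψ 15) ↔ k3 = true := k (r.conj' (by decide)) c11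
  obtain rfl | rfl | rfl | rfl | rfl | rfl | rfl | rfl | rfl | rfl | rfl | rfl | rfl | rfl | rfl | rfl :
    e = 0 ∨ e = 1 ∨ e = 2 ∨ e = 3 ∨ e = 4 ∨ e = 5 ∨ e = 6 ∨ e = 7 ∨ e = 8 ∨ e = 9 ∨ e = 10 ∨ e = 11 ∨ e = 12 ∨
      e = 13 ∨ e = 14 ∨ e = 15 := by revert e; decide
  exacts [c0, c1, e2, e3, c4, c5, c6, c7, c8, c9, c10, c11, c12, c13, c14, c15]

variable [Finite G]

theorem em_bad (hN : S.Ne) (a : S.EmAct g f) : ¬ emBad f := fun m => by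
  obtain ⟨-, h1, h2, -⟩ := em_val hb
  have h3 : g ∈ 𝒩(S.E) := mem_norm_of_cj_le (by
    rintro _ ⟨x, hx, rfl⟩
    obtain ⟨e, rfl⟩ := (em_memE hb).1 hx
    exact (em_memE hb).2 ⟨_, (a e).symm⟩)
  have h4 := a 1
  rw [m.1, h1] at h4
  obtain ⟨h5, h6⟩ := hN.1 g (mem_centralizer_singleton_iff.2 (mul_inv_eq_iff_eq_mul.1 h4)) h3
  refine m.2 ⟨em_inj hb (by rw [← a, h2, h5]), (em_memV hb).1 ?_⟩
  rw [← a]
  exact conj_mem h6 ((em_memV hb).2 rfl)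

end HD

open HD in
theorem em : EmS.{u} := fun G _ _ S hw ha hb hN x hx hc => by
  classical
  obtain ⟨-, h1, h2, h3, h4, -⟩ := em_val hb
  obtain ⟨X, hX, rfl⟩ : ∃ X : Fin 16, (X = 2 ∨ X = 3) ∧ S.emψ X = x := by
    rcases hx with rfl | rfl
    exacts [⟨2, .inl rfl, h2⟩, ⟨3, .inr rfl, h3⟩]
  obtain ⟨g₀, h0⟩ := isConj_iff.1 hc
  obtain ⟨g, hg, e⟩ := hN.2 g₀ (h0 ▸ (em_memE hb).2 ⟨X, rfl⟩)
  obtain ⟨a, b, c, d, A⟩ := em_ex hb hg
  obtain ⟨a', b', c', d', A'⟩ := em_ex hb (inv_mem hg)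
  obtain ⟨b1, b2, b4, b8, b12⟩ := em_bas a b c d
  obtain ⟨b1', b2', b4', b8', -⟩ := em_bas a' b' c' d'
  obtain rfl : X = a := em_inj hb (by rw [← h0, ← e, ← h1, A, b1])
  have cl := em_cl hb hw ha (decide_eq_true_iff (p := IsConj S.t (S.emψ 2))).symm
    (decide_eq_true_iff (p := IsConj S.t (S.emψ 3))).symm
  generalize decide (IsConj S.t (S.emψ 2)) = k2, decide (IsConj S.t (S.emψ 3)) = k3 at cl
  have c1 : ∀ e, emCl k2 k3 (emLin X b c d e) = emCl k2 k3 e := fun e => Bool.eq_iff_iff.2 (by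
    rw [← cl, ← cl]
    exact ⟨fun m => m.trans (A.conj e).symm, fun m => m.trans (A.conj e)⟩)
  have c2 : ∀ e, emLin X b c d (emLin a' b' c' d' e) = e := fun e => em_inj hb (by
    have := A.mul A' e
    rw [mul_inv_cancel, one_mul, inv_one, mul_one] at this
    exact this.symm)
  have r := em_rho hb
  have fin : ∀ {n f}, S.EmAct n f → f c = 4 → f X = X → ∃ k, k * S.z = S.z * k ∧ k * S.t * k⁻¹ = S.emψ X :=
    fun {n f} N m m' => ⟨n * g, mul_inv_eq_iff_eq_mul.1 (by rw [← h4, N.mul A, Function.comp, b4, m]),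
      by rw [← h1, N.mul A, Function.comp, b1, m']⟩
  have rX : emR X = X := by rcases hX with rfl | rfl <;> rfl
  obtain ⟨n4, N4⟩ := em_n hb hw ha 4 rfl
  rcases em_core X hX k2 k3 (b1 ▸ c1 1) c (b4 ▸ c1 4) d (b8 ▸ c1 8) (b12 ▸ c1 12) b (b2 ▸ c1 2) c1 a' (b1' ▸ c2 1)
    b' (b2' ▸ c2 2) c' (b4' ▸ c2 4) d' (b8' ▸ c2 8) with (m | m | m) | ⟨v, hv, m⟩
  · exact fin (n := 1) (f := id) (fun e => by simp) m rfl
  · exact fin r m rX
  · exact fin (r.mul r) m (by rw [Function.comp, rX, rX])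
  · obtain ⟨n, N⟩ := em_n hb hw ha v hv
    have M := A.mul (N4.mul A')
    exact (m.elim (em_bad hb hN (N.mul (M.mul N))) (em_bad hb hN (M.mul (N.mul A)))).elim

end CL.H33
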