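/-
Project H33 (S3139): the model of the Sylow subgroup `S` of `C(t)`.
-/
import Cfsg.Agent.H33.Defs

set_option autoImplicit false
set_option linter.unusedSectionVars false
open Cfsg Subgroup CL.Even CL.Grp

namespace CL.H33
open M

universe u v

theorem hs1_ext {K : Type*} [Group K] {p : Ty} (f g : M p →* K) (h1 : f (md p) = g (md p)) (h2 : f (mz p) = g (mz p))
    (h3 : f (mt p) = g (mt p)) (h4 : f (ms p) = g (ms p)) (h5 : f (mu p) = g (mu p)) (h6 : f (mq p) = g (mq p))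
    (h7 : f (mw p) = g (mw p)) (x : M p) : f x = g x := by
  have key : ∀ (b : Bool) (y : M p), f y = g y → f (cond b y 1) = g (cond b y 1) := fun b y h => by
    cases b <;> simp [h]
  refine (congrArg f (nf p x)).trans (Eq.trans ?_ (congrArg g (nf p x)).symm)
  simp only [map_mul, key _ _ h1, key _ _ h2, key _ _ h3, key _ _ h4, key _ _ h5, key _ _ h6, key _ _ h7]

theorem hs1_trmul : ∀ x y : M ps, tr p0 (x * y) = tr p0 x * tr p0 y := by decide +kernel

/-- the embedding of the small model -/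
def hs1_tr : M ps →* M p0 := MonoidHom.mk' (tr p0) hs1_trmul

theorem hs1_dec : ∀ x : M p0, (x.d = false → x = tr p0 (tr ps x)) ∧
    (x.d = true → x = md p0 * tr p0 (tr ps ((md p0)⁻¹ * x))) ∧ (x.c = true → (x * mt p0).c = false) ∧
    (x.c = false → (x * mt p0).c = true) := by decide +kernel

theorem hs1_q8 : ∀ a : M p0, a.c = false → a * a = 1 → a = 1 ∨ a = mz p0 ∨ ∀ b : M p0, b.c = false → b * b = mz p0 →
    a * b = b * a → ∀ c : M p0, c.c = false → c * c = mz p0 → a * c = c * a → c * b ≠ b * c * mz p0 := by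
  decide +kernel

theorem hs1_c (x y : M p0) (hx : x.c = false) (hy : y.c = false) : (x * y).c = false := by
  rw [mul_c, hx, hy]; simp [p0]

section
variable {G : Type u} [Group G] {A : Type} [Group A] {I : Subgroup A} (D : PD G A I)

/-- `φ` on `S` -/
def hs1_F : D.S →* A := D.φ.comp (inclusion D.syl.le)

/-- `ι` into `S` -/
def hs1_j : M ps →* D.S := D.ι.codRestrict D.S D.ιS

theorem hs1_Fj (x : M ps) : hs1_F D (hs1_j D x) = D.a.ψ (tr p0 x) := D.φι _ x rfl

theorem hs1_inj {x y : M p0} (hx : x.c = false) (hy : y.c = false) (h : D.a.ψ x = D.a.ψ y) : x = y := by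
  rcases (D.a.ker (x⁻¹ * y)).1 (by rw [map_mul, map_inv, h, inv_mul_cancel]) with e | e
  · exact inv_mul_eq_one.1 e
  · rw [inv_mul_eq_iff_eq_mul.1 e, (hs1_dec x).2.2.2 hx] at hy
    exact absurd hy (by decide)

theorem hs1_lift (g : D.S) : ∃ x : M p0, x.c = false ∧ hs1_F D g = D.a.ψ x := by
  obtain ⟨x, hx⟩ := D.φS ⟨g, D.syl.le g.2⟩ g.2
  cases h : x.c
  · exact ⟨x, h, hx⟩
  · exact ⟨x * mt p0, (hs1_dec x).2.2.1 h, by rw [map_mul, (D.a.ker _).2 (.inr rfl), mul_one]; exact hx⟩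

variable {D}

theorem hs1_ker (h : D.R2) {g k : D.S} (e : hs1_F D g = hs1_F D k) : (k : G) = g ∨ (k : G) = g * D.t := by
  have h1 : hs1_F D (g⁻¹ * k) = 1 := by rw [map_mul, map_inv, e, inv_mul_cancel]
  rcases h.1 _ (g⁻¹ * k).2 h1 with m | m
  · exact .inl (inv_mul_eq_one.1 m).symm
  · exact .inr (inv_mul_eq_iff_eq_mul.1 m)

theorem hs1_conj (h : D.R2) {δ : D.S} (hδ : hs1_F D δ = D.a.ψ (md p0)) {x y : M ps} (hx : x.c = false)
    (hy : (y * mt ps).c = true) (e : tr p0 y = md p0 * tr p0 x * (md p0)⁻¹) : δ * D.ι x * (δ : G)⁻¹ = D.ι y := by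
  refine (hs1_ker h (g := hs1_j D y) (k := δ * hs1_j D x * δ⁻¹) ?_).resolve_right fun m => ?_
  · simp only [map_mul, map_inv, hs1_Fj, hδ, e]
  · have h1 : δ * D.ι x * (δ : G)⁻¹ ∈ D.L := conj_mem (D.Ln (D.syl.le δ.2)) ((D.ιL x).2 hx)
    have h2 : δ * D.ι x * (δ : G)⁻¹ = D.ι (y * mt ps) := by rw [map_mul, D.ιt]; exact m
    rw [h2, D.ιL, hy] at h1
    exact absurd h1 (by decide)

theorem hs1_sq (h : D.R2) {δ : D.S} (hδ : hs1_F D δ = D.a.ψ (md p0)) : (δ : G) * δ = D.ι (mz ps) := by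
  have rel : ∀ {x y z : M ps}, x * y = z → D.ι x * D.ι y = D.ι z := fun e => by rw [← map_mul, e]
  refine (hs1_ker h (g := hs1_j D (mz ps)) (k := δ * δ) ?_).resolve_right fun m => ?_
  · rw [map_mul, hs1_Fj, hδ, ← map_mul]; exact congrArg _ (by decide +kernel)
  obtain ⟨g, hg, gt, gz⟩ := h.2.2
  let c : D.S →* D.S := ((MulAut.conj g).toMonoidHom.comp D.S.subtype).codRestrict D.S fun x => conj_mem hg x.2
  have cz : c (hs1_j D (mz ps)) = hs1_j D (mz ps) := Subtype.ext gz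
  have c1 : c δ * c δ = hs1_j D (mt ps) := by
    rw [← map_mul]
    refine Subtype.ext ?_
    change g * ((δ : G) * δ) * g⁻¹ = D.ι (mt ps)
    have m' : (δ : G) * δ = D.ι (mz ps) * D.t := m
    calc g * ((δ : G) * δ) * g⁻¹ = (g * D.ι (mz ps) * g⁻¹) * (g * D.t * g⁻¹) := by rw [m']; group
      _ = _ := by rw [gz, gt, ← D.ιt, ← map_mul, ← map_mul]; exact congrArg _ (by decide +kernel)
  have cm : ∀ x : M ps, x.c = false → (x * mt ps).c = true → tr p0 x = md p0 * tr p0 x * (md p0)⁻¹ →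
      c δ * c (hs1_j D x) = c (hs1_j D x) * c δ := fun x h1 h2 h3 => by
    rw [← map_mul, ← map_mul]
    exact congrArg c (Subtype.ext (mul_inv_eq_iff_eq_mul.1 (hs1_conj h hδ h1 h2 h3)))
  have c2 := cm (mu ps) rfl (by decide +kernel) (by decide +kernel)
  have c3 := cm (mq ps) rfl (by decide +kernel) (by decide +kernel)
  have c4 : c (hs1_j D (mu ps)) * c (hs1_j D (mu ps)) = hs1_j D (mz ps) := by
    rw [← map_mul, ← map_mul, ← cz]; exact congrArg _ (congrArg _ (by decide +kernel))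
  have c5 : c (hs1_j D (mq ps)) * c (hs1_j D (mq ps)) = hs1_j D (mz ps) := by
    rw [← map_mul, ← map_mul, ← cz]; exact congrArg _ (congrArg _ (by decide +kernel))
  have c6 : c (hs1_j D (mq ps)) * c (hs1_j D (mu ps)) =
      c (hs1_j D (mu ps)) * c (hs1_j D (mq ps)) * hs1_j D (mz ps) := by
    rw [← cz]; simp only [← map_mul]; exact congrArg _ (congrArg _ (by decide +kernel))
  generalize c δ = x0, c (hs1_j D (mu ps)) = x1, c (hs1_j D (mq ps)) = x2 at c1 c2 c3 c4 c5 c6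
  obtain ⟨a0, h0, e0⟩ := hs1_lift D x0
  obtain ⟨a1, h1, e1⟩ := hs1_lift D x1
  obtain ⟨a2, h2, e2⟩ := hs1_lift D x2
  have ez : hs1_F D (hs1_j D (mz ps)) = D.a.ψ (mz p0) := hs1_Fj D _
  have et : hs1_F D (hs1_j D (mt ps)) = D.a.ψ 1 := by
    rw [hs1_Fj, map_one]; exact (D.a.ker _).2 (.inr rfl)
  have c1' := congrArg (fun x : D.S => (x : G)) c1
  have fin : ∀ y : M ps, hs1_F D (hs1_j D y) = hs1_F D x0 → y * y = 1 → y * mt ps * (y * mt ps) = 1 → False :=
    fun y e y1 y2 => D.t1 (by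
      have c1'' : (x0 : G) * x0 = D.t := c1'.trans D.ιt
      rcases hs1_ker h e with k | k
      · have k' : (x0 : G) = D.ι y := k
        rw [← c1'', k', ← map_mul, y1, map_one]
      · have k' : (x0 : G) = D.ι (y * mt ps) := by rw [map_mul, D.ιt]; exact k
        rw [← c1'', k', ← map_mul, y2, map_one])
  rcases hs1_q8 a0 h0 (hs1_inj D (hs1_c _ _ h0 h0) rfl (by rw [map_mul, ← e0, ← map_mul, c1, et])) with k | k | k
  · exact fin 1 (by rw [e0, k, map_one, map_one, map_one]) (by decide +kernel) (by decide +kernel)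
  · exact fin (mz ps) (by rw [e0, k, ez]) (by decide +kernel) (by decide +kernel)
  · refine k a1 h1 (hs1_inj D (hs1_c _ _ h1 h1) rfl ?_) (hs1_inj D (hs1_c _ _ h0 h1) (hs1_c _ _ h1 h0) ?_) a2 h2
      (hs1_inj D (hs1_c _ _ h2 h2) rfl ?_) (hs1_inj D (hs1_c _ _ h0 h2) (hs1_c _ _ h2 h0) ?_)
      (hs1_inj D (hs1_c _ _ h2 h1) (hs1_c _ _ (hs1_c _ _ h1 h2) rfl) ?_) <;>
    simp only [map_mul, ← e0, ← e1, ← e2, ← ez] <;> simp only [← map_mul (hs1_F D), c2, c3, c4, c5, c6]

end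

theorem hs1 : Hs1S.{u} := by
  intro mk G _ _ A _ _ I D h
  by_cases hI : ∀ g : D.S, hs1_F D g ∈ I
  · refine ⟨false, D.ι, D.inj, le_antisymm (by rintro _ ⟨x, rfl⟩; exact D.ιS x) fun g hg => ?_,
      fun x => congrArg D.ι (mk'_eta x), D.φι⟩
    obtain ⟨x, -, e⟩ := hs1_lift D ⟨g, hg⟩
    have hx := (hs1_dec x).1 ((D.a.inn x).1 (e ▸ hI _))
    rcases hs1_ker h (g := hs1_j D (tr ps x)) (k := ⟨g, hg⟩) (by rw [hs1_Fj, ← hx, e]) with m | m
    · exact ⟨_, m.symm⟩
    · exact ⟨tr ps x * mt ps, (map_mul D.ι _ _).trans (by rw [D.ιt]; exact m.symm)⟩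
  obtain ⟨δ, hδ⟩ : ∃ δ : D.S, hs1_F D δ = D.a.ψ (md p0) := by
    obtain ⟨g, hg⟩ := not_forall.1 hI
    obtain ⟨x, -, e⟩ := hs1_lift D g
    have hx := (hs1_dec x).2.1 (by simpa using mt (D.a.inn x).2 (e ▸ hg))
    exact ⟨g * (hs1_j D (tr ps ((md p0)⁻¹ * x)))⁻¹, by
      rw [map_mul, map_inv, hs1_Fj, e, mul_inv_eq_iff_eq_mul, ← map_mul, ← hx]⟩
  have rel : ∀ {x y z : M ps}, x * y = z → D.ι x * D.ι y = D.ι z := fun e => by rw [← map_mul, e]
  have rel1 : ∀ {x : M ps}, x * x = 1 → D.ι x * D.ι x = 1 := fun e => by rw [← map_mul, e, map_one]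
  have rel2 : ∀ {x y : M ps}, x * y = y * x → D.ι x * D.ι y = D.ι y * D.ι x := fun e => by
    rw [← map_mul, ← map_mul, e]
  have sq := hs1_sq h hδ
  have cw := hs1_conj h hδ (x := mw ps) (y := mw ps * mz ps) rfl (by decide +kernel) (by decide +kernel)
  obtain ⟨κ, kt, kz, kd, ks, ku, kq, kw, ki⟩ := mk G p0 (D.ι (mt ps)) (D.ι (mz ps)) δ 1 (D.ι (mu ps)) (D.ι (mq ps))
    (D.ι (mw ps))
    { zz := rel1 (by decide +kernel)
      tt := rel1 (by decide +kernel)
      ss := mul_one 1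
      ww := rel1 (by decide +kernel)
      uu := rel (by decide +kernel)
      qq := rel (by decide +kernel)
      dd := fun _ => sq
      d1 := fun e => absurd e (by decide)
      s1 := fun _ => rfl
      qu := by simp only [← map_mul]; exact congrArg _ (by decide +kernel)
      tz := rel2 (by decide +kernel)
      td := by rw [D.ιt]; exact (mem_centralizer_singleton_iff.1 (D.syl.le δ.2)).symm
      tu := rel2 (by decide +kernel)
      tq := rel2 (by decide +kernel)
      tw := rel2 (by decide +kernel)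
      st := fun e => absurd e (by decide)
      sd := by simp
      su := by simp
      sq := by simp
      du := mul_inv_eq_iff_eq_mul.1 (hs1_conj h hδ rfl (by decide +kernel) (by decide +kernel))
      dq := mul_inv_eq_iff_eq_mul.1 (hs1_conj h hδ rfl (by decide +kernel) (by decide +kernel))
      wd := eq_inv_of_mul_eq_one_right (by
        calc δ * (D.ι (mw ps) * δ * D.ι (mw ps)) = (δ * D.ι (mw ps) * (δ : G)⁻¹) * ((δ : G) * δ) * D.ι (mw ps) := by group
          _ = 1 := by rw [cw, sq, ← map_mul, ← map_mul, ← map_one D.ι]; exact congrArg _ (by decide +kernel))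
      wu := by simp only [← map_mul]; exact congrArg _ (by decide +kernel)
      wq := by simp only [← map_mul]; exact congrArg _ (by decide +kernel)
      ws := fun e => absurd e (by decide) }
  have kι : ∀ x : M ps, κ (tr p0 x) = D.ι x := hs1_ext (κ.comp hs1_tr) D.ι
    ((map_one κ).trans (map_one D.ι).symm) kz kt ((map_one κ).trans (map_one D.ι).symm) ku kq kw
  have main : ∀ x : M p0, ∃ g : D.S, (g : G) = κ x ∧ hs1_F D g = D.a.ψ x := fun x => by
    cases e : x.d
    · exact ⟨hs1_j D (tr ps x), by rw [(hs1_dec x).1 e, kι, ← (hs1_dec x).1 e]; rfl, by rw [hs1_Fj, ← (hs1_dec x).1 e]⟩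
    · have hx := (hs1_dec x).2.1 e
      generalize tr ps ((md p0)⁻¹ * x) = y at hx
      exact ⟨δ * hs1_j D y, by rw [hx, map_mul, kι, kd]; rfl, by rw [hx, map_mul, map_mul, hs1_Fj, hδ]⟩
  refine ⟨true, κ, ki (fun e => absurd (D.inj (e.trans (map_one D.ι).symm)) (by decide +kernel))
    (fun e => absurd (D.inj (e.trans (map_one D.ι).symm)) (by decide +kernel))
    (fun e => absurd (D.inj e) (by decide +kernel)), le_antisymm ?_ fun g hg => ?_, kι, fun k x e => ?_⟩
  · rintro _ ⟨x, rfl⟩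
    obtain ⟨g, e, -⟩ := main x
    exact e ▸ g.2
  · obtain ⟨x, -, e⟩ := hs1_lift D ⟨g, hg⟩
    obtain ⟨k, e1, e2⟩ := main x
    rcases hs1_ker h (e2.trans e.symm) with m | m
    · exact ⟨x, (m.trans e1).symm⟩
    · exact ⟨x * mt p0, (map_mul κ _ _).trans (by rw [kt, D.ιt, ← e1]; exact m.symm)⟩
  · obtain ⟨g, e1, e2⟩ := main x
    rw [show tr p0 x = x from mk'_eta x, ← e2]
    exact congrArg D.φ (Subtype.ext (e.trans e1.symm))

end CL.H33
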