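/-
Project H33 (S3139): the local data `HD` from the adapted Sylow subgroup.
-/
import Cfsg.Agent.H33.Defs
import Cfsg.Agent.Grp.PNilp
import Cfsg.Agent.Loc.PConstr

set_option autoImplicit false
set_option linter.unusedSectionVars false
open Cfsg Subgroup CL.Even CL.Grp

namespace CL.H33
open M

universe u v

/-- the models without `s` -/
abbrev hs2p (b : Bool) : Ty := ⟨b, false, false, false⟩

theorem hs2_f1 : ∀ (b : Bool) (x : M (hs2p b)), x.e = false ∧ (tr p0 x).d = x.d ∧ (b = false → x.d = false) ∧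
    (tr p0 x = 1 ∨ tr p0 x = mt p0 → x = 1 ∨ x = M.mt _) ∧
    (x.d = false → x.c = true → (M.mt _ * x).d = false ∧ (M.mt _ * x).c = false) ∧
    (x.d = false → tr (hs2p b) (tr ps x) = x ∧ (tr ps x).c = x.c) ∧
    (x.i = x.d ∧ x.j = false → (M.mt _ * x).i = (M.mt _ * x).d ∧ (M.mt _ * x).j = false) := by decide +kernel

theorem hs2_f2 : ∀ (b : Bool) (x : M p0), (x.d = true → b = true) → tr p0 (tr (hs2p b) x) = x ∧
    (x.i = x.d ∧ x.j = false → (tr (hs2p b) x).i = (tr (hs2p b) x).d ∧ (tr (hs2p b) x).j = false) := by decide +kernel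

theorem hs2_f3 : ∀ b : Bool, mt (hs2p b) * M.mt _ = 1 ∧ mt (hs2p b) ≠ 1 ∧ tr p0 (mt (hs2p b)) = mt p0 ∧
    tr p0 (mz (hs2p b)) = mz p0 ∧ tr p0 (mw (hs2p b)) = mw p0 ∧ tr p0 (mu (hs2p b)) = mu p0 ∧
    tr p0 (mq (hs2p b)) = mq p0 ∧ tr p0 (mw' (hs2p b)) = mw' p0 ∧
    (tr p0 (md (hs2p b)) = md p0 ∨ tr p0 (md (hs2p b)) = 1) ∧
    (tr p0 (cond b (mg (hs2p b)) 1) = mg p0 ∨ tr p0 (cond b (mg (hs2p b)) 1) = 1) ∧
    (b = true → mg (hs2p b) * mg _ = 1 ∧ (mg (hs2p b)).d = true) ∧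
    (∀ x ∈ [mz (hs2p b), mw _, mu _, mq _, mw' _], x.d = false ∧ x.c = false) ∧ ms (hs2p b) = 1 ∧
    tr (hs2p b) (mt ps) = M.mt _ ∧ tr (hs2p b) (mz ps) = mz _ := by decide +kernel

/-- the situation inside `H = C(t)` -/
structure Hs2C {H : Type u} [Group H] {A : Type} [Group A] {I : Subgroup A} (a : AM A I) {b : Bool}
    (κ : M (hs2p b) →* H) (φ : H →* A) (L : Subgroup H) : Prop where
  inj : Function.Injective κ
  syl : IsSylowIn 2 κ.range ⊤
  cen : ∀ g, κ (M.mt _) * g = g * κ (M.mt _)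
  φκ : ∀ x, φ (κ x) = a.ψ (tr p0 x)
  nL : L.Normal
  LI : ∀ h ∈ L, φ h ∈ I
  IL : ∀ c ∈ I, ∃ h ∈ L, φ h = c
  odd : ∀ h ∈ L, φ h = 1 → Odd (orderOf h)
  ιL : ∀ x, x.d = false → x.c = false → κ x ∈ L

/-- `O²` of the kernel -/
abbrev hs2O {H : Type u} [Group H] {A : Type} [Group A] (φ : H →* A) : Subgroup H := pResidualOf 2 φ.ker

instance hs2_normal {H : Type u} [Group H] {A : Type} [Group A] (φ : H →* A) : (hs2O φ).Normal :=
  normalizer_eq_top_iff.1 (top_le_iff.1 (le_norm_res le_normalizer_of_normal))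

namespace Hs2C

variable {H : Type u} [Group H] [Finite H] {A : Type} [Group A] {I : Subgroup A} {a : AM A I} {b : Bool}
  {κ : M (hs2p b) →* H} {φ : H →* A} {L : Subgroup H} (c : Hs2C a κ φ L)
include c

theorem tt : κ (M.mt _) * κ (M.mt _) = 1 := by rw [← map_mul, (hs2_f3 b).1, map_one]

theorem t1 : κ (M.mt _) ≠ 1 := fun e => (hs2_f3 b).2.1 (c.inj (e.trans (map_one κ).symm))

theorem φt : φ (κ (M.mt _)) = 1 := by rw [c.φκ, (hs2_f3 b).2.2.1, a.ker]; exact .inr rfl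

theorem ks {g : H} (h : g ∈ κ.range) (e : φ g = 1) : g = 1 ∨ g = κ (M.mt _) := by
  obtain ⟨x, rfl⟩ := h
  rw [c.φκ, a.ker] at e
  exact ((hs2_f1 b x).2.2.2.1 e).imp (fun e => by rw [e, map_one]) fun e => by rw [e]

theorem sylK : IsSylowIn 2 (κ.range ⊓ φ.ker) φ.ker := c.syl.inf_of_normalized le_top le_normalizer_of_normal

theorem cop : (Nat.card (hs2O φ)).Coprime 2 := by
  rw [hs2O, ← res_def, card_map_of_injective φ.ker.subtype_injective]
  refine hasNormalPComplement_iff_coprime_pResidual.1 (hasNormalPComplement_of_sylow_le_center c.sylK.toSylow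
    fun g hg => mem_center_iff.2 fun h => Subtype.ext ?_)
  rcases c.ks (g := g) hg.1 hg.2 with e | e <;> simp only [coe_mul, e]
  exacts [(mul_one _).trans (one_mul _).symm, (c.cen _).symm]

theorem kO {k : H} (h : φ k = 1) : k ∈ hs2O φ ∨ κ (M.mt _) * k ∈ hs2O φ := by
  obtain ⟨r, hr, s, hs, rfl⟩ := exists_res_mul_syl c.sylK h
  rcases c.ks hs.1 hs.2 with rfl | rfl
  · exact .inl (by rwa [mul_one])
  · exact .inr (by rwa [← c.cen, ← mul_assoc, c.tt, one_mul])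

theorem φO {o : H} (h : o ∈ hs2O φ) : φ o = 1 := res_le φ.ker h

theorem oddO {o : H} (h : o ∈ hs2O φ) : (orderOf o).Coprime 2 := c.cop.coprime_dvd_left (orderOf_dvd_natCard _ h)

theorem tL : κ (M.mt _) ∉ L ⊔ hs2O φ := fun h => by
  obtain ⟨l, hl, o, ho, e⟩ := (mem_sup_nr le_normalizer_of_normal).1 h
  have h1 : φ l = 1 := by simpa [c.φO ho, c.φt] using congrArg φ e
  have h2 : Commute l o := by
    have := c.cen o
    rw [← e, ← mul_assoc] at this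
    exact mul_right_cancel this
  refine c.t1 (Even.eq_one_of_coprime_of_pow (p := 2) (k := 1) ?_ (by rw [pow_one, pow_two, c.tt]))
  rw [← e]
  exact (Nat.Coprime.mul_left (Nat.coprime_two_right.2 (c.odd l hl h1)) (c.oddO ho)).coprime_dvd_left
    h2.orderOf_mul_dvd_mul_orderOf

theorem kL {k : H} (h : k ∈ L ⊔ hs2O φ) (e : φ k = 1) : k ∈ hs2O φ :=
  (c.kO e).resolve_right fun h' => c.tL ((mul_mem_cancel_right h).1 (mem_sup_right h'))

theorem LI' {h : H} (hh : h ∈ L ⊔ hs2O φ) : φ h ∈ I :=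
  (sup_le (c.LI) (fun _ ho => by rw [mem_comap, c.φO ho]; exact one_mem _) : L ⊔ hs2O φ ≤ I.comap φ) hh

theorem ιL' (x : M (hs2p b)) : κ x ∈ L ⊔ hs2O φ ↔ x.d = false ∧ x.c = false := by
  refine ⟨fun h => ?_, fun h => mem_sup_left (c.ιL x h.1 h.2)⟩
  have h1 := c.LI' h
  rw [c.φκ, a.inn, (hs2_f1 b x).2.1] at h1
  refine ⟨h1, ?_⟩
  by_contra h2
  obtain ⟨h3, h4⟩ := (hs2_f1 b x).2.2.2.2.1 h1 (by simpa using h2)
  have := mem_sup_left (T := hs2O φ) (c.ιL _ h3 h4)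
  rw [map_mul] at this
  exact c.tL ((mul_mem_cancel_right h).1 this)

theorem inner {h : H} (hh : φ h ∈ I) : h ∈ L ⊔ hs2O φ ∨ κ (M.mt _) * h ∈ L ⊔ hs2O φ := by
  obtain ⟨l, hl, e⟩ := c.IL _ hh
  rcases c.kO (k := h * l⁻¹) (by rw [map_mul, map_inv, e, mul_inv_cancel]) with k | k
  · exact .inl ((mul_mem_cancel_right (inv_mem (mem_sup_left hl))).1 (mem_sup_right k))
  · exact .inr ((mul_mem_cancel_right (inv_mem (mem_sup_left hl))).1 (mem_sup_right (by rwa [mul_assoc])))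

theorem big {h : H} (hh : φ h ∉ I) : b = true := by
  by_contra hb
  refine c.syl.not_dvd_relIndex_of_le (K := I.comap φ) ?_ le_top ?_
  · rintro _ ⟨x, rfl⟩
    rw [mem_comap, c.φκ, a.inn, (hs2_f1 b x).2.1]
    exact (hs2_f1 b x).2.2.1 (by simpa using hb)
  · rw [relIndex_top_right, index_eq_two_iff.2 ⟨h, fun g => ?_⟩]
    simp only [mem_comap, map_mul]
    by_cases k : φ g ∈ I
    · exact .inr ⟨k, fun k' => hh ((mul_mem_cancel_left k).1 k')⟩
    · exact .inl ⟨a.iI _ _ k hh, k⟩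

theorem sq (h : H) : h * h ∈ L ⊔ hs2O φ := by
  have := c.nL
  have k : ∀ γ h : H, γ * γ = 1 → φ (h * γ) ∈ I → h * h ∈ L ⊔ hs2O φ := fun γ h g2 hh => by
    have e : ∀ l : H, l * γ * (γ * (l * γ) * γ⁻¹) = l * l := fun l => by
      calc _ = l * (γ * γ) * l := by group
        _ = _ := by rw [g2, mul_one]
    rcases c.inner hh with k | k
    · exact e h ▸ mul_mem k (Normal.conj_mem inferInstance _ k γ)
    · rw [← mul_assoc] at k
      have := e _ ▸ mul_mem k (Normal.conj_mem inferInstance _ k γ)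
      rwa [← mul_assoc, mul_assoc _ h, ← c.cen, ← mul_assoc, c.tt, one_mul] at this
  by_cases hh : φ h ∈ I
  · exact k 1 h (one_mul 1) (by rwa [mul_one])
  · obtain ⟨g1, g2⟩ := (hs2_f3 b).2.2.2.2.2.2.2.2.2.2.1 (c.big hh)
    refine k (κ (mg _)) h (by rw [← map_mul, g1, map_one]) (by
      rw [map_mul]; exact a.iI _ _ hh (by rw [c.φκ, a.inn, (hs2_f1 b _).2.1, g2]; decide))

/-- an inner element of order three lifts to an element acting in the same way -/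
theorem adjust {σ : A} (hσ : σ ∈ I) (σ3 : σ ^ 3 = 1) {x y z : M (hs2p b)} (hx : κ x ∈ L ⊔ hs2O φ)
    (hy : κ y ∈ L ⊔ hs2O φ) (h1 : σ * φ (κ x) * σ⁻¹ = φ (κ y)) (h2 : σ * φ (κ y) * σ⁻¹ = φ (κ (x * y)))
    (h3 : σ * φ (κ z) * σ⁻¹ = φ (κ z)) : ∃ r ∈ L ⊔ hs2O φ, φ r = σ ∧ r * κ x * r⁻¹ = κ y ∧
      r * κ y * r⁻¹ = κ (x * y) ∧ r * κ z * r⁻¹ = κ z := by
  have := c.nL
  obtain ⟨r, hr, rfl⟩ := c.IL σ hσ
  set B := (closure {M.mt _, x, y, z}).map κ with hB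
  have BS : B ≤ κ.range := map_le_range _ _
  have m : ∀ {v}, v ∈ ({M.mt _, x, y, z} : Set (M (hs2p b))) → κ v ∈ B := fun h => mem_map_of_mem _ (subset_closure h)
  have mt' := m (v := M.mt _) (by simp)
  have mx := m (v := x) (by simp)
  have my := m (v := y) (by simp)
  have mz := m (v := z) (by simp)
  have mxy : κ (x * y) ∈ B := map_mul κ x y ▸ mul_mem mx my
  have key : ∀ {g g' : H}, g' ∈ B → φ r * φ g * (φ r)⁻¹ = φ g' → r * g * r⁻¹ ∈ B ⊔ hs2O φ := fun {g g'} h e => by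
    refine (mul_mem_cancel_right (inv_mem (mem_sup_left h))).1 ?_
    rcases c.kO (k := r * g * r⁻¹ * g'⁻¹) (by simp [e]) with k | k
    · exact mem_sup_right k
    · exact (mul_mem_cancel_left (mem_sup_left mt')).1 (mem_sup_right k)
  have rn : r ∈ 𝒩(B ⊔ hs2O φ) := mem_norm_of_cj_le (by
    rw [cj_sup, cj_eq (H := hs2O φ) (le_normalizer_of_normal (K := ⊤) trivial)]
    refine sup_le ?_ le_sup_right
    conv_lhs => rw [hB, MonoidHom.map_closure, MonoidHom.map_closure]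
    refine (closure_le _).2 ?_
    rintro _ ⟨_, ⟨_, rfl | rfl | rfl | rfl, rfl⟩, rfl⟩
    exacts [key mt' (by simp [c.φt]), key my h1, key mxy h2, key mz h3])
  obtain ⟨n, hn, e⟩ := (Loc.isSylowIn_sup_of_coprime le_normalizer_of_normal (c.syl.isPGroup.to_le BS) c.cop).frattini
    le_rfl rn
  obtain ⟨β, hβ, o, ho, rfl⟩ := (mem_sup_nr le_normalizer_of_normal).1 hn
  rw [mul_assoc, mul_mem_cancel_left (le_normalizer hβ)] at e
  have rL : o * r ∈ L ⊔ hs2O φ := mul_mem (mem_sup_right ho) (mem_sup_left hr)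
  have eφ : φ (o * r) = φ r := by rw [map_mul, c.φO ho, one_mul]
  rw [← eφ] at h1 h2 h3 σ3 ⊢
  generalize o * r = s at *
  have alt : ∀ {g g' : H}, g ∈ B → g' ∈ B → φ s * φ g * (φ s)⁻¹ = φ g' →
      s * g * s⁻¹ * g'⁻¹ = 1 ∨ s * g * s⁻¹ * g'⁻¹ = κ (M.mt _) := fun h h' k =>
    c.ks (BS (mul_mem (conj_mem e h) (inv_mem h'))) (by simp [k])
  have alt' : ∀ {g g' : H}, g ∈ B → g' ∈ B → g ∈ L ⊔ hs2O φ → g' ∈ L ⊔ hs2O φ → φ s * φ g * (φ s)⁻¹ = φ g' →
      s * g * s⁻¹ = g' := fun h h' l l' k => mul_inv_eq_one.1 ((alt h h' k).resolve_right fun k' =>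
    c.tL (k' ▸ mul_mem (mul_mem (mul_mem rL l) (inv_mem rL)) (inv_mem l')))
  refine ⟨s, rL, rfl, alt' mx my hx hy h1, alt' my mxy hy (map_mul κ x y ▸ mul_mem hx hy) h2, ?_⟩
  rcases alt mz mz h3 with k | k
  · exact mul_inv_eq_one.1 k
  rw [mul_inv_eq_iff_eq_mul] at k
  have s2 : s ^ 2 ∈ centralizer {κ z} := mem_centralizer_singleton_iff.2 (by
    calc s ^ 2 * κ z = s * (s * κ z * s⁻¹) * s := by rw [pow_two]; group
      _ = κ (M.mt _) * (s * κ z * s⁻¹) * s ^ 2 := by rw [k, ← mul_assoc s, ← c.cen s, pow_two, ← k]; group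
      _ = _ := by rw [k, ← mul_assoc, c.tt, one_mul])
  have s3 := c.oddO (c.kL (pow_mem rL 3) (by rw [map_pow, σ3]))
  have so : (orderOf s).Coprime 2 := (Nat.Coprime.mul_left (by decide : Nat.Coprime 3 2) s3).coprime_dvd_left
    (orderOf_dvd_of_pow_eq_one (by rw [pow_mul, pow_orderOf_eq_one]))
  rw [mem_centralizer_singleton_iff.1 (mem_of_pow_mem_of_coprime so s2), mul_inv_cancel_right]

/-- lifting a factorisation -/
theorem lift {h r : H} {x : M p0} (hr : φ r ∈ I) (e : φ h = a.ψ x * φ r) :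
    (x.d = true → b = true) ∧ ∃ o ∈ hs2O φ, h = o * κ (tr _ x) * r ∨ h = o * κ (M.mt _ * tr _ x) * r := by
  have hb : x.d = true → b = true := fun hx => c.big (h := h) fun k => by
    rw [e, mul_mem_cancel_right hr, a.inn, hx] at k
    cases k
  refine ⟨hb, ?_⟩
  rcases c.kO (k := h * (κ (tr _ x) * r)⁻¹) (by
    rw [map_mul, map_inv, map_mul, c.φκ, (hs2_f2 b x hb).1, e, mul_inv_cancel]) with k | k
  · exact ⟨_, k, .inl (by group)⟩
  · refine ⟨_, k, .inr ?_⟩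
    rw [map_mul, ← mul_assoc, ← c.cen, ← mul_assoc, ← mul_assoc, c.tt]
    group

end Hs2C

theorem hs2 : Hs2S.{u} := by
  intro G _ _ A _ _ I D ⟨_, r2, g0, _, r3, r4⟩ ⟨b, κ, inj, rg, κι, φκ⟩
  obtain ⟨-, -, -, fz, fw, fu, fq, fw', fd, fg, -, fL, fs, ft, fz'⟩ := hs2_f3 b
  have ht : κ (M.mt _) = D.t := by rw [← ft, κι, D.ιt]
  have hz : κ (mz _) = D.ι (mz ps) := by rw [← fz', κι]
  have mC : ∀ x, κ x ∈ centralizer {D.t} := fun x => D.syl.le (rg ▸ ⟨x, rfl⟩)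
  let κ' : M (hs2p b) →* centralizer ({D.t} : Set G) := κ.codRestrict _ mC
  have c : Hs2C D.a κ' D.φ (D.L.subgroupOf _) :=
    { inj := fun x y e => inj (congrArg Subtype.val e)
      syl := by
        have : κ'.range = D.syl.toSylow := Subgroup.ext fun g => by
          rw [IsSylowIn.coe_toSylow, mem_subgroupOf, ← rg]
          exact exists_congr fun x => Subtype.ext_iff
        exact this ▸ isSylowIn_top _
      cen := fun g => Subtype.ext (by
        show κ _ * g = g * κ _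
        rw [ht, mem_centralizer_singleton_iff.1 g.2])
      φκ := fun x => φκ _ x rfl
      nL := normal_subgroupOf_of_le_normalizer' D.Ln
      LI := D.LI
      IL := D.IL
      odd := fun h hh e => Subgroup.orderOf_coe h ▸ D.odd h hh e
      ιL := fun x h1 h2 => by
        obtain ⟨e1, e2⟩ := (hs2_f1 b x).2.2.2.2.2.1 h1
        show κ x ∈ D.L
        rw [← e1, κι, D.ιL, e2, h2] }
  have := c.nL
  have mL : ∀ x ∈ [mz (hs2p b), mw _, mu _, mq _, mw' _], κ' x ∈ D.L.subgroupOf _ ⊔ hs2O D.φ := fun x hx =>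
    (c.ιL' x).2 (fL x hx)
  obtain ⟨ρ, ρL, eρ, ρ1, ρ2, ρ3⟩ := c.adjust D.a.ρI D.a.ρ3 (z := cond b (mg _) 1) (mL (mz _) (by simp))
    (mL (mw _) (by simp)) (by rw [c.φκ, c.φκ, fz, fw, D.a.ρz])
    (by rw [map_mul, map_mul, c.φκ, c.φκ, fz, fw, D.a.ρw, map_mul])
    (by rw [c.φκ]; rcases fg with e | e <;> rw [e]; exacts [D.a.ρg, by simp])
  obtain ⟨σ, σL, eσ, σ1, σ2, σ3⟩ := c.adjust D.a.ρ0I D.a.ρ03 (z := md _) (mL (mu _) (by simp))
    (mL (mq _) (by simp)) (by rw [c.φκ, c.φκ, fu, fq, D.a.ρ0u])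
    (by rw [map_mul, map_mul, c.φκ, c.φκ, fu, fq, D.a.ρ0q, map_mul])
    (by rw [c.φκ]; rcases fd with e | e <;> rw [e]; exacts [D.a.ρ0d, by simp])
  have cm : ∀ {h : G} (hh : h ∈ centralizer {D.t}) (x), h * κ x = κ x * h →
      D.φ ⟨h, hh⟩ * D.a.ψ (tr p0 x) = D.a.ψ (tr p0 x) * D.φ ⟨h, hh⟩ := fun hh x e => by
    rw [← c.φκ, ← map_mul, ← map_mul]; exact congrArg D.φ (Subtype.ext e)
  have w' := mL (mw' _) (by simp)
  refine ⟨{
    p := hs2p b
    ι := κ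
    O := (hs2O D.φ).map (centralizer ({D.t} : Set G)).subtype
    L := (D.L.subgroupOf _ ⊔ hs2O D.φ).map (centralizer ({D.t} : Set G)).subtype
    ρ := ρ
    ρ0 := σ
    inj := inj
    alb := fun h => by cases h
    oddO := by rw [card_map_of_injective (Subgroup.subtype_injective _)]; exact Nat.coprime_two_right.1 c.cop
    OL := map_mono le_sup_right
    LH := by rw [ht]; exact map_subtype_le _
    On := by rw [ht]; exact le_normalizer_map_subtype _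
    Ln := by rw [ht]; exact le_normalizer_map_subtype _
    sqL := by rw [ht]; exact fun h hh => ⟨_, c.sq ⟨h, hh⟩, rfl⟩
    ιL := fun x _ => (mem_map_iff_mem (x := κ' x) (Subgroup.subtype_injective _)).trans (c.ιL' x)
    sylS := by
      rw [ht, show sS (hs2p b) = ⊤ from eq_top_iff.2 fun x _ => (hs2_f1 b x).1, ← MonoidHom.range_eq_map, rg]
      exact D.syl
    syl1 := fun h => by cases h
    ρL := ⟨_, ρL, rfl⟩
    ρ0L := ⟨_, σL, rfl⟩
    ρz := congrArg Subtype.val ρ1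
    ρw := congrArg Subtype.val ρ2
    ρg := fun h => by obtain rfl : b = true := h; exact congrArg Subtype.val ρ3
    ρ3 := ⟨_, c.kL (pow_mem ρL 3) (by rw [map_pow, eρ, D.a.ρ3]), rfl⟩
    ρi := ⟨_, c.kL (pow_mem (mul_mem w' ρL) 2) (by rw [map_pow, map_mul, c.φκ, fw', eρ, D.a.ρi]), rfl⟩
    ρ0u := congrArg Subtype.val σ1
    ρ0q := congrArg Subtype.val σ2
    ρ0d := congrArg Subtype.val σ3
    ρ0s := by rw [fs, map_one, mul_one, mul_inv_cancel]
    ρ03 := ⟨_, c.kL (pow_mem σL 3) (by rw [map_pow, eσ, D.a.ρ03]), rfl⟩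
    ρ0i := ⟨_, c.kL (pow_mem (mul_mem w' σL) 2) (by rw [map_pow, map_mul, c.φκ, fw', eσ, D.a.ρ0i]), rfl⟩
    cz := ?_
    cV := ?_
    tz := ⟨g0, by rw [map_mul, ht, hz, r3], by rw [hz, r4]⟩
    ntz := by rw [ht, hz]; exact r2 }, rfl⟩
  · rw [ht]
    intro h hh e
    obtain ⟨x, i, ex⟩ := D.a.cz _ (fz ▸ cm hh _ e)
    obtain ⟨-, o, ho, k | k⟩ := c.lift (r := σ ^ i) (x := x) (c.LI' (pow_mem σL i)) (by rw [ex, map_pow, eσ])
    all_goals exact ⟨_, ⟨o, ho, rfl⟩, _, (hs2_f1 b _).1, i, congrArg Subtype.val k⟩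
  · rw [ht]
    intro h hh e e'
    obtain ⟨x, x1, x2, ex⟩ := D.a.cV _ (fz ▸ cm hh _ e) (fw ▸ cm hh _ e')
    obtain ⟨hb, o, ho, k⟩ := c.lift (r := 1) (x := x) (c.LI' (one_mem _)) (by rw [ex, map_one, mul_one])
    have k1 := (hs2_f2 b x hb).2 ⟨x1, x2⟩
    have k2 := (hs2_f1 b _).2.2.2.2.2.2 k1
    rw [mul_one, mul_one] at k
    rcases k with k | k
    · exact ⟨_, ⟨o, ho, rfl⟩, _, (hs2_f1 b _).1, k1.1, k1.2, congrArg Subtype.val k⟩
    · exact ⟨_, ⟨o, ho, rfl⟩, _, (hs2_f1 b _).1, k2.1, k2.2, congrArg Subtype.val k⟩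

end CL.H33
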