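/-
Project H33 (S3139): the model is presented by the relations `Rel`.
-/
import Cfsg.Agent.H33.Defs
import Cfsg.Agent.Grp.PGroupBasic

set_option autoImplicit false
set_option linter.unusedSectionVars false
open Cfsg Subgroup CL.Even CL.Grp

namespace CL.H33
open M

universe u v

/-- the coordinates -/
def mkBits {p : Ty} (x : M p) : Bool × Bool × Bool × Bool × Bool × Bool × Bool := (x.d, x.z, x.c, x.e, x.i, x.j, x.k)

set_option synthInstance.maxSize 4000 in
theorem mk_bits : ∀ (p : Ty) (x : M p),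
    mkBits (mz p * x) = (x.d, !x.z, x.c, x.e, x.i, x.j, x.k) ∧
    (p.big = true → mkBits (md p * x) = (!x.d, x.z ^^ x.d, x.c, x.e, x.i, x.j, x.k)) ∧
    mkBits (mt p * x) = (x.d, x.z, !x.c, x.e, x.i, x.j, x.k) ∧
    (p.ws = true → mkBits (ms p * x) = (x.d, x.z ^^ x.c, x.c, !x.e, x.i, x.j, x.k)) ∧
    mkBits (mu p * x) = (x.d, x.z ^^ x.i, x.c, x.e, !x.i, x.j, x.k) ∧
    mkBits (mq p * x) = (x.d, x.z ^^ x.i ^^ x.j, x.c, x.e, x.i, !x.j, x.k) := by decide +kernel

theorem mk_gen : ∀ p : Ty, (p.big = false → md p = 1) ∧ (p.ws = false → ms p = 1) ∧ mw p * mw p = 1 ∧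
    mw p * mz p * mw p = mz p ∧ mw p * md p * mw p * md p = 1 ∧ mw p * mt p * mw p = mt p ∧
    (p.ws = true → mw p * ms p * mw p =
      cond (p.al && p.big) (md p) 1 * cond p.ep (mz p) 1 * cond (p.al && p.big) (mt p) 1 * ms p) ∧
    mw p * mu p * mw p = mu p * mz p ∧ mw p * mq p * mw p = mu p * mq p := by decide +kernel

theorem mk_cen : ∀ (p : Ty) (x : M p), md p * x = x * md p → mt p * x = x * mt p → ms p * x = x * ms p →
    mu p * x = x * mu p → mq p * x = x * mq p → mw p * x = x * mw p → x = 1 ∨ x = mz p ∨ x = mt p ∨ x = mt p * mz p := by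
  decide +kernel

section
variable {G : Type u} [Group G] {p : Ty} {t z δ s u q w : G}

/-- the word with given exponents -/
def mkW (t z δ s u q w : G) (b : Bool × Bool × Bool × Bool × Bool × Bool × Bool) : G :=
  cond b.2.1 z 1 * (cond b.1 δ 1 * (cond b.2.2.1 t 1 * (cond b.2.2.2.1 s 1 * (cond b.2.2.2.2.1 u 1 *
    (cond b.2.2.2.2.2.1 q 1 * cond b.2.2.2.2.2.2 w 1)))))

theorem mk_sw {a b : G} (h : a * b = b * a) (r : G) : a * (b * r) = b * (a * r) := by
  rw [← mul_assoc, h, mul_assoc]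

theorem mk_swc {a b : G} (h : a * b = b * a) (c : Bool) (r : G) : a * (cond c b 1 * r) = cond c b 1 * (a * r) := by
  cases c
  · simp
  · exact mk_sw h r

theorem mk_swz {a b : G} (h : a * b = b * a) (c : Bool) (r : G) : cond c a 1 * (b * r) = b * (cond c a 1 * r) :=
  (mk_swc h.symm c r).symm

theorem mk_left (R : Rel p t z δ s u q w) (x : M p) :
    mkW t z δ s u q w (mkBits (mz p * x)) = z * mkW t z δ s u q w (mkBits x) ∧
    (p.big = true → mkW t z δ s u q w (mkBits (md p * x)) = δ * mkW t z δ s u q w (mkBits x)) ∧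
    mkW t z δ s u q w (mkBits (mt p * x)) = t * mkW t z δ s u q w (mkBits x) ∧
    (p.ws = true → mkW t z δ s u q w (mkBits (ms p * x)) = s * mkW t z δ s u q w (mkBits x)) ∧
    mkW t z δ s u q w (mkBits (mu p * x)) = u * mkW t z δ s u q w (mkBits x) ∧
    mkW t z δ s u q w (mkBits (mq p * x)) = q * mkW t z δ s u q w (mkBits x) := by
  obtain ⟨h1, h2, h3, h4, h5, h6⟩ := mk_bits p x
  have dz : δ * z = z * δ := by rw [← R.uu, ← mul_assoc, R.du, mul_assoc, R.du, mul_assoc]
  have sz : s * z = z * s := by rw [← R.uu, ← mul_assoc, R.su, mul_assoc, R.su, mul_assoc]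
  have uz : u * z = z * u := by rw [← R.uu, mul_assoc]
  have qz : q * z = z * q := by rw [← R.qq, mul_assoc]
  have sq2 : ∀ {a b : G}, a * a = b → ∀ r, a * (a * r) = b * r := fun h r => by rw [← mul_assoc, h]
  have zz := sq2 R.zz
  refine ⟨?_, fun hb => ?_, ?_, fun hb => ?_, ?_, ?_⟩
  · rw [h1]; simp only [mkW, mkBits]; cases x.z <;> simp [zz]
  · rw [h2 hb]; simp only [mkW, mkBits, mk_swc dz]
    cases x.z <;> cases x.d <;> simp [zz, sq2 (R.dd hb)]
  · rw [h3]; simp only [mkW, mkBits, mk_swc R.tz, mk_swc R.td]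
    cases x.c <;> simp [sq2 R.tt]
  · have st : ∀ r, s * (t * r) = z * (t * (s * r)) := fun r => by
      rw [← mul_assoc, R.st hb, mul_assoc, mul_assoc, mk_sw sz, mk_sw R.tz]
    rw [h4 hb]; simp only [mkW, mkBits, mk_swc sz, mk_swc R.sd]
    cases x.z <;> cases x.c <;> cases x.e <;> simp [zz, sq2 R.ss, st, mk_swz dz]
  · rw [h5]; simp only [mkW, mkBits, mk_swc uz, mk_swc R.du.symm, mk_swc R.tu.symm, mk_swc R.su.symm]
    cases x.z <;> cases x.i <;> simp [zz, sq2 R.uu, mk_swz dz, mk_swz R.tz, mk_swz sz]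
  · have qu : ∀ r, q * (u * r) = z * (u * (q * r)) := fun r => by
      rw [← mul_assoc, R.qu, mul_assoc, mul_assoc, mk_sw qz, mk_sw uz]
    rw [h6]; simp only [mkW, mkBits, mk_swc qz, mk_swc R.dq.symm, mk_swc R.tq.symm, mk_swc R.sq.symm]
    cases x.z <;> cases x.i <;> cases x.j <;>
      simp [zz, sq2 R.qq, qu, mk_swz dz, mk_swz R.tz, mk_swz sz, mk_sw uz]

/-- `f` is multiplicative on the left at `y`, with value `g` -/
def MkG (f : M p → G) (y : M p) (g : G) : Prop := ∀ x, f (y * x) = g * f x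

theorem MkG.mul {f : M p → G} {a b : M p} {g h : G} (ha : MkG f a g) (hb : MkG f b h) : MkG f (a * b) (g * h) :=
  fun x => by rw [mul_assoc, ha, hb, mul_assoc]

theorem MkG.one (f : M p → G) : MkG f 1 1 := fun x => by rw [one_mul, one_mul]

theorem MkG.cond {f : M p → G} {a : M p} {g : G} (ha : MkG f a g) (c : Bool) : MkG f (cond c a 1) (cond c g 1) := by
  cases c
  · exact MkG.one f
  · exact ha

/-- the same for the conjugate under `w` -/
def MkH (f : M p → G) (w : G) (y : M p) (g : G) : Prop := MkG f y g ∧ MkG f (mw p * y * mw p) (w * g * w)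

theorem MkH.mul {f : M p → G} {a b : M p} {g h : G} (ww : w * w = 1) (ha : MkH f w a g) (hb : MkH f w b h) :
    MkH f w (a * b) (g * h) := by
  refine ⟨ha.1.mul hb.1, ?_⟩
  have := ha.2.mul hb.2
  simp only [mul_assoc] at this ⊢
  rwa [← mul_assoc (mw p) (mw p), (mk_gen p).2.2.1, ← mul_assoc w w, ww, one_mul, one_mul] at this

theorem MkH.one (f : M p → G) (ww : w * w = 1) : MkH f w 1 1 :=
  ⟨MkG.one f, by rw [mul_one, mul_one, ww, (mk_gen p).2.2.1]; exact MkG.one f⟩

theorem MkH.cond {f : M p → G} {a : M p} {g : G} (ww : w * w = 1) (ha : MkH f w a g) (c : Bool) :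
    MkH f w (cond c a 1) (cond c g 1) := by
  cases c
  · exact MkH.one f ww
  · exact ha

end

theorem mk : MkS.{u} := by
  intro G _ p t z δ s u q w R
  obtain ⟨g1, g2, g3, g4, g5, g6, g7, g8, g9⟩ := mk_gen p
  let f : M p → G := fun x => mkW t z δ s u q w (mkBits x)
  have f1 : f 1 = 1 := by
    change 1 * (1 * (1 * (1 * (1 * (1 * 1))))) = 1
    simp
  have fw : f (mw p) = w := by
    change 1 * (1 * (1 * (1 * (1 * (1 * w))))) = w
    simp
  have az : MkG f (mz p) z := fun x => (mk_left R x).1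
  have ad : MkG f (md p) δ := by
    cases hb : p.big
    · rw [g1 hb, R.d1 hb]; exact MkG.one f
    · exact fun x => (mk_left R x).2.1 hb
  have at' : MkG f (mt p) t := fun x => (mk_left R x).2.2.1
  have as : MkG f (ms p) s := by
    cases hb : p.ws
    · rw [g2 hb, R.s1 hb]; exact MkG.one f
    · exact fun x => (mk_left R x).2.2.2.1 hb
  have au : MkG f (mu p) u := fun x => (mk_left R x).2.2.2.2.1
  have aq : MkG f (mq p) q := fun x => (mk_left R x).2.2.2.2.2
  have wz : w * z * w = z := by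
    have e : w * z * w = (w * u * w) * (w * u * w) := by
      simp only [← R.uu, mul_assoc]; rw [← mul_assoc w w, R.ww, one_mul]
    have uz : z * u = u * z := by rw [← R.uu, mul_assoc]
    rw [e, R.wu, mul_assoc, ← mul_assoc z, uz, mul_assoc, R.zz, mul_one, R.uu]
  have bz : MkH f w (mz p) z := ⟨az, by rwa [g4, wz]⟩
  have bd : MkH f w (md p) δ := ⟨ad, fun x => by
    rw [R.wd, eq_inv_of_mul_eq_one_left g5, eq_inv_mul_iff_mul_eq, ← ad, mul_inv_cancel_left]⟩
  have bt : MkH f w (mt p) t := ⟨at', by rwa [g6, ← R.tw, mul_assoc, R.ww, mul_one]⟩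
  have bs : MkH f w (ms p) s := by
    cases hb : p.ws
    · rw [g2 hb, R.s1 hb]; exact MkH.one f R.ww
    · exact ⟨as, by rw [g7 hb, R.ws hb]; exact (((ad.cond _).mul (az.cond _)).mul (at'.cond _)).mul as⟩
  have bu : MkH f w (mu p) u := ⟨au, by rw [g8, R.wu]; exact au.mul az⟩
  have bq : MkH f w (mq p) q := ⟨aq, by rw [g9, R.wq]; exact au.mul aq⟩
  have key : ∀ x : M p, ∃ y g, MkH f w y g ∧ x = y * cond x.k (mw p) 1 := fun x =>
    ⟨_, _, ((((((bd.cond R.ww _).mul R.ww (bz.cond R.ww _)).mul R.ww (bt.cond R.ww _)).mul R.ww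
      (bs.cond R.ww _)).mul R.ww (bu.cond R.ww _)).mul R.ww (bq.cond R.ww _)), nf p x⟩
  have aw : MkG f (mw p) w := fun x => by
    obtain ⟨y, g, h, e⟩ := key x
    have e1 : mw p * (y * cond x.k (mw p) 1) = mw p * y * mw p * (mw p * cond x.k (mw p) 1) := by
      simp only [mul_assoc]; rw [← mul_assoc (mw p) (mw p), g3, one_mul]
    rw [e, e1, h.2, h.1]
    cases x.k
    · simp only [cond_false, mul_one, fw, f1, mul_assoc, R.ww]
    · simp only [cond_true, mul_one, fw, f1, mul_assoc, g3]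
  have hm : ∀ x y, f (x * y) = f x * f y := fun x y => by
    obtain ⟨a, g, h, e⟩ := key x
    have h1 := h.1.mul (aw.cond x.k)
    rw [← e] at h1
    have h2 := h1 1
    rw [mul_one, f1, mul_one] at h2
    rw [h1, h2]
  let ι : M p →* G := MonoidHom.mk' f hm
  have val : ∀ {a g}, MkG f a g → ι a = g := fun {a g} h => by
    have := h 1
    rwa [mul_one, f1, mul_one] at this
  refine ⟨ι, val at', val az, val ad, val as, val au, val aq, fw, fun z1 t1 tz => ?_⟩
  rw [← MonoidHom.ker_eq_bot_iff]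
  by_contra hk
  have : Group.IsNilpotent (M p) := IsPGroup.isNilpotent (p := 2) fun x => ⟨3, pow8 p x⟩
  obtain ⟨⟨x, hx, hc⟩, x1⟩ := ne_bot_iff_exists_ne_one.1 (inf_center_ne_bot hk)
  have hc := mem_center_iff.1 hc
  have hx : ι x = 1 := hx
  rcases mk_cen p x (hc _) (hc _) (hc _) (hc _) (hc _) (hc _) with e | e | e | e
  · exact x1 (Subtype.ext e)
  · exact z1 (by rw [← val az, ← e, hx])
  · exact t1 (by rw [← val at', ← e, hx])
  · rw [e, map_mul, val az, val at'] at hx
    exact tz (by rw [eq_inv_of_mul_eq_one_left hx, inv_eq_of_mul_eq_one_right R.zz])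

end CL.H33
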