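/-
Project H33 (S3139): the normaliser of `E`, and the exclusion of the modular case.
-/
import Cfsg.Agent.H33.Defs

set_option autoImplicit false
set_option linter.unusedSectionVars false
open Cfsg Subgroup CL.Even CL.Grp

namespace CL.H33
open M

universe u

/-- the value on an element of `E` of the map given on `t, γ, z, w` -/
def neEv {p : Ty} (a b c d x : M p) : M p := cond x.c a 1 * cond x.d b 1 * cond x.z c 1 * cond x.k d 1

theorem ne_nf : ∀ (p : Ty) (x : M p), x.e = false → x.j = false → x.i = x.d →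
    x = neEv (mt p) (mg p) (mz p) (mw p) x := by decide +kernel

theorem ne_sq : ∀ (p : Ty) (x : M p), x.e = false → x.j = false → x.i = x.d → x * x = 1 := by decide +kernel

theorem ne_tc : ∀ (p : Ty) (x : M p), x.e = false → x * mt p = mt p * x := by decide +kernel

theorem ne_cw : ∀ (p : Ty) (x : M p), x.e = false → x * mw p = mw p * x → x.j = false ∧ x.i = x.d := by
  decide +kernel

theorem ne_xz : ∀ (p : Ty) (x : M p), (x * mz p).z ≠ x.z := by decide +kernel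

theorem ne_inv : ∀ (p : Ty) (v : M p), v.e = false → v.d = false → v.c = false → v * v = 1 → v ≠ 1 → v ≠ mz p →
    ∃ b : M p, b.e = false ∧ b * v * b⁻¹ = mw p := by decide +kernel

theorem ne_V : ∀ (p : Ty) (v : M p), v.e = false → v.c = false → v.d = false → v.i = false → v.j = false →
    v = 1 ∨ v = mz p ∨ v = mw p ∨ v = mz p * mw p := by decide +kernel

theorem ne_facts : ∀ p : Ty, mz p ≠ 1 ∧ mw p ≠ 1 ∧ mw p ≠ mz p ∧ mu p * mz p * (mu p)⁻¹ = mz p ∧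
    mu p * (mz p * mw p) * (mu p)⁻¹ = mw p ∧ mu p * mg p * (mu p)⁻¹ = mg p ∧ mw p * (mz p * mw p) = mz p ∧
    (mu p).e = false := by decide +kernel

theorem ne_gen : ∀ p : Ty, p.big = true → ∀ x ∈ [mt p, mg p, mz p, mw p, mz p * mw p, mt p * mz p, mg p * mz p,
    mw p * mg p, mw p * mg p * mz p], x.e = false ∧ x.j = false ∧ x.i = x.d := by decide +kernel

theorem ne_u : ∀ (p : Ty) (x : M p), x.e = false → x.j = false → x.i = x.d →
    (mu p * x * (mu p)⁻¹).e = false ∧ (mu p * x * (mu p)⁻¹).j = false ∧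
      (mu p * x * (mu p)⁻¹).i = (mu p * x * (mu p)⁻¹).d := by decide +kernel

theorem ne_comm {p : Ty} {x y : M p} (hx : x ∈ sE p) (hy : y ∈ sE p) : x * y = y * x := by
  have h := fun (v : M p) (hv : v ∈ sE p) => inv_eq_of_mul_eq_one_right (ne_sq p v hv.1 hv.2.1 hv.2.2)
  rw [← h _ (mul_mem hx hy), mul_inv_rev, h x hx, h y hy]

theorem ne_ev_mem {p : Ty} {a b c d : M p} (ha : a ∈ sE p) (hb : b ∈ sE p) (hc : c ∈ sE p) (hd : d ∈ sE p)
    (x : M p) : neEv a b c d x ∈ sE p := by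
  have h : ∀ (i : Bool) (v : M p), v ∈ sE p → cond i v 1 ∈ sE p := fun i v hv => by
    cases i; exacts [one_mem _, hv]
  exact mul_mem (mul_mem (mul_mem (h _ _ ha) (h _ _ hb)) (h _ _ hc)) (h _ _ hd)

namespace HD
variable {G : Type u} [Group G] [Finite G] (S : HD G)

/-- `g` acts on `E` as `f` -/
def NeAct (g : G) (f : M S.p → M S.p) : Prop := ∀ x ∈ sE S.p, f x ∈ sE S.p ∧ g * S.ι x * g⁻¹ = S.ι (f x)

variable {S}

theorem NeAct.mul {g h : G} {f f' : M S.p → M S.p} (h1 : S.NeAct g f) (h2 : S.NeAct h f') :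
    S.NeAct (g * h) (fun x => f (f' x)) := fun x hx =>
  ⟨(h1 _ (h2 x hx).1).1, by rw [← (h1 _ (h2 x hx).1).2, ← (h2 x hx).2]; group⟩

theorem NeAct.norm {g : G} {f : M S.p → M S.p} (h : S.NeAct g f) : g ∈ 𝒩(S.E) := by
  refine mem_norm_of_cj_le fun y hy => ?_
  obtain ⟨x, hx, e⟩ := mem_cj.1 hy
  exact ⟨f x, (h x hx).1, by rw [← (h x hx).2, e]; group⟩

theorem neAct_of {g : G} {a b c d : M S.p} (ha : a ∈ sE S.p) (hb : b ∈ sE S.p) (hc : c ∈ sE S.p)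
    (hd : d ∈ sE S.p) (ea : g * S.t * g⁻¹ = S.ι a) (eb : g * S.γ * g⁻¹ = S.ι b) (ec : g * S.z * g⁻¹ = S.ι c)
    (ed : g * S.w * g⁻¹ = S.ι d) : S.NeAct g (neEv a b c d) := fun x hx => ⟨ne_ev_mem ha hb hc hd x, by
  have h : ∀ (i : Bool) (v v' : M S.p), g * S.ι v * g⁻¹ = S.ι v' →
      g * S.ι (cond i v 1) * g⁻¹ = S.ι (cond i v' 1) := fun i v v' hv => by
    cases i
    · simp
    · exact hv
  conv_lhs => rw [ne_nf _ x hx.1 hx.2.1 hx.2.2]
  simp only [neEv, map_mul]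
  rw [← h _ _ _ ea, ← h _ _ _ eb, ← h _ _ _ ec, ← h _ _ _ ed]
  group⟩

theorem ne_memH {g : G} : g ∈ S.H ↔ g * S.t * g⁻¹ = S.t := by
  rw [mem_centralizer_singleton_iff, mul_inv_eq_iff_eq_mul]

theorem ne_ιH {x : M S.p} (hx : x.e = false) : S.ι x ∈ S.H := by
  rw [mem_centralizer_singleton_iff, ← map_mul, ← map_mul, ne_tc _ x hx]

theorem ne_actρ (hb : S.p.big = true) :
    S.NeAct S.ρ (neEv (mt S.p) (mg S.p) (mw S.p) (mz S.p * mw S.p)) :=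
  neAct_of (ne_gen _ hb _ (by simp)) (ne_gen _ hb _ (by simp)) (ne_gen _ hb _ (by simp)) (ne_gen _ hb _ (by simp))
    (ne_memH.1 (S.LH S.ρL)) (S.ρg hb) S.ρz S.ρw

theorem ne_actu : S.NeAct S.u (fun x => mu S.p * x * (mu S.p)⁻¹) := fun x hx =>
  ⟨ne_u _ x hx.1 hx.2.1 hx.2.2, by simp only [map_mul, map_inv]⟩

theorem ne_normV {h : G} (hH : h ∈ S.H) (hE : h ∈ 𝒩(S.E)) : h ∈ 𝒩(S.V) := by
  have e : S.V = S.E ⊓ S.L := by
    ext y
    constructor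
    · rintro ⟨x, hx, rfl⟩
      exact ⟨⟨x, ⟨hx.1, hx.2.2.2.2, hx.2.2.2.1.trans hx.2.2.1.symm⟩, rfl⟩, (S.ιL x hx.1).2 ⟨hx.2.2.1, hx.2.1⟩⟩
    · rintro ⟨⟨x, hx, rfl⟩, hL⟩
      have := (S.ιL x hx.1).1 hL
      exact ⟨x, ⟨hx.1, this.2, this.1, hx.2.2.trans this.1, hx.2.1⟩, rfl⟩
  rw [e]
  exact inf_normalizer_le_normalizer_inf ⟨hE, S.Ln hH⟩

theorem ne_conjV {h : G} (hV : h ∈ 𝒩(S.V)) {x : M S.p} (hx : x ∈ sV S.p) (h1 : x ≠ 1) :
    h * S.ι x * h⁻¹ = S.z ∨ h * S.ι x * h⁻¹ = S.w ∨ h * S.ι x * h⁻¹ = S.ι (mz S.p * mw S.p) := by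
  obtain ⟨v, hv, e⟩ := conj_mem hV (S.mem_map.2 hx)
  rw [← e]
  rcases ne_V _ v hv.1 hv.2.1 hv.2.2.1 hv.2.2.2.1 hv.2.2.2.2 with rfl | rfl | rfl | rfl
  · rw [map_one, eq_comm, conj_eq_one_iff, map_eq_one_iff _ S.inj] at e
    exact absurd e h1
  exacts [.inl rfl, .inr (.inl rfl), .inr (.inr rfl)]

theorem ne_A (hb : S.p.big = true) {h : G} (hH : h ∈ S.H) (hE : h ∈ 𝒩(S.E)) (hz : h * S.z * h⁻¹ = S.z)
    (hw : h * S.w * h⁻¹ = S.w) : h * S.γ * h⁻¹ = S.γ := by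
  obtain ⟨o, ho, x, h1, h2, h3, rfl⟩ := S.cV h hH (mul_inv_eq_iff_eq_mul.1 hz) (mul_inv_eq_iff_eq_mul.1 hw)
  have hx : x ∈ sE S.p := ⟨h1, h3, h2⟩
  have hg : mg S.p ∈ sE S.p := ne_gen _ hb _ (by simp)
  have hoE : o ∈ 𝒩(S.E) := by
    simpa using mul_mem hE (inv_mem (le_normalizer (S.mem_map.2 hx)))
  obtain ⟨v, hv, e⟩ := mul_mem (conj_mem hoE (S.mem_map.2 hg)) (inv_mem (S.mem_map.2 hg))
  have hO : S.ι v ∈ S.O := by
    rw [e]
    simpa only [mul_assoc] using mul_mem ho (conj_mem (S.On (ne_ιH hg.1)) (inv_mem ho))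
  have h2' : orderOf (S.ι v) ∣ 2 := orderOf_dvd_of_pow_eq_one (by
    rw [sq, ← map_mul, ne_sq _ v hv.1 hv.2.1 hv.2.2, map_one])
  have h1' : S.ι v = 1 := orderOf_eq_one_iff.1 (Nat.eq_one_of_dvd_coprimes (Nat.coprime_two_left.2 S.oddO) h2'
    (S.O.orderOf_dvd_natCard hO))
  rw [h1', eq_comm, mul_inv_eq_one] at e
  calc o * S.ι x * S.γ * (o * S.ι x)⁻¹ = o * (S.ι (x * mg S.p) * (S.ι x)⁻¹) * o⁻¹ := by rw [map_mul]; group
    _ = S.γ := by rw [ne_comm hx hg, map_mul, mul_inv_cancel_right, e]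

theorem ne_tr {r h x y : G} (e : r * x * r⁻¹ = x) (e' : r * h * y * (r * h)⁻¹ = x) : h * y * h⁻¹ = x := by
  calc h * y * h⁻¹ = r⁻¹ * (r * h * y * (r * h)⁻¹) * r := by group
    _ = r⁻¹ * (r * x * r⁻¹) * r := by rw [e', e]
    _ = x := by group

theorem ne_cmp {r h x y v : G} (e : h * x * h⁻¹ = y) (e' : r * y * r⁻¹ = v) : r * h * x * (r * h)⁻¹ = v := by
  rw [← e', ← e]; group

theorem ne_B (hb : S.p.big = true) {h : G} (hH : h ∈ S.H) (hE : h ∈ 𝒩(S.E)) (hz : h * S.z * h⁻¹ = S.z) :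
    h * S.γ * h⁻¹ = S.γ := by
  obtain ⟨-, f2, f3, f4, f5, f6, -, f8⟩ := ne_facts S.p
  rcases ne_conjV (ne_normV hH hE) (x := mw S.p) ⟨rfl, rfl, rfl, rfl, rfl⟩ f2 with e | e | e
  · exact absurd (S.inj (conj_injective (e.trans hz.symm))) f3
  · exact ne_A hb hH hE hz e
  · have k : ∀ {x y : M S.p}, mu S.p * x * (mu S.p)⁻¹ = y → S.u * S.ι x * S.u⁻¹ = S.ι y := fun e => by
      rw [← e, map_mul, map_mul, map_inv]
    exact ne_tr (k f6) (ne_A hb (mul_mem (ne_ιH f8) hH) (mul_mem ne_actu.norm hE) (ne_cmp hz (k f4))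
      (ne_cmp e (k f5)))

theorem ne_C (hb : S.p.big = true) {h : G} (hH : h ∈ S.H) (hE : h ∈ 𝒩(S.E)) : h * S.γ * h⁻¹ = S.γ := by
  obtain ⟨f1, -, -, -, -, -, f7, -⟩ := ne_facts S.p
  have hρ := S.LH S.ρL
  have nρ := (ne_actρ hb).norm
  have e3 : S.ρ * S.ι (mz S.p * mw S.p) * S.ρ⁻¹ = S.z := by
    calc _ = S.ρ * S.ι (mz S.p) * S.ρ⁻¹ * (S.ρ * S.ι (mw S.p) * S.ρ⁻¹) := by rw [map_mul]; group
      _ = _ := by rw [S.ρz, S.ρw, ← map_mul, f7]
  rcases ne_conjV (ne_normV hH hE) (x := mz S.p) ⟨rfl, rfl, rfl, rfl, rfl⟩ f1 with e | e | e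
  · exact ne_B hb hH hE e
  · exact ne_tr (S.ρg hb) (ne_tr (S.ρg hb) (ne_B hb (mul_mem hρ (mul_mem hρ hH)) (mul_mem nρ (mul_mem nρ hE))
      (ne_cmp (ne_cmp e S.ρw) e3)))
  · exact ne_tr (S.ρg hb) (ne_B hb (mul_mem hρ hH) (mul_mem nρ hE) (ne_cmp e e3))

/-- a conjugate of `E` inside `S` is conjugate to `E` in `S` -/
theorem ne_D (hb : S.p.big = true) {k : G} (hk : cj k S.E ≤ S.S0) :
    ∃ b : M S.p, b.e = false ∧ S.ι b * k ∈ 𝒩(S.E) := by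
  have h0 : ∀ x ∈ sE S.p, ∃ y : M S.p, y.e = false ∧ S.ι y = k * S.ι x * k⁻¹ := fun x hx =>
    hk (conj_mem_cj k (S.mem_map.2 hx))
  choose! f hf using h0
  let ε : Bool × Bool × Bool × Bool → M S.p := fun v => mk' S.p v.1 v.2.1 v.2.2.1 false v.1 false v.2.2.2
  have hε : ∀ v, ε v ∈ sE S.p := fun v => ⟨rfl, rfl, by simp [ε, mk', hb]⟩
  have iε : Function.Injective ε := fun v v' e => by
    rw [M.ext_iff] at e
    exact Prod.ext e.2.2.2.2.1 (Prod.ext e.2.1 (Prod.ext e.2.2.1 e.2.2.2.2.2.2))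
  obtain ⟨v, v', hne, e⟩ := Fintype.exists_ne_map_eq_of_card_lt
    (fun v => ((f (ε v)).d, (f (ε v)).c, (f (ε v)).z)) (by simp)
  simp only [Prod.mk.injEq] at e
  have hm : ∀ x ∈ sE S.p, ∀ y ∈ sE S.p, S.ι (f x * f y) = k * S.ι (x * y) * k⁻¹ := fun x hx y hy => by
    rw [map_mul, map_mul, (hf x hx).2, (hf y hy).2]; group
  have hs : ∀ x ∈ sE S.p, f x * f x = 1 := fun x hx => S.inj (by
    rw [hm x hx x hx, ne_sq _ x hx.1 hx.2.1 hx.2.2]; simp)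
  have hv := hf _ (hε v)
  have hv' := hf _ (hε v')
  have hxy := mul_mem (hε v) (hε v')
  have e1 : f (ε v) * f (ε v') = f (ε v * ε v') := S.inj (by rw [hm _ (hε v) _ (hε v'), (hf _ hxy).2])
  have e2 : f (ε v') = f (ε v) * f (ε v * ε v') := by rw [← e1, ← mul_assoc, hs _ (hε v), one_mul]
  obtain ⟨b, b1, b2⟩ := ne_inv _ (f (ε v * ε v')) (hf _ hxy).1 (by rw [← e1, mul_d, hv'.1, e.1]; simp)
    (by rw [← e1, mul_c, hv'.1, e.2.1]; simp) (hs _ hxy) (fun h => hne (iε (S.inj (conj_injective (x := k) (by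
      rw [h, mul_one] at e2
      simp only [← hv.2, ← hv'.2, e2]))))) fun h => ne_xz _ (f (ε v)) (by rw [← h, ← e2, e.2.2])
  refine ⟨b, b1, NeAct.norm (f := fun x => b * f x * b⁻¹) fun x hx => ?_⟩
  have be : (b * f x * b⁻¹).e = false := mul_mem (mul_mem (s := sS S.p) b1 (hf x hx).1) (inv_mem (s := sS S.p) b1)
  refine ⟨⟨be, ne_cw _ _ be ?_⟩, by rw [map_mul, map_mul, map_inv, (hf x hx).2]; group⟩
  have : f x * f (ε v * ε v') = f (ε v * ε v') * f x := S.inj (by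
    rw [hm _ hx _ hxy, hm _ hxy _ hx, ne_comm hx hxy])
  rw [← b2]
  calc _ = b * (f x * f (ε v * ε v')) * b⁻¹ := by group
    _ = _ := by rw [this]; group

end HD

open HD

theorem ne : NeS.{u} := by
  intro G _ _ S hb
  refine ⟨fun h hH hE => ⟨ne_C hb hH hE, ne_normV hH hE⟩, fun g ⟨x, hx, e⟩ => ?_⟩
  have hE : IsPGroup 2 S.E := S.sylS.isPGroup.to_le (map_mono fun _ h => h.1)
  have := Fact.mk Nat.prime_two
  obtain ⟨h, hH, hle⟩ := syl_conj_le S.sylS (isPGroup_cj hE g⁻¹) (fun y hy => by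
    obtain ⟨v, hv, e'⟩ := mem_cj.1 hy
    rw [inv_inv] at e'
    have := congrArg S.ι (ne_comm hv hx)
    rw [map_mul, map_mul, e, e'] at this
    rw [mem_centralizer_singleton_iff]
    calc y * S.t = g⁻¹ * (g * y * g⁻¹ * (g * S.t * g⁻¹)) * g := by group
      _ = S.t * y := by rw [this]; group)
  rw [← cj_mul] at hle
  obtain ⟨b, b1, hn⟩ := ne_D hb hle
  refine ⟨_, inv_mem hn, ?_⟩
  have h1 := ne_memH.1 (inv_mem (mul_mem (ne_ιH (S := S) b1) hH))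
  calc _ = g * ((S.ι b * h)⁻¹ * S.t * (S.ι b * h)⁻¹⁻¹) * g⁻¹ := by group
    _ = _ := by rw [h1]

theorem nm_a : ∀ p : Ty, p.big = true → ma p * (mt p * mz p) * (ma p)⁻¹ = mt p * mz p ∧
    ma p * mg p * (ma p)⁻¹ = mg p * mz p ∧ ma p * mz p * (ma p)⁻¹ = mz p ∧
    ma p * (mw p * md p) * (ma p)⁻¹ = mw p * mg p * mz p ∧ ma p * (mw p * (md p)⁻¹) * (ma p)⁻¹ = mw p * mg p := by
  decide +kernel

theorem nm_w : ∀ p : Ty, p.big = true →
    let r := neEv (mt p) (mg p) (mw p) (mz p * mw p)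
    let n := neEv (mt p * mz p) (mg p * mz p) (mz p) (mw p * mg p)
    let m := neEv (mt p * mz p) (mg p * mz p) (mz p) (mw p * mg p * mz p)
    n (r (n (r (n (r (r (n (mt p)))))))) = mt p ∧ (n (r (n (r (n (r (r (n (mz p))))))))).d = true ∧
    m (r (m (mu p * r (m (r (m (mt p)))) * (mu p)⁻¹))) = mt p ∧
      (m (r (m (mu p * r (m (r (m (mz p)))) * (mu p)⁻¹)))).d = true := by
  decide +kernel

theorem nm : NmS.{u} := by
  intro G _ _ S hb hN g ht hz hγ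
  obtain ⟨a1, a2, a3, a4, a5⟩ := nm_a S.p hb
  obtain ⟨w1, w2, w3, w4⟩ := nm_w S.p hb
  have k : ∀ {x y : M S.p}, ma S.p * x * (ma S.p)⁻¹ = y → S.ι (ma S.p) * S.ι x * (S.ι (ma S.p))⁻¹ = S.ι y :=
    fun e => by rw [← e, map_mul, map_mul, map_inv]
  have act : ∀ {x y : M S.p}, y ∈ sE S.p → g * S.w * g⁻¹ = S.ι x → ma S.p * x * (ma S.p)⁻¹ = y →
      S.NeAct (S.ι (ma S.p) * g) (neEv (mt S.p * mz S.p) (mg S.p * mz S.p) (mz S.p) y) := fun hy e e' =>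
    neAct_of (ne_gen _ hb _ (by simp)) (ne_gen _ hb _ (by simp)) (ne_gen _ hb _ (by simp)) hy
      (ne_cmp (ht.trans (map_mul _ _ _).symm) (k a1)) (ne_cmp hγ (k a2)) (ne_cmp hz (k a3)) (ne_cmp e (k e'))
  have fin : ∀ {m : G} {f : M S.p → M S.p}, S.NeAct m f → f (mt S.p) = mt S.p → (f (mz S.p)).d = true → False :=
    fun {m f} hm e1 e2 => by
      have h1 := (hm _ (ne_gen _ hb (mt S.p) (by simp))).2
      have h2 := (hm _ (ne_gen _ hb (mz S.p) (by simp))).2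
      rw [e1] at h1
      have h3 := conj_mem (hN.1 m (ne_memH.2 h1) hm.norm).2 ((S.mem_map (x := mz S.p)).2 ⟨rfl, rfl, rfl, rfl, rfl⟩)
      rw [h2, S.mem_map] at h3
      exact absurd (e2.symm.trans h3.2.2.1) (by simp)
  have r := ne_actρ hb
  refine ⟨fun e => ?_, fun e => ?_⟩
  · have m := act (ne_gen _ hb _ (by simp)) (e.trans (map_mul _ _ _).symm) a4
    exact fin (m.mul (r.mul (m.mul (ne_actu.mul (r.mul (m.mul (r.mul m))))))) w3 w4
  · have n := act (ne_gen _ hb _ (by simp)) (e.trans (by rw [map_mul, map_inv])) a5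
    exact fin (n.mul (r.mul (n.mul (r.mul (n.mul (r.mul (r.mul n))))))) w1 w2

end CL.H33
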