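/-
Project H33 (S3139): uniqueness of `R₁`, orbits and stabilisers.
-/
import Cfsg.Agent.H33.Defs2

set_option autoImplicit false
set_option linter.unusedSectionVars false
open Cfsg Subgroup CL.Even CL.Grp
open scoped commutatorElement

namespace CL.H33
open M

universe u

theorem or_mz : ∀ (p : Ty) (b : M p), (b * mz p).d = b.d ∧ (b * mz p).z = !b.z ∧ (b * mz p).c = b.c ∧ (b * mz p).e = b.e ∧
    (b * mz p).i = b.i ∧ (b * mz p).j = b.j ∧ (b * mz p).k = b.k := by decide +kernel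

theorem or_eqz {p : Ty} {a b : M p} : (a = b ∨ a = b * mz p) ↔
    a.d = b.d ∧ a.c = b.c ∧ a.e = b.e ∧ a.i = b.i ∧ a.j = b.j ∧ a.k = b.k := by
  obtain ⟨h1, h2, h3, h4, h5, h6, h7⟩ := or_mz p b
  rw [M.ext_iff, M.ext_iff (x := a), h1, h2, h3, h4, h5, h6, h7]
  cases a.z <;> cases b.z <;> simp

theorem or_comm {p : Ty} {r s : M p} (hr : r.k = false) (hs : s.k = false) : r * s = s * r ∨ r * s = s * r * mz p := by
  rw [or_eqz]
  simp [mul_k, mul_e, mul_j, mul_i, mul_c, mul_d, hr, hs, Bool.xor_comm]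

theorem or_sq : ∀ (p : Ty) (r : M p), (r.k = false → r * r = 1 ∨ r * r = mz p) ∧
    (r.k = true → r * r = 1 ∨ r * r = mz p → r.j = false) ∧ r⁻¹.k = r.k ∧ r⁻¹.j = r.j := by decide +kernel

theorem or_cx {p : Ty} {x r : M p} (hx : x.k = true) (hr : r.k = false) (h : x * r = r * x ∨ x * r = r * x * mz p) :
    r.j = false ∧ (p.al = true → p.big = true → r.e = false) := by
  rw [or_eqz] at h
  obtain ⟨-, h1, -, h2, -⟩ := h
  rw [mul_c, mul_c, hx, hr] at h1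
  rw [mul_i, mul_i, hx, hr] at h2
  refine ⟨?_, fun a b => ?_⟩
  · revert h2; cases x.i <;> cases r.i <;> cases r.j <;> simp
  · rw [a, b] at h1
    revert h1; cases x.c <;> cases r.c <;> cases r.e <;> simp

theorem or_gam : ∀ p : Ty, p.al = false → p.big = true → (mg p * mg p = 1 ∧ mg p ≠ 1 ∧ mg p ≠ mz p ∧ (mg p).j = false) ∧
    ∀ y : M p, y.j = false → mg p * y = y * mg p := by decide +kernel

theorem or_cen : ∀ p : Ty, p.ws = true → ∀ r : M p, r.k = false → r * r = 1 → r * mt p = mt p * r → r * ms p = ms p * r →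
    r * mu p = mu p * r → r * mq p = mq p * r → r = 1 ∨ r = mz p := by decide +kernel

set_option synthInstance.maxSize 2000 in
theorem or_small : ∀ p : Ty, p.big = false → ∀ r : M p, r.k = false → r * r = 1 → ∀ s : M p, s.k = false → s * s = 1 →
    r * s = s * r → (r = 1 ∨ r = mz p) ∨ (s = 1 ∨ s = mz p) ∨ r * s = 1 ∨ r * s = mz p := by decide +kernel

theorem or_gens : ∀ p : Ty, ((mt p).k = false ∧ (ms p).k = false ∧ (mu p).k = false ∧ (mq p).k = false ∧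
    (md p).k = false ∧ (mu p * mq p).k = false ∧ mu p * mu p = mz p ∧ mz p ≠ 1 ∧ mt p ≠ 1) ∧
    ((mq p).j = true ∧ (mq p * ms p).j = true ∧ (mq p * ms p).k = false ∧ (p.ws = true → (ms p).e = true)) ∧
    (mt p * mt p = 1 ∧ mw p * mw p = 1 ∧ mt p * mw p = mw p * mt p ∧ (mt p).j = false ∧ (mw p).j = false ∧
      ¬ ((mt p = 1 ∨ mt p = mz p) ∨ (mw p = 1 ∨ mw p = mz p) ∨ mt p * mw p = 1 ∨ mt p * mw p = mz p)) ∧
    (p.ws = true → ms p * mt p * (ms p)⁻¹ = mt p * mz p ∧ ms p * (mt p * mz p) * (ms p)⁻¹ = mt p) := by decide +kernel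

/-- `R₁` is the only subgroup of index two of its shape. -/
theorem or_uq {p : Ty} (hw : p.ws = true) (alb : p.al = true → p.big = true) (T : M p → M p → Prop)
    (mul : ∀ {x r y s}, T x r → T y s → T (x * y) (r * s)) (inj : ∀ {x r y s}, T x r → T y s → (x = y ↔ r = s))
    (one : T 1 1) (tz : T (mz p) (mz p)) (tot : ∀ r, r.k = false → ∃ x, T x r) (K : Subgroup (M p))
    (hK : ∀ x, x ∈ K ↔ ∃ r, r.k = false ∧ T x r) (two : K.index = 2) {x : M p} (hx : x ∈ K) : x.k = false := by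
  by_contra hk
  rw [Bool.not_eq_false] at hk
  obtain ⟨⟨gt, gs, gu, gq, -⟩, ⟨q1, q2, q3, q4⟩, ⟨w1, w2, w3, w4, w5, w6⟩, -⟩ := or_gens p
  have ez : ∀ {x r}, T x r → ((x = 1 ∨ x = mz p) ↔ (r = 1 ∨ r = mz p)) := fun h => or_congr (inj h one) (inj h tz)
  have sq : ∀ y ∈ K, y.k = true → y.j = false := fun y hy k => by
    obtain ⟨r, hr, t⟩ := (hK y).1 hy
    exact (or_sq p y).2.1 k ((ez (mul t t)).2 ((or_sq p r).1 hr))
  have cx : ∀ y ∈ K, y.k = false → y.j = false ∧ (p.al = true → p.big = true → y.e = false) := fun y hy k => by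
    obtain ⟨r, hr, t⟩ := (hK x).1 hx
    obtain ⟨s, hs, t'⟩ := (hK y).1 hy
    exact or_cx hk k ((or_congr (inj (mul t t') (mul t' t)) (inj (mul t t') (mul (mul t' t) tz))).2 (or_comm hr hs))
  have nq : ∀ y : M p, y.k = false → y.j = true → y ∉ K := fun y k j hy => by simp [(cx y hy k).1] at j
  have mm : ∀ a b, a ∉ K → b ∉ K → a * b ∈ K := fun a b ha hb => (mul_mem_iff_of_index_two two).2 (by simp [ha, hb])
  cases hal : p.al
  swap
  · exact nq _ q3 q2 (mm _ _ (nq _ gq q1) fun hs => by simp [(cx _ hs gs).2 hal (alb hal)] at q4; simp [hw] at q4)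
  have j0 : ∀ y : M p, y.k = false → y.j = false → y ∈ K := fun y k j => by
    have := mm (y * (mq p)⁻¹) (mq p) (nq _ (by rw [mul_k, (or_sq p _).2.2.1, k, gq]; rfl)
      (by rw [mul_j, (or_sq p _).2.2.2, j, q1]; rfl)) (nq _ gq q1)
    rwa [inv_mul_cancel_right] at this
  have j1 : ∀ y : M p, y.j = false → y ∈ K := fun y j => by
    cases k : y.k
    · exact j0 y k j
    · have := K.mul_mem (j0 (y * x⁻¹) (by rw [mul_k, (or_sq p _).2.2.1, k, hk]; rfl)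
        (by rw [mul_j, (or_sq p _).2.2.2, j, sq x hx hk]; rfl)) hx
      rwa [inv_mul_cancel_right] at this
  have j2 : ∀ y ∈ K, y.j = false := fun y hy => by
    cases k : y.k
    exacts [(cx y hy k).1, sq y hy k]
  cases hb : p.big
  · obtain ⟨r, hr, t⟩ := (hK _).1 (j1 _ w4)
    obtain ⟨s, hs, t'⟩ := (hK _).1 (j1 _ w5)
    exact w6 ((or_congr (ez t) (or_congr (ez t') (ez (mul t t')))).2 (or_small p hb r hr ((inj (mul t t) one).1 w1) s hs
      ((inj (mul t' t') one).1 w2) ((inj (mul t t') (mul t' t)).1 w3)))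
  · obtain ⟨⟨g1, g2, g3, g4⟩, g5⟩ := or_gam p hal hb
    obtain ⟨r, hr, t⟩ := (hK _).1 (j1 _ g4)
    have c : ∀ s : M p, s.k = false → r * s = s * r := fun s hs => by
      obtain ⟨y, t'⟩ := tot s hs
      exact (inj (mul t t') (mul t' t)).1 (g5 y (j2 y ((hK y).2 ⟨s, hs, t'⟩)))
    exact ((ez t).2 (or_cen p hw r hr ((inj (mul t t) one).1 g1) (c _ gt) (c _ gs) (c _ gu) (c _ gq))).elim g2 g3

theorem or_index (p : Ty) : (sR p).index = 2 :=
  index_eq_two_iff.2 ⟨mw p, fun b => by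
    show Xor ((b * mw p).k = false) (b.k = false)
    rw [mul_k, show (mw p).k = true from rfl]
    cases b.k <;> simp⟩

theorem or_gen {p : Ty} {K : Subgroup (M p)} (h1 : md p ∈ K) (h2 : mt p ∈ K) (h3 : ms p ∈ K) (h4 : mu p ∈ K)
    (h5 : mq p ∈ K) {r : M p} (hr : r.k = false) : r ∈ K := by
  have h6 : mz p ∈ K := (or_gens p).1.2.2.2.2.2.2.1 ▸ K.mul_mem h4 h4
  have c : ∀ (b : Bool) (a : M p), a ∈ K → cond b a 1 ∈ K := fun b a ha => by
    cases b
    exacts [K.one_mem, ha]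
  rw [nf p r, hr]
  exact K.mul_mem (K.mul_mem (K.mul_mem (K.mul_mem (K.mul_mem (K.mul_mem (c _ _ h1) (c _ _ h6)) (c _ _ h2)) (c _ _ h3))
    (c _ _ h4)) (c _ _ h5)) K.one_mem

/-- `⟨t, z⟩` -/
def or_sT (p : Ty) : Subgroup (M p) :=
  sub (fun x => x.k = false ∧ x.j = false ∧ x.d = false ∧ x.e = false ∧ x.i = false) ⟨rfl, rfl, rfl, rfl, rfl⟩
    (by intro x y hx hy; simp_all [mul_k, mul_e, mul_j, mul_i, mul_d])

theorem or_sT_cases : ∀ (p : Ty) (x : M p), x.k = false ∧ x.j = false ∧ x.d = false ∧ x.e = false ∧ x.i = false →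
    x = 1 ∨ x = mt p ∨ x = mz p ∨ x = mt p * mz p := by decide +kernel

namespace HD
variable {G : Type u} [Group G] [Finite G] (S : HD G)

theorem or_tz {a : G} (h : a ∈ closure ({S.t, S.z} : Set G)) : a = 1 ∨ a = S.t ∨ a = S.z ∨ a = S.t * S.z := by
  have : closure ({S.t, S.z} : Set G) ≤ (or_sT S.p).map S.ι := (closure_le _).2 (by
    rintro _ (rfl | rfl) <;> exact ⟨_, ⟨rfl, rfl, rfl, rfl, rfl⟩, rfl⟩)
  obtain ⟨x, hx, rfl⟩ := this h
  rcases or_sT_cases _ x hx with rfl | rfl | rfl | rfl <;> simp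

theorem or_z1 : S.z ≠ 1 := fun e => (or_gens S.p).1.2.2.2.2.2.2.2.1 (S.inj (e.trans (map_one _).symm))
theorem or_t1 : S.t ≠ 1 := fun e => (or_gens S.p).1.2.2.2.2.2.2.2.2 (S.inj (e.trans (map_one _).symm))

theorem or_conj {a b : G} (ha : a ∈ S.R1) (hb : b ∈ S.R1) : a * b * a⁻¹ = b ∨ a * b * a⁻¹ = b * S.z := by
  obtain ⟨r, hr, rfl⟩ := ha
  obtain ⟨s, hs, rfl⟩ := hb
  rcases or_comm (show r.k = false from hr) (show s.k = false from hs) with e | e
  · left; rw [← map_mul, e, map_mul, mul_inv_cancel_right]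
  · right; rw [← map_mul, e, map_mul, map_mul, mul_assoc (S.ι s), S.z_comm, ← mul_assoc, mul_inv_cancel_right]

theorem or_nz (hw : S.p.ws = true) : ∀ n ∈ 𝒩(S.R1), n * S.z = S.z * n := fun n hn => by
  obtain ⟨⟨gt, gs, gu, gq, -⟩, -⟩ := or_gens S.p
  obtain ⟨r, hr, e⟩ := conj_mem hn (show S.z ∈ S.R1 from ⟨_, rfl, rfl⟩)
  have c : ∀ s : M S.p, s.k = false → r * s = s * r := fun s hs => S.inj (by
    obtain ⟨y, -, e'⟩ := conj_mem' hn (show S.ι s ∈ S.R1 from ⟨_, hs, rfl⟩)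
    have := S.z_comm y
    rw [e'] at this
    rw [map_mul, map_mul, e]
    calc n * S.z * n⁻¹ * S.ι s = n * (S.z * (n⁻¹ * S.ι s * n)) * n⁻¹ := by group
      _ = _ := by rw [← this]; group)
  have h2 : r * r = 1 := S.inj (by rw [map_mul, e, map_one, conj_mul, S.zz, mul_one, mul_inv_cancel])
  rcases or_cen _ hw r hr h2 (c _ gt) (c _ gs) (c _ gu) (c _ gq) with rfl | rfl
  · rw [map_one, eq_comm, conj_eq_one_iff] at e
    exact (S.or_z1 e).elim
  · exact mul_inv_eq_iff_eq_mul.1 e.symm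

theorem or_uq' (hw : S.p.ws = true) : ∀ g, g * S.z = S.z * g → cj g S.R1 ≤ S.S1 → g ∈ 𝒩(S.R1) := fun g hg h => by
  have hK : ((cj g S.R1).comap S.ι).index = 2 := by
    have e1 : Nat.card ((cj g S.R1).comap S.ι) = Nat.card (sR S.p) := by
      rw [← card_map_of_injective S.inj, map_comap_eq_self h, card_cj, card_map_of_injective S.inj]
    have e2 := ((cj g S.R1).comap S.ι).index_mul_card
    rw [← (sR S.p).index_mul_card, e1, or_index] at e2
    exact Nat.eq_of_mul_eq_mul_right Nat.card_pos e2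
  refine mem_norm_of_cj_le fun a ha => ?_
  obtain ⟨x, rfl⟩ := h ha
  refine ⟨x, or_uq hw S.alb (fun x r => S.ι r = g⁻¹ * S.ι x * g) (fun h1 h2 => ?_) (fun h1 h2 => ?_) (by simp) ?_
    (fun r hr => ?_) _ (fun y => ?_) hK ha, rfl⟩
  · rw [map_mul, map_mul, h1, h2]; group
  · rw [← S.eq_iff, ← S.eq_iff (x := _), h1, h2, mul_left_inj, mul_right_inj]
  · rw [mul_assoc, ← hg, inv_mul_cancel_left]
  · obtain ⟨x, e⟩ := h (conj_mem_cj g (show S.ι r ∈ S.R1 from ⟨_, hr, rfl⟩))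
    exact ⟨x, by rw [e]; group⟩
  · rw [mem_comap, mem_cj]; rfl

theorem or_st (hw : S.p.ws = true) : S.s * S.t * S.s⁻¹ = S.t * S.z ∧ S.s * (S.t * S.z) * S.s⁻¹ = S.t := by
  obtain ⟨h1, h2⟩ := (or_gens S.p).2.2.2 hw
  exact ⟨by simpa using congrArg S.ι h1, by simpa using congrArg S.ι h2⟩

theorem or_orb (hw : S.p.ws = true) : ∀ c, c * S.z = S.z * c → c * S.t * c⁻¹ ∈ S.R1 →
    ∃ n ∈ 𝒩(S.R1), n * S.t * n⁻¹ = c * S.t * c⁻¹ := fun c hc hx => by
  have hz : c⁻¹ * S.z * c = S.z := by rw [mul_assoc, ← hc, inv_mul_cancel_left]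
  have h1 : cj c⁻¹ S.R1 ≤ 𝒩(closure {S.t, S.z}) := fun a ha => by
    rw [mem_cj, inv_inv] at ha
    refine S.mem_norm_tz ?_ ((S.or_conj ha hx).imp (fun e => ?_) fun e => ?_)
    · obtain ⟨y, -, e⟩ := ha
      have := S.z_comm y
      rw [e] at this
      calc a * S.z = c⁻¹ * (c * a * c⁻¹ * S.z) * c := by rw [← hz]; conv_rhs => rw [hz]
                                                         group
        _ = S.z * a := by rw [this]; conv_rhs => rw [← hz]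
                          group
    · calc a * S.t * a⁻¹ = c⁻¹ * (c * a * c⁻¹ * (c * S.t * c⁻¹) * (c * a * c⁻¹)⁻¹) * c := by group
        _ = _ := by rw [e]; group
    · calc a * S.t * a⁻¹ = c⁻¹ * (c * a * c⁻¹ * (c * S.t * c⁻¹) * (c * a * c⁻¹)⁻¹) * c := by group
        _ = S.t * (c⁻¹ * S.z * c) := by rw [e]; group
        _ = _ := by rw [hz]
  obtain ⟨m, hm, h2⟩ := syl_conj_le (S.syl1 hw) (isPGroup_cj (S.isP _) _) h1
  have mz : m * S.z = S.z * m := by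
    rcases S.or_tz (conj_mem hm (subset_closure (show S.z ∈ ({S.t, S.z} : Set G) by simp))) with e | e | e | e
    · exact (S.or_z1 (conj_eq_one_iff.1 e)).elim
    · exact (S.ntz m⁻¹ (by rw [show S.ι (M.mt S.p) = _ from e.symm]; group)).elim
    · exact mul_inv_eq_iff_eq_mul.1 e
    · obtain ⟨k, hk⟩ := isConj_iff.1 S.conj_tz
      exact (S.ntz (m⁻¹ * k) (by
        calc m⁻¹ * k * S.t * (m⁻¹ * k)⁻¹ = m⁻¹ * (k * S.t * k⁻¹) * m := by group
          _ = S.z := by rw [hk, ← e]; group)).elim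
  have hg := S.or_uq' hw (m * c⁻¹) (by
    calc m * c⁻¹ * S.z = m * (c⁻¹ * S.z * c) * c⁻¹ := by group
      _ = _ := by rw [hz, mz, mul_assoc]) (by rwa [cj_mul])
  rcases S.or_tz (conj_mem hm (subset_closure (show S.t ∈ ({S.t, S.z} : Set G) by simp))) with e | e | e | e
  · exact (S.or_t1 (conj_eq_one_iff.1 e)).elim
  · exact ⟨_, inv_mem hg, by conv_lhs => rw [← e]
                             group⟩
  · exact (S.ntz m e).elim
  · refine ⟨_, mul_mem (inv_mem hg) (le_normalizer (show S.s ∈ S.R1 from ⟨_, rfl, rfl⟩)), ?_⟩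
    calc (m * c⁻¹)⁻¹ * S.s * S.t * ((m * c⁻¹)⁻¹ * S.s)⁻¹ = c * m⁻¹ * (S.s * S.t * S.s⁻¹) * m * c⁻¹ := by group
      _ = _ := by rw [(S.or_st hw).1, ← e]; group

theorem or_rho : S.ρ0 ∈ 𝒩(S.R1) := by
  obtain ⟨⟨gt, gs, gu, gq, gd, guq, -⟩, -⟩ := or_gens S.p
  refine mem_norm_of_cj_le (cj_le_iff.2 ?_)
  rintro _ ⟨r, hr, rfl⟩
  refine or_gen (K := (cj S.ρ0⁻¹ S.R1).comap S.ι) ?_ ?_ ?_ ?_ ?_ hr <;> rw [mem_comap, mem_cj, inv_inv]
  · rw [S.ρ0d]; exact ⟨_, gd, rfl⟩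
  · rw [mem_centralizer_singleton_iff.1 (S.LH S.ρ0L), mul_inv_cancel_right]; exact ⟨_, gt, rfl⟩
  · rw [S.ρ0s]; exact ⟨_, gs, rfl⟩
  · rw [S.ρ0u]; exact ⟨_, gq, rfl⟩
  · rw [S.ρ0q]; exact ⟨_, guq, rfl⟩

theorem or_iota (x : M S.p) : S.ι x ∈ 𝒩(S.R1) := by
  refine mem_norm_of_cj_le (cj_le_iff.2 ?_)
  rintro _ ⟨r, hr, rfl⟩
  rw [mem_cj, inv_inv, ← map_inv, ← map_mul, ← map_mul]
  refine ⟨_, ?_, rfl⟩
  show (x * r * x⁻¹).k = false
  rw [mul_k, mul_k, (or_sq _ x).2.2.1, show r.k = false from hr]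
  cases x.k <;> rfl

theorem or_stab (hw : S.p.ws = true) {n : G} (hn : n ∈ 𝒩(S.R1)) (ht : n * S.t * n⁻¹ = S.t) :
    ∃ o ∈ S.O, o ∈ 𝒞(S.R1) ∧ ∃ x, ∃ i : ℕ, n = o * S.ι x * S.ρ0 ^ i := by
  obtain ⟨o, ho, x, -, i, e⟩ := S.cz n (mem_centralizer_singleton_iff.2 (mul_inv_eq_iff_eq_mul.1 ht)) (S.or_nz hw n hn)
  refine ⟨o, ho, ?_, x, i, e⟩
  have h1 : o ∈ 𝒩(S.R1) := by
    rw [show o = n * (S.ρ0 ^ i)⁻¹ * (S.ι x)⁻¹ by rw [e]; group]
    exact mul_mem (mul_mem hn (inv_mem (pow_mem S.or_rho i))) (inv_mem (S.or_iota x))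
  have hH : o ∈ S.H := S.LH (S.OL ho)
  have hB : IsPGroup 2 (S.R1 ⊓ S.H : Subgroup G) := (S.isP _).to_le inf_le_left
  have h2 := S.oc hB inf_le_right ho (le_norm_inf (L := zpowers o) (zpowers_le.2 h1)
    (zpowers_le.2 (le_normalizer hH)) (mem_zpowers o))
  refine mem_cent_of_coprime hB (Nat.Coprime.coprime_dvd_left (orderOf_dvd_natCard _ ho) (Nat.coprime_two_right.2 S.oddO))
    (fun r hr => ⟨?_, ?_⟩) h2
  · rw [commutatorElement_def, mul_assoc, mul_assoc, ← mul_assoc o]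
    exact mul_mem hr (conj_mem h1 (inv_mem hr))
  · have c1 := mem_centralizer_singleton_iff.1 hH
    have c2 : o * (r⁻¹ * S.t * r⁻¹⁻¹) = r⁻¹ * S.t * r⁻¹⁻¹ * o := by
      rcases S.or_conj (inv_mem hr) (show S.t ∈ S.R1 from ⟨_, rfl, rfl⟩) with e | e <;> rw [e]
      · exact c1
      · rw [← mul_assoc, c1, mul_assoc, S.or_nz hw o h1, mul_assoc]
    refine S.H.mul_mem (mem_centralizer_singleton_iff.2 ?_) (S.H.inv_mem hH)
    calc r * o * r⁻¹ * S.t = r * (o * (r⁻¹ * S.t * r⁻¹⁻¹)) * r⁻¹ := by group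
      _ = _ := by rw [c2]; group

end HD

theorem orS : OrS.{u} := fun _ _ _ S hw =>
  ⟨S.or_nz hw, S.or_uq' hw, S.or_orb hw, fun n hn h => h.elim (S.or_stab hw hn) fun e => by
    have hs : S.s ∈ S.R1 := ⟨_, rfl, rfl⟩
    obtain ⟨o, ho, hc, x, i, e'⟩ := S.or_stab hw (mul_mem (le_normalizer hs) hn) (by
      calc S.s * n * S.t * (S.s * n)⁻¹ = S.s * (n * S.t * n⁻¹) * S.s⁻¹ := by group
        _ = _ := by rw [e, (S.or_st hw).2])
    refine ⟨o, ho, hc, (ms S.p)⁻¹ * x, i, ?_⟩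
    rw [map_mul, map_inv, ← mul_assoc o, ← comm_of_mem hc (inv_mem hs), mul_assoc _ o, mul_assoc, ← e',
      inv_mul_cancel_left]⟩

end CL.H33
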