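/-
Project H33 (S3139): the pull-back lemma, second half.
-/
import Cfsg.Agent.H33.Abs

set_option autoImplicit false
set_option linter.unusedSectionVars false
open Cfsg Subgroup CL.Even CL.Grp

namespace CL.H33

universe u
variable {G : Type u} [Group G]

theorem pb2_mem {K : Subgroup G} {z x : G} (hn : z ∈ 𝒩(K)) (h2 : z * z ∈ K) :
    x ∈ K ⊔ zpowers z ↔ x ∈ K ∨ x * z ∈ K := by
  refine ⟨fun hx => ?_, fun h => h.elim (fun h => mem_sup_left h) fun h => ?_⟩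
  · let L : Subgroup G :=
      { carrier := {x | x ∈ K ∨ x * z ∈ K}
        one_mem' := .inl K.one_mem
        mul_mem' := by
          rintro x y (hx | hx) (hy | hy)
          · exact .inl (mul_mem hx hy)
          · exact .inr (by simpa [mul_assoc] using mul_mem hx hy)
          · exact .inr (by simpa [mul_assoc] using mul_mem hx (conj_mem' hn hy))
          · exact .inl (by simpa [mul_assoc] using mul_mem (mul_mem hx (conj_mem' hn hy)) (inv_mem h2))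
        inv_mem' := by
          rintro x (hx | hx)
          · exact .inl (inv_mem hx)
          · exact .inr (by simpa [mul_assoc] using mul_mem (conj_mem hn (inv_mem hx)) h2) }
    exact (sup_le (fun _ h => .inl h) (zpowers_le.2 (.inr h2)) : K ⊔ zpowers z ≤ L) hx
  · simpa using mul_mem (mem_sup_left h : x * z ∈ K ⊔ zpowers z) (inv_mem (mem_sup_right (mem_zpowers z)))

theorem pb2_cov [Finite G] {L K : Subgroup G} (z : G) (h : ∀ x ∈ L, x ∈ K ∨ x * z ∈ K) :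
    Nat.card L ≤ 2 * Nat.card K := by
  have h1 : (L : Set G) ⊆ K ∪ (fun x => x * z⁻¹) '' K := fun x hx =>
    (h x hx).imp id fun e => ⟨_, e, by simp⟩
  have h2 := (Set.ncard_le_ncard h1).trans (Set.ncard_union_le _ _)
  have h3 : ((fun x => x * z⁻¹) '' (K : Set G)).ncard ≤ (K : Set G).ncard := Set.ncard_image_le
  rw [← SetLike.coe_sort_coe, ← SetLike.coe_sort_coe K, Nat.card_coe_set_eq, Nat.card_coe_set_eq]
  omega

theorem pb2_card [Finite G] {K : Subgroup G} {z : G} (hn : z ∈ 𝒩(K)) (h2 : z * z ∈ K) :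
    Nat.card (K ⊔ zpowers z : Subgroup G) ≤ 2 * Nat.card K := pb2_cov z fun _ hx => (pb2_mem hn h2).1 hx

theorem pb2_lt [Finite G] {H K : Subgroup G} (h : H < K) : 2 * Nat.card H ≤ Nat.card K := by
  obtain ⟨k, hk⟩ := card_dvd_of_le h.le
  rcases k with _ | _ | k
  · exact (Nat.card_pos.ne' hk).elim
  · exact (h.ne (eq_of_le_of_card_ge h.le (by omega))).elim
  · rw [hk]; nlinarith

theorem pb2_cs {x y : G} : x ∈ centralizer {y} ↔ x * y = y * x := mem_centralizer_singleton_iff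
theorem pb2_cj {x y : G} (h : x * y = y * x) : x * y * x⁻¹ = y := by rw [h, mul_inv_cancel_right]
theorem pb2_inv {x : G} (h : x * x = 1) : x⁻¹ = x := inv_eq_of_mul_eq_one_right h

theorem pb2_sq {K : Subgroup G} {z : G} (hK : ∀ a ∈ K, a * a = 1) (hz : z * z = 1) (hc : z ∈ 𝒞(K)) :
    ∀ a ∈ K ⊔ zpowers z, a * a = 1 := fun a ha => by
  rcases (pb2_mem (cent_le_norm _ hc) (hz ▸ K.one_mem)).1 ha with h | h
  · exact hK a h
  · have h1 := hK _ h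
    have h2 : a * z = z * a := mul_right_cancel (b := z) (by rw [comm_of_mem hc h, mul_assoc])
    calc a * a = a * (z * z) * a := by rw [hz, mul_one]
      _ = a * z * (a * z) := by nth_rewrite 2 [h2]; simp only [mul_assoc]
      _ = 1 := h1

namespace PH
variable (P : PH G)

theorem pb2μ : P.μ ∈ P.V0 := (P.memV _).2 (.inr (.inl rfl))
theorem pb2ν : P.ν ∈ P.V0 := (P.memV _).2 (.inr (.inr (.inl rfl)))
theorem pb2V {L : Subgroup G} (h1 : P.μ ∈ L) (h2 : P.ν ∈ L) : P.V0 ≤ L := fun v hv => by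
  rcases (P.memV v).1 hv with rfl | rfl | rfl | rfl
  exacts [L.one_mem, h1, h2, mul_mem h1 h2]
theorem pb2VC {y : G} (h1 : y * P.μ = P.μ * y) (h2 : y * P.ν = P.ν * y) : y ∈ 𝒞(P.V0) := fun _ hv =>
  pb2_cs.1 (P.pb2V (L := centralizer {y}) (pb2_cs.2 h1.symm) (pb2_cs.2 h2.symm) hv)
theorem pb2T (g : G) : g * P.τ * g⁻¹ ∉ P.T0 := fun e => by
  by_cases hg : g ∈ P.T0
  · exact P.τT (by simpa [mul_assoc] using mul_mem (mul_mem (inv_mem hg) e) hg)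
  · exact hg (by simpa [mul_assoc] using mul_mem (inv_mem e) (P.idx _ _ hg P.τT))
theorem pb2κ : P.κ ≠ 1 := fun e => P.κV (e ▸ P.V0.one_mem)
theorem pb2ων : P.ω ∉ centralizer {P.ν} := fun e => P.μ1 (mul_right_cancel (b := P.ν) (by
  rw [← P.ων, pb2_cs.1 e, mul_assoc, P.ωω, mul_one, one_mul]))
theorem pb2sqV : ∀ a ∈ P.V0, a * a = 1 := fun v hv => by
  rcases (P.memV v).1 hv with rfl | rfl | rfl | rfl
  exacts [one_mul 1, P.μμ, P.νν, by rw [mul_assoc, ← mul_assoc P.ν, ← P.μν, mul_assoc, P.νν, mul_one, P.μμ]]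
theorem pb2cardV [Finite G] : Nat.card P.V0 ≤ 4 := by
  have h1 : (P.V0 : Set G) ⊆ {1, P.μ, P.ν, P.μ * P.ν} := fun v hv => (P.memV v).1 hv
  have h2 := Set.ncard_le_ncard h1
  have h3 := Set.ncard_insert_le 1 ({P.μ, P.ν, P.μ * P.ν} : Set G)
  have h4 := Set.ncard_insert_le P.μ ({P.ν, P.μ * P.ν} : Set G)
  have h5 := Set.ncard_insert_le P.ν ({P.μ * P.ν} : Set G)
  rw [Set.ncard_singleton] at h5
  rw [← SetLike.coe_sort_coe, Nat.card_coe_set_eq]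
  omega

/-- `⟨κ⟩ V₀` -/
def pb2A1 : Subgroup G := P.V0 ⊔ zpowers P.κ
/-- the elementary abelian group of order 16 -/
def pb2A (ν' : G) : Subgroup G := P.pb2A1 ⊔ zpowers ν'
def pb2K (ν' : G) : Subgroup G := P.pb2A ν' ⊔ zpowers P.τ
def pb2M (ν' : G) : Subgroup G := P.pb2K ν' ⊔ zpowers P.ω
/-- the action of `g` on `A₀` -/
def pb2Act (ν' g s t : G) : Prop :=
  g * P.μ * g⁻¹ = P.μ ∧ g * P.κ * g⁻¹ = P.κ ∧ g * P.ν * g⁻¹ = P.ν * s ∧ g * ν' * g⁻¹ = ν' * t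

theorem pb2κC : P.κ ∈ 𝒞(P.V0) := P.pb2VC P.κμ P.κν
theorem pb2m1 {x : G} : x ∈ P.pb2A1 ↔ x ∈ P.V0 ∨ x * P.κ ∈ P.V0 :=
  pb2_mem (cent_le_norm _ P.pb2κC) (P.κκ ▸ P.V0.one_mem)
theorem pb2A1τ : P.pb2A1 ≤ centralizer {P.τ} :=
  sup_le (P.pb2V (pb2_cs.2 P.τμ.symm) (pb2_cs.2 P.τν.symm)) (zpowers_le.2 (pb2_cs.2 P.τκ.symm))
theorem pb2cT {x : G} (hx : x ∈ P.T0) (h : x * P.τ = P.τ * x) : x ∈ P.pb2A1 ∨ x * P.ω ∈ P.pb2A1 := by
  have hk : P.κ ∈ P.pb2A1 := mem_sup_right (mem_zpowers _)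
  obtain ⟨v, hv, e⟩ := P.cτ x hx h
  have hv' : v ∈ P.pb2A1 := mem_sup_left hv
  rcases e with rfl | rfl | rfl | rfl
  exacts [.inl hv', .inl (mul_mem hv' hk), .inr (by rwa [mul_assoc, P.ωω, mul_one]),
    .inr (by rw [mul_assoc, P.ωω, mul_one]; exact mul_mem hv' hk)]
theorem pb2gen {ν' : G} {L : Subgroup G} (h1 : P.μ ∈ L) (h2 : P.ν ∈ L) (h3 : P.κ ∈ L) (h4 : ν' ∈ L) : P.pb2A ν' ≤ L :=
  sup_le (sup_le (P.pb2V h1 h2) (zpowers_le.2 h3)) (zpowers_le.2 h4)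
theorem pb2C {ν' y : G} (h1 : y * P.μ = P.μ * y) (h2 : y * P.ν = P.ν * y) (h3 : y * P.κ = P.κ * y)
    (h4 : y * ν' = ν' * y) : y ∈ 𝒞(P.pb2A ν') := fun _ hv =>
  pb2_cs.1 (P.pb2gen (L := centralizer {y}) (pb2_cs.2 h1.symm) (pb2_cs.2 h2.symm) (pb2_cs.2 h3.symm)
    (pb2_cs.2 h4.symm) hv)
theorem pb2νA (ν' : G) : ν' ∈ P.pb2A ν' := mem_sup_right (mem_zpowers _)
theorem pb2κA (ν' : G) : P.κ ∈ P.pb2A ν' := mem_sup_left (mem_sup_right (mem_zpowers _))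
theorem pb2VA (ν' : G) : P.V0 ≤ P.pb2A ν' := le_sup_left.trans le_sup_left
theorem pb2AM (ν' : G) : P.pb2A ν' ≤ P.pb2M ν' := le_sup_left.trans le_sup_left
theorem pb2τM (ν' : G) : P.τ ∈ P.pb2M ν' := mem_sup_left (mem_sup_right (mem_zpowers _))
theorem pb2ωM (ν' : G) : P.ω ∈ P.pb2M ν' := mem_sup_right (mem_zpowers _)
theorem pb2N [Finite G] {ν' g : G} (h1 : g * P.μ * g⁻¹ ∈ P.pb2A ν') (h2 : g * P.ν * g⁻¹ ∈ P.pb2A ν')
    (h3 : g * P.κ * g⁻¹ ∈ P.pb2A ν') (h4 : g * ν' * g⁻¹ ∈ P.pb2A ν') : g ∈ 𝒩(P.pb2A ν') :=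
  mem_norm_of_cj_le (cj_le_iff.2 (P.pb2gen (mem_cj.2 (by rwa [inv_inv])) (mem_cj.2 (by rwa [inv_inv]))
    (mem_cj.2 (by rwa [inv_inv])) (mem_cj.2 (by rwa [inv_inv]))))

variable {P}
theorem pb2Act.mul {ν' g s t g' s' t' : G} (a : P.pb2Act ν' g s t) (b : P.pb2Act ν' g' s' t') :
    P.pb2Act ν' (g * g') (s * (g * s' * g⁻¹)) (t * (g * t' * g⁻¹)) := by
  have e : ∀ y : G, g * g' * y * (g * g')⁻¹ = g * (g' * y * g'⁻¹) * g⁻¹ := fun y => by group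
  refine ⟨by rw [e, b.1, a.1], by rw [e, b.2.1, a.2.1], ?_, ?_⟩
  · rw [e, b.2.2.1, ← mul_assoc _ s, ← a.2.2.1]; group
  · rw [e, b.2.2.2, ← mul_assoc _ t, ← a.2.2.2]; group
theorem pb2Act.norm [Finite G] {ν' g s t : G} (a : P.pb2Act ν' g s t) (hs : s ∈ P.pb2A ν') (ht : t ∈ P.pb2A ν') :
    g ∈ 𝒩(P.pb2A ν') :=
  P.pb2N (a.1.symm ▸ P.pb2VA _ P.pb2μ) (a.2.2.1.symm ▸ mul_mem (P.pb2VA _ P.pb2ν) hs) (a.2.1.symm ▸ P.pb2κA _)
    (a.2.2.2.symm ▸ mul_mem (P.pb2νA _) ht)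
theorem pb2Act.cent {ν' g g' s t : G} (a : P.pb2Act ν' g s t) (b : P.pb2Act ν' g' s t) : g⁻¹ * g' ∈ 𝒞(P.pb2A ν') := by
  have e : ∀ y : G, g' * y * g'⁻¹ = g * y * g⁻¹ → g⁻¹ * g' * y = y * (g⁻¹ * g') := fun y hy => by
    rw [show g⁻¹ * g' * y = g⁻¹ * (g' * y * g'⁻¹) * g' by group, hy]; group
  exact P.pb2C (e _ (b.1.trans a.1.symm)) (e _ (b.2.2.1.trans a.2.2.1.symm)) (e _ (b.2.1.trans a.2.1.symm))
    (e _ (b.2.2.2.trans a.2.2.2.symm))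

namespace Sw
variable [Finite G] {n ν' : G} (h : P.Sw n ν')
include h

theorem pb2nτ : ν' ∉ centralizer {P.τ} := fun e => P.pb2κ (mul_left_cancel (a := P.τ) (by
  rw [← h.τ, pb2_cs.1 e, mul_assoc, h.νν]))
theorem pb2ab : P.pb2A ν' ≤ 𝒞(P.pb2A ν') :=
  P.pb2gen (P.pb2C rfl P.μν P.κμ.symm h.cμ.symm) (P.pb2C P.μν.symm rfl P.κν.symm h.cν.symm)
    (P.pb2C P.κμ P.κν rfl h.cκ.symm) (P.pb2C h.cμ h.cν h.cκ rfl)
theorem pb2νC : ν' ∈ 𝒞(P.pb2A1) := cent_mono le_sup_left (h.pb2ab (P.pb2νA _))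
theorem pb2sq : ∀ a ∈ P.pb2A ν', a * a = 1 := pb2_sq (pb2_sq P.pb2sqV P.κκ P.pb2κC) h.νν h.pb2νC
theorem pb2AT : P.pb2A ν' ≤ P.T0 := P.pb2gen (P.VT P.pb2μ) (P.VT P.pb2ν) P.κT h.νT
theorem pb2τC : P.τ ∉ 𝒞(P.pb2A ν') := fun e => h.pb2nτ (pb2_cs.2 (comm_of_mem e (P.pb2νA _)))
theorem pb2aτ : P.pb2Act ν' P.τ 1 P.κ := by
  refine ⟨pb2_cj P.τμ, pb2_cj P.τκ, by rw [pb2_cj P.τν, mul_one], ?_⟩
  have e : P.τ * ν' = ν' * (P.τ * P.κ) := by rw [← h.τ, ← mul_assoc, ← mul_assoc, h.νν, one_mul]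
  rw [e, P.τκ]; group
theorem pb2aω : P.pb2Act ν' P.ω P.μ 1 ∨ P.pb2Act ν' P.ω P.μ P.κ := by
  have e : P.ω * P.ν * P.ω⁻¹ = P.ν * P.μ := by rw [pb2_inv P.ωω, P.ων, P.μν]
  refine h.ω.imp (fun e' => ⟨pb2_cj P.ωμ, pb2_cj P.κω.symm, e, ?_⟩) fun e' => ⟨pb2_cj P.ωμ, pb2_cj P.κω.symm, e, ?_⟩
  · rw [pb2_inv P.ωω, e', mul_one]
  · rw [pb2_inv P.ωω, e']
theorem pb2an {g s t : G} (a : P.pb2Act ν' g s t) : P.pb2Act ν' (n * g * n⁻¹) (n * t * n⁻¹) (n * s * n⁻¹) := by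
  have e : ∀ y : G, n * g * n⁻¹ * (n * y * n⁻¹) * (n * g * n⁻¹)⁻¹ = n * (g * y * g⁻¹) * n⁻¹ := fun y => by group
  have e' : ∀ y z : G, n * (y * z) * n⁻¹ = n * y * n⁻¹ * (n * z * n⁻¹) := fun y z => by group
  have h1 := e P.κ
  have h2 := e P.μ
  have h3 := e P.ν
  have h4 := e ν'
  rw [a.2.1, h.nκ] at h1
  rw [a.1, h.nμ] at h2
  rw [a.2.2.1, e', h.nν] at h3
  rw [a.2.2.2, e'] at h4
  refine ⟨h1, h2, ?_, h3⟩
  rcases h.nν' with e2 | e2 <;> rw [e2] at h4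
  · exact h4
  · refine mul_left_cancel (a := P.μ) ?_
    rw [← mul_assoc P.μ P.ν, ← h4]
    nth_rewrite 1 [← h1]; group
theorem pb2τN : P.τ ∈ 𝒩(P.pb2A ν') := h.pb2aτ.norm (one_mem _) (P.pb2κA _)
theorem pb2ωN : P.ω ∈ 𝒩(P.pb2A ν') :=
  h.pb2aω.elim (fun a => a.norm (P.pb2VA _ P.pb2μ) (one_mem _)) fun a => a.norm (P.pb2VA _ P.pb2μ) (P.pb2κA _)
theorem pb2nN : n ∈ 𝒩(P.pb2A ν') :=
  P.pb2N (h.nμ.symm ▸ P.pb2κA _) (h.nν.symm ▸ P.pb2νA _) (h.nκ.symm ▸ P.pb2VA _ P.pb2μ)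
    (h.nν'.elim (fun e => e.symm ▸ P.pb2VA _ P.pb2ν) fun e => e.symm ▸ P.pb2VA _ (mul_mem P.pb2μ P.pb2ν))
theorem pb2mK {x : G} : x ∈ P.pb2K ν' ↔ x ∈ P.pb2A ν' ∨ x * P.τ ∈ P.pb2A ν' := pb2_mem h.pb2τN (P.ττ ▸ one_mem _)
theorem pb2ωK : P.ω ∈ 𝒩(P.pb2K ν') := zpowers_le.1 (le_norm_sup (zpowers_le.2 h.pb2ωN)
  (zpowers_le.2 (cent_le_norm _ fun _ hy => pb2_cs.1 ((zpowers_le (H := centralizer {P.ω})).2 (pb2_cs.2 P.τω) hy))))

/-- the key step -/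
theorem pb2key {g : G} (hg : g * P.τ * g⁻¹ * P.τ ∈ P.pb2A ν') :
    g ∈ centralizer {P.τ} ∨ ν' * g ∈ centralizer {P.τ} := by
  obtain ⟨a, ha⟩ : ∃ a, a = g * P.τ * g⁻¹ * P.τ := ⟨_, rfl⟩
  rw [← ha] at hg
  have e : g * P.τ * g⁻¹ = a * P.τ := by rw [ha, mul_assoc (g * P.τ * g⁻¹), P.ττ, mul_one]
  have e1 : a * P.τ * (a * P.τ) = 1 := by
    rw [← e, show g * P.τ * g⁻¹ * (g * P.τ * g⁻¹) = g * (P.τ * P.τ) * g⁻¹ by group, P.ττ]; group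
  have e2 : a * P.τ = P.τ * a := by rw [← pb2_inv e1, mul_inv_rev, pb2_inv P.ττ, pb2_inv (h.pb2sq a hg)]
  rw [e2] at e
  rcases (pb2_mem (cent_le_norm _ h.pb2νC) (h.νν ▸ one_mem _)).1 hg with h1 | h1
  · rcases P.pb2m1.1 h1 with h2 | h2
    · obtain rfl : a = 1 := by_contra fun a1 => (P.nf g a h2 a1).1 e
      exact .inl (pb2_cs.2 (by rw [← mul_inv_eq_iff_eq_mul, e, mul_one]))
    · have : a * P.κ = 1 := by_contra fun a1 => (P.nf g _ h2 a1).2 (by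
        rw [e, mul_assoc, mul_assoc, P.κκ, mul_one])
      rw [eq_inv_of_mul_eq_one_left this, pb2_inv P.κκ, ← h.τ] at e
      refine .inr (pb2_cs.2 ?_)
      calc ν' * g * P.τ = ν' * (g * P.τ * g⁻¹) * g := by group
        _ = ν' * ν' * P.τ * (ν' * g) := by rw [e]; group
        _ = _ := by rw [h.νν, one_mul]
  · exact (h.pb2nτ ((mul_mem_cancel_left (pb2_cs.2 e2)).1 (P.pb2A1τ h1))).elim

theorem pb2nK {g : G} (hg : g ∈ 𝒩(P.pb2K ν')) : g ∈ centralizer {P.τ} ∨ ν' * g ∈ centralizer {P.τ} :=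
  h.pb2key ((h.pb2mK.1 (conj_mem hg (mem_sup_right (mem_zpowers _)))).resolve_left fun e => P.pb2T g (h.pb2AT e))

theorem pb2cc {c : G} (hc : c ∈ 𝒞(P.pb2A ν')) (hτ : c ∈ centralizer {P.τ}) : c ∈ P.pb2A ν' := by
  have l : 𝒞(P.pb2A ν') ≤ centralizer {P.ν} := fun y hy => pb2_cs.2 (comm_of_mem hy (P.pb2VA _ P.pb2ν)).symm
  have l1 : P.pb2A1 ≤ 𝒞(P.pb2A ν') := le_sup_left.trans h.pb2ab
  by_cases hT : c ∈ P.T0
  · exact (P.pb2cT hT (pb2_cs.1 hτ)).elim (fun e => mem_sup_left e) fun e =>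
      (P.pb2ων (l ((mul_mem_cancel_left hc).1 (l1 e)))).elim
  · rcases P.pb2cT (P.idx _ _ hT P.τT) (pb2_cs.1 (mul_mem hτ (pb2_cs.2 rfl))) with e | e
    · exact (h.pb2τC ((mul_mem_cancel_left hc).1 (l1 e))).elim
    · exact (P.pb2ων ((mul_mem_cancel_left (mul_mem (l hc) (pb2_cs.2 P.τν))).1 (l (l1 e)))).elim

theorem pb2cA : 𝒞(P.pb2A ν') ≤ P.pb2A ν' := fun c hc => by_contra fun c1 => by
  have : Fact (Nat.Prime 2) := ⟨Nat.prime_two⟩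
  have hτ : P.τ ∈ P.pb2K ν' := mem_sup_right (mem_zpowers _)
  have l : P.pb2K ν' < 𝒞(P.pb2A ν') ⊔ zpowers P.τ := lt_of_le_not_ge (sup_le_sup_right h.pb2ab _) fun e =>
    (h.pb2mK.1 (e (mem_sup_left hc))).elim c1 fun e' => h.pb2τC ((mul_mem_cancel_left hc).1 (h.pb2ab e'))
  obtain ⟨x, ⟨hx, hn⟩, x1⟩ := SetLike.exists_of_lt (lt_inf_normalizer_of_isPGroup (P.two.to_subgroup _) l)
  have k : ∀ y ∈ 𝒞(P.pb2A ν'), y ∈ 𝒩(P.pb2K ν') → y ∈ P.pb2K ν' := fun y hy hn => mem_sup_left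
    ((h.pb2nK hn).elim (h.pb2cc hy) fun e =>
      (mul_mem_cancel_left (P.pb2νA _)).1 (h.pb2cc (mul_mem (h.pb2ab (P.pb2νA _)) hy) e))
  rcases (pb2_mem (norm_le_norm_cent _ h.pb2τN) (P.ττ ▸ one_mem _)).1 hx with e | e
  · exact x1 (k x e hn)
  · exact x1 ((mul_mem_cancel_right hτ).1 (k _ e (mul_mem hn (le_normalizer hτ))))

theorem pb2aσ : P.pb2Act ν' (n * P.τ * n⁻¹) P.μ 1 := by simpa [h.nκ] using h.pb2an h.pb2aτ
theorem pb2aω' : P.pb2Act ν' P.ω P.μ P.κ := h.pb2aω.resolve_left fun a =>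
  P.pb2T n ((mul_mem_cancel_left (inv_mem P.ωT)).1 (h.pb2AT (h.pb2cA (a.cent h.pb2aσ))))
theorem pb2σ : (P.ω * P.τ)⁻¹ * (n * P.τ * n⁻¹) ∈ P.pb2A ν' := by
  have a := h.pb2aω'.mul h.pb2aτ
  rw [h.pb2aω'.2.1, P.κκ, mul_one, mul_inv_cancel, mul_one] at a
  exact h.pb2cA (a.cent h.pb2aσ)
theorem pb2nM : n ∈ 𝒩(P.pb2M ν') := by
  have a := h.pb2an h.pb2aω'
  rw [h.nκ, h.nμ] at a
  refine mem_norm_of_cj_le (cj_le_iff.2 (sup_le (sup_le ?_ (zpowers_le.2 (mem_cj.2 ?_))) (zpowers_le.2 (mem_cj.2 ?_))))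
  · exact cj_le_iff.1 ((cj_eq h.pb2nN).le.trans (P.pb2AM _))
  · rw [inv_inv]
    exact (mul_mem_cancel_left (inv_mem (mul_mem (P.pb2ωM _) (P.pb2τM _)))).1 (P.pb2AM _ h.pb2σ)
  · rw [inv_inv]
    exact (mul_mem_cancel_left (inv_mem (P.pb2ωM _))).1 (P.pb2AM _ (h.pb2cA (h.pb2aω'.cent a)))
theorem pb2nn : n * n ∈ P.pb2M ν' := by
  have e : ∀ y : G, n * n * y * (n * n)⁻¹ = n * (n * y * n⁻¹) * n⁻¹ := fun y => by group
  have h1 : n * n * P.μ * (n * n)⁻¹ = P.μ := by rw [e, h.nμ, h.nκ]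
  have h2 : n * n * P.κ * (n * n)⁻¹ = P.κ := by rw [e, h.nκ, h.nμ]
  rcases h.nν' with e2 | e2
  · have a : P.pb2Act ν' (n * n) 1 1 := ⟨h1, h2, by rw [e, h.nν, e2, mul_one], by rw [e, e2, h.nν, mul_one]⟩
    have b : P.pb2Act ν' 1 1 1 := ⟨by simp, by simp, by simp, by simp⟩
    simpa using P.pb2AM _ (h.pb2cA (b.cent a))
  · have a : P.pb2Act ν' (n * n) P.μ P.κ := ⟨h1, h2, by rw [e, h.nν, e2, P.μν], by
      rw [e, e2, h.cκ, ← h.nμ, ← h.nν]; group⟩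
    exact (mul_mem_cancel_left (inv_mem (P.pb2ωM _))).1 (P.pb2AM _ (h.pb2cA (h.pb2aω'.cent a)))
theorem pb2CM : centralizer {P.τ} ≤ P.pb2M ν' := by
  have k : ∀ x ∈ P.T0, x * P.τ = P.τ * x → x ∈ P.pb2M ν' := fun x hx e => (P.pb2cT hx e).elim
    (fun e => P.pb2AM _ (mem_sup_left e)) fun e => (mul_mem_cancel_right (P.pb2ωM _)).1 (P.pb2AM _ (mem_sup_left e))
  intro x hx
  by_cases hT : x ∈ P.T0
  · exact k x hT (pb2_cs.1 hx)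
  · exact (mul_mem_cancel_right (P.pb2τM _)).1 (k _ (P.idx _ _ hT P.τT) (pb2_cs.1 (mul_mem hx (pb2_cs.2 rfl))))
theorem pb2keyM {g : G} (hg : g * P.τ * g⁻¹ * P.τ ∈ P.pb2A ν') : g ∈ P.pb2M ν' :=
  (h.pb2key hg).elim (fun e => h.pb2CM e) fun e => (mul_mem_cancel_left (P.pb2AM _ (P.pb2νA _))).1 (h.pb2CM e)
theorem pb2cM : Nat.card (P.pb2M ν') ≤ 2 * Nat.card (centralizer {P.τ}) := pb2_cov ν' fun x hx =>
  (h.pb2nK (inv_mem ((sup_le le_normalizer (zpowers_le.2 h.pb2ωK) : P.pb2M ν' ≤ _) hx))).imp inv_mem_iff.1 fun e => by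
    simpa [pb2_inv h.νν] using inv_mem e
theorem pb2MV : P.pb2M ν' ≤ 𝒩(P.V0) := by
  refine sup_le (sup_le (h.pb2ab.trans ((cent_mono (P.pb2VA _)).trans (cent_le_norm _)))
    (zpowers_le.2 (cent_le_norm _ (P.pb2VC P.τμ P.τν)))) (zpowers_le.2 (mem_norm_of_cj_le (cj_le_iff.2
      (P.pb2V (mem_cj.2 ?_) (mem_cj.2 ?_)))))
  · rw [inv_inv, h.pb2aω'.1]; exact P.pb2μ
  · rw [inv_inv, h.pb2aω'.2.2.1]; exact mul_mem P.pb2ν P.pb2μ

theorem pb2free {m b : G} (hm : m ∈ P.pb2M ν') (hb : b ∈ P.V0 ⊔ zpowers P.τ) (e : Commute b (n * m)) : b = 1 := by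
  have hτ := P.pb2VC P.τμ P.τν
  have l : P.V0 ≤ centralizer {P.τ} := le_sup_left.trans P.pb2A1τ
  have h1 : b ∈ centralizer {ν'} := by
    have c : Commute b (m⁻¹ * P.ν * m) := (comm_of_mem ((sup_le ((P.pb2VA _).trans (h.pb2ab.trans
      (cent_mono (P.pb2VA _)))) (zpowers_le.2 hτ) : _ ≤ 𝒞(P.V0)) hb) (conj_mem' (h.pb2MV hm) P.pb2ν)).symm
    have := (e.mul_right c).mul_right e.inv_right
    rw [show n * m * (m⁻¹ * P.ν * m) * (n * m)⁻¹ = n * P.ν * n⁻¹ by group, h.nν] at this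
    exact pb2_cs.2 this
  rcases (pb2_mem (cent_le_norm _ hτ) (P.ττ ▸ one_mem _)).1 hb with h2 | h2
  · have e1 : b = n * (m * b * m⁻¹) * n⁻¹ := by
      rw [show n * (m * b * m⁻¹) * n⁻¹ = n * m * b * (n * m)⁻¹ by group, pb2_cj e.symm.eq]
    rcases (P.memV _).1 (conj_mem (h.pb2MV hm) h2) with e2 | e2 | e2 | e2 <;> rw [e2] at e1
    · simpa using e1
    · exact (P.κV (h.nμ ▸ e1 ▸ h2)).elim
    · exact (h.pb2nτ (l (h.nν ▸ e1 ▸ h2))).elim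
    · rw [show n * (P.μ * P.ν) * n⁻¹ = n * P.μ * n⁻¹ * (n * P.ν * n⁻¹) by group, h.nμ, h.nν] at e1
      exact (h.pb2nτ ((mul_mem_cancel_left (pb2_cs.2 P.τκ.symm)).1 (l (e1 ▸ h2)))).elim
  · have := (mul_mem_cancel_left h1).1 (P.pb2V (L := centralizer {ν'}) (pb2_cs.2 h.cμ.symm) (pb2_cs.2 h.cν.symm) h2)
    exact (h.pb2nτ (pb2_cs.2 (pb2_cs.1 this).symm)).elim

theorem pb2top : P.pb2M ν' ⊔ zpowers n = ⊤ := by_contra fun M1 => by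
  have : Fact (Nat.Prime 2) := ⟨Nat.prime_two⟩
  obtain ⟨g, ⟨-, hg⟩, g1⟩ := SetLike.exists_of_lt
    (lt_inf_normalizer_of_isPGroup (P.two.to_subgroup _) (lt_top_iff_ne_top.2 M1))
  rcases (pb2_mem h.pb2nM h.pb2nn).1 (conj_mem hg (mem_sup_left (P.pb2τM ν'))) with e | e
  · rcases (pb2_mem h.pb2ωK (P.ωω ▸ one_mem _)).1 e with e | e <;> rcases h.pb2mK.1 e with e | e
    · exact P.pb2T g (h.pb2AT e)
    · exact g1 (mem_sup_left (h.pb2keyM e))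
    · exact P.pb2T g ((mul_mem_cancel_right P.ωT).1 (h.pb2AT e))
    · refine g1 ((mul_mem_cancel_left (inv_mem (mem_sup_right (mem_zpowers n)))).1 (mem_sup_left (h.pb2keyM ?_)))
      convert conj_mem' h.pb2nN (mul_mem e h.pb2σ) using 1; group
  · have d : Disjoint (P.V0 ⊔ zpowers P.τ) (cj g (centralizer {P.τ})) := disjoint_def.2 fun {b} hb hb' => by
      refine h.pb2free (inv_mem e) hb ?_
      have c : Commute b (g * P.τ * g⁻¹) := by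
        have := pb2_cs.1 (mem_cj.1 hb')
        show b * (g * P.τ * g⁻¹) = g * P.τ * g⁻¹ * b
        rw [show b * (g * P.τ * g⁻¹) = g * (g⁻¹ * b * g * P.τ) * g⁻¹ by group, this]; group
      convert c.inv_right using 1; group
    have l1 : P.V0 ⊔ zpowers P.τ ≤ P.pb2M ν' ⊔ zpowers n :=
      (sup_le ((P.pb2VA _).trans (P.pb2AM _)) (zpowers_le.2 (P.pb2τM _))).trans le_sup_left
    have l2 := cj_le_of_le (h.pb2CM.trans le_sup_left) hg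
    have c1 := Nat.card_le_card_of_injective (fun p : (P.V0 ⊔ zpowers P.τ : Subgroup G) × cj g (centralizer {P.τ}) =>
      (⟨p.1 * p.2, mul_mem (l1 p.1.2) (l2 p.2.2)⟩ : (P.pb2M ν' ⊔ zpowers n : Subgroup G)))
      fun p q e => mul_injective_of_disjoint d (congrArg Subtype.val e)
    rw [Nat.card_prod, card_cj] at c1
    have c2 := pb2_card h.pb2nM h.pb2nn
    have c3 := h.pb2cM
    have c4 := pb2_lt (bot_lt_iff_ne_bot.2 (zpowers_ne_bot.2 P.μ1))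
    have c5 : zpowers P.μ < P.V0 := lt_of_le_not_ge (zpowers_le.2 P.pb2μ) fun e' => P.pb2ων (pb2_cs.2
      (pb2_cs.1 ((zpowers_le (H := centralizer {P.ω})).2 (pb2_cs.2 P.ωμ.symm) (e' P.pb2ν))).symm)
    have c6 : P.V0 < P.V0 ⊔ zpowers P.τ :=
      lt_of_le_not_ge le_sup_left fun e' => P.τT (P.VT (e' (mem_sup_right (mem_zpowers _))))
    have c7 := pb2_lt c5
    have c8 := pb2_lt c6
    have c9 : 0 < Nat.card (centralizer {P.τ}) := Nat.card_pos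
    rw [card_bot] at c4
    nlinarith

end Sw
end PH

theorem pb2 : Pb2S.{u} := fun G _ _ P n ν' h => by
  have c1 := pb2_card h.pb2nM h.pb2nn
  have c2 : Nat.card (P.pb2M ν') ≤ _ := pb2_card h.pb2ωK (P.ωω ▸ one_mem _)
  have c3 : Nat.card (P.pb2K ν') ≤ _ := pb2_card h.pb2τN (P.ττ ▸ one_mem _)
  have c4 : Nat.card (P.pb2A ν') ≤ _ := pb2_card (cent_le_norm _ h.pb2νC) (h.νν ▸ one_mem _)
  have c5 : Nat.card P.pb2A1 ≤ _ := pb2_card (cent_le_norm _ P.pb2κC) (P.κκ ▸ one_mem _)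
  have c6 := P.pb2cardV
  rw [h.pb2top, card_top] at c1
  omega

end CL.H33
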