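/-
Project H33 (S3139): a Sylow 2-subgroup of `C(t)` adapted to the model.
-/
import Cfsg.Agent.H33.Defs
import Cfsg.Agent.Grp.NilpSub
import Cfsg.Agent.Grp.MinNormal

set_option autoImplicit false
open Cfsg Subgroup CL.Even CL.Grp
open scoped Pointwise

namespace CL.H33
open M

universe u

theorem pd0_eta : ∀ x : M ps, mk' ps false x.z x.c false x.i x.j x.k = x := by decide +kernel
theorem pd0_mul' : ∀ z c i j k z' c' i' j' k' : Bool,
    tr p0 (mk' ps false z c false i j k * mk' ps false z' c' false i' j' k') =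
      tr p0 (mk' ps false z c false i j k) * tr p0 (mk' ps false z' c' false i' j' k') := by decide +kernel
theorem pd0_mul (x y : M ps) : tr p0 (x * y) = tr p0 x * tr p0 y := by
  simpa only [pd0_eta] using pd0_mul' x.z x.c x.i x.j x.k y.z y.c y.i y.j y.k
theorem pd0_d : ∀ x : M ps, (tr p0 x).d = false := by decide +kernel
theorem pd0_inj : ∀ x : M ps, x.c = false → (tr p0 x = 1 ∨ tr p0 x = mt p0) → x = 1 := by decide +kernel
theorem pd0_surj : ∀ x : M p0, x.d = false → ∃ y : M ps, y.c = false ∧ (x = tr p0 y ∨ x = tr p0 y * mt p0) := by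
  decide +kernel

theorem pd0 : Pd0S.{u} := by
  intro _ G _ _ A _ _ I a D
  have : Fact (Nat.Prime 2) := ⟨Nat.prime_two⟩
  obtain ⟨S₀⟩ : Nonempty (Sylow 2 (centralizer ({D.t} : Set G))) := inferInstance
  obtain ⟨S, hS⟩ : ∃ S : Sylow 2 (centralizer ({D.t} : Set G)), ∀ s ∈ S, D.φ s ∈ a.ψ.range := by
    obtain ⟨b, -, hb⟩ := a.syl.exists_conj_le (S₀.isPGroup'.map D.φ) le_top
    obtain ⟨c, hc, hc'⟩ : ∃ c ∈ I, ∀ s ∈ S₀, c * D.φ s * c⁻¹ ∈ a.ψ.range := by
      have h1 : ∀ s ∈ S₀, b * D.φ s * b⁻¹ ∈ a.ψ.range := fun s hs =>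
        hb (smul_mem_pointwise_smul _ (MulAut.conj b) _ ⟨s, hs, rfl⟩)
      by_cases h : b ∈ I
      · exact ⟨b, h, h1⟩
      · refine ⟨a.ψ (md p0) * b, a.iI _ _ (fun m => absurd ((a.inn _).1 m) (by decide)) h, fun s hs => ?_⟩
        have h2 : a.ψ (md p0) ∈ a.ψ.range := ⟨_, rfl⟩
        simpa only [mul_inv_rev, mul_assoc] using mul_mem (mul_mem h2 (h1 s hs)) (inv_mem h2)
    obtain ⟨l, -, rfl⟩ := D.IL c hc
    refine ⟨l • S₀, fun s hs => ?_⟩
    obtain ⟨r, hr, rfl⟩ := (mem_smul_pointwise_iff_exists _ _ _).1 (show s ∈ MulAut.conj l • (S₀ : Subgroup _) from hs)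
    simpa using hc' r hr
  set L' := D.L.subgroupOf (centralizer ({D.t} : Set G)) with hL'
  have : L'.Normal := normal_subgroupOf_of_le_normalizer' D.Ln
  have hI : L'.map D.φ = I := le_antisymm (by rintro _ ⟨h, hh, rfl⟩; exact D.LI h hh) fun b hb => D.IL b hb
  have h1 : a.ψ.range ⊓ I = ((S : Subgroup _) ⊓ L').map D.φ := by
    have := syl_map D.φ (isSylowIn_inf_normal S L')
    rw [hI] at this
    exact this.eq_of_le a.syl.isPGroup.to_inf_left
      (by rintro _ ⟨h, hh, rfl⟩; exact ⟨hS h hh.1, D.LI h hh.2⟩) inf_le_right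
  have one : ∀ g ∈ (S : Subgroup _) ⊓ L', D.φ g = 1 → g = 1 := fun g hg h =>
    CL.Grp.eq_one_of_coprime_of_mem S.isPGroup' hg.1 (by
      rw [← orderOf_coe]; exact Nat.coprime_two_right.2 (D.odd g hg.2 h))
  have inj : ∀ g ∈ (S : Subgroup _) ⊓ L', ∀ g' ∈ (S : Subgroup _) ⊓ L', D.φ g = D.φ g' → g = g' :=
    fun g hg g' hg' h => inv_mul_eq_one.1 (one _ (mul_mem (inv_mem hg) hg') (by rw [map_mul, map_inv, h, inv_mul_cancel]))
  have ex : ∀ x : M ps, ∃ g ∈ (S : Subgroup _) ⊓ L', D.φ g = a.ψ (tr p0 x) := fun x =>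
    h1.le (show _ ∈ a.ψ.range ⊓ I from ⟨⟨_, rfl⟩, (a.inn _).2 (pd0_d x)⟩)
  choose j hj hj' using ex
  let t : centralizer ({D.t} : Set G) := ⟨D.t, mem_centralizer_singleton_iff.2 rfl⟩
  have tc : ∀ g : centralizer ({D.t} : Set G), g * t = t * g := fun g =>
    Subtype.ext (mem_centralizer_singleton_iff.1 g.2)
  have tt : t * t = 1 := Subtype.ext D.tt
  have φt : D.φ t = 1 := D.φt t rfl
  have ψt : a.ψ (mt p0) = 1 := (a.ker _).2 (Or.inr rfl)
  have tS : t ∈ S := by
    have : (zpowers t).Normal := normal_of_le_center' (zpowers_le.2 (mem_center_iff.2 tc))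
    exact ((le_pCore (isPGroup_zpowers_of_orderOf_eq (orderOf_eq_prime ((sq t).trans tt)
      fun e => D.t1 (congrArg Subtype.val e)))).trans (pCore_le_sylow S)) (mem_zpowers t)
  have tL : t ∉ L' := fun m => D.t1 (congrArg Subtype.val (one t ⟨tS, m⟩ φt))
  let ι : M ps →* centralizer ({D.t} : Set G) := MonoidHom.mk' (fun x => cond x.c t 1 * j x) fun x y => by
    have e : j (x * y) = j x * j y := inj _ (hj _) _ (mul_mem (hj x) (hj y)) (by
      rw [map_mul, hj', hj', hj', pd0_mul, map_mul])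
    have ec : (x * y).c = (x.c ^^ y.c) := by rw [mul_c]; simp [ps]
    rw [e, ec]
    cases x.c <;> cases y.c <;> simp only [Bool.xor_false, Bool.xor_true, Bool.not_true, Bool.not_false, cond_true,
      cond_false, one_mul, mul_assoc]
    · rw [← mul_assoc, ← tc, mul_assoc]
    · rw [← mul_assoc (j x) t, tc, mul_assoc, ← mul_assoc t t, tt, one_mul]
  have ιa : ∀ x, ι x = cond x.c t 1 * j x := fun _ => rfl
  have φι : ∀ x, D.φ (ι x) = a.ψ (tr p0 x) := fun x => by
    rw [ιa, map_mul, hj']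
    cases x.c <;> simp [φt]
  have ιL : ∀ x, ι x ∈ L' ↔ x.c = false := fun x => by
    rw [ιa, L'.mul_mem_cancel_right (hj x).2]
    cases x.c <;> simp [tL]
  have ιS : ∀ x, ι x ∈ S := fun x => by
    rw [ιa]
    refine mul_mem ?_ (hj x).1
    cases x.c
    exacts [one_mem _, tS]
  refine ⟨{ toLD := D
            a := a
            S := (S : Subgroup _).map (centralizer ({D.t} : Set G)).subtype
            ι := (centralizer ({D.t} : Set G)).subtype.comp ι
            inj := (subtype_injective _).comp ((injective_iff_map_eq_one ι).2 fun x hx => ?_)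
            syl := isSylowIn_map_subtype S
            ιt := ?_
            ιS := fun x => ⟨_, ιS x, rfl⟩
            ιL := ιL
            SL := ?_
            φι := fun h x e => (congrArg D.φ (Subtype.ext e)).trans (φι x)
            φS := fun h hh => ?_ }⟩
  · exact pd0_inj x ((ιL x).1 (hx ▸ one_mem _)) ((a.ker _).1 (by rw [← φι, hx, map_one]))
  · have : j (mt ps) = 1 := one _ (hj _) ((hj' _).trans ψt)
    change ((t * j (mt ps) : centralizer ({D.t} : Set G)) : G) = D.t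
    rw [this, mul_one]
  · rintro _ ⟨g, hg, rfl⟩ hgL
    obtain ⟨x, hx⟩ := hS g hg
    obtain ⟨y, hy, e⟩ := pd0_surj x ((a.inn x).1 (hx ▸ D.LI g hgL))
    refine ⟨y, congrArg Subtype.val (inj _ ⟨ιS y, (ιL y).2 hy⟩ _ ⟨hg, hgL⟩ ?_)⟩
    rw [φι, ← hx]
    rcases e with rfl | rfl
    · rfl
    · rw [map_mul, ψt, mul_one]
  · obtain ⟨g, hg, e⟩ := hh
    obtain ⟨x, hx⟩ := hS g hg
    exact ⟨x, by rw [hx, show g = h from Subtype.ext e]⟩

end CL.H33
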