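/-
Project H33 (S3139): the involutions `t` and `t z` are conjugate.
-/
import Cfsg.Agent.H33.Defs
import Cfsg.Agent.Inv.BF3

set_option autoImplicit false
set_option linter.unusedSectionVars false
open Cfsg Subgroup CL.Even CL.Grp

namespace CL.H33
open M

universe u

namespace S1a

/-- conjugacy by an element of `I` -/
def IC {A : Type*} [Group A] (I : Subgroup A) (a b : A) : Prop := ∃ i ∈ I, i * a * i⁻¹ = b

section
variable {A : Type*} [Group A] {I : Subgroup A} {a b c : A}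

theorem IC.symm (h : IC I a b) : IC I b a := by
  obtain ⟨i, hi, rfl⟩ := h; exact ⟨i⁻¹, inv_mem hi, by group⟩

theorem IC.trans (h : IC I a b) (k : IC I b c) : IC I a c := by
  obtain ⟨i, hi, rfl⟩ := h; obtain ⟨j, hj, rfl⟩ := k; exact ⟨j * i, mul_mem hj hi, by group⟩

theorem IC.mem (h : IC I a b) (k : b ∈ I) : a ∈ I := by
  obtain ⟨i, hi, rfl⟩ := h.symm; exact mul_mem (mul_mem hi k) (inv_mem hi)

theorem IC.sq (h : IC I a b) (k : a * a = 1) : b * b = 1 := by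
  obtain ⟨i, -, rfl⟩ := h; rw [conj_mul, k]; group

theorem IC.conj {G : Type*} [Group G] {j : A →* G} (h : IC I a b) : IsConj (j a) (j b) := by
  obtain ⟨i, -, rfl⟩ := h; exact isConj_iff.2 ⟨j i, by simp⟩
end

theorem dec1 : ∀ m : M p0, (m * m = 1 ∨ m * m = mt p0) → ∃ y : M p0, y.d = false ∧ ∃ c : Bool,
    y * m * y⁻¹ * cond c (mt p0) 1 ∈ [1, mz p0, mw p0, mg p0, mg p0 * mw p0, md p0 * mq p0, md p0 * (mu p0 * mq p0)] := by
  decide +kernel

theorem dec2 : (ma p0).d = false ∧ ma p0 * mg p0 * (ma p0)⁻¹ = mg p0 * mz p0 ∧ (md p0).d = true ∧ (mz p0).d = false ∧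
    (mg p0).d = true ∧ mg p0 * mz p0 = mz p0 * mg p0 ∧ mg p0 * mw p0 = mw p0 * mg p0 ∧ tr p0 (mz ps) = mz p0 ∧
    tr p0 (mw ps) = mw p0 := by
  decide +kernel

theorem dec3 : mz ps * mz ps = 1 ∧ mw ps * mw ps = 1 ∧ mz ps * mw ps = mw ps * mz ps ∧ mz ps ≠ 1 ∧ mw ps ≠ 1 ∧
    mz ps * mw ps ≠ 1 ∧ mw ps ≠ mz ps ∧ mt ps ≠ mz ps ∧ mw ps * mt ps ≠ 1 ∧ mw ps * mt ps ≠ mz ps ∧
    (mz ps).c = false ∧ (mw ps).c = false := by
  decide +kernel

variable {A : Type} [Group A] [Finite A] {I : Subgroup A}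

theorem f1 (a : AM A I) {x : A} (h : x * x = 1) : x = 1 ∨ IC I x (a.ψ (mz p0)) ∨ IC I x (a.ψ (mg p0)) := by
  obtain ⟨d1, d2, d3, -⟩ := dec2
  obtain ⟨b, -, hb⟩ := syl_conj_le a.syl (isPGroup_zpowers (x := x) (k := 1) (by rw [pow_one, pow_two, h])) le_top
  obtain ⟨m, hm⟩ : ∃ m, IC I x (a.ψ m) := by
    obtain ⟨m, hm⟩ := hb (conj_mem_cj b (mem_zpowers x))
    by_cases hI : b ∈ I
    · exact ⟨m, b, hI, hm.symm⟩
    · exact ⟨md p0 * m * (md p0)⁻¹, a.ψ (md p0) * b, a.iI _ _ (fun e => by simpa [d3] using (a.inn _).1 e) hI, by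
        rw [map_mul, map_mul, map_inv, hm]; group⟩
  obtain ⟨y, hy, c, e⟩ := dec1 m ((a.ker _).1 (by rw [map_mul]; exact hm.sq h))
  have k : IC I x (a.ψ (y * m * y⁻¹ * cond c (mt p0) 1)) := hm.trans ⟨a.ψ y, (a.inn y).2 hy, by
    rw [map_mul, (a.ker (cond c (mt p0) 1)).2 (by cases c <;> simp), mul_one, map_mul, map_mul, map_inv]⟩
  have g1 : IC I (a.ψ (mg p0)) (a.ψ (md p0 * mq p0)) := ⟨a.ρ0, a.ρ0I, by
    rw [mg, map_mul, map_mul, ← conj_mul, a.ρ0d, a.ρ0u]⟩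
  simp only [List.mem_cons, List.not_mem_nil, or_false] at e
  rcases e with e | e | e | e | e | e | e <;> rw [e] at k
  · obtain ⟨i, -, e⟩ := k
    exact .inl (conj_eq_one_iff.1 (e.trans (map_one _)))
  · exact .inr (.inl k)
  · exact .inr (.inl (k.trans (IC.symm ⟨a.ρ, a.ρI, a.ρz⟩)))
  · exact .inr (.inr k)
  · refine .inr (.inr (k.trans (IC.symm (IC.trans (b := a.ψ (mg p0 * mz p0)) ⟨a.ψ (ma p0), (a.inn _).2 d1, ?_⟩
      ⟨a.ρ, a.ρI, ?_⟩))))
    · rw [← d2, map_mul, map_mul, map_inv]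
    · rw [map_mul, map_mul, ← conj_mul, a.ρg, a.ρz]
  · exact .inr (.inr (k.trans g1.symm))
  · exact .inr (.inr (k.trans (IC.symm (g1.trans ⟨a.ρ0, a.ρ0I, by
      rw [map_mul, ← conj_mul, a.ρ0d, a.ρ0q, ← map_mul]⟩))))

theorem f1i (a : AM A I) {x : A} (h : x * x = 1) (h1 : x ≠ 1) (hI : x ∈ I) : IC I x (a.ψ (mz p0)) :=
  ((f1 a h).resolve_left h1).resolve_right fun e => by simpa [dec2.2.2.2.2.1] using (a.inn _).1 (e.symm.mem hI)

theorem f1o (a : AM A I) {x : A} (h : x * x = 1) (hI : x ∉ I) : IC I x (a.ψ (mg p0)) :=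
  ((f1 a h).resolve_left fun e => hI (e ▸ one_mem _)).resolve_left fun e => hI (e.mem ((a.inn _).2 dec2.2.2.2.1))

/-- the situation inside `C(t)` -/
structure HL {H : Type u} [Group H] (a : AM A I) (t z w : H) (L : Subgroup H) (φ : H →* A) : Prop where
  tt : t * t = 1
  t1 : t ≠ 1
  tc : ∀ x, x * t = t * x
  nL : L.Normal
  LI : ∀ h ∈ L, φ h ∈ I
  IL : ∀ b ∈ I, ∃ h ∈ L, φ h = b
  odd : ∀ h ∈ L, φ h = 1 → Odd (orderOf h)
  φt : φ t = 1
  cyc : ∀ P : Subgroup H, IsPGroup 2 P → P ≤ φ.ker → IsCyclic P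
  zL : z ∈ L
  wL : w ∈ L
  zz : z * z = 1
  ww : w * w = 1
  zw : z * w = w * z
  φz : φ z = a.ψ (mz p0)
  φw : φ w = a.ψ (mw p0)

namespace HL
variable {H : Type u} [Group H] [Finite H] {a : AM A I} {t z w x y v : H} {L : Subgroup H} {φ : H →* A}
  (h : HL a t z w L φ)
include h

theorem f0 (hx : x * x = 1) (k : φ x = 1) : x = 1 ∨ x = t := by
  refine or_iff_not_imp_left.2 fun x1 => ?_
  have p : ∀ {y : H}, y * y = 1 → IsPGroup 2 (zpowers y) := fun e =>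
    isPGroup_zpowers (k := 1) (by rw [pow_one, pow_two, e])
  exact CL.Inv.eq_of_invol_of_mem_isCyclic (h.cyc (zpowers x ⊔ zpowers t) (isPGroup_sup (p hx) (p h.tt)
    (zpowers_le.2 (centralizer_le_normalizer _ fun _ ⟨n, e⟩ => e ▸ ((show Commute x t from h.tc x).zpow_right n).eq.symm)))
    (sup_le (zpowers_le.2 k) (zpowers_le.2 h.φt))) (mem_sup_left (mem_zpowers x)) (mem_sup_right (mem_zpowers t))
    (orderOf_eq_prime (by rw [pow_two, hx]) x1) (orderOf_eq_prime (by rw [pow_two, h.tt]) h.t1)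

theorem f2 (hx : x * x = 1) (hy : y * y = 1) (m : y * x⁻¹ ∈ L) (e : φ x = φ y) : IC L x y := by
  have i := inv_eq_of_mul_eq_one_right hx
  obtain ⟨j, hj⟩ := h.odd _ m (by rw [map_mul, map_inv, e, mul_inv_cancel])
  have p := pow_orderOf_eq_one (y * x⁻¹)
  have c : x * (y * x⁻¹)⁻¹ * x⁻¹ = y * x⁻¹ := by
    rw [mul_inv_rev, inv_inv, inv_eq_of_mul_eq_one_right hy, ← mul_assoc, hx, one_mul]
  refine ⟨(y * x⁻¹) ^ (j + 1), pow_mem m _, ?_⟩
  calc _ = (y * x⁻¹) ^ (j + 1) * (x * (y * x⁻¹)⁻¹ * x⁻¹) ^ (j + 1) * x := by rw [conj_pow, inv_pow]; group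
    _ = (y * x⁻¹) ^ (2 * j + 1) * (y * x⁻¹) * x := by rw [c, ← pow_add, ← pow_succ]; congr 2; ring
    _ = y := by rw [← hj, p]; group

theorem lift {b : A} (e : IC I (φ x) b) : ∃ x', IC L x x' ∧ φ x' = b ∧ x' * x⁻¹ ∈ L := by
  obtain ⟨i, hi, rfl⟩ := e
  obtain ⟨l, hl, rfl⟩ := h.IL i hi
  exact ⟨_, ⟨l, hl, rfl⟩, by rw [map_mul, map_mul, map_inv], by
    simpa only [mul_assoc] using mul_mem hl (h.nL.conj_mem _ (inv_mem hl) x)⟩

theorem f2' (hx : x * x = 1) (hy : y * y = 1) (m : y * x⁻¹ ∈ L) (e : IC I (φ x) (φ y)) : IC L x y := by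
  obtain ⟨x', c, e', m'⟩ := h.lift e
  exact c.trans (h.f2 (c.sq hx) hy (by simpa using mul_mem m (inv_mem m')) e')

theorem f5a (hx : x * x = 1) (vL : v ∈ L) (hv : v * v = 1) (c : φ x * φ v = φ v * φ x) :
    ∃ x', IC L x x' ∧ φ x' = φ x ∧ x' * v = v * x' ∧ ∀ y, Commute y x → Commute y v → Commute y x' := by
  have i := inv_eq_of_mul_eq_one_right hx
  have iv := inv_eq_of_mul_eq_one_right hv
  have m : (x * v) ^ 2 ∈ L := by
    simpa only [i, pow_two, mul_assoc] using mul_mem (h.nL.conj_mem _ vL x) vL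
  have k : φ ((x * v) ^ 2) = 1 := by
    rw [map_pow, map_mul, (show Commute (φ x) (φ v) from c).mul_pow, ← map_pow, ← map_pow, pow_two, pow_two, hx, hv,
      map_one, mul_one]
  obtain ⟨j, hj⟩ := h.odd _ m k
  have p := pow_orderOf_eq_one ((x * v) ^ 2)
  have e : ((x * v) ^ 2) ^ j * x * v = (x * v) ^ (2 * j + 1) := by rw [← pow_mul, mul_assoc, ← pow_succ]
  have cc : (x * v) ^ (2 * j + 1) * (x * v) ^ (2 * j + 1) = 1 := by rw [← pow_two, ← pow_mul, mul_comm, pow_mul, ← hj, p]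
  have cv : v * (x * v) ^ (2 * j + 1) * v⁻¹ = (x * v) ^ (2 * j + 1) := by
    rw [← conj_pow, show v * (x * v) * v⁻¹ = (x * v)⁻¹ by rw [mul_inv_rev, i, iv, mul_assoc, mul_assoc, hv, mul_one],
      inv_pow, inv_eq_of_mul_eq_one_right cc]
  rw [← e] at cc cv
  have cm : ((x * v) ^ 2) ^ j * x * v = v * (((x * v) ^ 2) ^ j * x) := cv.symm.trans (by group)
  have φe : φ (((x * v) ^ 2) ^ j * x) = φ x := by rw [map_mul, map_pow, k, one_pow, one_mul]
  refine ⟨((x * v) ^ 2) ^ j * x, h.f2 hx ?_ (by simpa using pow_mem m j) φe.symm, φe, cm,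
    fun y a b => (((a.mul_right b).pow_right 2).pow_right j).mul_right a⟩
  generalize ((x * v) ^ 2) ^ j * x = s at cc cm ⊢
  calc s * s = s * (v * v) * s := by rw [hv, mul_one]
    _ = s * v * (v * s) := by group
    _ = 1 := by rw [← cm, cc]

theorem fA (hx : x * x = 1) (x1 : x ≠ 1) (hI : φ x ∈ I) : x = t ∨ IC L x z ∨ IC L x (t * z) := by
  by_cases k : φ x = 1
  · exact .inl ((h.f0 hx k).resolve_left x1)
  obtain ⟨y, c, e, -⟩ := h.lift (f1i a (by rw [← map_mul, hx, map_one]) k hI)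
  obtain ⟨y', c', e', m, -⟩ := h.f5a (c.sq hx) h.zL h.zz (by rw [e, h.φz])
  have c2 := c.trans c'
  rcases h.f0 (x := y' * z) (by rw [mul_assoc, ← mul_assoc z, ← m, mul_assoc y', h.zz, mul_one, c2.sq hx])
    (by rw [map_mul, e', e, ← h.φz, ← map_mul, h.zz, map_one]) with k | k
  · exact .inr (.inl (mul_right_cancel (k.trans h.zz.symm) ▸ c2))
  · exact .inr (.inr (by rwa [← k, mul_assoc, h.zz, mul_one]))

theorem fB (hx : x * x = 1) (hy : y * y = 1) (hI : φ x ∉ I) (m : y * x⁻¹ ∈ L) : IC L x y :=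
  h.f2' hx hy m ((f1o a (by rw [← map_mul, hx, map_one]) hI).trans (f1o a (by rw [← map_mul, hy, map_one])
    fun e => hI (by simpa using mul_mem (inv_mem (h.LI _ m)) e)).symm)

theorem fC (hx : x * x = 1) (hI : φ x ∉ I) : ∃ y, IC L x y ∧ Commute y z ∧ Commute y w := by
  obtain ⟨-, -, -, -, -, d1, d2, -⟩ := dec2
  obtain ⟨y, c, e, -⟩ := h.lift (f1o a (by rw [← map_mul, hx, map_one]) hI)
  obtain ⟨y', c', e', m, -⟩ := h.f5a (c.sq hx) h.zL h.zz (by rw [e, h.φz, ← map_mul, d1, map_mul])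
  obtain ⟨y'', c'', -, m', k⟩ := h.f5a (c'.sq (c.sq hx)) h.wL h.ww (by rw [e', e, h.φw, ← map_mul, d2, map_mul])
  exact ⟨y'', (c.trans c').trans c'', (k z m.symm h.zw).symm, m'⟩

theorem fD (vL : v ∈ L) (hv : v * v = 1) (v1 : v ≠ 1) : IC L v z :=
  h.f2' hv h.zz (mul_mem h.zL (inv_mem vL)) (h.φz ▸ f1i a (by rw [← map_mul, hv, map_one]) (fun e => by
    have := h.odd v vL e
    rw [orderOf_eq_prime (p := 2) (by rw [pow_two, hv]) v1] at this
    exact absurd this (by decide)) (h.LI v vL))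

theorem tmul (c : IC L x y) : IC L (t * x) (t * y) := by
  obtain ⟨l, hl, rfl⟩ := c
  exact ⟨l, hl, by rw [← mul_assoc, h.tc l]; group⟩

end HL

theorem fin {G H : Type u} [Group G] [Group H] [Finite H] {a : AM A I} {t z w : H} {L : Subgroup H} {φ : H →* A}
    (h : HL a t z w L φ) (j : H →* G) (inj : Function.Injective j) (sur : ∀ g, g * j t = j t * g → ∃ x, j x = g)
    (z1 : z ≠ 1) (w1 : w ≠ 1) (zw1 : z * w ≠ 1) (wz : w ≠ z) (tz : t ≠ z) (wt : w * t ≠ 1)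
    (wtz : w * t ≠ z) (ni : ∃ g, g * j t * g⁻¹ ≠ j t ∧ (g * j t * g⁻¹) * j t = j t * (g * j t * g⁻¹)) :
    IsConj (j t) (j (t * z)) := by
  by_contra hn
  have sq : ∀ {x : H}, IsConj (j t) (j x) → x * x = 1 ∧ x ≠ 1 := fun {x} e => by
    obtain ⟨g, e⟩ := isConj_iff.1 e
    refine ⟨inj ?_, fun k => h.t1 (inj ((conj_eq_one_iff.1 (e.trans (k ▸ map_one j))).trans (map_one j).symm))⟩
    rw [map_mul, ← e, conj_mul, ← map_mul, h.tt, map_one]; group
  -- conjugates inside `C(t)`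
  have cjj : ∀ (g : G) (x : H), g * j x * g⁻¹ = j t → ∀ y : H, Commute y x → ∃ Y, j Y = g * j y * g⁻¹ :=
    fun g x e y c => sur _ (by rw [← e, conj_mul, conj_mul, ← map_mul, ← map_mul, c.eq])
  have ne : ∀ {g : G} {x y Y : H}, g * j x * g⁻¹ = j t → j Y = g * j y * g⁻¹ → y ≠ x → Y ≠ t := fun e eY n k =>
    n (inj (mul_left_cancel (mul_right_cancel (eY.symm.trans (k ▸ e.symm)))))
  have zw2 : z * w * (z * w) = 1 := by
    rw [mul_assoc, ← mul_assoc w, ← h.zw, mul_assoc, h.ww, mul_one, h.zz]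
  have cw := h.fD h.wL h.ww w1
  have czw := h.fD (mul_mem h.zL h.wL) zw2 zw1
  by_cases hz : IsConj (j t) (j z)
  · obtain ⟨g, e⟩ := isConj_iff.1 hz.symm
    obtain ⟨X, eX⟩ := cjj g z e w h.zw.symm
    obtain ⟨Y, eY⟩ := cjj g z e t (h.tc z).symm
    have cX : IsConj (j t) (j X) := hz.trans (cw.conj.symm.trans (isConj_iff.2 ⟨g, eX.symm⟩))
    have ctX : IsConj (j t) (j (t * X)) := hz.trans (czw.conj.symm.trans (isConj_iff.2 ⟨g, by
      rw [map_mul, map_mul, eX, ← conj_mul, e]⟩))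
    have cY : IsConj (j t) (j Y) := isConj_iff.2 ⟨g, eY.symm⟩
    have eXY : j (X * Y) = g * j (w * t) * g⁻¹ := by rw [map_mul, map_mul, eX, eY, conj_mul]
    have cXY : IsConj (j (t * z)) (j (X * Y)) :=
      (h.tmul cw).conj.symm.trans (isConj_iff.2 ⟨g, by rw [eXY, h.tc]⟩)
    have ctXY : IsConj (j (t * z)) (j (t * (X * Y))) :=
      (h.tmul czw).conj.symm.trans (isConj_iff.2 ⟨g, by
        rw [map_mul j t (X * Y), eXY, ← h.tc (z * w), mul_assoc z, map_mul j z, ← conj_mul, e]⟩)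
    have XY2 : X * Y * (X * Y) = 1 := inj (by
      rw [map_mul, eXY, conj_mul, ← map_mul, mul_assoc w, ← mul_assoc t, ← h.tc, mul_assoc w, h.tt, mul_one, h.ww]
      simp)
    have oX : φ X ∉ I := fun i => by
      rcases h.fA (sq cX).1 (sq cX).2 i with k | k | k
      exacts [ne e eX wz k, hn (ctX.trans (h.tmul k).conj), hn (cX.trans k.conj)]
    by_cases iY : φ Y ∈ I
    · rcases h.fA (sq cY).1 (sq cY).2 iY with k | k | k
      · exact ne e eY tz k
      · obtain ⟨l, hl, k⟩ := k.symm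
        exact hn ((cX.trans (h.fB (sq cX).1 XY2 oX (h.nL.conj_mem _ (k ▸ mul_mem (mul_mem hl h.zL) (inv_mem hl))
          X)).conj).trans cXY.symm)
      · exact hn (cY.trans k.conj)
    · rcases h.fA XY2 (fun k => wt (inj ((conj_eq_one_iff.1 (eXY.symm.trans (k ▸ map_one j))).trans (map_one j).symm)))
        (by rw [map_mul]; exact a.iI _ _ oX iY) with k | k | k
      · exact ne e eXY wtz k
      · exact hn (hz.trans (k.conj.symm.trans cXY.symm))
      · have := h.tmul k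
        rw [← mul_assoc t t, h.tt, one_mul] at this
        exact hn (hz.trans (this.conj.symm.trans ctXY.symm))
  have out : ∀ {x : H}, IsConj (j t) (j x) → x ≠ t → φ x ∉ I := fun c n i => by
    rcases h.fA (sq c).1 (sq c).2 i with k | k | k
    exacts [n k, hz (c.trans k.conj), hn (c.trans k.conj)]
  obtain ⟨g0, n0, c0⟩ := ni
  obtain ⟨x0, e0⟩ := sur _ c0
  have cx0 : IsConj (j t) (j x0) := isConj_iff.2 ⟨g0, e0.symm⟩
  have o0 := out cx0 fun e => n0 (e0.symm.trans (congrArg j e))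
  obtain ⟨x, c, xz, xw⟩ := h.fC (sq cx0).1 o0
  have cx := cx0.trans c.conj
  have ox : φ x ∉ I := fun i => by
    obtain ⟨l, hl, rfl⟩ := c.symm
    exact o0 (by rw [map_mul, map_mul, map_inv]; exact mul_mem (mul_mem (h.LI l hl) i) (inv_mem (h.LI l hl)))
  obtain ⟨g, e⟩ := isConj_iff.1 cx.symm
  have key : ∀ v ∈ L, v * v = 1 → v ≠ 1 → Commute x v → ∃ Y, j Y = g * j (x * v) * g⁻¹ ∧ φ Y ∉ I :=
    fun v vL vv v1 c => by
      obtain ⟨Y, eY⟩ := cjj g x e (x * v) ((Commute.refl x).mul_left c.symm)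
      exact ⟨Y, eY, out ((cx.trans (h.fB (sq cx).1 (by
        rw [mul_assoc, ← mul_assoc v, ← c.eq, mul_assoc, vv, mul_one, (sq cx).1]) ox (h.nL.conj_mem _ vL x)).conj).trans
        (isConj_iff.2 ⟨g, eY.symm⟩)) (ne e eY fun k => v1 (mul_eq_left.1 k))⟩
  obtain ⟨Y1, e1, o1⟩ := key z h.zL h.zz z1 xz
  obtain ⟨Y2, e2, o2⟩ := key w h.wL h.ww w1 xw
  obtain ⟨Y3, e3, o3⟩ := key (z * w) (mul_mem h.zL h.wL) zw2 zw1 (xz.mul_right xw)
  refine o3 ?_
  have k : x * (z * w) = x * (x * z * (x * w)) := by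
    rw [xz.eq, mul_assoc z, ← mul_assoc x x, (sq cx).1, one_mul]
  rw [show Y3 = t * (Y1 * Y2) from inj (by
    rw [e3, map_mul j t, map_mul j Y1, e1, e2, ← e, conj_mul, conj_mul, k, ← map_mul, ← map_mul]), map_mul, h.φt,
    one_mul, map_mul]
  exact a.iI _ _ o1 o2

end S1a

open S1a in
theorem s1a : S1aS.{u} := by
  intro G _ _ A _ _ I D
  obtain ⟨a1, a2, a3, a4, a5, a6, a7, a8, a9, a10, a11, a12⟩ := dec3
  let ι : M ps →* centralizer ({D.t} : Set G) := D.ι.codRestrict _ fun x => D.syl.le (D.ιS x)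
  have inj : Function.Injective ι := fun x y e => D.inj (congrArg Subtype.val e)
  have h : HL D.a (ι (mt ps)) (ι (mz ps)) (ι (mw ps)) (D.L.subgroupOf _) D.φ :=
    { tt := Subtype.ext (D.ιt ▸ D.tt : D.ι (mt ps) * D.ι (mt ps) = 1)
      t1 := fun e => D.t1 (D.ιt.symm.trans (congrArg Subtype.val e))
      tc := fun x => Subtype.ext (D.ιt.symm ▸ mem_centralizer_singleton_iff.1 x.2 : x.1 * D.ι (mt ps) = D.ι (mt ps) * x.1)
      nL := (normal_subgroupOf_iff_le_normalizer D.LH).2 D.Ln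
      LI := D.LI
      IL := D.IL
      odd := fun h a b => orderOf_coe h ▸ D.odd h a b
      φt := D.φt _ D.ιt
      cyc := D.cyc
      zL := (D.ιL _).2 a11
      wL := (D.ιL _).2 a12
      zz := by rw [← map_mul, a1, map_one]
      ww := by rw [← map_mul, a2, map_one]
      zw := by rw [← map_mul, a3, map_mul]
      φz := (D.φι _ _ rfl).trans (congrArg _ dec2.2.2.2.2.2.2.2.1)
      φw := (D.φι _ _ rfl).trans (congrArg _ dec2.2.2.2.2.2.2.2.2) }
  obtain ⟨g, e⟩ := isConj_iff.1 (fin h (Subgroup.subtype _) (subtype_injective _)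
    (fun g e => ⟨⟨g, mem_centralizer_singleton_iff.2 (D.ιt ▸ e)⟩, rfl⟩) (fun e => a4 (inj (e.trans (map_one ι).symm)))
    (fun e => a5 (inj (e.trans (map_one ι).symm))) (fun e => a6 (inj (by rw [map_mul, e, map_one])))
    (fun e => a7 (inj e)) (fun e => a8 (inj e)) (fun e => a9 (inj (by rw [map_mul, e, map_one])))
    (fun e => a10 (inj (by rw [map_mul, e]))) (by
      simpa only [show (Subgroup.subtype _) (ι (mt ps)) = D.t from D.ιt] using D.ni))
  exact ⟨g, D.ιt ▸ e⟩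

end CL.H33
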