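/-
Project H33 (S3139): step S1B, the kernel has Sylow subgroup `⟨t⟩` and `t`, `z` are not conjugate.
-/
import Cfsg.Agent.H33.Defs

set_option autoImplicit false
set_option linter.unusedSectionVars false
open Cfsg Subgroup CL.Even CL.Grp

namespace CL.H33
open M

universe u

/-- abstract form of the Sylow subgroup of `C(t)` -/
structure S1bT (T : Type u) [Group T] where
  θ : T →* M p0
  j : M ps →* T
  inj : Function.Injective j
  θc : ∀ g, (θ g).c = false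
  θj : ∀ x, x.c = false → θ (j x) = tr p0 x
  θt : θ (j (mt ps)) = 1
  nD : ∀ g x, x.c = false → ∃ y, y.c = false ∧ g * j x * g⁻¹ = j y
  inv : ∀ r, θ r = 1 → r * r = 1 → r = 1 ∨ r = j (mt ps)
  ct : ∀ g, g * j (mt ps) = j (mt ps) * g
  two : IsPGroup 2 T

theorem s1b_tr : ∀ x y : M ps, tr p0 x = tr p0 y → x = y := by decide +kernel
theorem s1b_zc : ∀ x : M p0, x * tr p0 (mz ps) * x⁻¹ = tr p0 (mz ps) := by decide +kernel
theorem s1b_cen : ∀ x : M p0, x.c = false → x * tr p0 (mu ps) = tr p0 (mu ps) * x → x * tr p0 (mq ps) = tr p0 (mq ps) * x →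
    x * tr p0 (mw ps) = tr p0 (mw ps) * x → x = 1 ∨ x = tr p0 (mz ps) := by decide +kernel
theorem s1b_key : ∀ X : M p0, X * X = tr p0 (mz ps) → ∀ Y : M p0, X * Y = Y * X → Y ^ 4 = tr p0 (mz ps) →
    ∀ W : M p0, X * W = W * X → W * Y ≠ Y ^ 3 * W := by decide +kernel
theorem s1b_rel : ma ps ^ 4 = mz ps ∧ mw ps * ma ps = ma ps ^ 3 * mw ps ∧ mu ps * mu ps = mz ps ∧ mq ps * mq ps = mz ps ∧
    (mu ps * mq ps) * (mu ps * mq ps) = mz ps ∧ mz ps * mz ps = 1 ∧ mt ps * mt ps = 1 ∧ mz ps ≠ 1 ∧ mt ps ≠ 1 ∧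
    mz ps ≠ mt ps ∧ mt ps * mz ps ≠ mt ps := by decide +kernel
theorem s1b_sq : ∀ x : M ps, x * x ≠ mt ps ∧ x * x ≠ mt ps * mz ps := by decide +kernel
theorem s1b_tr2 : ∀ x : M p0, x.d = false → x.c = false → tr p0 (tr ps x) = x ∧ (tr ps x).c = false := by decide +kernel
theorem s1b_ker : ∀ x y : M p0, x.c = false → y.c = false → x⁻¹ * y ≠ mt p0 := by decide +kernel
theorem s1b_c : ∀ x : M p0, x.c = false ∨ (x * mt p0).c = false := by decide +kernel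

namespace S1bT
variable {T : Type u} [Group T] (B : S1bT T)

theorem zc (g : T) : g * B.j (mz ps) = B.j (mz ps) * g := by
  obtain ⟨y, hy, e⟩ := B.nD g (mz ps) rfl
  have h := congrArg B.θ e
  rw [map_mul, map_mul, map_inv, B.θj _ rfl, B.θj _ hy, s1b_zc] at h
  rw [← s1b_tr _ _ h] at e
  exact mul_inv_eq_iff_eq_mul.1 e

theorem rD {r : T} (hr : B.θ r = 1) {x : M ps} (hx : x.c = false) : r * B.j x = B.j x * r := by
  obtain ⟨y, hy, e⟩ := B.nD r x hx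
  have h := congrArg B.θ e
  rw [map_mul, map_mul, map_inv, B.θj _ hx, B.θj _ hy, hr, one_mul, inv_one, mul_one] at h
  rw [← s1b_tr _ _ h] at e
  exact mul_inv_eq_iff_eq_mul.1 e

theorem cen {v : T} (hv : ∀ g, g * v = v * g) (vv : v * v = 1) (v1 : v ≠ 1) :
    v = B.j (mt ps) ∨ v = B.j (mz ps) ∨ v = B.j (mt ps * mz ps) := by
  have h : ∀ x : M ps, x.c = false → B.θ v * tr p0 x = tr p0 x * B.θ v := fun x hx => by
    rw [← B.θj x hx, ← map_mul, ← map_mul, hv]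
  have zz : B.j (mz ps) * B.j (mz ps) = 1 := by rw [← map_mul, s1b_rel.2.2.2.2.2.1, map_one]
  rcases s1b_cen _ (B.θc v) (h _ rfl) (h _ rfl) (h _ rfl) with e | e
  · exact .inl ((B.inv v e vv).resolve_left v1)
  · have h1 : B.θ (v * B.j (mz ps)) = 1 := by
      rw [map_mul, e, ← B.θj _ rfl, ← map_mul, zz, map_one]
    have h2 : v * B.j (mz ps) * (v * B.j (mz ps)) = 1 := by
      rw [← mul_assoc, mul_assoc v, hv, ← mul_assoc, vv, one_mul, zz]
    have h3 : v = v * B.j (mz ps) * B.j (mz ps) := by rw [mul_assoc, zz, mul_one]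
    rcases B.inv _ h1 h2 with e | e
    · exact .inr (.inl (by rw [h3, e, one_mul]))
    · exact .inr (.inr (by rw [h3, e, map_mul]))

theorem cenα (α : T ≃* T) {x : M ps} (hv : ∀ g, g * B.j x = B.j x * g) (xx : x * x = 1) (x1 : x ≠ 1) :
    α (B.j x) = B.j (mt ps) ∨ α (B.j x) = B.j (mz ps) ∨ α (B.j x) = B.j (mt ps * mz ps) := by
  refine B.cen (fun g => ?_) (by rw [← map_mul, ← map_mul, xx, map_one, map_one]) fun e => x1 (B.inj ?_)
  · obtain ⟨g, rfl⟩ := α.surjective g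
    rw [← map_mul, hv, map_mul]
  · rw [map_one]; exact α.injective (e.trans (map_one α).symm)

theorem θα (α : T ≃* T) {x : M ps} (hv : ∀ g, g * B.j x = B.j x * g) (xx : x * x = 1) (x1 : x ≠ 1)
    (h : α (B.j x) ≠ B.j (mt ps)) : B.θ (α (B.j x)) = tr p0 (mz ps) := by
  rcases (B.cenα α hv xx x1).resolve_left h with e | e
  · rw [e, B.θj _ rfl]
  · rw [e, map_mul, map_mul, B.θt, one_mul, B.θj _ rfl]

theorem root (n : ℕ) : ∀ r : T, B.θ r = 1 → r ^ 2 ^ n = 1 → r ≠ 1 → r ≠ B.j (mt ps) →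
    ∃ x, B.θ x = 1 ∧ x * x = B.j (mt ps) := by
  induction n with
  | zero => intro r _ h h1; exact (h1 (by simpa using h)).elim
  | succ n ih =>
    intro r hr h h1 h2
    by_cases e : r * r = B.j (mt ps)
    · exact ⟨r, hr, e⟩
    · refine ih (r * r) (by rw [map_mul, hr, one_mul]) (by rw [← sq, ← pow_mul, ← pow_succ', h]) (fun e1 => ?_) e
      exact (B.inv r hr e1).elim h1 h2

theorem ker_of (α : T ≃* T) (ht : α (B.j (mt ps)) ≠ B.j (mt ps)) (hz : α (B.j (mz ps)) ≠ B.j (mt ps)) (r : T)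
    (hr : B.θ r = 1) : r = 1 ∨ r = B.j (mt ps) := by
  by_contra hc
  push Not at hc
  obtain ⟨n, hn⟩ := B.two r
  obtain ⟨x, hx, xx⟩ := B.root n r hr hn hc.1 hc.2
  obtain ⟨a4, wa, -, -, -, zz, tt, z1, t1, -⟩ := s1b_rel
  have c : ∀ y : M ps, y.c = false → B.θ (α x) * B.θ (α (B.j y)) = B.θ (α (B.j y)) * B.θ (α x) := fun y hy => by
    rw [← map_mul, ← map_mul, B.rD hx hy, map_mul, map_mul]
  refine s1b_key (B.θ (α x)) ?_ (B.θ (α (B.j (ma ps)))) (c _ rfl) ?_ (B.θ (α (B.j (mw ps)))) (c _ rfl) ?_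
  · rw [← map_mul, ← map_mul, xx, B.θα α B.ct tt t1 ht]
  · rw [← map_pow, ← map_pow, ← map_pow, a4, B.θα α B.zc zz z1 hz]
  · simp only [← map_mul, ← map_pow, wa]

theorem fix_z (hk : ∀ r, B.θ r = 1 → r = 1 ∨ r = B.j (mt ps)) (α : T ≃* T) : α (B.j (mz ps)) = B.j (mz ps) := by
  obtain ⟨-, -, uu, qq, uq, zz, -, z1, -⟩ := s1b_rel
  have h : ∀ g, (B.θ g).d = false → ∃ x, g = B.j x := fun g hg => by
    obtain ⟨e, hc⟩ := s1b_tr2 _ hg (B.θc g)
    rcases hk (g * (B.j (tr ps (B.θ g)))⁻¹) (by rw [map_mul, map_inv, B.θj _ hc, e, mul_inv_cancel]) with e | e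
    · exact ⟨_, mul_inv_eq_one.1 e⟩
    · exact ⟨mt ps * tr ps (B.θ g), by rw [map_mul, ← e, inv_mul_cancel_right]⟩
  have h2 : ∀ y : M ps, y * y = mz ps → (B.θ (α (B.j y))).d = false → α (B.j (mz ps)) = B.j (mz ps) := fun y yy hy => by
    obtain ⟨x, e⟩ := h _ hy
    have e2 : α (B.j (mz ps)) = B.j (x * x) := by rw [← yy, map_mul, map_mul, e, map_mul]
    rcases B.cenα α B.zc zz z1 with e3 | e3 | e3
    · exact ((s1b_sq x).1 (B.inj (e2.symm.trans e3))).elim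
    · exact e3
    · exact ((s1b_sq x).2 (B.inj (e2.symm.trans e3))).elim
  cases hu : (B.θ (α (B.j (mu ps)))).d
  · exact h2 _ uu hu
  cases hq : (B.θ (α (B.j (mq ps)))).d
  · exact h2 _ qq hq
  refine h2 _ uq ?_
  rw [map_mul, map_mul, map_mul, mul_d, hu, hq]
  simp [p0]

theorem main (α : T ≃* T) (h : α (B.j (mt ps)) = B.j (mt ps) * B.j (mz ps)) (r : T) (hr : B.θ r = 1) :
    r = 1 ∨ r = B.j (mt ps) := by
  obtain ⟨-, -, -, -, -, zz, tt, z1, t1, zt, tz⟩ := s1b_rel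
  by_cases hz : α (B.j (mz ps)) = B.j (mt ps)
  · refine B.ker_of α.symm (fun e => zt (B.inj ?_)) (fun e => tz (B.inj ?_)) r hr
    · rw [← e, ← hz, α.symm_apply_apply]
    · have e1 : α (B.j (mt ps)) = B.j (mz ps) := by rw [← e, α.apply_symm_apply]
      rw [h] at e1
      exact (t1 (B.inj (by rw [map_one]; exact mul_eq_right.1 e1))).elim
  · exact B.ker_of α (fun e => tz (B.inj (by rw [map_mul, ← h, e]))) hz r hr
end S1bT

theorem s1b_cyc {H : Type u} [Group H] [Finite H] {R : Subgroup H} (h : IsCyclic R) {z r : H} (hz : z ∈ R) (zz : z * z = 1)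
    (z1 : z ≠ 1) (hr : r ∈ R) (rr : r * r = 1) : r = 1 ∨ r = z := by
  classical
  by_contra hc
  push Not at hc
  have := Fintype.ofFinite R
  have h1 := IsCyclic.card_pow_eq_one_le (α := R) (n := 2) (by norm_num)
  have h2 : ({1, ⟨z, hz⟩, ⟨r, hr⟩} : Finset R) ⊆ Finset.univ.filter fun a : R => a ^ 2 = 1 := by
    intro a ha
    simp only [Finset.mem_insert, Finset.mem_singleton] at ha
    rcases ha with rfl | rfl | rfl <;> simp [sq, Subtype.ext_iff, zz, rr]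
  have h3 := Finset.card_le_card h2
  rw [Finset.card_eq_three.2 ⟨_, _, _, by simpa [Subtype.ext_iff] using z1.symm,
    by simpa [Subtype.ext_iff] using hc.1.symm, by simpa [Subtype.ext_iff] using hc.2.symm, rfl⟩] at h3
  omega

theorem s1b_syl {G : Type u} [Group G] [Finite G] {S : Subgroup G} {t e g : G} (hS : IsSylowIn 2 S (centralizer {t}))
    (hg : g * t * g⁻¹ = e) (he : ∀ s ∈ S, s * e = e * s) : ∃ n ∈ 𝒩(S), n * t * n⁻¹ = e := by
  obtain ⟨h, hh, le⟩ := syl_conj_le hS (IsPGroup.conj_smul hS.isPGroup g⁻¹) (U := cj g⁻¹ S) fun x hx => by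
    have := he _ (mem_cj.1 hx)
    rw [← hg] at this
    rw [mem_centralizer_singleton_iff]
    calc x * t = g⁻¹ * (g⁻¹⁻¹ * x * g⁻¹ * (g * t * g⁻¹)) * g := by group
      _ = t * x := by rw [this]; group
  rw [← cj_mul] at le
  have e1 := cj_eq_iff_mem.1 (eq_of_le_of_card_ge le (card_cj _ _).ge)
  refine ⟨_, inv_mem e1, ?_⟩
  rw [mem_centralizer_singleton_iff] at hh
  rw [← hg]
  calc (h * g⁻¹)⁻¹ * t * (h * g⁻¹)⁻¹⁻¹ = g * (h⁻¹ * (t * h)) * g⁻¹ := by group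
    _ = _ := by rw [← hh]; group

theorem s1b_ex {G : Type u} [Group G] [Finite G] {A : Type} [Group A] {I : Subgroup A} (D : PD G A I) :
    ∃ B : S1bT D.S, (∀ x, (B.j x : G) = D.ι x) ∧ ∀ g : D.S, B.θ g = 1 ↔ D.φ ⟨g, D.syl.le g.2⟩ = 1 := by
  have pt : D.a.ψ (mt p0) = 1 := (D.a.ker _).2 (.inr rfl)
  have h : ∀ g : D.S, ∃ x : M p0, x.c = false ∧ D.a.ψ x = D.φ ⟨g, D.syl.le g.2⟩ := fun g => by
    obtain ⟨x, e⟩ := D.φS ⟨g, D.syl.le g.2⟩ g.2
    rcases s1b_c x with c | c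
    · exact ⟨x, c, e.symm⟩
    · exact ⟨_, c, by rw [map_mul, pt, mul_one, e]⟩
  have u : ∀ x y : M p0, x.c = false → y.c = false → D.a.ψ x = D.a.ψ y → x = y := fun x y hx hy e =>
    inv_mul_eq_one.1 (((D.a.ker _).1 (by rw [map_mul, map_inv, e, inv_mul_cancel])).resolve_right (s1b_ker x y hx hy))
  choose f fc fe using h
  let θ : D.S →* M p0 := MonoidHom.mk' f fun a b => u _ _ (fc _) (by rw [mul_c, fc, fc]; simp [p0]) (by
    rw [map_mul, fe, fe, fe, ← map_mul]; rfl)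
  have k : ∀ g : D.S, θ g = 1 ↔ D.φ ⟨g, D.syl.le g.2⟩ = 1 := fun g =>
    ⟨fun e => by rw [← fe, show f g = 1 from e, map_one], fun e => u _ _ (fc g) rfl (by rw [map_one, ← e]; exact fe g)⟩
  have tS : D.t ∈ D.S := D.ιt ▸ D.ιS _
  refine ⟨⟨θ, D.ι.codRestrict D.S D.ιS, fun a b e => D.inj (congrArg Subtype.val e), fc, fun x hx => ?_,
    (k _).2 (D.φt _ D.ιt), fun g x hx => ?_, fun r hr rr => ?_, fun g => ?_, D.syl.isPGroup⟩, fun _ => rfl, k⟩
  · exact u _ _ (fc _) hx ((fe _).trans (D.φι _ x rfl))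
  · have hl := conj_mem (D.Ln (D.syl.le g.2)) ((D.ιL x).2 hx)
    obtain ⟨y, e⟩ := D.SL _ (mul_mem (mul_mem g.2 (D.ιS x)) (inv_mem g.2)) hl
    exact ⟨y, (D.ιL y).1 (e ▸ hl), Subtype.ext e.symm⟩
  · have hc := D.cyc (D.S.subgroupOf _ ⊓ D.φ.ker) ((D.syl.isPGroup.comap_subtype (K := centralizer {D.t})).to_le inf_le_left)
      inf_le_right
    rcases s1b_cyc hc (z := ⟨D.t, D.syl.le tS⟩) (r := ⟨r, D.syl.le r.2⟩) ⟨tS, D.φt _ rfl⟩ (Subtype.ext D.tt)
      (fun e => D.t1 (congrArg Subtype.val e)) ⟨r.2, (k r).1 hr⟩ (Subtype.ext (congrArg (fun a : D.S => (a : G)) rr)) with e | e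
    · exact .inl (Subtype.ext (congrArg (fun a : centralizer {D.t} => (a : G)) e))
    · exact .inr (Subtype.ext ((congrArg (fun a : centralizer {D.t} => (a : G)) e).trans D.ιt.symm))
  · exact Subtype.ext (by
      have := mem_centralizer_singleton_iff.1 (D.syl.le g.2)
      rw [← D.ιt] at this; exact this)

theorem s1b : S1bS.{u} := by
  rintro G _ _ A _ _ I D ⟨g, hg⟩
  obtain ⟨B, bj, bk⟩ := s1b_ex D
  have jt : (B.j (mt ps) : G) = D.t := (bj _).trans D.ιt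
  have zc : ∀ s ∈ D.S, s * D.ι (mz ps) = D.ι (mz ps) * s := fun s hs => by
    rw [← bj]; exact congrArg Subtype.val (B.zc ⟨s, hs⟩)
  have tc : ∀ s ∈ D.S, s * D.t = D.t * s := fun s hs => mem_centralizer_singleton_iff.1 (D.syl.le hs)
  obtain ⟨n, hn, e⟩ := s1b_syl D.syl hg fun s hs => by rw [← mul_assoc, tc s hs, mul_assoc, zc s hs, mul_assoc]
  have hk := B.main (D.S.normalizerMonoidHom ⟨n, hn⟩) (Subtype.ext (by
    change n * (B.j (mt ps) : G) * n⁻¹ = (B.j (mt ps) : G) * (B.j (mz ps) : G)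
    rw [jt, bj, e]))
  have fz : ∀ m ∈ 𝒩(D.S), m * D.ι (mz ps) * m⁻¹ = D.ι (mz ps) := fun m hm => by
    rw [← bj]; exact congrArg Subtype.val (B.fix_z hk (D.S.normalizerMonoidHom ⟨m, hm⟩))
  refine ⟨fun h hS hφ => ?_, fun g hg => ?_, n, hn, e, fz n hn⟩
  · rcases hk ⟨h, hS⟩ ((bk _).2 hφ) with e | e
    · exact .inl (congrArg Subtype.val e)
    · exact .inr ((congrArg Subtype.val e).trans jt)
  · obtain ⟨m, hm, e⟩ := s1b_syl D.syl hg zc
    rw [← fz m hm, mul_left_inj, mul_right_inj, ← D.ιt] at e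
    exact s1b_rel.2.2.2.2.2.2.2.2.2.1 (D.inj e).symm

end CL.H33
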