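/-
Project H33 (S3139): the involution `s` extending `S` to `S₁`.
-/
import Cfsg.Agent.H33.Defs

set_option autoImplicit false
set_option linter.unusedSectionVars false
open Cfsg Subgroup CL.Even CL.Grp

namespace CL.H33
open M

universe u

/-- `δ^d z^z t^c` -/
def st1C (p : Ty) (d z c : Bool) : M p := cond d (md p) 1 * cond z (mz p) 1 * cond c (mt p) 1

/-- `u z^z` -/
def st1U (p : Ty) (z : Bool) : M p := mk' p false z false false true false false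

theorem st1_d0 : ∀ p : Ty, mu p * mu p = mz p ∧ mq p * mq p = mz p ∧ mz p * mz p = 1 ∧ mt p * mt p = 1 ∧ mz p ≠ 1 ∧
    mw p * mq p = mu p * mq p * mw p ∧ mw p * mu p = mu p * mz p * mw p ∧ mq p * mu p ≠ mu p * mq p ∧
    md p * mu p = mu p * md p ∧ md p * mq p = mq p * md p ∧ (p.big = false → md p = 1) ∧
    mt p * mz p * (md p * mt p) ≠ md p ∧ mt p * mz p * (md p * mt p * mz p) * mz p ≠ md p ∧
    md p * mt p * (mt p * mz p) ≠ md p ∧ md p * mt p * mz p * (mt p * mz p) * mz p ≠ md p := by decide +kernel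

theorem st1_d1 : ∀ p : Ty, p.ws = false → ∀ x : M p, x.e = false ∧ x * mt p = mt p * x ∧ x * mz p = mz p * x := by
  decide +kernel

theorem st1_d2 : ∀ p : Ty, p.ws = false → ∀ v : M p, v.k = false → v.j = false → v.c = false → v.d = false →
    v * v = mz p → v = st1U p v.z := by decide +kernel

theorem st1_d3 : ∀ p : Ty, p.ws = false → ∀ (z : Bool) (v : M p), v.d = false → v.c = false → v * v = mz p →
    v * st1U p z ≠ st1U p z * v → ∃ x, x * mu p * x⁻¹ = st1U p z ∧ x * mq p * x⁻¹ = v := by decide +kernel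

theorem st1_d4 : ∀ p : Ty, p.ws = false → p.big = true → ∀ v : M p, v * mu p = mu p * v → v * mq p = mq p * v →
    v * v = md p * md p → v = md p ∨ v = md p * mz p ∨ v = md p * mt p ∨ v = md p * mt p * mz p := by decide +kernel

theorem st1_d5 : ∀ p : Ty, p.ws = false → ∀ v : M p, v * mu p = mu p * mz p * v → v * mq p = mu p * mq p * v →
    (v = mt p * mw p ∨ v = mu p * (mt p * mw p) * (mu p)⁻¹) ∨
    (p.big = true ∧ (v = mw p * md p ∨ v = mw p * (md p)⁻¹)) ∨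
    ∃ al e ep : Bool, (al = true → p.big = true) ∧ v = st1C p al e al * mw p ∧ mw p * v = st1C p al ep al ∧
      st1C p al e al * cond al (mz p) 1 * v = mw p := by decide +kernel

theorem st1_d6 : ∀ p : Ty, p.ws = false → ∀ x : M p, x * mu p = mu p * x → x * mq p = mq p * x →
    x * md p * x⁻¹ = md p ∧ x = st1C p x.d x.z x.c ∧ (x.c = false → mw p = x * mw p * x⁻¹ → x = 1 ∨ x = mz p) := by
  decide +kernel

variable {G : Type u} [Group G]

/-- an element of `N(S)` centralising `Q` and moving `t` -/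
structure St1Good (S : HD G) (g : G) : Prop where
  nrm : ∀ x, ∃ y, g * S.ι x * g⁻¹ = S.ι y
  t : g * S.t * g⁻¹ = S.t * S.z
  u : g * S.u * g⁻¹ = S.u
  q : g * S.q * g⁻¹ = S.q
  sq : ∃ x, g * g = S.ι x

theorem st1_hom (S : HD G) {g : G} (h : ∀ x, ∃ y, g * S.ι x * g⁻¹ = S.ι y) :
    ∃ β : M S.p →* M S.p, ∀ x, S.ι (β x) = g * S.ι x * g⁻¹ := by
  choose β hβ using h
  exact ⟨MonoidHom.mk' β fun x y => S.inj (by rw [map_mul, ← hβ, ← hβ, ← hβ, map_mul]; group), fun x => (hβ x).symm⟩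

theorem St1Good.data {S : HD G} {g : G} (h : St1Good S g) : ∃ (β : M S.p →* M S.p) (x : M S.p),
    (∀ y, S.ι (β y) = g * S.ι y * g⁻¹) ∧ g * g = S.ι x ∧ β (M.mt _) = M.mt _ * mz _ ∧ β (mz _) = mz _ ∧ β (mu _) = mu _ ∧
      β (mq _) = mq _ ∧ β x = x ∧ (∀ y, β (β y) = x * y * x⁻¹) ∧ x * mu _ = mu _ * x ∧ x * mq _ = mq _ * x := by
  obtain ⟨β, hβ⟩ := st1_hom S h.nrm
  obtain ⟨x, hx⟩ := h.sq
  have hu : β (mu _) = mu _ := S.inj ((hβ _).trans h.u)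
  have hq : β (mq _) = mq _ := S.inj ((hβ _).trans h.q)
  have hb : ∀ y, β (β y) = x * y * x⁻¹ := fun y => S.inj (by rw [hβ, hβ, map_mul, map_mul, map_inv, ← hx]; group)
  refine ⟨β, x, hβ, hx, S.inj ((hβ _).trans (h.t.trans (map_mul _ _ _).symm)), ?_, hu, hq,
    S.inj (by rw [hβ, ← hx]; group), hb, ?_, ?_⟩
  · rw [← (st1_d0 _).1, map_mul, hu]
  · rw [← mul_inv_eq_iff_eq_mul, ← hb, hu, hu]
  · rw [← mul_inv_eq_iff_eq_mul, ← hb, hq, hq]

theorem st1_del {S : HD G} (hw : S.p.ws = false) {g : G} (h : St1Good S g) :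
    g * S.δ * g⁻¹ = S.δ ∨ (S.p.big = true ∧ g * S.δ * g⁻¹ = S.δ * S.z) := by
  obtain ⟨β, x, hβ, -, ht, hz, hu, hq, -, hb, xu, xq⟩ := h.data
  obtain ⟨-, -, -, -, -, -, -, -, du, dq, d1, -, -, n1, n2⟩ := st1_d0 S.p
  cases hbig : S.p.big
  · left; rw [HD.δ, d1 hbig]; simp
  have k := hb (md _)
  rw [(st1_d6 _ hw x xu xq).1] at k
  have hdd : β (md _ * md _) = md _ * md _ := by
    rw [show md S.p * md S.p = mz _ from (by decide +kernel : ∀ p : Ty, p.big = true → md p * md p = mz p) _ hbig, hz]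
  rcases st1_d4 _ hw hbig (β (md _)) (by rw [← hu, ← map_mul, du, map_mul, hu])
    (by rw [← hq, ← map_mul, dq, map_mul, hq]) (by rw [← map_mul, hdd]) with e | e | e | e
  · exact .inl (by rw [← hβ, e])
  · exact .inr ⟨rfl, by rw [← hβ, e, map_mul]⟩
  · rw [e, map_mul, e, ht] at k; exact absurd k n1
  · rw [e, map_mul, map_mul, e, ht, hz] at k; exact absurd k n2

theorem st1_fin {S : HD G} (hw : S.p.ws = false) (hN : S.p.big = true → S.Nm) {g : G} (h : St1Good S g)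
    (hδ : g * S.δ * g⁻¹ = S.δ) : ∃ s al ep, S.Pre s al ep := by
  obtain ⟨β, x, hβ, hx, ht, hz, hu, hq, hxx, hb, xu, xq⟩ := h.data
  obtain ⟨-, -, zz, tt, z1, wq, wu, -⟩ := st1_d0 S.p
  have hd : β (md _) = md _ := S.inj ((hβ _).trans hδ)
  have hC : ∀ d z c, β (st1C _ d z c) = st1C _ d z c * cond c (mz _) 1 := fun d z c => by
    cases d <;> cases z <;> cases c <;> simp [st1C, hd, hz, ht, mul_assoc]
  have gz : g * S.z * g⁻¹ = S.z := by rw [← hβ, hz]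
  obtain ⟨-, ex, hx1⟩ := st1_d6 _ hw x xu xq
  have xc : x.c = false := by
    rw [ex, hC, ← ex, mul_eq_left] at hxx
    cases hc : x.c
    · rfl
    · rw [hc] at hxx; exact absurd hxx z1
  have tρ : S.ρ * S.t * S.ρ⁻¹ = S.t := mul_inv_eq_iff_eq_mul.2 (mem_centralizer_singleton_iff.1 (S.LH S.ρL))
  rcases st1_d5 _ hw (β (mw _)) (by rw [← hu, ← map_mul, wu, map_mul, map_mul, hu, hz])
    (by rw [← hq, ← map_mul, wq, map_mul, map_mul, hu, hq]) with e | ⟨hbig, e⟩ | ⟨al, e, ep, hal, e1, e2, e3⟩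
  · obtain ⟨k, hk, -⟩ := S.tz
    have c1 : IsConj S.t (S.ι (M.mt _ * mw _)) := (isConj_iff.2 ⟨k, hk⟩).trans (isConj_iff.2 ⟨S.ρ, by
      rw [map_mul, map_mul, ← S.ρz]
      conv_rhs => rw [← show _ = S.ι (M.mt _) from tρ]
      group⟩)
    have c2 : IsConj S.t (S.ι (β (mw _))) := by
      rcases e with e | e <;> rw [e]
      · exact c1
      · exact c1.trans (isConj_iff.2 ⟨S.u, by simp only [map_mul, map_inv]⟩)
    have c3 : IsConj S.z (S.ι (β (mw _))) := (isConj_iff.2 ⟨S.ρ, S.ρz⟩).trans (isConj_iff.2 ⟨g, (hβ _).symm⟩)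
    obtain ⟨c, hc⟩ := isConj_iff.1 (c2.trans c3.symm)
    exact absurd hc (S.ntz c)
  · obtain ⟨n1, n2⟩ := hN hbig g h.t gz (by rw [← hβ, mg, map_mul, hd, hu]; rfl)
    rcases e with e | e
    · exact absurd (by rw [← hβ, e, map_mul]) n1
    · exact absurd (by rw [← hβ, e, map_mul, map_inv]) n2
  have k := hb (mw _)
  rw [e1, map_mul, hC, e3] at k
  obtain ⟨s, ss, hs⟩ : ∃ s : G, s * s = 1 ∧ ∀ y, s * S.ι y * s⁻¹ = S.ι (β y) := by
    rcases hx1 xc k with rfl | rfl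
    · exact ⟨g, by rw [hx, map_one], fun y => (hβ y).symm⟩
    · refine ⟨S.t * g, ?_, fun y => ?_⟩
      · rw [show S.t * g * (S.t * g) = S.t * (g * S.t * g⁻¹) * (g * g) by group, h.t, hx, ← map_mul, ← map_mul,
          ← map_mul, ← mul_assoc, tt, one_mul, zz, map_one]
      · rw [show S.t * g * S.ι y * (S.t * g)⁻¹ = S.t * (g * S.ι y * g⁻¹) * S.t⁻¹ by group, ← hβ, ← map_mul,
          ← (st1_d1 _ hw _).2.1, map_mul, mul_inv_cancel_right]
  have sz : s * S.z = S.z * s := by rw [← mul_inv_eq_iff_eq_mul, hs, hz]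
  refine ⟨s, al, ep, hal, ss, ?_, ?_, ?_, ?_, ?_⟩
  · rw [mul_assoc, sz, ← mul_assoc, ← mul_inv_eq_iff_eq_mul, hs, ht, map_mul]
  · rw [← mul_inv_eq_iff_eq_mul, hs, hd]
  · rw [← mul_inv_eq_iff_eq_mul, hs, hu]
  · rw [← mul_inv_eq_iff_eq_mul, hs, hq]
  · rw [show S.w * s * S.w = S.w * (s * S.w * s⁻¹) * s by group, hs, ← map_mul, e2]
    cases al <;> cases ep <;> simp [st1C]

theorem st1_g0 [Finite G] (S : HD G) (hw : S.p.ws = false) : ∃ g : G, (∀ x, ∃ y, g * S.ι x * g⁻¹ = S.ι y) ∧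
    g * S.t * g⁻¹ = S.t * S.z ∧ g * S.z * g⁻¹ = S.z ∧ ∃ x, g * g = S.ι x := by
  obtain ⟨g, gt, gz⟩ := S.tz
  rw [map_mul] at gt
  have zz : S.z * S.z = 1 := by rw [← map_mul, (st1_d0 _).2.2.1, map_one]
  have mem : ∀ x, S.ι x ∈ S.S0 := fun x => mem_map_of_mem _ (st1_d1 _ hw x).1
  let C : Subgroup G := S.H ⊓ centralizer {S.z}
  have mC : ∀ h, h ∈ C ↔ h * S.t * h⁻¹ = S.t ∧ h * S.z * h⁻¹ = S.z := fun h => by
    simp only [C, mem_inf, mem_centralizer_singleton_iff, mul_inv_eq_iff_eq_mul]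
  have syl : IsSylowIn 2 S.S0 C := S.sylS.of_le (le_inf S.sylS.le (by
    rintro _ ⟨x, -, rfl⟩
    exact mem_centralizer_singleton_iff.2 (by rw [← map_mul, (st1_d1 _ hw x).2.2, map_mul]))) inf_le_left
  have gC : g ∈ 𝒩(C) := mem_norm_of_cj_le fun h hh => by
    rw [mem_cj, mC] at hh
    obtain ⟨a, b⟩ := hh
    obtain ⟨k, rfl⟩ : ∃ k, h = g * k * g⁻¹ := ⟨g⁻¹ * h * g, by group⟩
    rw [show g⁻¹ * (g * k * g⁻¹) * g = k by group] at a b
    have e : S.t = g * (S.t * S.z) * g⁻¹ := by rw [← conj_mul, gt, gz, mul_assoc, zz, mul_one]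
    refine (mC _).2 ⟨?_, ?_⟩
    · conv_lhs => rw [e]
      rw [show g * k * g⁻¹ * (g * (S.t * S.z) * g⁻¹) * (g * k * g⁻¹)⁻¹ =
        g * (k * S.t * k⁻¹ * (k * S.z * k⁻¹)) * g⁻¹ by group, a, b, ← e]
    · have gz' : g * S.z * g⁻¹ = S.z := gz
      conv_lhs => rw [← gz']
      rw [show g * k * g⁻¹ * (g * S.z * g⁻¹) * (g * k * g⁻¹)⁻¹ = g * (k * S.z * k⁻¹) * g⁻¹ by group, b, gz']
  obtain ⟨h, hh, e⟩ := syl_conj (syl_cj_of_mem_norm syl gC) syl
  rw [← cj_mul, cj_eq_iff_mem] at e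
  obtain ⟨ht, hz⟩ := (mC h).1 hh
  have t1 : h * g * S.t * (h * g)⁻¹ = S.t * S.z := by
    rw [show h * g * S.t * (h * g)⁻¹ = h * (g * S.t * g⁻¹) * h⁻¹ by group, gt, ← conj_mul, ht, hz]
  have z1 : h * g * S.z * (h * g)⁻¹ = S.z := by
    rw [show h * g * S.z * (h * g)⁻¹ = h * (g * S.z * g⁻¹) * h⁻¹ by group, gz, hz]
  generalize h * g = k at e t1 z1
  obtain ⟨n, m, ⟨j, rfl⟩, hm⟩ := Nat.exists_eq_two_pow_mul_odd (orderOf_pos k).ne'
  have t2 : Commute (k ^ 2) S.t := by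
    rw [Commute, SemiconjBy, ← mul_inv_eq_iff_eq_mul, show k ^ 2 * S.t * (k ^ 2)⁻¹ = k * (k * S.t * k⁻¹) * k⁻¹ by rw [pow_two]; group,
      t1, ← conj_mul, t1, z1, mul_assoc, zz, mul_one]
  have z2 : Commute k S.z := mul_inv_eq_iff_eq_mul.1 z1
  have hk := pow_mem e (2 * j + 1)
  refine ⟨k ^ (2 * j + 1), fun x => ?_, ?_, mul_inv_eq_iff_eq_mul.2 (z2.pow_left _), ?_⟩
  · obtain ⟨y, -, hy⟩ := conj_mem hk (mem x)
    exact ⟨y, hy.symm⟩
  · rw [pow_succ', pow_mul, show k * (k ^ 2) ^ j * S.t * (k * (k ^ 2) ^ j)⁻¹ =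
      k * ((k ^ 2) ^ j * S.t * ((k ^ 2) ^ j)⁻¹) * k⁻¹ by group, (t2.pow_left j).eq, mul_inv_cancel_right, t1]
  · have e2 : k ^ (2 * j + 1) * k ^ (2 * j + 1) = (k ^ 2) ^ (2 * j + 1) := by group
    have two : IsPGroup 2 (zpowers ((k ^ 2) ^ (2 * j + 1))) := isPGroup_zpowers (k := n) (by
      rw [← pow_mul, ← pow_mul, show 2 * ((2 * j + 1) * 2 ^ n) = 2 ^ n * (2 * j + 1) * 2 by ring, ← hm, pow_mul,
        pow_orderOf_eq_one, one_pow])
    have := S.sylS.eq_of_le (isPGroup_sup two S.sylS.isPGroup (zpowers_le_of_mem (pow_mem (pow_mem e 2) _))) le_sup_right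
      (sup_le (zpowers_le_of_mem (mem_centralizer_singleton_iff.2 (t2.pow_left _).eq)) S.sylS.le)
    obtain ⟨y, -, hy⟩ : (k ^ 2) ^ (2 * j + 1) ∈ S.S0 := this ▸ mem_sup_left (mem_zpowers _)
    exact ⟨y, e2.trans hy.symm⟩

theorem st1_good [Finite G] (S : HD G) (hw : S.p.ws = false) : ∃ g, St1Good S g := by
  obtain ⟨g, nrm, gt, gz, x0, hx0⟩ := st1_g0 S hw
  obtain ⟨α, hα⟩ := st1_hom S nrm
  obtain ⟨uu, qq, zz, -, -, wq, -, nc, -⟩ := st1_d0 S.p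
  have he : ∀ x : M S.p, x.e = false := fun x => (st1_d1 _ hw x).1
  have hz : α (mz _) = mz _ := S.inj ((hα _).trans gz)
  have inj : Function.Injective α := fun a b e => S.inj (by simpa [hα] using congrArg S.ι e)
  have k := congrArg α wq
  simp only [map_mul] at k
  have hu : α (mu _) = st1U _ (α (mu _)).z := by
    have k1 := congrArg M.k k
    have k2 := congrArg M.j k
    have k3 := congrArg M.c k
    have k4 := congrArg M.d k
    simp only [mul_k, mul_j, mul_c, mul_d, he, Bool.and_false, Bool.false_and, Bool.xor_false] at k1 k2 k3 k4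
    refine st1_d2 _ hw _ ?_ ?_ ?_ ?_ (by rw [← map_mul, uu, hz]) <;> grind
  have ρt : S.ρ0 * S.t * S.ρ0⁻¹ = S.t := mul_inv_eq_iff_eq_mul.2 (mem_centralizer_singleton_iff.1 (S.LH S.ρ0L))
  have ρz : S.ρ0 * S.z * S.ρ0⁻¹ = S.z := by
    rw [HD.z, ← uu, map_mul, ← conj_mul, S.ρ0u, ← map_mul, qq, ← map_mul, uu]
  have zz' : S.z * S.z = 1 := by rw [← map_mul, zz, map_one]
  have rH : g * S.ρ0 * g⁻¹ ∈ S.H := by
    have e : S.t = g * (S.t * S.z) * g⁻¹ := by rw [← conj_mul, gt, gz, mul_assoc, zz', mul_one]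
    rw [mem_centralizer_singleton_iff, ← mul_inv_eq_iff_eq_mul]
    conv_lhs => rw [e]
    rw [show g * S.ρ0 * g⁻¹ * (g * (S.t * S.z) * g⁻¹) * (g * S.ρ0 * g⁻¹)⁻¹ =
      g * (S.ρ0 * S.t * S.ρ0⁻¹ * (S.ρ0 * S.z * S.ρ0⁻¹)) * g⁻¹ by group, ρt, ρz, ← e]
  have rL : g * S.ρ0 * g⁻¹ ∈ S.L := by
    obtain ⟨j, hj⟩ := S.oddO
    have e : S.ρ0 ^ (3 * (2 * j + 1)) = 1 := by
      rw [pow_mul, ← hj]
      exact congrArg Subtype.val (pow_card_eq_one' (G := S.O) (x := ⟨_, S.ρ03⟩))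
    have := S.sqL _ (pow_mem rH (3 * j + 2))
    rwa [← pow_add, conj_pow, show 3 * j + 2 + (3 * j + 2) = 3 * (2 * j + 1) + 1 by ring, pow_succ, e, one_mul] at this
  have cL : ∀ v, g * (S.ρ0 * S.ι v * S.ρ0⁻¹ * (S.ι v)⁻¹) * g⁻¹ ∈ S.L := fun v => by
    have := S.L.mul_mem rL (conj_mem (S.Ln (S.sylS.le (mem_map_of_mem _ (he (α v))))) (S.L.inv_mem rL))
    rw [hα] at this
    convert this using 1
    group
  have qL : S.ι (α (mq _)) ∈ S.L := by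
    have a := cL (mu _)
    have b := cL (mq _)
    rw [S.ρ0u] at a
    rw [S.ρ0q, map_mul, mul_inv_cancel_right] at b
    rw [hα]
    convert S.L.mul_mem a b using 1
    group
  obtain ⟨qd, qc⟩ := (S.ιL _ (he _)).1 qL
  obtain ⟨x, xu, xq⟩ := st1_d3 _ hw (α (mu _)).z _ qd qc (by rw [← map_mul, qq, hz])
    (by rw [← hu, ← map_mul, ← map_mul]; exact fun e => nc (inj e))
  rw [← hu] at xu
  have act : ∀ y, (S.ι x)⁻¹ * g * S.ι y * ((S.ι x)⁻¹ * g)⁻¹ = S.ι (x⁻¹ * α y * x) := fun y => by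
    rw [map_mul, map_mul, map_inv, hα]; group
  refine ⟨(S.ι x)⁻¹ * g, fun y => ⟨_, act y⟩, ?_, ?_, ?_, x⁻¹ * α x⁻¹ * x0, ?_⟩
  · rw [act, show α (M.mt _) = M.mt _ * mz _ from S.inj (by rw [hα, map_mul]; exact gt), ← map_mul, mul_assoc, mul_assoc,
      ← (st1_d1 _ hw x).2.2, ← mul_assoc (M.mt _), ← (st1_d1 _ hw x).2.1, mul_assoc, inv_mul_cancel_left]
  · rw [act, ← xu]; congr 1; group
  · rw [act, ← xq]; congr 1; group
  · rw [map_mul, map_mul, hα, ← hx0, map_inv]; group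

/-- the automorphism `δ ↦ δ t` of the model -/
def st1θ (p : Ty) (hw : p.ws = false) : M p →* M p :=
  MonoidHom.mk' (fun x => ⟨x.d, x.z, x.c ^^ x.d, x.e, x.i, x.j, x.k, x.ok⟩) fun x y => by
    have hx := (st1_d1 p hw x).1
    have hy := (st1_d1 p hw y).1
    obtain ⟨d, z, c, e, i, j, k, ok⟩ := x
    cases hx
    simp only [mul_def]
    cases k <;> refine M.ext ?_ ?_ ?_ ?_ ?_ ?_ ?_ <;> simp [m0, sg, hy] <;>
      (generalize y.c = a; generalize y.d = b; clear hy ok; revert a b d; decide)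

theorem st1θ_θ (p : Ty) (hw : p.ws = false) (x : M p) : st1θ p hw (st1θ p hw x) = x :=
  M.ext rfl rfl (show ((x.c ^^ x.d) ^^ x.d) = x.c by simp) rfl rfl rfl rfl

theorem st1θ_d (p : Ty) (hw : p.ws = false) (hb : p.big = true) : st1θ p hw (md p) = md p * mt p := by
  obtain ⟨b, ws, al, ep⟩ := p
  cases hb
  rfl

/-- the renamed data -/
def st1ren (S : HD G) (hw : S.p.ws = false) (hb : S.p.big = true) : HD G where
  p := S.p
  ι := S.ι.comp (st1θ _ hw)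
  O := S.O
  L := S.L
  ρ := S.ρ
  ρ0 := S.ρ0
  inj := S.inj.comp (Function.LeftInverse.injective (st1θ_θ _ hw))
  alb := S.alb
  oddO := S.oddO
  OL := S.OL
  LH := S.LH
  On := S.On
  Ln := S.Ln
  sqL := S.sqL
  ιL x hx := (S.ιL (st1θ _ hw x) hx).trans (show x.d = false ∧ (x.c ^^ x.d) = false ↔ _ by
    cases x.d <;> cases x.c <;> simp)
  sylS := by
    have : (sS S.p).map (S.ι.comp (st1θ _ hw)) = (sS S.p).map S.ι := by
      ext a
      exact ⟨fun ⟨x, hx, e⟩ => ⟨st1θ _ hw x, hx, e⟩, fun ⟨x, hx, e⟩ => ⟨st1θ _ hw x, hx, by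
        rw [MonoidHom.comp_apply, st1θ_θ, e]⟩⟩
    rw [this]
    exact S.sylS
  syl1 h := absurd (h.symm.trans hw) (by decide)
  ρL := S.ρL
  ρ0L := S.ρ0L
  ρz := S.ρz
  ρw := S.ρw
  ρg h := by
    have e : (S.ι.comp (st1θ _ hw)) (mg S.p) = S.γ * S.t := by
      rw [MonoidHom.comp_apply, mg, map_mul, st1θ_d _ hw hb, show st1θ _ hw (mu _) = mu _ from rfl, mul_assoc,
        ← (st1_d1 _ hw _).2.1, ← mul_assoc, map_mul]
      rfl
    rw [e, ← conj_mul, S.ρg h, mul_inv_eq_iff_eq_mul.2 (mem_centralizer_singleton_iff.1 (S.LH S.ρL))]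
  ρ3 := S.ρ3
  ρi := S.ρi
  ρ0u := S.ρ0u
  ρ0q := S.ρ0q
  ρ0d := by
    rw [MonoidHom.comp_apply, st1θ_d _ hw hb, map_mul, ← conj_mul, S.ρ0d,
      mul_inv_eq_iff_eq_mul.2 (mem_centralizer_singleton_iff.1 (S.LH S.ρ0L))]
  ρ0s := S.ρ0s
  ρ03 := S.ρ03
  ρ0i := S.ρ0i
  cz h hh hz := by
    obtain ⟨o, ho, x, hx, i, e⟩ := S.cz h hh hz
    exact ⟨o, ho, st1θ _ hw x, hx, i, by rw [MonoidHom.comp_apply, st1θ_θ, e]⟩
  cV h hh hz hv := by
    obtain ⟨o, ho, x, h1, h2, h3, e⟩ := S.cV h hh hz hv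
    exact ⟨o, ho, st1θ _ hw x, h1, h2, h3, by rw [MonoidHom.comp_apply, st1θ_θ, e]⟩
  tz := S.tz
  ntz := S.ntz

theorem st1 : St1S.{u} := by
  intro G _ _ hN S hw
  obtain ⟨g, h⟩ := st1_good S hw
  rcases st1_del hw h with hδ | ⟨hb, hδ⟩
  · exact ⟨S, hw, st1_fin hw (hN S) h hδ⟩
  refine ⟨st1ren S hw hb, hw, st1_fin (g := g) hw (hN _) ⟨fun x => ?_, h.t, h.u, h.q, ?_⟩ ?_⟩
  · obtain ⟨y, hy⟩ := h.nrm (st1θ _ hw x)
    exact ⟨st1θ _ hw y, hy.trans (congrArg S.ι (st1θ_θ _ hw y).symm)⟩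
  · obtain ⟨x, hx⟩ := h.sq
    exact ⟨st1θ _ hw x, hx.trans (congrArg S.ι (st1θ_θ _ hw x).symm)⟩
  · show g * S.ι (st1θ _ hw (md _)) * g⁻¹ = S.ι (st1θ _ hw (md _))
    rw [st1θ_d _ hw hb, map_mul, ← conj_mul, hδ, h.t, ← map_mul, ← map_mul, ← map_mul, ← map_mul, mul_assoc,
      ← mul_assoc (mz _), ← (st1_d1 _ hw _).2.2, mul_assoc, (st1_d0 _).2.2.1, mul_one]

end CL.H33
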