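/-
Project H33 (S3139): passage from the model of `S` to the model of `S₁`.
-/
import Cfsg.Agent.H33.Defs

set_option autoImplicit false
set_option linter.unusedSectionVars false
open Cfsg Subgroup CL.Even CL.Grp

namespace CL.H33
open M

universe u

theorem st2_m1 : ∀ p : Ty, p.ws = false → ∀ x : M p, x.e = false ∧ x * mt p = mt p * x ∧
    x * mq p * x⁻¹ ≠ mu p ∧ x * (mu p * mq p) * x⁻¹ ≠ mu p ∧ (x * mu p * x⁻¹ = mu p → x * mq p * x⁻¹ = mq p →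
      x = cond x.d (md p) 1 * cond x.z (mz p) 1 * cond x.c (mt p) 1) := by decide +kernel

theorem st2_m2 : ∀ p : Ty, (mz p * mz p = 1 ∧ mt p * mt p = 1 ∧ mw p * mw p = 1 ∧ mu p * mu p = mz p ∧
    mq p * mq p = mz p ∧ (p.big = true → md p * md p = mz p) ∧ (p.big = false → md p = 1) ∧
    mq p * mu p = mu p * mq p * mz p ∧ mt p * mz p = mz p * mt p ∧ mt p * md p = md p * mt p ∧
    mt p * mu p = mu p * mt p ∧ mt p * mq p = mq p * mt p ∧ mt p * mw p = mw p * mt p ∧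
    md p * mu p = mu p * md p ∧ md p * mq p = mq p * md p ∧ mw p * md p * mw p = (md p)⁻¹ ∧
    mw p * mu p * mw p = mu p * mz p ∧ mw p * mq p * mw p = mu p * mq p) ∧
    mz p ≠ 1 ∧ mt p ≠ 1 ∧ mt p ≠ mz p ∧ mq p * (mu p * mq p) = mu p := by decide +kernel

theorem st2_m3 : ∀ (p : Ty) (x : M p), (x * mt p * x⁻¹ = mt p ∨ x * mt p * x⁻¹ = mt p * mz p) ∧
    x * mz p * x⁻¹ = mz p ∧ (x.k = false ∧ x.e = false ∧ x.d = false ∧ x.i = false ∧ x.j = false →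
      x = 1 ∨ x = mt p ∨ x = mz p ∨ x = mt p * mz p) := by decide +kernel

theorem st2_odd {p : Ty} {x : M p} {n : ℕ} (hn : Odd n) (h : x ^ n = 1) : x = 1 :=
  orderOf_eq_one_iff.1 (Nat.eq_one_of_dvd_coprimes (hn.coprime_two_right.pow_right 3)
    (orderOf_dvd_of_pow_eq_one h) (orderOf_dvd_of_pow_eq_one (pow8 p x)))

theorem st2_trd {p p' : Ty} (hb : p'.big = p.big) (y : M p') : (tr p y).d = y.d := by
  have := y.ok
  change (y.d && p.big) = y.d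
  rw [hb] at this
  revert this
  cases y.d <;> cases p.big <;> simp

theorem st2_tre {p p' : Ty} {y : M p'} (h : y.e = false) : (tr p y).e = false := by
  change (y.e && p.ws) = false
  rw [h]; rfl

variable {G : Type u} [Group G]

theorem st2_tr {p p' : Ty} (ι : M p →* G) (ι' : M p' →* G) (hb : p'.big = p.big) (ht : ι' (mt p') = ι (mt p))
    (hz : ι' (mz p') = ι (mz p)) (hd : ι' (md p') = ι (md p)) (hu : ι' (mu p') = ι (mu p))
    (hq : ι' (mq p') = ι (mq p)) (hw : ι' (mw p') = ι (mw p)) (y : M p') (h : y.e = false) :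
    ι' y = ι (tr p y) := by
  refine (congrArg ι' (nf p' y)).trans (Eq.trans ?_ (congrArg ι (nf p (tr p y))).symm)
  simp only [map_mul, Bool.apply_cond ι', Bool.apply_cond ι, map_one, ht, hz, hd, hu, hq, hw, st2_trd hb, st2_tre h, h,
    cond_false]
  rfl

theorem st2_pow {O : Subgroup G} {a o : G} (ha : a ∈ 𝒩(O)) (ho : o ∈ O) (n : ℕ) :
    ∃ o' ∈ O, (o * a) ^ n = o' * a ^ n := by
  induction n with
  | zero => exact ⟨1, one_mem _, by simp⟩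
  | succ n ih =>
    obtain ⟨o', h', e⟩ := ih
    exact ⟨o' * (a ^ n * o * (a ^ n)⁻¹), mul_mem h' (conj_mem (pow_mem ha n) ho), by rw [pow_succ, e, pow_succ]; group⟩

section
variable [Finite G] (S : HD G) (hw : S.p.ws = false)

theorem st2_triv {x : M S.p} (h : S.ι x ∈ S.O) : x = 1 :=
  st2_odd S.oddO (S.inj (by
    rw [map_pow, map_one]; exact orderOf_dvd_iff_pow_eq_one.1 (Subgroup.orderOf_dvd_natCard _ h)))

theorem st2_ρt : S.ρ0 * S.t * S.ρ0⁻¹ = S.t := by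
  rw [mem_centralizer_singleton_iff.1 (S.LH S.ρ0L), mul_inv_cancel_right]

theorem st2_ρz : S.ρ0 * S.z * S.ρ0⁻¹ = S.z := by
  obtain ⟨⟨-, -, -, uu, qq, -⟩, -⟩ := st2_m2 S.p
  calc S.ρ0 * S.z * S.ρ0⁻¹ = (S.ρ0 * S.u * S.ρ0⁻¹) * (S.ρ0 * S.u * S.ρ0⁻¹) := by
        rw [HD.z, ← uu, map_mul]; group
    _ = S.z := by rw [S.ρ0u, ← map_mul, qq]

theorem st2_ρuq : S.ρ0 * S.ι (mu S.p * mq S.p) * S.ρ0⁻¹ = S.u := by
  calc S.ρ0 * S.ι (mu S.p * mq S.p) * S.ρ0⁻¹ = (S.ρ0 * S.u * S.ρ0⁻¹) * (S.ρ0 * S.q * S.ρ0⁻¹) := by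
        rw [map_mul]; group
    _ = S.u := by rw [S.ρ0u, S.ρ0q, ← map_mul, (st2_m2 S.p).2.2.2.2]

theorem st2_ρ3 : S.ρ0 ^ 3 * S.u * (S.ρ0 ^ 3)⁻¹ = S.u ∧ S.ρ0 ^ 3 * S.q * (S.ρ0 ^ 3)⁻¹ = S.q := by
  have e : ∀ a : G, S.ρ0 ^ 3 * a * (S.ρ0 ^ 3)⁻¹ = S.ρ0 * (S.ρ0 * (S.ρ0 * a * S.ρ0⁻¹) * S.ρ0⁻¹) * S.ρ0⁻¹ := fun a => by
    rw [pow_succ, pow_two]; group
  exact ⟨by rw [e, S.ρ0u, S.ρ0q, st2_ρuq], by rw [e, S.ρ0q, st2_ρuq, S.ρ0u]⟩

include hw

theorem st2_H (x : M S.p) : S.ι x ∈ S.H :=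
  mem_centralizer_singleton_iff.2 (by rw [← map_mul, (st2_m1 _ hw x).2.1, map_mul])

theorem st2_mod {o : G} (ho : o ∈ S.O) {a b : M S.p} (h : o * S.ι a * o⁻¹ = S.ι b) : a = b := by
  have : S.ι (b * a⁻¹) ∈ S.O := by
    rw [map_mul, map_inv, ← h, mul_assoc, mul_assoc, ← mul_assoc (S.ι a)]
    exact mul_mem ho (conj_mem (S.On (st2_H S hw a)) (inv_mem ho))
  exact (mul_inv_eq_one.1 (st2_triv S this)).symm

/-- `C(t) ∩ C(Q) ≤ O ⟨t, δ, z⟩` -/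
theorem st2_K {k : G} (kt : k ∈ S.H) (ku : k * S.u * k⁻¹ = S.u) (kq : k * S.q * k⁻¹ = S.q) :
    ∃ o ∈ S.O, ∃ x, Commute (S.ι x) S.ρ0 ∧ k = o * S.ι x := by
  obtain ⟨⟨-, -, -, uu, -⟩, -⟩ := st2_m2 S.p
  have kz : k * S.z = S.z * k := by
    rw [← mul_inv_eq_iff_eq_mul, HD.z, ← uu, map_mul]
    calc k * (S.u * S.u) * k⁻¹ = (k * S.u * k⁻¹) * (k * S.u * k⁻¹) := by group
      _ = _ := by rw [ku]
  obtain ⟨o, ho, x, -, i, e⟩ := S.cz k kt kz
  obtain ⟨-, -, n1, n2, n0⟩ := st2_m1 _ hw x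
  let o' := o * (S.ι x * (S.ρ0 ^ 3) ^ (i / 3) * (S.ι x)⁻¹)
  have ho' : o' ∈ S.O := mul_mem ho (conj_mem (S.On (st2_H S hw x)) (pow_mem S.ρ03 _))
  have e' : k = o' * S.ι x * S.ρ0 ^ (i % 3) := by
    rw [e]; conv_lhs => rw [← Nat.div_add_mod i 3, pow_add, pow_mul]
    simp only [o']; group
  have c : ∀ a b c : M S.p, k * S.ι a * k⁻¹ = S.ι c → S.ρ0 ^ (i % 3) * S.ι a * (S.ρ0 ^ (i % 3))⁻¹ = S.ι b →
      x * b * x⁻¹ = c := fun a b c h1 h2 => st2_mod S hw ho' (by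
    rw [map_mul, map_mul, map_inv, ← h2, ← h1]; conv_rhs => rw [e']
    group)
  have : i % 3 = 0 ∨ i % 3 = 1 ∨ i % 3 = 2 := by omega
  rcases this with h | h | h <;> rw [h] at c e'
  · refine ⟨o', ho', x, ?_, by rw [e', pow_zero, mul_one]⟩
    have k1 : ∀ (b : Bool) (a : M S.p), S.ρ0 * S.ι a * S.ρ0⁻¹ = S.ι a → Commute (S.ι (cond b a 1)) S.ρ0 := fun b a h => by
      cases b
      · exact map_one S.ι ▸ Commute.one_left _
      · exact (mul_inv_eq_iff_eq_mul.1 h).symm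
    rw [n0 (c _ _ _ ku (by simp)) (c _ _ _ kq (by simp)), map_mul, map_mul]
    exact ((k1 _ _ S.ρ0d).mul_left (k1 _ _ (st2_ρz S))).mul_left (k1 _ _ (st2_ρt S))
  · exact absurd (c _ _ _ ku (by rw [pow_one, S.ρ0u])) n1
  · refine absurd (c _ _ _ ku ?_) n2
    rw [← S.ρ0q, ← S.ρ0u, pow_two]; group

theorem st2_rho {s : G} {al ep : Bool} (h : S.Pre s al ep) :
    ∃ o ∈ S.O, Commute o S.u ∧ Commute o S.q ∧ Commute o S.δ ∧ o * S.ρ0 * s * (o * S.ρ0)⁻¹ = s := by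
  obtain ⟨⟨zz, -, -, uu, -⟩, -⟩ := st2_m2 S.p
  have si : s⁻¹ = s := inv_eq_of_mul_eq_one_right h.ss
  have su : Commute s S.u := h.su
  have sq : Commute s S.q := h.sq
  have sd : Commute s S.δ := h.sd
  have sz : Commute s S.z := by rw [HD.z, ← uu, map_mul]; exact su.mul_right su
  have st : s * S.t * s⁻¹ = S.t * S.z := by rw [h.st, mul_assoc S.t, sz.eq]; group
  have st' : s * (S.t * S.z) * s⁻¹ = S.t := by
    calc s * (S.t * S.z) * s⁻¹ = (s * S.t * s⁻¹) * (s * S.z * s⁻¹) := by group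
      _ = S.t := by rw [st, sz.mul_inv_cancel, mul_assoc, ← map_mul, zz, map_one, mul_one]
  have hρ := S.LH S.ρ0L
  -- conjugates under `s` of elements fixing `t`, `u`, `q`
  have K : ∀ g : G, g * S.t * g⁻¹ = S.t → g * S.z * g⁻¹ = S.z → s * g * s⁻¹ ∈ S.H := fun g gt gz => by
    refine mem_centralizer_singleton_iff.2 (mul_inv_eq_iff_eq_mul.1 ?_)
    calc s * g * s⁻¹ * S.t * (s * g * s⁻¹)⁻¹ = s * (g * (s⁻¹ * S.t * s⁻¹⁻¹) * g⁻¹) * s⁻¹ := by group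
      _ = s * ((g * S.t * g⁻¹) * (g * S.z * g⁻¹)) * s⁻¹ := by rw [si, st]; group
      _ = S.t := by rw [gt, gz, st']
  have o3 : s * S.ρ0 ^ 3 * s⁻¹ ∈ S.O := by
    have c : ∀ a, Commute s a → S.ρ0 ^ 3 * a * (S.ρ0 ^ 3)⁻¹ = a →
        s * S.ρ0 ^ 3 * s⁻¹ * a * (s * S.ρ0 ^ 3 * s⁻¹)⁻¹ = a := fun a h1 h2 =>
      ((h1.mul_left (mul_inv_eq_iff_eq_mul.1 h2)).mul_left h1.inv_left).mul_inv_cancel
    obtain ⟨o, ho, x, -, e⟩ := st2_K S hw (K _ ((Commute.pow_left (mul_inv_eq_iff_eq_mul.1 (st2_ρt S)) 3).mul_inv_cancel)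
      ((Commute.pow_left (mul_inv_eq_iff_eq_mul.1 (st2_ρz S)) 3).mul_inv_cancel)) (c _ su (st2_ρ3 S).1) (c _ sq (st2_ρ3 S).2)
    obtain ⟨o', ho', e'⟩ := st2_pow (S.On (st2_H S hw x)) ho (Nat.card S.O)
    rw [← e, conj_pow, orderOf_dvd_iff_pow_eq_one.1 (Subgroup.orderOf_dvd_natCard _ S.ρ03), mul_one, mul_inv_cancel,
      ← map_pow] at e'
    have : S.ι (x ^ Nat.card S.O) ∈ S.O := by rw [eq_inv_of_mul_eq_one_right e'.symm]; exact inv_mem ho'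
    rw [e, st2_odd S.oddO (st2_triv S this), map_one, mul_one]; exact ho
  set c := s * (S.ρ0 * s * S.ρ0⁻¹) with hc
  have cm : ∀ a b, Commute s a → Commute s b → S.ρ0 * b * S.ρ0⁻¹ = a → Commute c a := fun a b h1 h2 h3 =>
    h1.mul_left (h3 ▸ h2.conj S.ρ0)
  have cu := cm _ _ su (by rw [map_mul]; exact su.mul_right sq) (st2_ρuq S)
  have cq := cm _ _ sq su S.ρ0u
  have cd := cm _ _ sd sd S.ρ0d
  have e1 : c * S.ρ0 = s * S.ρ0 * s⁻¹ := by rw [hc, si]; group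
  have ct : c ∈ S.H := by
    rw [eq_mul_inv_of_mul_eq e1]; exact mul_mem (K _ (st2_ρt S) (st2_ρz S)) (inv_mem hρ)
  have cO : c ∈ S.O := by
    obtain ⟨o, ho, x, xc, e⟩ := st2_K S hw ct cu.mul_inv_cancel cq.mul_inv_cancel
    obtain ⟨o', ho', e'⟩ := st2_pow (S.On (mul_mem (st2_H S hw x) hρ)) ho 3
    rw [← mul_assoc, ← e, e1, conj_pow, xc.mul_pow, ← map_pow] at e'
    have : S.ι (x ^ 3) ∈ S.O := by
      have := mul_mem (mul_mem (inv_mem ho') o3) (inv_mem S.ρ03)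
      rwa [e', inv_mul_cancel_left, mul_inv_cancel_right] at this
    rw [e, st2_odd (by decide) (st2_triv S this), map_one, mul_one]; exact ho
  obtain ⟨m, hm⟩ := S.oddO
  have cn : c ^ (2 * m + 1) = 1 := hm ▸ orderOf_dvd_iff_pow_eq_one.1 (Subgroup.orderOf_dvd_natCard _ cO)
  have sc : s * c⁻¹ * s⁻¹ = c := by
    rw [hc, mul_inv_rev, mul_inv_rev, mul_inv_rev, inv_inv, si]
    calc s * (S.ρ0 * (s * S.ρ0⁻¹) * s) * s = s * (S.ρ0 * s * S.ρ0⁻¹) * (s * s) := by group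
      _ = _ := by rw [h.ss, mul_one]
  refine ⟨c⁻¹ ^ m, pow_mem (inv_mem cO) m, cu.inv_left.pow_left m, cq.inv_left.pow_left m, cd.inv_left.pow_left m, ?_⟩
  have e2 : S.ρ0 * s * S.ρ0⁻¹ = s * c := by rw [hc, ← mul_assoc s s, h.ss, one_mul]
  have e3 : c⁻¹ ^ m = s * c ^ m * s⁻¹ := by
    rw [← conj_pow]; congr 1
    conv_rhs => rw [← sc, si]
    calc c⁻¹ = 1 * c⁻¹ * 1 := by group
      _ = _ := by rw [← h.ss]; group
  calc c⁻¹ ^ m * S.ρ0 * s * (c⁻¹ ^ m * S.ρ0)⁻¹ = c⁻¹ ^ m * (S.ρ0 * s * S.ρ0⁻¹) * c ^ m := by group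
    _ = s * c ^ (2 * m + 1) := by rw [e2, e3]; group
    _ = s := by rw [cn, mul_one]

end

/-- `⟨t, z⟩` -/
def st2_sT (p : Ty) : Subgroup (M p) :=
  sub (fun x => x.k = false ∧ x.e = false ∧ x.d = false ∧ x.i = false ∧ x.j = false) ⟨rfl, rfl, rfl, rfl, rfl⟩
    (by intro x y hx hy; simp_all [mul_k, mul_e, mul_j, mul_i, mul_d])

theorem st2_syl [Finite G] {p : Ty} (ι : M p →* G) (inj : Function.Injective ι)
    (syl : IsSylowIn 2 ((sS p).map ι) (centralizer {ι (mt p)})) (ntz : ∀ g, g * ι (mt p) * g⁻¹ ≠ ι (mz p))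
    (st : ms p * (mt p * mz p) * (ms p)⁻¹ = mt p) : IsSylowIn 2 ι.range 𝒩(closure {ι (mt p), ι (mz p)}) := by
  have := Fact.mk Nat.prime_two
  set T := closure {ι (mt p), ι (mz p)}
  have tT : ι (mt p) ∈ T := subset_closure (by simp)
  have zT : ι (mz p) ∈ T := subset_closure (by simp)
  have hT : ∀ g ∈ T, g = 1 ∨ g = ι (mt p) ∨ g = ι (mz p) ∨ g = ι (mt p * mz p) := fun g hg => by
    have : T ≤ (st2_sT p).map ι := (closure_le _).2 (by
      rintro _ (rfl | rfl) <;> exact mem_map_of_mem ι ⟨rfl, rfl, rfl, rfl, rfl⟩)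
    obtain ⟨x, hx, rfl⟩ := this hg
    rcases (st2_m3 p x).2.2 hx with rfl | rfl | rfl | rfl <;> simp
  refine isSylowIn_of_maximal ?_ ?_ fun U hU hle hN => le_antisymm (fun g hg => ?_) hle
  · rintro _ ⟨x, rfl⟩
    obtain ⟨h1, h2, -⟩ := st2_m3 p x
    have a1 : ι x * ι (mt p) * (ι x)⁻¹ ∈ T := by
      rw [← map_inv, ← map_mul, ← map_mul]
      rcases h1 with e | e <;> rw [e]
      · exact tT
      · rw [map_mul]; exact mul_mem tT zT
    have a2 : ι x * ι (mz p) * (ι x)⁻¹ ∈ T := by rw [← map_inv, ← map_mul, ← map_mul, h2]; exact zT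
    refine mem_normalizer_fintype fun n hn => ?_
    rcases hT n hn with rfl | rfl | rfl | rfl
    · simp
    · exact a1
    · exact a2
    · have := mul_mem a1 a2
      rwa [conj_mul, ← map_mul] at this
  · rintro ⟨_, x, rfl⟩
    exact ⟨3, Subtype.ext (by simpa using congrArg ι (pow8 p x))⟩
  · have e := syl.eq_of_le (hU.to_inf_left (K := centralizer {ι (mt p)})) (le_inf ((map_le_range _ _).trans hle) syl.le)
      inf_le_right
    have k : ∀ a ∈ U, a * ι (mt p) * a⁻¹ = ι (mt p) → a ∈ ι.range := fun a ha h =>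
      map_le_range _ _ (e ▸ mem_inf.2 ⟨ha, mem_centralizer_singleton_iff.2 (mul_inv_eq_iff_eq_mul.1 h)⟩)
    rcases hT _ (conj_mem (hN hg) tT) with h | h | h | h
    · exact absurd (inj ((conj_eq_one_iff.1 h).trans (map_one ι).symm)) (st2_m2 p).2.2.1
    · exact k g hg h
    · exact absurd h (ntz g)
    · refine (mul_mem_cancel_left (⟨ms p, rfl⟩ : ι (ms p) ∈ ι.range)).1 (k _ (mul_mem (hle ⟨_, rfl⟩) hg) ?_)
      calc ι (ms p) * g * ι (mt p) * (ι (ms p) * g)⁻¹ = ι (ms p) * (g * ι (mt p) * g⁻¹) * (ι (ms p))⁻¹ := by group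
        _ = _ := by rw [h, ← map_inv, ← map_mul, ← map_mul, st]

theorem st2 : St2S.{u} := by
  intro mk G _ _ S hw s al ep h
  obtain ⟨⟨r1, r2, r3, r4, r5, r6, r7, r8, r9, r10, r11, r12, r13, r14, r15, r16, r17, r18⟩, n1, n2, n3, -⟩ := st2_m2 S.p
  have m : ∀ {a b : M S.p}, a = b → S.ι a = S.ι b := fun e => congrArg S.ι e
  let p : Ty := ⟨S.p.big, true, al, ep⟩
  have ab : (al && S.p.big) = al := by
    have := h.alb
    revert this; cases al <;> simp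
  obtain ⟨ι, ht, hz, hd, hs, hu, hq, hw', inj⟩ := mk G p S.t S.z S.δ s S.u S.q S.w
    ⟨by simpa using m r1, by simpa using m r2, h.ss, by simpa using m r3, by simpa using m r4, by simpa using m r5,
      fun e => by simpa using m (r6 e), fun e => by simpa using m (r7 e), fun e => Bool.noConfusion e,
      by simpa using m r8, by simpa using m r9, by simpa using m r10, by simpa using m r11, by simpa using m r12,
      by simpa using m r13, fun _ => h.st, h.sd, h.su, h.sq, by simpa using m r14, by simpa using m r15,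
      by simpa using m r16, by simpa using m r17, by simpa using m r18, fun _ => by rw [h.ws]; simp only [p, ab]⟩
  have inj := inj (fun e => n1 (S.inj (e.trans (map_one _).symm))) (fun e => n2 (S.inj (e.trans (map_one _).symm)))
    fun e => n3 (S.inj e)
  have t1 := st2_tr S.ι ι rfl ht hz hd hu hq hw'
  have t2 := fun x => st2_tr ι S.ι rfl ht.symm hz.symm hd.symm hu.symm hq.symm hw'.symm x (st2_m1 _ hw x).1
  have eS : (sS p).map ι = (sS S.p).map S.ι := by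
    refine le_antisymm ?_ ?_ <;> rintro _ ⟨x, hx, rfl⟩
    · exact ⟨_, st2_tre hx, (t1 x hx).symm⟩
    · exact ⟨_, st2_tre hx, (t2 x).symm⟩
  have syl : IsSylowIn 2 ((sS p).map ι) (centralizer {ι (mt p)}) := by rw [eS, ht]; exact S.sylS
  have ntz : ∀ g, g * ι (mt p) * g⁻¹ ≠ ι (mz p) := by rw [ht, hz]; exact S.ntz
  obtain ⟨o, ho, ou, oq, od, os⟩ := st2_rho S hw h
  have hρ := S.On (S.LH S.ρ0L)
  have cj' : ∀ a b, S.ρ0 * a * S.ρ0⁻¹ = b → Commute o b → o * S.ρ0 * a * (o * S.ρ0)⁻¹ = b := fun a b e c => by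
    calc o * S.ρ0 * a * (o * S.ρ0)⁻¹ = o * (S.ρ0 * a * S.ρ0⁻¹) * o⁻¹ := by group
      _ = b := by rw [e, c.mul_inv_cancel]
  have hw2 : ι (mw' p) = S.ι (mw' S.p) := by rw [mw', mw', map_mul, map_mul, hw', hu]
  have st : ∀ p : Ty, p.ws = true → ms p * (mt p * mz p) * (ms p)⁻¹ = mt p := by decide +kernel
  refine ⟨⟨p, ι, S.O, S.L, S.ρ, o * S.ρ0, inj, h.alb, S.oddO, S.OL, ht ▸ S.LH, ht ▸ S.On, ht ▸ S.Ln, ht ▸ S.sqL,
    fun x hx => ?_, syl, fun _ => st2_syl ι inj syl ntz (st p rfl), S.ρL, mul_mem (S.OL ho) S.ρ0L, ?_, ?_, fun e => ?_,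
    S.ρ3, hw2 ▸ S.ρi, ?_, ?_, ?_, ?_, ?_, ?_, fun g hg gz => ?_, fun g hg gz gw => ?_, ?_, ntz⟩, rfl⟩
  · rw [t1 x hx, S.ιL _ (st2_tre hx), st2_trd (p := S.p) (p' := p) rfl]; rfl
  · rw [hz, hw']; exact S.ρz
  · rw [map_mul, hz, hw', ← map_mul]; exact S.ρw
  · have : ι (mg p) = S.ι (mg S.p) := by rw [mg, mg, map_mul, map_mul, hd, hu]
    rw [this]; exact S.ρg e
  · rw [hu, hq]; exact cj' _ _ S.ρ0u oq
  · rw [map_mul, hu, hq]; exact cj' _ _ (by rw [S.ρ0q, map_mul]) (ou.mul_right oq)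
  · rw [hd]; exact cj' _ _ S.ρ0d od
  · rw [hs]; exact os
  · obtain ⟨o', ho', e⟩ := st2_pow hρ ho 3
    rw [e]; exact mul_mem ho' S.ρ03
  · have wn := S.On (st2_H S hw (mw' S.p))
    obtain ⟨o', ho', e⟩ := st2_pow (mul_mem wn hρ) (conj_mem wn ho) 2
    have : ι (mw' p) * (o * S.ρ0) = S.ι (mw' S.p) * o * (S.ι (mw' S.p))⁻¹ * (S.ι (mw' S.p) * S.ρ0) := by rw [hw2]; group
    rw [this, e]; exact mul_mem ho' S.ρ0i
  · rw [ht] at hg; rw [hz] at gz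
    obtain ⟨o1, h1, x, xe, i, e⟩ := S.cz g hg gz
    obtain ⟨o', ho', e'⟩ := st2_pow hρ ho i
    refine ⟨o1 * (S.ι x * o'⁻¹ * (S.ι x)⁻¹), mul_mem h1 (conj_mem (S.On (st2_H S hw x)) (inv_mem ho')), tr p x,
      st2_tre xe, i, ?_⟩
    rw [← t2, e', e]; group
  · rw [ht] at hg; rw [hz] at gz; rw [hw'] at gw
    obtain ⟨o1, h1, x, xe, xi, xj, e⟩ := S.cV g hg gz gw
    exact ⟨o1, h1, tr p x, st2_tre xe, xi.trans (st2_trd (p := p) (p' := S.p) rfl x).symm, xj, by rw [← t2, e]⟩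
  · rw [map_mul, ht, hz, ← map_mul]; exact S.tz

end CL.H33
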