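/-
Project H33 (S3139): the first step of the tower.
-/
import Cfsg.Agent.H33.Abs
import Cfsg.Agent.Loc.FourU

set_option autoImplicit false
set_option linter.unusedSectionVars false
open Cfsg Subgroup CL.Even CL.Grp

namespace CL.H33

universe u

namespace Tl0

variable {G : Type u} [Group G] (T : TH G) {x v w g o j k : G}

theorem μV : T.μ ∈ T.V := (T.memV _).2 (.inr (.inl rfl))
theorem νV : T.ν ∈ T.V := (T.memV _).2 (.inr (.inr (.inl rfl)))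
theorem τi : T.τ⁻¹ = T.τ := inv_eq_of_mul_eq_one_right T.ττ
theorem μν : T.μ * T.ν = T.ν * T.μ := by
  rcases (T.memV _).1 (mul_mem (νV T) (μV T)) with e | e | e | e
  · exact absurd ((eq_inv_of_mul_eq_one_right e).trans (inv_eq_of_mul_eq_one_right T.νν)) T.μν
  · exact absurd (mul_eq_right.1 e) T.ν1
  · exact absurd (mul_eq_left.1 e) T.μ1
  · exact e.symm
theorem vv (h : v ∈ T.V) : v * v = 1 := by
  rcases (T.memV _).1 h with rfl | rfl | rfl | rfl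
  · exact one_mul 1
  · exact T.μμ
  · exact T.νν
  · rw [mul_assoc, ← mul_assoc T.ν, ← μν, mul_assoc, T.νν, mul_one, T.μμ]
theorem VC : T.V ≤ 𝒞(T.V) := fun a ha b hb => by
  rw [← inv_eq_of_mul_eq_one_right (vv T (mul_mem hb ha)), mul_inv_rev, inv_eq_of_mul_eq_one_right (vv T ha),
    inv_eq_of_mul_eq_one_right (vv T hb)]
theorem μν1 : T.μ * T.ν ≠ 1 := fun e =>
  T.μν ((eq_inv_of_mul_eq_one_left e).trans (inv_eq_of_mul_eq_one_right T.νν))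
theorem cardV : Nat.card T.V = 4 := by
  classical
  have : (T.V : Set G) = ({1, T.μ, T.ν, T.μ * T.ν} : Finset G) := by ext a; simpa using T.memV a
  rw [← SetLike.coe_sort_coe, this, Finset.coe_sort_coe, Nat.card_eq_fintype_card, Fintype.card_coe, Finset.card_eq_four]
  exact ⟨_, _, _, _, T.μ1.symm, T.ν1.symm, (μν1 T).symm, T.μν, fun e => T.ν1 (left_eq_mul.1 e),
    fun e => T.μ1 (right_eq_mul.1 e), rfl⟩

variable {T}

theorem τ3 (j k : G) : T.τ * (j * k) * T.τ = T.τ * j * T.τ * (T.τ * k * T.τ) := by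
  conv_rhs => rw [mul_assoc (T.τ * j), ← mul_assoc T.τ (T.τ * k), ← mul_assoc T.τ T.τ, T.ττ]
  group

theorem cm (hv : v ∈ T.V) (hx : x ∈ 𝒞(T.V)) : Commute v x := hx v hv

variable (T) in
/-- the elements of `C(V)` normalising `⟨τ⟩ V` -/
def X : Subgroup G where
  carrier := {x | x ∈ 𝒞(T.V) ∧ ∃ v ∈ T.V, x * T.τ * x⁻¹ = v * T.τ}
  one_mem' := ⟨one_mem _, 1, one_mem _, by group⟩
  mul_mem' := by
    rintro a b ⟨ha, v, hv, e⟩ ⟨hb, w, hw, f⟩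
    refine ⟨mul_mem ha hb, w * v, mul_mem hw hv, ?_⟩
    rw [show a * b * T.τ * (a * b)⁻¹ = a * (b * T.τ * b⁻¹) * a⁻¹ by group, f, ← mul_assoc a, ← (cm hw ha).eq,
      mul_assoc w v, ← e]; group
  inv_mem' := by
    rintro a ⟨ha, v, hv, e⟩
    refine ⟨inv_mem ha, v⁻¹, inv_mem hv, ?_⟩
    have : T.τ = v⁻¹ * (a * T.τ * a⁻¹) := by rw [e]; group
    conv_lhs => rw [this]
    rw [← mul_assoc a⁻¹, ← (cm (inv_mem hv) (inv_mem ha)).eq]; group

theorem nX (h : g * T.τ = T.τ * g) [Finite G] : g ∈ 𝒩(X T) := mem_norm_of_cj_le (by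
  have := T.nV
  rintro _ ⟨a, ⟨ha, v, hv, e⟩, rfl⟩
  refine ⟨(inferInstance : 𝒞(T.V).Normal).conj_mem a ha g, g * v * g⁻¹, T.nV.conj_mem v hv g, ?_⟩
  have h' : T.τ = g * T.τ * g⁻¹ := by rw [h]; group
  show g * a * g⁻¹ * T.τ * (g * a * g⁻¹)⁻¹ = _
  conv_rhs => rw [h', conj_mul, ← e]
  conv_lhs => rw [h']
  group)

theorem memX (h : x ∈ 𝒞(T.V)) (e : x * T.τ = T.τ * x) : x ∈ X T := ⟨h, 1, one_mem _, by rw [e]; group⟩

theorem oτ (h : o ∈ T.O) : o * T.τ = T.τ * o := mem_centralizer_singleton_iff.1 (T.Oτ h)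

theorem dec (h : x ∈ 𝒞(T.V)) (e : x * T.τ = T.τ * x) :
    ∃ o ∈ T.O, ∃ u ∈ T.V ⊔ zpowers T.τ, x = o * u ∧ u * u = 1 ∧ Commute o u ∧ (u ∈ T.V ∨ u * T.τ ∈ T.V) := by
  obtain ⟨o, ho, v, hv, k | k⟩ := T.cτ x h e
  · exact ⟨o, ho, v, mem_sup_left hv, k, vv T hv, (cm hv (T.OC ho)).symm, .inl hv⟩
  · refine ⟨o, ho, v * T.τ, mul_mem_sup hv (mem_zpowers _), k.trans (mul_assoc _ _ _), ?_,
      (cm hv (T.OC ho)).symm.mul_right (oτ ho), .inr (by rwa [mul_assoc, T.ττ, mul_one])⟩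
    rw [(cm hv T.τC).symm.mul_mul_mul_comm, vv T hv, T.ττ, one_mul]

theorem XO [Finite G] : X T ≤ 𝒩(T.O) := fun x hx => mem_norm_of_cj_le (by
  have := T.nV
  rintro _ ⟨o, ho, rfl⟩
  obtain ⟨-, v, hv, e⟩ := inv_mem hx
  obtain ⟨o', ho', u, -, k, uu, c, -⟩ := dec (x := x * o * x⁻¹) (mul_mem (mul_mem hx.1 (T.OC ho)) (inv_mem hx.1)) (by
    have : o * (x⁻¹ * T.τ * x⁻¹⁻¹) = x⁻¹ * T.τ * x⁻¹⁻¹ * o := by
      rw [e]; exact ((cm hv (T.OC ho)).symm.mul_right (oτ ho)).eq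
    calc _ = x * (o * (x⁻¹ * T.τ * x⁻¹⁻¹)) * x⁻¹ := by group
      _ = _ := by rw [this]; group)
  have p : ∀ a ∈ T.O, a ^ Nat.card T.O = 1 := fun a ha => congrArg Subtype.val (pow_card_eq_one' (x := (⟨a, ha⟩ : T.O)))
  have := congrArg (· ^ Nat.card T.O) k
  obtain ⟨m, hm⟩ := T.oddO
  simp only [conj_pow, c.mul_pow, p o ho, p o' ho'] at this
  rw [hm, pow_succ, pow_mul, sq, uu, one_pow, mul_one, mul_inv_cancel, one_mul, one_mul] at this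
  show x * o * x⁻¹ ∈ T.O
  rwa [k, ← this, mul_one])

theorem X4 (h : x ∈ X T) : x ^ 2 ^ 2 ∈ T.O := by
  obtain ⟨hx, v, hv, e⟩ := h
  obtain ⟨o, ho, u, -, k, uu, c, -⟩ := dec (x := x * x) (mul_mem hx hx) (by
    rw [← mul_inv_eq_iff_eq_mul, show x * x * T.τ * (x * x)⁻¹ = x * (x * T.τ * x⁻¹) * x⁻¹ by group, e,
      ← mul_assoc x, ← (cm hv hx).eq, mul_assoc v, mul_assoc v, e, ← mul_assoc, vv T hv, one_mul])
  rw [show x ^ 2 ^ 2 = x * x * (x * x) by rw [show 2 ^ 2 = 1 + 1 + (1 + 1) from rfl]; simp only [pow_add, pow_one], k,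
    c.symm.mul_mul_mul_comm, uu, mul_one]
  exact mul_mem ho ho

/-- the Sylow subgroup -/
structure Sy (T : TH G) (J : Subgroup G) (r : G) : Prop where
  syl : IsSylowIn 2 J (X T)
  ω : T.ω ∈ 𝒩(J)
  rn : r ∈ 𝒩(J)
  rρ : ∃ o ∈ T.O, r = o * T.ρ
  U : T.V ⊔ zpowers T.τ ≤ J
  O : ∀ o ∈ T.O, o ∈ J → o = 1

theorem sy [Finite G] (T : TH G) : ∃ J r, Sy T J r := by
  have := Fact.mk Nat.prime_two
  have := T.nV
  obtain ⟨S, hS, l⟩ := exists_isSylowIn_ge (H := X T ⊔ zpowers T.ω)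
    (isPGroup_zpowers (p := 2) (k := 1) (by simpa [sq] using T.ωω)) le_sup_right
  have n : X T ⊔ zpowers T.ω ≤ 𝒩(X T) := sup_le le_normalizer (zpowers_le.2 (nX T.ωτ))
  have s := hS.inf_of_normalized le_sup_left n
  obtain ⟨a, ha, e⟩ := s.frattini le_rfl (nX T.ρτ)
  obtain ⟨j, hj, o, ho, rfl⟩ := exists_syl_mul_res s ha
  refine ⟨_, o * T.ρ, s, le_norm_inf (L := zpowers T.ω) (l.trans le_normalizer) (le_sup_right.trans n) (mem_zpowers _),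
    ?_, ⟨o, res_le_of_pow (fun x hx => ⟨2, X4 hx⟩) ho, rfl⟩, s.le_of_normalized (isPGroup_sup'
      (isPGroup_iff_forall.2 fun v hv => ⟨1, by simpa [sq] using vv T hv⟩)
      (isPGroup_zpowers (k := 1) (by simpa [sq] using T.ττ)) le_normalizer_of_normal)
      (sup_le (fun v hv => memX (VC T hv) (cm hv T.τC)) (zpowers_le.2 (memX T.τC rfl))) (le_norm_of_cj_le ?_),
    fun o ho hj => eq_one_of_coprime_of_mem s.2.1 (Nat.coprime_two_right.2 (T.oddO.of_dvd_nat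
      (by rw [← orderOf_mk o ho]; exact orderOf_dvd_natCard _))) hj⟩
  · rwa [mul_assoc, mul_mem_cancel_left (le_normalizer hj)] at e
  · rintro g ⟨-, v, hv, e⟩
    rw [cj_sup, cj_eq (le_normalizer_of_normal (mem_top g)), MonoidHom.map_zpowers]
    exact sup_le le_sup_left (zpowers_le.2 (Set.mem_of_eq_of_mem e (mul_mem_sup hv (mem_zpowers _))))

namespace Sy
variable {J : Subgroup G} {r : G} (h : Sy T J r)
include h

theorem C (hj : j ∈ J) : j ∈ 𝒞(T.V) := (h.syl.1 hj).1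
theorem V (hv : v ∈ T.V) : v ∈ J := h.U (mem_sup_left hv)
theorem τ : T.τ ∈ J := h.U (mem_sup_right (mem_zpowers _))

theorem ker (hj : j ∈ J) (e : T.τ * j * T.τ = j) : j ∈ T.V ∨ j * T.τ ∈ T.V := by
  obtain ⟨o, ho, u, hu, k, -, -, c⟩ := dec (h.C hj) (by
    conv_lhs => rw [← e]
    rw [mul_assoc, T.ττ, mul_one])
  rwa [k, h.O o ho ((mul_mem_cancel_right (h.U hu)).1 (k ▸ hj)), one_mul]

theorem rτ : r * T.τ = T.τ * r := by
  obtain ⟨o, ho, rfl⟩ := h.rρ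
  rw [mul_assoc, T.ρτ, ← mul_assoc, oτ ho, mul_assoc]

theorem rV (hv : v ∈ T.V) : r * v * r⁻¹ = T.ρ * v * T.ρ⁻¹ := by
  obtain ⟨o, ho, rfl⟩ := h.rρ
  rw [show o * T.ρ * v * (o * T.ρ)⁻¹ = o * (T.ρ * v * T.ρ⁻¹) * o⁻¹ by group,
    ← (cm (T.nV.conj_mem v hv _) (T.OC ho)).eq, mul_inv_cancel_right]

theorem r3 [Finite G] (hj : j ∈ J) : r * (r * (r * j * r⁻¹) * r⁻¹) * r⁻¹ = j := by
  have m : r ^ 3 ∈ T.O := by
    obtain ⟨o, ho, rfl⟩ := h.rρ
    have n := T.On (mem_centralizer_singleton_iff.2 T.ρτ)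
    obtain ⟨k, hk, e⟩ := exists_mul_pow_eq n (conj_mem' n ho) 3
    rw [show o * T.ρ = T.ρ * (T.ρ⁻¹ * o * T.ρ) by group, e]
    exact mul_mem T.ρ3 hk
  have := h.O (r ^ 3 * (j * (r ^ 3)⁻¹ * j⁻¹)) (mul_mem m (conj_mem (XO (h.syl.1 hj)) (inv_mem m))) (by
    rw [← mul_assoc, ← mul_assoc]; exact mul_mem (conj_mem (pow_mem h.rn 3) hj) (inv_mem hj))
  rw [← mul_assoc, ← mul_assoc, mul_inv_eq_one] at this
  rw [← this]; conv_lhs => rw [this]
  rw [pow_succ, pow_two]; group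

/-- elements inverted by `τ` with the same non-trivial square in `V` -/
theorem same (hj : j ∈ J) (hk : k ∈ J) (a : T.τ * j * T.τ = j⁻¹) (b : T.τ * k * T.τ = k⁻¹) (e : j * j = k * k)
    (e1 : k * k ≠ 1) : k⁻¹ * j ∈ T.V := by
  have e2 : T.τ * (k⁻¹ * j) * T.τ = k⁻¹ * j := by
    calc _ = (T.τ * k * T.τ)⁻¹ * (T.τ * j * T.τ) := by
          rw [τ3, mul_inv_rev, mul_inv_rev, τi, mul_assoc T.τ k⁻¹]
      _ = k⁻¹ * (k * k) * j⁻¹ := by rw [a, b]; group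
      _ = _ := by rw [← e]; group
  refine (h.ker (mul_mem (inv_mem hk) hj) e2).resolve_right fun m => e1 ?_
  have e3 : j = k * (k⁻¹ * j * T.τ) * T.τ := by rw [mul_assoc, mul_assoc, T.ττ]; group
  generalize k⁻¹ * j * T.τ = v at m e3
  rw [← e, e3, ← (cm m (h.C hk)).eq, mul_assoc v, (cm m (mul_mem (h.C hk) T.τC)).symm.mul_mul_mul_comm, vv T m,
    one_mul, mul_assoc, ← mul_assoc T.τ, b, mul_inv_cancel]

theorem cjj (n : g ∈ 𝒩(J)) (c : g * T.τ = T.τ * g) (hj : j ∈ J ∧ T.τ * j * T.τ = j⁻¹ ∧ j * j = v) :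
    g * j * g⁻¹ ∈ J ∧ T.τ * (g * j * g⁻¹) * T.τ = (g * j * g⁻¹)⁻¹ ∧ g * j * g⁻¹ * (g * j * g⁻¹) = g * v * g⁻¹ := by
  refine ⟨conj_mem n hj.1, ?_, by rw [conj_mul, hj.2.2]⟩
  have h' : T.τ = g * T.τ * g⁻¹ := by rw [c]; group
  rw [conj_inv, ← hj.2.1, ← conj_mul, ← conj_mul, ← h']

end Sy

theorem lt8 [Finite G] {e f : G} (ee : e * e = 1) (he : e ∉ T.V) (a : f ∉ T.V) (b : f * e ∉ T.V) :
    8 < Nat.card ↥(T.V ⊔ zpowers e ⊔ zpowers f) := by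
  have := T.nV
  have l1 : T.V < T.V ⊔ zpowers e := left_lt_sup.2 fun k => he (k (mem_zpowers e))
  have l2 : T.V ⊔ zpowers e < T.V ⊔ zpowers e ⊔ zpowers f := left_lt_sup.2 fun k => by
    obtain ⟨v, hv, u, hu, rfl⟩ := (mem_sup_nl le_normalizer_of_normal).1 (k (mem_zpowers f))
    rcases (Loc.mem_zpowers_iff_of_mul_self ee).1 hu with rfl | rfl
    · exact a (by rwa [mul_one])
    · exact b (by rwa [mul_assoc, ee, mul_one])
  have c1 := card_lt_card_of_lt l1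
  have c2 := card_lt_card_of_lt l2
  have d := card_dvd_of_le l1.le
  rw [cardV] at c1 d
  omega

end Tl0

open Tl0

theorem tl0 : Tl0S.{u} := by
  intro G _ _ T
  have := Fact.mk Nat.prime_two
  have := T.nV
  obtain ⟨J, r, h⟩ := sy T
  have yX : T.y ∈ X T := ⟨T.yC, T.μ, μV T, T.yτ.trans (cm (μV T) T.τC).eq.symm⟩
  obtain ⟨x, hx, l⟩ := syl_conj_le h.syl (isPGroup_zpowers (x := T.y) (k := 2) (by
    rw [show 2 ^ 2 = 1 + 1 + (1 + 1) from rfl]; simp only [pow_add, pow_one, T.yy, T.μμ])) (zpowers_le.2 yX)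
  obtain ⟨xC, v, hv, xτ⟩ := hx
  have τy : T.τ * T.y * T.τ = T.y⁻¹ := by
    rw [eq_inv_iff_mul_eq_one, mul_assoc T.τ, mul_inv_eq_iff_eq_mul.1 T.yτ, ← T.yy]
    calc _ = T.τ * T.τ * (T.y * T.y * (T.y * T.y)) := by group
      _ = 1 := by rw [T.ττ, T.yy, T.μμ, one_mul]
  obtain ⟨a, ha⟩ : ∃ a, a = x * T.y * x⁻¹ := ⟨_, rfl⟩
  have aC : a ∈ 𝒞(T.V) := ha ▸ mul_mem (mul_mem xC T.yC) (inv_mem xC)
  have A : a ∈ J ∧ T.τ * a * T.τ = a⁻¹ ∧ a * a = T.μ := by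
    refine ⟨ha ▸ l (conj_mem_cj x (mem_zpowers _)), ?_, by
      rw [ha, conj_mul, T.yy, ← (cm (μV T) xC).eq, mul_inv_cancel_right]⟩
    have : v * T.τ * a * (v * T.τ) = a⁻¹ := by rw [← xτ, ha, conj_mul, conj_mul, τy, conj_inv]
    rwa [mul_assoc v, mul_assoc v, ← mul_assoc _ v, ← (cm hv (mul_mem T.τC aC)).eq, ← mul_assoc, ← mul_assoc, vv T hv,
      one_mul] at this
  have B := h.cjj h.rn h.rτ A
  rw [h.rV (μV T), T.ρμ] at B
  have C := h.cjj h.rn h.rτ B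
  rw [h.rV (νV T), T.ρν] at C
  have r3 := h.r3 A.1
  obtain ⟨b, hb⟩ : ∃ b, r * a * r⁻¹ = b := ⟨_, rfl⟩
  rw [hb] at B C r3
  obtain ⟨c, hc⟩ : ∃ c, r * b * r⁻¹ = c := ⟨_, rfl⟩
  rw [hc] at C r3
  have bC := h.C B.1
  have cC := h.C C.1
  have mV := mul_mem (μV T) (νV T)
  have iv : ∀ {j w : G}, w ∈ T.V → j * j = w → j⁻¹ = w * j := fun {j w} hw e => by
    rw [inv_eq_iff_mul_eq_one, ← e, ← mul_assoc, ← mul_assoc, mul_assoc _ j j, e, vv T hw]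
  have nK : T.τ * (a * b * c) * T.τ = a * b * c := by
    rw [τ3, τ3, A.2.1, B.2.1, C.2.1, iv (μV T) A.2.2, iv (νV T) B.2.2, iv mV C.2.2,
      (cm (νV T) aC).symm.mul_mul_mul_comm, (cm mV (mul_mem aC bC)).symm.mul_mul_mul_comm, vv T mV, one_mul]
  have ee : ∀ {j : G}, T.τ * j * T.τ = j⁻¹ → T.τ * j * (T.τ * j) = 1 := fun e => by rw [← mul_assoc, e, inv_mul_cancel]
  rcases h.ker (mul_mem (mul_mem A.1 B.1) C.1) nK with n | n
  swap
  · exfalso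
    have e12 : T.τ * a * (T.τ * b) = T.μ * (a * b * c * T.τ) * (T.μ * T.ν) * (T.τ * c) := by
      rw [← mul_assoc, A.2.1, iv (μV T) A.2.2, mul_assoc (T.μ * _), ← mul_assoc _ T.τ c, (cm mV T.τC).eq,
        mul_assoc T.τ, ← iv mV C.2.2, mul_assoc T.μ, mul_assoc T.μ, mul_assoc (a * b * c), ← mul_assoc T.τ T.τ, T.ττ]
      group
    have w := mul_mem (mul_mem (μV T) n) mV
    have e3 : T.τ * a * (T.τ * b) * (T.τ * a * (T.τ * b)) = 1 := by
      rw [e12, (cm w (mul_mem T.τC cC)).symm.mul_mul_mul_comm, vv T w, ee C.2.1, one_mul]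
    have c12 : Commute (T.τ * b) (T.τ * a) := by
      rw [Commute, SemiconjBy, ← inv_eq_of_mul_eq_one_right e3, mul_inv_rev (T.τ * a),
        inv_eq_of_mul_eq_one_right (ee A.2.1), inv_eq_of_mul_eq_one_right (ee B.2.1)]
    have sq : ∀ {j : G}, T.τ * j ∈ T.V → j * j = 1 := fun {j} m => by
      rw [show j = T.τ * (T.τ * j) by rw [← mul_assoc, T.ττ, one_mul], (cm m T.τC).mul_mul_mul_comm, T.ττ, vv T m,
        one_mul]
    have c1 := lt8 (T := T) (f := T.τ * b) (ee A.2.1) (fun m => T.μ1 (A.2.2.symm.trans (sq m)))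
      (fun m => T.ν1 (B.2.2.symm.trans (sq m))) fun m => μν1 T (C.2.2.symm.trans (sq (by
        rwa [c12.eq, e12, mul_mem_cancel_left w] at m)))
    have lJ : T.V ⊔ zpowers (T.τ * a) ⊔ zpowers (T.τ * b) ≤ J := sup_le (sup_le (fun _ => h.V)
      (zpowers_le.2 (mul_mem h.τ A.1))) (zpowers_le.2 (mul_mem h.τ B.1))
    have lC : T.V ⊔ zpowers (T.τ * a) ⊔ zpowers (T.τ * b) ≤ centralizer {v * (T.τ * a)} := sup_le (sup_le
      (fun g hg => mem_centralizer_singleton_iff.2 (cm hg (mul_mem (VC T hv) (mul_mem T.τC aC))))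
      (zpowers_le.2 (mem_centralizer_singleton_iff.2 ((cm hv (mul_mem T.τC aC)).symm.mul_right (Commute.refl _)))))
      (zpowers_le.2 (mem_centralizer_singleton_iff.2 ((cm hv (mul_mem T.τC bC)).symm.mul_right c12)))
    have c2 := T.c8 _ (isPGroup_cj (h.syl.2.1.to_le lJ) x⁻¹) (cj_le_of_mem (fun _ m => h.C (lJ m)) (inv_mem xC)) (by
      rintro _ ⟨g, hg, rfl⟩
      have := mem_centralizer_singleton_iff.1 (lC hg)
      rw [← mul_assoc v, ← xτ, ha, conj_mul] at this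
      rw [mem_centralizer_singleton_iff]
      show x⁻¹ * g * x⁻¹⁻¹ * _ = _ * (x⁻¹ * g * x⁻¹⁻¹)
      calc _ = x⁻¹ * (g * (x * (T.τ * T.y) * x⁻¹)) * x := by group
        _ = _ := by rw [this]; group)
    rw [card_cj] at c2
    omega
  have ab : Commute a b := by
    have e : a * b = a * b * c * c⁻¹ := by group
    have e2 : a * b * (a * b) = a * a * (b * b) := by
      rw [e, (cm n (inv_mem cC)).symm.mul_mul_mul_comm, vv T n, one_mul, ← mul_inv_rev, C.2.2, A.2.2, B.2.2,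
        inv_eq_of_mul_eq_one_right (vv T mV)]
    rw [mul_assoc, mul_assoc, mul_right_inj, ← mul_assoc, ← mul_assoc, mul_left_inj] at e2
    exact e2.symm
  have n1 : a * b * c = 1 := by
    have e : r * (a * b * c) * r⁻¹ = a * b * c := by
      rw [← conj_mul, ← conj_mul, hb, hc, r3]
      calc b * c * a = a⁻¹ * (a * b * c) * a := by group
        _ = _ := by rw [mul_assoc, (cm n aC).eq, inv_mul_cancel_left]
    rw [h.rV n] at e
    rcases (T.memV _).1 n with k | k | k | k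
    · exact k
    · rw [k, T.ρμ] at e; exact absurd e.symm T.μν
    · rw [k, T.ρν] at e; exact absurd (mul_eq_right.1 e) T.μ1
    · rw [k, ← conj_mul, T.ρμ, T.ρν, μν, mul_right_inj] at e
      exact absurd (mul_eq_right.1 e) T.ν1
  have p4 : ∀ {j w : G}, w ∈ T.V → j * j = w → j ^ 4 = 1 := fun {j w} hw e => by
    rw [show j ^ 4 = j * j * (j * j) by rw [show 4 = 1 + 1 + (1 + 1) from rfl]; simp only [pow_add, pow_one], e, vv T hw]
  let β : Multiplicative (ZMod 4 × ZMod 4) →* G := MonoidHom.mk' (fun p => a ^ p.toAdd.1.val * b ^ p.toAdd.2.val)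
    fun p q => by
      rw [toAdd_mul, Prod.fst_add, Prod.snd_add, ZMod.val_add, ZMod.val_add, ← pow_eq_pow_mod _ (p4 (μV T) A.2.2),
        ← pow_eq_pow_mod _ (p4 (νV T) B.2.2), pow_add, pow_add, (ab.pow_pow _ _).mul_mul_mul_comm]
  have βe : ∀ s t : ZMod 4, β (.ofAdd (s, t)) = a ^ s.val * b ^ t.val := fun _ _ => rfl
  have β1 : β (.ofAdd (1, 0)) = a := (βe _ _).trans (by rw [show (1 : ZMod 4).val = 1 from rfl]; simp)
  have β2 : β (.ofAdd (0, 1)) = b := (βe _ _).trans (by rw [show (1 : ZMod 4).val = 1 from rfl]; simp)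
  have β3 : β (.ofAdd (-1, -1)) = c := by
    rw [← mul_right_inj (a * b), n1, ← β1, ← β2, ← map_mul, ← map_mul, ← map_one β]; rfl
  have βμ : T.μ = β (.ofAdd (2, 0)) := by rw [← A.2.2, ← β1, ← map_mul]; rfl
  have βν : T.ν = β (.ofAdd (0, 2)) := by rw [← B.2.2, ← β2, ← map_mul]; rfl
  have Vβ : T.V ≤ β.range := fun w hw => by
    rcases (T.memV _).1 hw with rfl | rfl | rfl | rfl
    · exact one_mem _
    · exact ⟨_, βμ.symm⟩
    · exact ⟨_, βν.symm⟩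
    · exact mul_mem ⟨_, βμ.symm⟩ ⟨_, βν.symm⟩
  have ωi : T.ω⁻¹ = T.ω := inv_eq_of_mul_eq_one_right T.ωω
  refine ⟨β, r, (injective_iff_map_eq_one _).2 fun p e => by_contra fun k => ?_, ?_, βμ, βν, fun p => ?_, h.rρ,
    fun s t => ?_, mem_norm_of_cj_le ?_⟩
  · have j : ∀ q : Multiplicative (ZMod 4 × ZMod 4), β q = 1 →
        ¬ (q = .ofAdd (2, 0) ∨ q = .ofAdd (0, 2) ∨ q = .ofAdd (2, 0) * .ofAdd (0, 2)) := by
      rintro _ e (rfl | rfl | rfl)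
      · exact T.μ1 (βμ.trans e)
      · exact T.ν1 (βν.trans e)
      · exact μν1 T (by rw [βμ, βν, ← map_mul, e])
    have j1 := j p e
    have j2 := j (p * p) (by rw [map_mul, e, one_mul])
    clear e j
    revert p
    decide
  · rintro _ ⟨p, rfl⟩
    exact mul_mem (pow_mem aC _) (pow_mem bC _)
  · have pw : ∀ {j : G}, T.τ * j * T.τ = j⁻¹ → ∀ m : ℕ, T.τ * j ^ m * T.τ = (j ^ m)⁻¹ := fun {j} e m => by
      rw [← inv_pow, ← e]; nth_rw 2 4 [← τi T]; rw [conj_pow]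
    show T.τ * (a ^ _ * b ^ _) * T.τ = (a ^ _ * b ^ _)⁻¹
    rw [τ3, pw A.2.1, pw B.2.1, ← mul_inv_rev, (ab.pow_pow _ _).eq]
  · rw [βe, ← conj_mul, ← conj_pow, ← conj_pow, hb, hc, ← β3, ← β2, ← map_pow β, ← map_pow β, ← map_mul β]
    congr 1
    revert s t
    decide
  · have a' := h.cjj h.ω T.ωτ A
    have b' := h.cjj h.ω T.ωτ B
    have m1 := h.same a'.1 A.1 a'.2.1 A.2.1 (by rw [a'.2.2, ωi, T.ωμ, A.2.2]) (A.2.2 ▸ T.μ1)
    have m2 := h.same b'.1 C.1 b'.2.1 C.2.1 (by rw [b'.2.2, ωi, T.ων, C.2.2]) (C.2.2 ▸ μν1 T)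
    rintro _ ⟨_, ⟨p, rfl⟩, rfl⟩
    show T.ω * (a ^ _ * b ^ _) * T.ω⁻¹ ∈ _
    rw [← conj_mul, ← conj_pow, ← conj_pow]
    exact mul_mem (pow_mem ((mul_mem_cancel_left (inv_mem (MonoidHom.mem_range.2 ⟨_, β1⟩))).1 (Vβ m1)) _)
      (pow_mem ((mul_mem_cancel_left (inv_mem (MonoidHom.mem_range.2 ⟨_, β3⟩))).1 (Vβ m2)) _)

end CL.H33
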