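/-
Project H33: the step of the tower over `ℤ₄ × ℤ₄`.
-/
import Cfsg.Agent.H33.Abs

set_option autoImplicit false
set_option linter.unusedSectionVars false
open Cfsg Subgroup CL.Even CL.Grp
open scoped commutatorElement

namespace CL.H33

universe u

namespace Tl4

abbrev A : Type := Multiplicative (ZMod 4 × ZMod 4)
abbrev A8 : Type := Multiplicative (ZMod 8 × ZMod 8)

def R (p : A) : A := .ofAdd (-p.toAdd.2, p.toAdd.1 - p.toAdd.2)
def m : A := .ofAdd (2, 0)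
def n : A := .ofAdd (0, 2)
def u : A := .ofAdd (1, 0)
def v : A := .ofAdd (0, 1)
def ψ (p q b : A) : A := p ^ b.toAdd.1.val * q ^ b.toAdd.2.val

theorem R3 : ∀ p, R (R (R p)) = p := by decide +kernel
theorem R_fix : ∀ p, R p = p → p = 1 := by decide +kernel
theorem R_fix' : ∀ p, (R p)⁻¹ * p * ((R p)⁻¹ * p) = 1 → p * p = 1 := by decide +kernel
theorem sq_one : ∀ p : A, p * p = 1 ↔ p = 1 ∨ p = m ∨ p = n ∨ p = m * n := by decide +kernel
theorem is_sq : ∀ p : A, p * p = 1 → ∃ c, p = c * c := by decide +kernel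
theorem four : ∀ p : A, p * p * (p * p) = 1 := by decide +kernel
theorem ψ_uv : ∀ b, ψ u v b = b := by decide +kernel
theorem ψ_sq : ∀ p q : A, p * p = u * u → q * q = v * v → ∀ b, ψ p q b * b⁻¹ * (ψ p q b * b⁻¹) = 1 := by decide +kernel
theorem ψ_key : ∀ p q : A, p * p = u * u → q * q = v * v →
    (∀ b, ψ p q (R (ψ p q (R (R (R (R (ψ p q (R b)))))))) = b) → (∀ b, ψ p q b = b) ∨
      ((∀ b, ψ p q b = b → b * b = 1) ∧ ∀ w, w * w = 1 → ∃ b, ψ p q b * b⁻¹ = w) := by decide +kernel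
theorem inj8 : ∀ c d : A, c * c = m → d * d = n → ∀ p : A8, c ^ p.toAdd.1.val * d ^ p.toAdd.2.val = 1 →
    p = 1 ∨ p = .ofAdd (4, 0) ∨ p = .ofAdd (0, 4) ∨ p = .ofAdd (4, 4) := by decide +kernel
theorem act8 : ∀ a b : ZMod 8, (.ofAdd (a, b) : A8) = .ofAdd (1, 0) ^ a.val * .ofAdd (0, 1) ^ b.val ∧
    (.ofAdd (-b, a - b) : A8) = .ofAdd (0, 1) ^ a.val * (.ofAdd (1, 0) * .ofAdd (0, 1))⁻¹ ^ b.val := by decide +kernel

theorem comm3 {H : Type*} [Group H] {X Y Z : H} (h1 : Commute Y (X * Y * Z)) (h2 : Commute X ⁅X, Y⁆)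
    (h3 : Commute Y ⁅X, Y⁆) : ⁅Y, Z⁆ = ⁅X, Y⁆ := by
  have e : ⁅Y, Z⁆ = (Y * X)⁻¹ * ⁅X, Y⁆ * (Y * X) := by
    rw [commutatorElement_def, commutatorElement_def, show Y * Z * Y⁻¹ * Z⁻¹ =
      X⁻¹ * (X * Y * Z * Y⁻¹ * (X * Y * Z)⁻¹) * X * Y by group, h1.inv_left.symm.mul_inv_cancel]; group
  rw [e, (h3.mul_left h2).inv_left.eq]; group

variable {G : Type u} [Group G] [Finite G] {T : TH G} {β : A →* G} {r : G} {B1 : Subgroup G} (E : T.Ext 4 β r B1)
  {x g : G}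
include E

theorem act (p : A) : r * β p * r⁻¹ = β (R p) := E.inv.act _ _

theorem act' (p : A) : r⁻¹ * β p * r = β (R (R p)) := by
  conv_lhs => rw [← R3 p, ← act E]
  group

theorem hμ : T.μ = β m := E.inv.μ.trans (congrArg β (by decide))
theorem hν : T.ν = β n := E.inv.ν.trans (congrArg β (by decide))

theorem memV (p : A) : β p ∈ T.V ↔ p * p = 1 := by
  rw [T.memV, sq_one, hμ E, hν E, ← map_mul, ← β.map_one]
  simp only [E.inv.inj.eq_iff]

theorem VB : T.V ≤ β.range := fun w hw => by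
  rcases (T.memV w).1 hw with rfl | rfl | rfl | rfl
  exacts [one_mem _, ⟨_, (hμ E).symm⟩, ⟨_, (hν E).symm⟩, mul_mem ⟨_, (hμ E).symm⟩ ⟨_, (hν E).symm⟩]

theorem rB (h : g ∈ β.range) : r * g * r⁻¹ ∈ β.range ∧ r⁻¹ * g * r ∈ β.range :=
  let ⟨p, e⟩ := h; ⟨⟨_, e ▸ (act E p).symm⟩, ⟨_, e ▸ (act' E p).symm⟩⟩

theorem rr (hx : x ∈ B1) : r * (r * x * r⁻¹) * r⁻¹ = r⁻¹ * x * r := by
  rw [show r * (r * x * r⁻¹) * r⁻¹ = r⁻¹ * (r ^ 3 * x * (r ^ 3)⁻¹) * r by simp [pow_succ, mul_assoc],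
    conj_eq_of_mem E.r3 hx]

theorem rτ : r * T.τ * r⁻¹ = T.τ := by
  obtain ⟨o, ho, rfl⟩ := E.inv.rρ
  rw [mul_assoc o, T.ρτ, ← mul_assoc, mem_centralizer_singleton_iff.1 (T.Oτ ho)]; group

theorem two_out (hx : x ∈ B1) (h : x * (r * x * r⁻¹) ∈ β.range) : x ∈ β.range := by
  simpa [mul_assoc] using (rB E ((mul_mem_cancel_left h).1 (E.nrm x hx))).1

theorem gen {I : Subgroup G} (h1 : β.range ≤ I) (hx : x ∈ B1) (h2 : x ∉ β.range) (h3 : x ∈ I) (h4 : r * x * r⁻¹ ∈ I) :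
    B1 ≤ I := by
  have c1 : Nat.card β.range = 16 := by
    rw [← Nat.card_congr (MonoidHom.ofInjective E.inv.inj).toEquiv]; simp
  have c2 : β.range.relIndex B1 = 4 := by
    have := (β.range.subgroupOf B1).card_mul_index
    rw [Nat.card_congr (subgroupOfEquivOfLe E.le).toEquiv, c1, E.card] at this
    change _ * β.range.relIndex B1 = _ at this
    omega
  have c3 := relIndex_mul_relIndex _ _ _ (le_inf h1 E.le) (inf_le_right (a := I) (b := B1))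
  rw [c2] at c3
  have c4 : β.range.relIndex (I ⊓ B1) ≤ 4 := Nat.le_of_dvd (by norm_num) ⟨_, c3.symm⟩
  have c5 : β.range.relIndex (I ⊓ B1) ≠ 1 := fun e => h2 (relIndex_eq_one.1 e ⟨h3, hx⟩)
  have c6 : β.range.relIndex (I ⊓ B1) ≠ 2 := fun e => h2 (two_out E hx ((mul_mem_iff_of_index_two e
    (a := ⟨x, h3, hx⟩) (b := ⟨_, h4, conj_mem E.rn hx⟩)).2 (iff_of_false h2 fun k => h2 (by
      simpa [mul_assoc] using (rB E k).2))))
  refine (relIndex_eq_one.1 ?_).trans (inf_le_left (b := B1))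
  generalize β.range.relIndex (I ⊓ B1) = a at *
  interval_cases a <;> omega

theorem abel {H : Type*} [Group H] (f : G →* H) (h1 : ∀ x ∈ B1, ∀ b, Commute (f x) (f (β b)))
    (h2 : ∀ b, f (β (R b)) = f (β b) → f (β b) = 1) (hx : x ∈ B1) (hg : g ∈ B1) : Commute (f g) (f x) := by
  by_cases hb : x ∈ β.range
  · obtain ⟨b, rfl⟩ := hb
    exact h1 g hg b
  have hy := conj_mem E.rn hx
  refine mem_centralizer_singleton_iff.1 (gen E (I := (centralizer {f x}).comap f) ?_ hx hb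
    (mem_centralizer_singleton_iff.2 rfl) (mem_centralizer_singleton_iff.2 ?_) hg)
  · rintro _ ⟨b, rfl⟩
    exact mem_centralizer_singleton_iff.2 (h1 x hx b).symm
  obtain ⟨d, hd⟩ : ⁅x, r * x * r⁻¹⁆ ∈ β.range := by
    have := mul_mem (mul_mem (E.sq _ (mul_mem hx hy)) (conj_mem' (E.nB hy) (inv_mem (E.sq x hx)))) (inv_mem (E.sq _ hy))
    convert this using 1
    simp only [commutatorElement_def]; group
  obtain ⟨z, hz⟩ := E.nrm x hx
  have e1 := act E d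
  rw [hd, conjugate_commutatorElement, rr E hx] at e1
  have e2 := comm3 (X := f x) (Y := f (r * x * r⁻¹)) (Z := f (r⁻¹ * x * r))
    (by rw [← map_mul, ← map_mul, ← hz]; exact h1 _ hy z) (by rw [← map_commutatorElement, ← hd]; exact h1 _ hx d)
    (by rw [← map_commutatorElement, ← hd]; exact h1 _ hy d)
  rw [← map_commutatorElement, ← map_commutatorElement, e1, ← hd] at e2
  have e3 := h2 d e2
  rw [hd, map_commutatorElement] at e3
  exact (commutatorElement_eq_one_iff_mul_comm.1 e3).symm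

theorem cenτ (hx : x ∈ B1) (h : T.τ * x * T.τ = x) : x ∈ T.V := by
  obtain ⟨b, e, hb⟩ := E.cm x hx
  have h1 : b = 1 := E.inv.inj (by rw [map_one]; exact mul_eq_left.1 (e.symm.trans h))
  obtain ⟨c, rfl⟩ : x ∈ β.range := by_contra fun k => hb k 1 (by rw [h1, one_mul])
  rw [E.inv.τ, inv_eq_iff_mul_eq_one, ← map_mul, ← β.map_one] at h
  exact (memV E c).2 (E.inv.inj h)

theorem memJ : g ∈ zpowers T.τ ⊔ B1 ↔ g ∈ B1 ∨ T.τ * g ∈ B1 := by
  rw [mem_sup_nr (zpowers_le.2 E.τn)]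
  refine ⟨?_, fun h => h.elim (fun h => ⟨1, one_mem _, g, h, one_mul g⟩) fun h =>
    ⟨_, mem_zpowers _, _, h, by rw [← mul_assoc, T.ττ, one_mul]⟩⟩
  rintro ⟨_, ⟨k, rfl⟩, b, hb, rfl⟩
  have h2 : T.τ ^ (2 : ℤ) = 1 := by rw [zpow_two, T.ττ]
  rcases Int.even_or_odd' k with ⟨k, rfl | rfl⟩
  · exact .inl (by simpa [zpow_mul, h2] using hb)
  · exact .inr (by simpa [zpow_add, zpow_mul, h2, ← mul_assoc, T.ττ] using hb)

theorem fin (h : ∀ k ∈ 𝒩(zpowers T.τ ⊔ B1), T.τ * (k * T.τ * k⁻¹) ∈ β.range) : T.Fin := by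
  have : Fact (Nat.Prime 2) := ⟨Nat.prime_two⟩
  have h2 : T.τ ^ 2 ^ 1 = 1 := by rw [pow_one, sq, T.ττ]
  have hJ := isPGroup_sup (isPGroup_zpowers h2) E.two (zpowers_le.2 E.τn)
  have hS : IsSylowIn 2 (zpowers T.τ ⊔ B1) 𝒞(T.V) := isSylowIn_of_maximal (sup_le (zpowers_le.2 T.τC) E.B1C) hJ
    fun P hP h1 h3 => by
      by_contra hne
      obtain ⟨k, hk, hk'⟩ := SetLike.exists_of_lt (lt_inf_normalizer_of_isPGroup hP (lt_of_le_of_ne h1 (Ne.symm hne)))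
      obtain ⟨b, hb⟩ := h k hk.2
      obtain ⟨y, hy, e⟩ := E.orb b
      rw [hb, ← mul_assoc, T.ττ, one_mul] at e
      obtain ⟨o, ho, w, hw, e1⟩ := T.cτ (y⁻¹ * k) (mul_mem (inv_mem (E.B1C hy)) (h3 hk.1)) (by
        rw [show y⁻¹ * k * T.τ = y⁻¹ * (k * T.τ * k⁻¹) * k by group, ← e]; group)
      obtain ⟨j, hj, e2⟩ : ∃ j ∈ zpowers T.τ ⊔ B1, y⁻¹ * k = o * j := e1.elim
        (fun e => ⟨w, mem_sup_right (E.le (VB E hw)), e⟩) fun e =>
          ⟨_, mul_mem (mem_sup_right (E.le (VB E hw))) (mem_sup_left (mem_zpowers _)), e.trans (mul_assoc _ _ _)⟩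
      have h4 : o = 1 := eq_one_of_coprime_of_mem hP
        (Nat.coprime_two_right.2 (T.oddO.of_dvd_nat (T.O.orderOf_dvd_natCard ho)))
        ((mul_mem_cancel_right (h1 hj)).1 (e2 ▸ mul_mem (inv_mem (h1 (mem_sup_right hy))) hk.1))
      rw [h4, one_mul, inv_mul_eq_iff_eq_mul] at e2
      exact hk' (e2 ▸ mul_mem (mem_sup_right hy) hj)
  have h8 : ∀ g : G, g * g ∈ β.range → g ^ 8 = 1 := fun g ⟨c, hc⟩ => by
    rw [show g ^ 8 = g * g * (g * g) * (g * g * (g * g)) by simp only [pow_succ, pow_zero, one_mul, mul_assoc], ← hc,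
      ← map_mul, ← map_mul, four, map_one]
  intro P hP hC
  obtain ⟨c, -, hc⟩ := syl_conj_le hS hP hC
  refine ⟨?_, fun y hy => ?_⟩
  · rw [← card_cj c]
    refine (card_le_of_le hc).trans (Nat.le_of_dvd (by norm_num) ((card_sup_dvd (zpowers_le.2 E.τn)).trans ?_))
    rw [E.card, Nat.card_zpowers]
    exact Nat.mul_dvd_mul_right (orderOf_dvd_of_pow_eq_one h2) _
  · have h5 : (c * y * c⁻¹) ^ 8 = 1 := h8 _ (((memJ E).1 (hc (conj_mem_cj c hy))).elim (E.sq _) fun k => by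
      obtain ⟨b, e, -⟩ := E.cm _ k
      generalize c * y * c⁻¹ = g at *
      have := mul_mem (conj_mem (E.nB k) (⟨b, rfl⟩ : β b ∈ β.range)) (E.sq _ k)
      rwa [← e, show T.τ * (T.τ * g) * T.τ * (T.τ * g)⁻¹ * (T.τ * g * (T.τ * g)) = T.τ * T.τ * g * (T.τ * T.τ) * g by
        group, T.ττ, one_mul, mul_one] at this)
    rwa [conj_pow, conj_eq_one_iff] at h5

theorem notV (k : G) : k * T.τ * k⁻¹ ∉ T.V := fun h => T.τV (by simpa [mul_assoc] using T.nV.conj_mem _ h k⁻¹)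

theorem sqτ (k : G) : k * T.τ * k⁻¹ * (k * T.τ * k⁻¹) = 1 := by rw [conj_mul, T.ττ]; group

theorem invτ (k : G) : T.τ * (T.τ * (k * T.τ * k⁻¹)) * T.τ = (T.τ * (k * T.τ * k⁻¹))⁻¹ := by
  rw [← mul_assoc, T.ττ, one_mul, mul_inv_rev, inv_eq_of_mul_eq_one_right (sqτ E k), inv_eq_of_mul_eq_one_right T.ττ]

theorem sqV (h : g ∈ β.range) (h2 : g * g = 1) : g ∈ T.V := by
  obtain ⟨c, rfl⟩ := h
  exact (memV E c).2 (E.inv.inj (by rw [map_mul, h2, map_one]))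

theorem inv8 (hc : ∀ g ∈ B1, ∀ x ∈ B1, Commute g x) (hi : ∀ x ∈ B1, T.τ * x * T.τ = x⁻¹) (hx : x ∈ B1)
    (h4 : x * x * (x * x) = β m) : ∃ β', T.Inv 8 β' r := by
  have hy := conj_mem E.rn hx
  have h5 : r * x * r⁻¹ * (r * x * r⁻¹) * (r * x * r⁻¹ * (r * x * r⁻¹)) = β n := by
    rw [conj_mul, conj_mul, h4, act E]; rfl
  have h6 : r * (r * x * r⁻¹) * r⁻¹ = (x * (r * x * r⁻¹))⁻¹ := by
    obtain ⟨d, hd⟩ := E.nrm x hx
    have e := act E d
    rw [hd, ← conj_mul, ← conj_mul, rr E hx, show r * (r⁻¹ * x * r) * r⁻¹ = x by group,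
      (hc _ (mul_mem hy (conj_mem' E.rn hx)) x hx).eq, ← mul_assoc, ← hd] at e
    rw [R_fix d (E.inv.inj e).symm, map_one] at hd
    rw [rr E hx, eq_inv_of_mul_eq_one_right hd.symm]
  generalize hyy : r * x * r⁻¹ = y at *
  have p4 : ∀ g : G, g ^ 4 = g * g * (g * g) := fun g => by simp only [pow_succ, pow_zero, one_mul, mul_assoc]
  have p8 : ∀ {g : G} {c}, g * g * (g * g) = β c → c * c = 1 → ∀ a b : ZMod 8, g ^ (a + b).val = g ^ a.val * g ^ b.val :=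
    fun {g c} e e' a b => by
      rw [ZMod.val_add, ← pow_eq_pow_mod _ (by rw [show 8 = 4 * 2 from rfl, pow_mul, p4, e, sq, ← map_mul, e', map_one]),
        pow_add]
  let β' : A8 →* G := MonoidHom.mk' (fun p => x ^ p.toAdd.1.val * y ^ p.toAdd.2.val) fun p q => by
    rw [toAdd_mul, Prod.fst_add, Prod.snd_add, p8 h4 (by decide), p8 h5 (by decide)]
    exact ((hc x hx y hy).pow_pow _ _).mul_mul_mul_comm _ _
  have b1 : β' (.ofAdd (1, 0)) = x := (by simp : x ^ 1 * y ^ 0 = x)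
  have b2 : β' (.ofAdd (0, 1)) = y := (by simp : x ^ 0 * y ^ 1 = y)
  have b3 : β' (.ofAdd (4, 0)) = T.μ := (by rw [hμ E, ← h4, p4]; simp : x ^ 4 * y ^ 0 = T.μ)
  have b4 : β' (.ofAdd (0, 4)) = T.ν := (by rw [hν E, ← h5, p4]; simp : x ^ 0 * y ^ 4 = T.ν)
  have hle : β'.range ≤ B1 := by rintro _ ⟨p, rfl⟩; exact mul_mem (pow_mem hx _) (pow_mem hy _)
  have hinj : Function.Injective β' := (injective_iff_map_eq_one _).2 fun p hp => by
    obtain ⟨c, hc1⟩ := E.sq x hx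
    obtain ⟨d, hd1⟩ := E.sq y hy
    have e : β (c ^ p.toAdd.1.val * d ^ p.toAdd.2.val) = β' p * β' p := by
      rw [map_mul, map_pow, map_pow, hc1, hd1, (Commute.refl x).mul_pow, (Commute.refl y).mul_pow]
      exact ((hc x hx y hy).pow_pow _ _).mul_mul_mul_comm _ _
    rw [hp, one_mul, ← β.map_one] at e
    rcases inj8 c d (E.inv.inj (by rw [map_mul, hc1, h4])) (E.inv.inj (by rw [map_mul, hd1, h5])) p (E.inv.inj e) with
      rfl | rfl | rfl | rfl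
    · rfl
    · exact absurd (b3.symm.trans hp) T.μ1
    · exact absurd (b4.symm.trans hp) T.ν1
    · rw [show (.ofAdd (4, 4) : A8) = .ofAdd (4, 0) * .ofAdd (0, 4) by decide, map_mul, b3, b4] at hp
      exact absurd (mul_right_cancel (hp.trans T.νν.symm)) T.μν
  have hr : β'.range = B1 := eq_of_le_of_card_ge hle (by
    rw [E.card, ← Nat.card_congr (MonoidHom.ofInjective hinj).toEquiv]; simp)
  refine ⟨β', hinj, hr ▸ E.B1C, b3.symm, b4.symm, fun b => hi _ (hle ⟨b, rfl⟩), E.inv.rρ, fun a b => ?_, hr ▸ E.ωn⟩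
  rw [(act8 a b).2, (act8 a b).1]
  simp only [map_mul, map_pow, map_inv, b1, b2]
  rw [← conj_mul, ← conj_pow, ← conj_pow, hyy, h6]

theorem case1 (h : ∀ x ∈ B1, ∀ b, Commute x (β b)) : T.Fin ∨ ∃ β', T.Inv 8 β' r := by
  have hc : ∀ g ∈ B1, ∀ x ∈ B1, Commute g x := fun g hg x hx =>
    abel E (.id G) h (fun b e => by rw [R_fix b (E.inv.inj e), map_one, map_one]) hx hg
  have h4 : ∀ x ∈ B1, x ∉ β.range → x * x * (x * x) ≠ 1 := fun x hx k e => by
    obtain ⟨b, e1, hb⟩ := E.cm x hx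
    obtain ⟨c, e2⟩ := E.sq x hx
    have e3 := E.inv.τ c
    rw [e2, show T.τ * (x * x) * T.τ = T.τ * x * T.τ * (T.τ * x * T.τ) by
      rw [mul_assoc _ T.τ, ← mul_assoc T.τ (T.τ * x), ← mul_assoc T.τ T.τ, T.ττ]; group, e1,
      (h x hx b).symm.mul_mul_mul_comm, inv_eq_of_mul_eq_one_right e, mul_eq_left, ← map_mul, ← β.map_one] at e3
    obtain ⟨d, hd⟩ := is_sq b (E.inv.inj e3)
    exact hb k d hd
  let I : Subgroup G :=
    { carrier := {x | x ∈ B1 ∧ T.τ * x * T.τ = x⁻¹}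
      one_mem' := ⟨one_mem _, by simp [T.ττ]⟩
      mul_mem' := fun {a b} ha hb => ⟨mul_mem ha.1 hb.1, by
        rw [(hc a ha.1 b hb.1).mul_inv, ← ha.2, ← hb.2, mul_assoc _ T.τ, ← mul_assoc T.τ (T.τ * b), ← mul_assoc T.τ T.τ,
          T.ττ]; group⟩
      inv_mem' := fun {a} ha => ⟨inv_mem ha.1, by
        simpa [mul_assoc, inv_eq_of_mul_eq_one_right T.ττ] using congrArg (·⁻¹) ha.2⟩ }
  have hB : β.range ≤ I := by rintro _ ⟨b, rfl⟩; exact ⟨E.le ⟨b, rfl⟩, E.inv.τ b⟩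
  by_cases hI : I ≤ β.range
  · refine .inl (fin E fun k hk => ((memJ E).1 (conj_mem hk (mem_sup_left (mem_zpowers _)))).elim (fun e => ?_)
      fun e => hI ⟨e, invτ E k⟩)
    exact (notV E k (sqV E (by_contra fun c => h4 _ e c (by rw [sqτ E, one_mul])) (sqτ E k))).elim
  obtain ⟨x, hx, hx'⟩ := SetLike.not_le_iff_exists.1 hI
  have hi := gen E hB hx.1 hx' hx ⟨conj_mem E.rn hx.1, by
    conv_lhs => rw [← rτ E]
    rw [conj_mul, conj_mul, hx.2]; group⟩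
  obtain ⟨c, e⟩ := E.sq x hx.1
  have e1 : x * x * (x * x) = β (c * c) := by rw [map_mul, e]
  right
  rcases (sq_one _).1 (four c) with e2 | e2 | e2 | e2 <;> rw [e2] at e1
  · exact absurd (e1.trans β.map_one) (h4 x hx.1 hx')
  · exact inv8 E hc (fun x hx => (hi hx).2) hx.1 e1
  · refine inv8 E hc (fun x hx => (hi hx).2) (conj_mem' E.rn hx.1) ?_
    rw [show r⁻¹ * x * r * (r⁻¹ * x * r) * (r⁻¹ * x * r * (r⁻¹ * x * r)) = r⁻¹ * (x * x * (x * x)) * r by group, e1, act' E]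
    rfl
  · refine inv8 E hc (fun x hx => (hi hx).2) (conj_mem E.rn hx.1) ?_
    rw [conj_mul, conj_mul, e1, act E]; rfl

theorem exψ (hx : x ∈ B1) : ∃ p q : A, p * p = u * u ∧ q * q = v * v ∧ ∀ b, x * β b * x⁻¹ = β (ψ p q b) := by
  have k : ∀ b, ∃ p : A, p * p = b * b ∧ β p = x * β b * x⁻¹ := fun b => by
    obtain ⟨p, hp⟩ := conj_mem (E.nB hx) (⟨b, rfl⟩ : β b ∈ β.range)
    exact ⟨p, E.inv.inj (by
      rw [map_mul, hp, conj_mul, ← map_mul, conj_eq_of_mem (E.B1C hx) ((memV E _).2 (four b))]), hp⟩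
  obtain ⟨p, p1, p2⟩ := k u
  obtain ⟨q, q1, q2⟩ := k v
  refine ⟨p, q, p1, q1, fun b => ?_⟩
  conv_lhs => rw [← ψ_uv b]
  simp only [ψ, map_mul, map_pow, p2, q2, conj_pow, conj_mul]

theorem case2 (h : ∀ x ∈ B1, (∀ b, Commute x (β b)) → x ∈ β.range) : T.Fin := by
  have := T.nV
  have key : ∀ x ∈ B1, x ∉ β.range → (∀ b, x * β b * x⁻¹ = β b → b * b = 1) ∧
      ∀ w, w * w = 1 → ∃ b, x * β b * x⁻¹ * (β b)⁻¹ = β w := fun x hx k => by
    obtain ⟨p, q, p1, q1, e⟩ := exψ E hx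
    obtain ⟨z, hz⟩ := E.nrm x hx
    rcases ψ_key p q p1 q1 (fun b => E.inv.inj (by
      rw [← e, ← act E, ← e, ← act' E, ← act' E, ← e, ← act E]
      calc _ = β z * β b * (β z)⁻¹ := by simp [hz, mul_assoc]
        _ = β b := by rw [← map_mul, mul_comm z, map_mul]; group)) with h1 | ⟨h1, h2⟩
    · exact (k (h x hx fun b => mul_inv_eq_iff_eq_mul.1 (by rw [e, h1]))).elim
    · exact ⟨fun b e1 => h1 b (E.inv.inj ((e b).symm.trans e1)), fun w hw =>
        (h2 w hw).imp fun b e1 => by rw [e, ← e1, map_mul, map_inv]⟩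
  have hc : ∀ g ∈ B1, ∀ x ∈ B1, ⁅g, x⁆ ∈ T.V := fun g hg x hx => by
    rw [← QuotientGroup.eq_one_iff]
    refine (map_commutatorElement (QuotientGroup.mk' T.V) g x).trans (commutatorElement_eq_one_iff_commute.2
      (abel E _ (fun y hy b => commutatorElement_eq_one_iff_commute.1 ?_) (fun b e => ?_) hx hg))
    · obtain ⟨p, q, p1, q1, e⟩ := exψ E hy
      rw [← map_commutatorElement, commutatorElement_def, e, ← map_inv, ← map_mul]
      exact (QuotientGroup.eq_one_iff _).2 ((memV E _).2 (ψ_sq p q p1 q1 b))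
    · have e1 := QuotientGroup.eq.1 e
      rw [← map_inv, ← map_mul, memV E] at e1
      exact (QuotientGroup.eq_one_iff _).2 ((memV E _).2 (R_fix' b e1))
  refine fin E fun k hk => ((memJ E).1 (conj_mem hk (mem_sup_left (mem_zpowers _)))).elim (fun he => ?_) fun he => ?_
  · exfalso
    have h1 : k * T.τ * k⁻¹ ∉ β.range := fun c => notV E k (sqV E c (sqτ E k))
    have h2 : ∀ g ∈ B1, k * T.τ * k⁻¹ * g * (k * T.τ * k⁻¹)⁻¹ = g → g ∈ T.V ∨ k * T.τ * k⁻¹ * g ∈ T.V := fun g hg c => by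
      have c1 : T.τ * (k⁻¹ * g * k) * T.τ = k⁻¹ * g * k := by
        conv_rhs => rw [← c]
        conv_lhs => enter [2]; rw [← inv_eq_of_mul_eq_one_right T.ττ]
        group
      refine ((memJ E).1 (conj_mem' hk (mem_sup_right hg))).imp (fun c2 => ?_) fun c2 => ?_
      · simpa [mul_assoc] using T.nV.conj_mem _ (cenτ E c2 c1) k
      · simpa [mul_assoc] using T.nV.conj_mem _ (cenτ E c2 (by rw [mul_assoc, c1])) k
    generalize k * T.τ * k⁻¹ = e at *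
    have h3 := conj_mem E.rn he
    obtain ⟨w, hw⟩ := VB E (hc e he _ h3)
    obtain ⟨b, hb⟩ := (key e he h1).2 w ((memV E w).1 (hw ▸ hc e he _ h3))
    rw [hw, commutatorElement_def] at hb
    rcases h2 ((r * e * r⁻¹)⁻¹ * β b) (mul_mem (inv_mem h3) (E.le ⟨b, rfl⟩)) (by
      rw [show e * ((r * e * r⁻¹)⁻¹ * β b) * e⁻¹ = (e * (r * e * r⁻¹) * e⁻¹)⁻¹ * (e * β b * e⁻¹ * (β b)⁻¹) * β b by group,
        hb]; group) with c | c
    · exact h1 (by simpa [mul_assoc] using (rB E (inv_mem_iff.1 ((mul_mem_cancel_right (⟨b, rfl⟩ : β b ∈ β.range)).1 (VB E c)))).2)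
    · rw [← mul_assoc] at c
      exact h1 (two_out E he (by
        simpa [mul_assoc] using mul_mem ((mul_mem_cancel_right (⟨b, rfl⟩ : β b ∈ β.range)).1 (VB E c)) (E.sq _ h3)))
  · by_contra c
    obtain ⟨b, e1, hb⟩ := E.cm _ he
    obtain ⟨d, e2⟩ := E.sq _ he
    rw [invτ E] at e1
    generalize T.τ * (k * T.τ * k⁻¹) = x at *
    have e3 : b = d⁻¹ := E.inv.inj (by rw [map_inv, e2, mul_inv_rev, inv_mul_eq_iff_eq_mul.2 e1])
    obtain ⟨c', hc'⟩ := is_sq b (by rw [e3, ← mul_inv, (key x he c).1 d (by rw [e2]; group), inv_one])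
    exact hb c c' hc'

end Tl4

open Tl4 in
theorem tl4 : Tl4S.{u} := fun G _ _ T β r B1 E => by
  by_cases h : ∀ x ∈ B1, (∀ b, Commute x (β b)) → x ∈ β.range
  · exact .inl (case2 E h)
  push Not at h
  obtain ⟨x, hx, h1, h2⟩ := h
  have k : ∀ g : G, g ∈ 𝒞(β.range) ↔ ∀ b, Commute g (β b) := fun g =>
    ⟨fun e b => (e _ ⟨b, rfl⟩).symm, fun e _ ⟨b, e'⟩ => e' ▸ (e b).symm⟩
  refine case1 E fun y hy => (k y).1 (gen E ?_ hx h2 ((k x).2 h1) ((k _).2 fun b => ?_) hy)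
  · rintro _ ⟨a, rfl⟩
    exact (k _).2 fun b => (Commute.all a b).map β
  · have := (h1 (R (R b))).map (MulAut.conj r).toMonoidHom
    simp only [MulEquiv.coe_toMonoidHom, MulAut.conj_apply] at this
    rwa [act E, R3] at this

end CL.H33
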