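/-
Project H33, job TL8: the tower stops at `ℤ₈ × ℤ₈`.
-/
import Cfsg.Agent.H33.Abs

set_option autoImplicit false
open Cfsg Subgroup CL.Even CL.Grp

namespace CL.H33

universe u

namespace Tl8a

abbrev M := ZMod 8 × ZMod 8
def mat (p q v : M) : M := (v.1 * p.1 + v.2 * q.1, v.1 * p.2 + v.2 * q.2)
def R (v : M) : M := (-v.2, v.1 - v.2)
def S (v : M) : M := (v.2 - v.1, -v.1)

set_option synthInstance.maxSize 2000 in
theorem dec : ∀ p q : M, mat p q (4, 0) = (4, 0) → mat p q (0, 4) = (0, 4) → mat p q (mat p q (1, 0)) = (1, 0) →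
    mat p q (mat p q (0, 1)) = (0, 1) → mat p q (R (mat p q (S (S (mat p q (R (1, 0))))))) = (1, 0) →
    mat p q (R (mat p q (S (S (mat p q (R (0, 1))))))) = (0, 1) → ∀ c, mat p q c = c → ∀ b, -c = mat p q b + c + b →
    4 • b ≠ 0 → p = (1, 0) ∧ q = (0, 1) := by decide +kernel

theorem half : ∀ b : M, 4 • b = 0 → ∃ d, b = d + d := by decide +kernel

theorem four : ∀ b c : M, -c = b + c + b → 4 • b ≠ 0 → 4 • c = (4, 0) ∨ 4 • c = (0, 4) ∨ 4 • c = (4, 4) := by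
  decide +kernel

theorem fix : ∀ k : M, R k = k → k = 0 := by decide +kernel

variable {G : Type u} [Group G]

theorem act (β : Multiplicative M →* G) {g : G} (hg : g ∈ 𝒩(β.range)) :
    ∃ p q : M, ∀ v, g * β (.ofAdd v) * g⁻¹ = β (.ofAdd (mat p q v)) := by
  obtain ⟨p, hp⟩ := conj_mem hg (⟨.ofAdd (1, 0), rfl⟩ : β (.ofAdd (1, 0)) ∈ β.range)
  obtain ⟨q, hq⟩ := conj_mem hg (⟨.ofAdd (0, 1), rfl⟩ : β (.ofAdd (0, 1)) ∈ β.range)
  have e : ∀ a b v : M, β (.ofAdd (mat a b v)) = β (.ofAdd a) ^ v.1.val * β (.ofAdd b) ^ v.2.val := fun a b v => by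
    rw [← map_pow β, ← map_pow β, ← map_mul β, ← ofAdd_nsmul, ← ofAdd_nsmul, ← ofAdd_add]
    congr 2
    ext <;> simp [mat]
  refine ⟨p.toAdd, q.toAdd, fun v => ?_⟩
  rw [e, ofAdd_toAdd, ofAdd_toAdd, hp, hq, conj_pow, conj_pow, conj_mul, ← e]
  simp [mat]

end Tl8a

open Tl8a in
theorem tl8 : Tl8S.{u} := by
  intro G _ _ T β r B1 h
  obtain ⟨γ, hγ⟩ : ∃ γ : M → G, ∀ v, β (.ofAdd v) = γ v := ⟨_, fun _ => rfl⟩
  have gi : ∀ {a b}, γ a = γ b → a = b := fun e => h.inv.inj (by rwa [← hγ, ← hγ] at e)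
  have ga : ∀ a b, γ (a + b) = γ a * γ b := fun a b => by rw [← hγ, ← hγ, ← hγ, ofAdd_add, map_mul]
  have gs : ∀ (n : ℕ) a, γ (n • a) = γ a ^ n := fun n a => by rw [← hγ, ← hγ, ofAdd_nsmul, map_pow]
  have g0 : γ 0 = 1 := by rw [← hγ, ofAdd_zero, map_one]
  have gm : ∀ {x}, x ∈ β.range → ∃ v, x = γ v := fun ⟨v, e⟩ => ⟨v.toAdd, by rw [← hγ, ofAdd_toAdd, e]⟩
  have gc : ∀ a b, Commute (γ a) (γ b) := fun a b => by rw [commute_iff_eq, ← ga, ← ga, add_comm]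
  have hμ : T.μ = γ (4, 0) := h.inv.μ.trans (hγ _)
  have hν : T.ν = γ (0, 4) := h.inv.ν.trans (hγ _)
  have hR : ∀ v, r * γ v * r⁻¹ = γ (R v) := fun v => by rw [← hγ, ← hγ]; exact h.inv.act v.1 v.2
  have hS : ∀ v, r⁻¹ * γ v * r = γ (S v) := fun v => by
    have := hR (S v)
    rw [show R (S v) = v by simp [R, S]] at this
    rw [← this]; group
  have hτ : ∀ v, T.τ * γ v * T.τ = γ (-v) := fun v => by rw [← hγ, ← hγ, h.inv.τ, ofAdd_neg, map_inv]
  have p8 : ∀ {w c}, w * w = γ c → w ^ 8 = γ (4 • c) := fun {w c} e => by rw [gs, ← e, ← pow_two, ← pow_mul]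
  have key : ∀ x ∈ B1, x ∉ β.range → (∀ v, Commute x (γ v)) ∧
      (x ^ 8 = γ (4, 0) ∨ x ^ 8 = γ (0, 4) ∨ x ^ 8 = γ (4, 4)) := fun x hx hx' => by
    obtain ⟨p, q, hA⟩ := act β (h.nB hx)
    simp only [hγ] at hA
    obtain ⟨c, hc⟩ := gm (h.sq x hx)
    obtain ⟨d, hd⟩ := gm (h.nrm x hx)
    obtain ⟨b, hb, hb'⟩ := h.cm x hx
    rw [← ofAdd_toAdd b, hγ] at hb
    have e1 : mat p q (4, 0) = (4, 0) := gi (by
      rw [← hA, ← hμ]; exact conj_eq_of_mem (h.B1C hx) ((T.memV _).2 (.inr (.inl rfl))))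
    have e2 : mat p q (0, 4) = (0, 4) := gi (by
      rw [← hA, ← hν]; exact conj_eq_of_mem (h.B1C hx) ((T.memV _).2 (.inr (.inr (.inl rfl)))))
    have e3 : ∀ v, mat p q (mat p q v) = v := fun v => gi (by
      rw [← hA, ← hA]
      conv_rhs => rw [← (gc c v).mul_inv_cancel, ← hc]
      simp only [mul_assoc, mul_inv_rev])
    have e4 : ∀ v, mat p q (R (mat p q (S (S (mat p q (R v)))))) = v := fun v => gi (by
      rw [← hA, ← hR, ← hA, ← hS, ← hS, ← hA, ← hR]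
      conv_rhs => rw [← (gc d v).mul_inv_cancel, ← hd]
      simp only [mul_assoc, mul_inv_rev, inv_inv])
    have e5 : mat p q c = c := gi (by rw [← hA, ← hc]; group)
    have e6 : -c = mat p q b.toAdd + c + b.toAdd := gi (by
      rw [ga, ga, ← hA, ← hτ, ← hc]
      calc _ = T.τ * x * (T.τ * T.τ) * x * T.τ := by rw [T.ττ]; group
        _ = T.τ * x * T.τ * (T.τ * x * T.τ) := by group
        _ = _ := by rw [hb]; group)
    have e7 : 4 • b.toAdd ≠ 0 := fun e => let ⟨d, hd⟩ := half _ e; hb' hx' (.ofAdd d) hd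
    obtain ⟨rfl, rfl⟩ := dec p q e1 e2 (e3 _) (e3 _) (e4 _) (e4 _) c e5 _ e6 e7
    have e8 : ∀ v, mat (1, 0) (0, 1) v = v := fun v => by simp [mat]
    rw [e8] at e6
    refine ⟨fun v => mul_inv_eq_iff_eq_mul.1 ((hA v).trans (by rw [e8])), ?_⟩
    rw [p8 hc]
    exact (four _ _ e6 e7).imp (congrArg γ) (.imp (congrArg γ) (congrArg γ))
  have cen : ∀ x ∈ B1, ∀ v, Commute x (γ v) := fun x hx v => by
    by_cases hx' : x ∈ β.range
    · obtain ⟨c, rfl⟩ := gm hx'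
      exact gc c v
    · exact (key x hx hx').1 v
  have ck : ∀ y ∈ B1, ∀ z ∈ B1, ∃ k, z * y = γ k * (y * z) := fun y hy z hz => by
    obtain ⟨k, hk⟩ := gm (mul_mem (mul_mem (h.sq _ (mul_mem hz hy)) (conj_mem' (h.nB hy) (h.sq _ (inv_mem hz))))
      (h.sq _ (inv_mem hy)))
    exact ⟨k, by rw [← hk]; group⟩
  have pow8 : ∀ y ∈ B1, ∀ z ∈ B1, (y * z) ^ 8 = y ^ 8 * z ^ 8 := fun y hy z hz => by
    obtain ⟨k, hk⟩ := ck y hy z hz
    obtain ⟨a, ha⟩ := gm (h.sq y hy)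
    obtain ⟨b, hb⟩ := gm (h.sq z hz)
    have e1 : y * z * (y * z) = γ (k + a + b) := by
      rw [ga, ga, ← ha, ← hb]
      calc _ = y * (z * y) * z := by group
        _ = y * γ k * y * (z * z) := by rw [hk]; group
        _ = _ := by rw [(cen y hy k).eq]; group
    have e2 : k + k = 0 := gi (by
      rw [g0, ga, ← mul_left_inj (y * (z * z)), one_mul]
      calc _ = γ k * (γ k * (y * z)) * z := by group
        _ = γ k * z * (y * z) := by rw [← hk]; group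
        _ = z * (γ k * (y * z)) := by rw [← (cen z hz k).eq]; group
        _ = _ := by rw [← hk, ← mul_assoc, hb, (cen y hy b).eq])
    rw [p8 e1, p8 ha, p8 hb, ← ga, smul_add, smul_add, show 4 • k = k + k + (k + k) by abel, e2, add_zero, zero_add]
  have c2 : ∀ x ∈ B1, Commute x (r * x * r⁻¹) := fun x hx => by
    have h2 := conj_mem h.rn hx
    obtain ⟨k, hk⟩ := ck x hx _ h2
    obtain ⟨d, hd⟩ := gm (h.nrm x hx)
    have e1 : r * (r * x * r⁻¹) * r⁻¹ = r⁻¹ * x * r :=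
      calc _ = r⁻¹ * (r ^ 3 * x) * (r ^ 3)⁻¹ * r := by simp [pow_three, mul_assoc]
        _ = _ := by rw [← comm_of_mem h.r3 hx]; group
    have e2 : γ k = r * x * r⁻¹ * x * (x * (r * x * r⁻¹))⁻¹ := by rw [hk, mul_inv_cancel_right]
    have e3 : γ (R k) = γ k :=
      calc _ = r * (r * x * r⁻¹) * r⁻¹ * (r * x * r⁻¹) * (r * x * r⁻¹ * (r * (r * x * r⁻¹) * r⁻¹))⁻¹ := by
            rw [← hR, e2]; group
        _ = (x * (r * x * r⁻¹))⁻¹ * (γ d * (r * x * r⁻¹) * (γ d)⁻¹ * x) := by rw [e1, ← hd]; group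
        _ = _ := by rw [(cen _ h2 d).symm.mul_inv_cancel, hk, ← (cen _ (mul_mem hx h2) k).eq, inv_mul_cancel_left]
    rw [fix k (gi e3), g0, one_mul] at hk
    exact hk.symm
  obtain ⟨x, hx, x8⟩ : ∃ x ∈ B1, x ^ 8 = γ (0, 4) := by
    obtain ⟨x, hx, hx'⟩ : ∃ x ∈ B1, x ∉ β.range := by
      by_contra! k
      have := (card_le_of_le k).trans (Nat.card_le_card_of_surjective _ β.rangeRestrict_surjective)
      rw [h.card] at this
      simp at this
    rcases (key x hx hx').2 with e | e | e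
    · exact ⟨_, conj_mem h.rn hx, by rw [conj_pow, e, hR]; rfl⟩
    · exact ⟨x, hx, e⟩
    · exact ⟨_, conj_mem (inv_mem h.rn) hx, by rw [conj_pow, e, inv_inv, hS]; rfl⟩
  have hy := conj_mem (mul_mem h.τn h.ωn) hx
  have h2 := conj_mem h.rn hx
  have ff : T.τ * T.ω * (T.τ * T.ω) = 1 := by
    rw [mul_assoc, ← mul_assoc T.ω, T.ωτ, mul_assoc, T.ωω, mul_one, T.ττ]
  have y8 : (T.τ * T.ω * x * (T.τ * T.ω)⁻¹) ^ 8 = γ (4, 4) := by
    rw [conj_pow, x8, ← hν, mul_inv_rev, inv_eq_of_mul_eq_one_right T.ττ, inv_eq_of_mul_eq_one_right T.ωω]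
    calc _ = T.τ * (T.ω * T.ν * T.ω) * T.τ := by group
      _ = _ := by rw [T.ων, hμ, hν, ← ga, hτ]; rfl
  set y := T.τ * T.ω * x * (T.τ * T.ω)⁻¹ with hy'
  have e1 : y * (r * x * r⁻¹)⁻¹ ∈ β.range := by
    by_contra k
    have := (key _ (mul_mem hy (inv_mem h2)) k).2
    rw [pow8 _ hy _ (inv_mem h2), y8, inv_pow, conj_pow, x8, hR, show R (0, 4) = (4, 4) from rfl, mul_inv_cancel,
      ← g0] at this
    rcases this with e | e | e <;> exact absurd (gi e) (by decide)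
  obtain ⟨v, hv⟩ := gm e1
  have e2 : Commute x y := by
    rw [mul_inv_eq_iff_eq_mul.1 hv]
    exact (cen x hx v).mul_right (c2 x hx)
  have e3 : (x * y) ^ 8 = T.μ := by rw [pow8 x hx y hy, x8, y8, ← ga, hμ]; rfl
  refine T.μ1 (e3 ▸ T.e16 (x * y) ?_ (by rw [show 16 = 8 * 2 from rfl, pow_mul, e3, pow_two, T.μμ]))
  rw [e2.eq]
  conv_rhs => rw [← e2.eq]
  rw [hy', inv_eq_of_mul_eq_one_right ff]
  calc _ = T.τ * T.ω * (x * (T.τ * T.ω * x * (T.τ * T.ω))) := by group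
    _ = _ := rfl

end CL.H33
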