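/-
Project H33 (S3139): one step of the tower lemma (helper46).
-/
import Cfsg.Agent.H33.Abs

set_option autoImplicit false
set_option linter.unusedSectionVars false
open Cfsg Subgroup CL.Even CL.Grp

namespace CL.H33

universe u

/-- the rotation of order three -/
def tlsR {n : ℕ} (b : Multiplicative (ZMod n × ZMod n)) : Multiplicative (ZMod n × ZMod n) :=
  .ofAdd (-b.toAdd.2, b.toAdd.1 - b.toAdd.2)

structure TlsF (n : ℕ) : Prop where
  f1 : ∀ c : Multiplicative (ZMod n × ZMod n), c * c = 1 → c = 1 ∨ c = .ofAdd (((n / 2 : ℕ) : ZMod n), 0) ∨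
    c = .ofAdd (0, ((n / 2 : ℕ) : ZMod n)) ∨ c = .ofAdd (((n / 2 : ℕ) : ZMod n), 0) * .ofAdd (0, ((n / 2 : ℕ) : ZMod n))
  f2 : ∀ c : Multiplicative (ZMod n × ZMod n), c ^ (n / 2) = 1 → ∃ d, c = d * d
  f3 : ∀ c : Multiplicative (ZMod n × ZMod n), c ^ 8 = 1
  f4 : ∀ c : Multiplicative (ZMod n × ZMod n), c ^ (n / 2) * c ^ (n / 2) = 1
  f5 : ∃ c : Multiplicative (ZMod n × ZMod n), c * c ≠ 1
  f6 : ∀ a b : Multiplicative (ZMod n × ZMod n), a ^ (n / 2) = 1 ∨ b ^ (n / 2) = 1 ∨ (a⁻¹ * b) ^ (n / 2) = 1 ∨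
    ((tlsR a)⁻¹ * b) ^ (n / 2) = 1 ∨ ((tlsR (tlsR a))⁻¹ * b) ^ (n / 2) = 1
  f7 : ∀ a : Multiplicative (ZMod n × ZMod n), a * (tlsR a * tlsR (tlsR a)) = 1
  card : Nat.card (Multiplicative (ZMod n × ZMod n)) = n ^ 2
  le : n ≤ 8

theorem tls_facts {n : ℕ} (h : n = 4 ∨ n = 8) : TlsF n := by
  rcases h with rfl | rfl
  all_goals exact ⟨by decide +kernel, by decide +kernel, by decide +kernel, by decide +kernel, by decide +kernel,
    by decide +kernel, by decide +kernel, by simp, by omega⟩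

namespace TH

variable {G : Type u} [Group G] [Finite G] {T : TH G} {n : ℕ} {β : Multiplicative (ZMod n × ZMod n) →* G} {r x y : G}
  {b d : Multiplicative (ZMod n × ZMod n)}

theorem tls_ti (T : TH G) : T.τ⁻¹ = T.τ := inv_eq_of_mul_eq_one_right T.ττ

theorem tls_vv (T : TH G) {v : G} (hv : v ∈ T.V) : v * v = 1 := by
  have := T.nV
  have e : T.μ * T.ν = T.ν * T.μ := by
    rcases (T.memV _).1 (mul_mem ((T.memV T.ν).2 (by simp)) ((T.memV T.μ).2 (by simp))) with k | k | k | k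
    · exact absurd (mul_left_cancel (k.trans T.νν.symm)) T.μν
    · exact absurd (mul_eq_right.1 k) T.ν1
    · exact absurd (mul_eq_left.1 k) T.μ1
    · exact k.symm
  rcases (T.memV v).1 hv with rfl | rfl | rfl | rfl
  exacts [one_mul 1, T.μμ, T.νν, by rw [mul_assoc, ← mul_assoc T.ν, ← e, mul_assoc, T.νν, mul_one, T.μμ]]

theorem tls_odd (T : TH G) (hx : x ∈ T.O) : (orderOf x).Coprime 2 :=
  Nat.coprime_two_right.2 (T.oddO.of_dvd_nat (orderOf_dvd_natCard _ hx))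

theorem tls_sq (T : TH G) (hx : x ∈ 𝒞(T.V)) (k : x * T.τ = T.τ * x) : x * x ∈ T.O := by
  obtain ⟨o, ho, v, hv, e⟩ := T.cτ x hx k
  have e1 : v * o = o * v := T.OC ho v hv
  have e2 : o * T.τ = T.τ * o := mem_centralizer_singleton_iff.1 (T.Oτ ho)
  have e3 : v * T.τ = T.τ * v := T.τC v hv
  have : x * x = o * o := by
    rcases e with rfl | rfl
    · rw [mul_assoc, ← mul_assoc v, e1, mul_assoc, T.tls_vv hv, mul_one]
    · calc _ = o * v * (T.τ * o) * (v * T.τ) := by group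
        _ = o * (v * o) * (T.τ * T.τ) * v := by rw [← e2, e3]; group
        _ = o * o * (v * v) := by rw [e1, T.ττ]; group
        _ = _ := by rw [T.tls_vv hv, mul_one]
  exact this ▸ mul_mem ho ho

theorem tls_cardV (T : TH G) : Nat.card T.V = 4 := by
  have e : (T.V : Set G) = {1, T.μ, T.ν, T.μ * T.ν} := Set.ext fun v => by simpa using T.memV v
  have k : T.μ * T.ν ≠ 1 := fun j => T.μν (mul_left_cancel (T.μμ.trans j.symm))
  rw [← SetLike.coe_sort_coe, e, Nat.card_coe_set_eq, Set.ncard_insert_of_notMem (by simp [T.μ1.symm, T.ν1.symm, k.symm]),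
    Set.ncard_insert_of_notMem (by simp [T.μν, T.ν1]), Set.ncard_pair (by simp [T.μ1])]

/-- `U₁ = B ⟨τ⟩` -/
def tlsU (T : TH G) (β : Multiplicative (ZMod n × ZMod n) →* G) : Subgroup G := β.range ⊔ zpowers T.τ

/-- `X = N(U₁) ∩ C(V)` -/
def tlsX (T : TH G) (β : Multiplicative (ZMod n × ZMod n) →* G) : Subgroup G := 𝒩(T.tlsU β) ⊓ 𝒞(T.V)

namespace Inv

theorem τb (h : T.Inv n β r) (b) : β b * T.τ = T.τ * β b⁻¹ := by
  rw [map_inv, ← h.τ, ← mul_assoc, ← mul_assoc, T.ττ, one_mul]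

theorem τn (h : T.Inv n β r) : T.τ ∈ 𝒩(β.range) := mem_normalizer_fintype (by
  rintro _ ⟨b, rfl⟩
  exact ⟨b⁻¹, by rw [T.tls_ti, h.τ, map_inv]⟩)

theorem memU (h : T.Inv n β r) : x ∈ T.tlsU β ↔ ∃ b, x = β b ∨ x = T.τ * β b := by
  refine ⟨fun k => ?_, fun ⟨b, k⟩ => ?_⟩
  · obtain ⟨_, ⟨b, rfl⟩, _, ⟨i, rfl⟩, rfl⟩ := (mem_sup_nl (zpowers_le.2 h.τn)).1 k
    rcases Int.even_or_odd' i with ⟨j, rfl | rfl⟩ <;> simp only [zpow_add, zpow_mul, zpow_two, T.ττ, one_zpow]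
    · exact ⟨b, .inl (mul_one _)⟩
    · exact ⟨b⁻¹, .inr (by rw [one_mul, zpow_one, h.τb])⟩
  · rcases k with rfl | rfl
    exacts [mem_sup_left ⟨b, rfl⟩, mul_mem (mem_sup_right (mem_zpowers _)) (mem_sup_left ⟨b, rfl⟩)]

theorem τB (h : T.Inv n β r) (f : TlsF n) : T.τ ∉ β.range := fun ⟨t, e⟩ => by
  obtain ⟨c, hc⟩ := f.f5
  have := h.τb c
  rw [← e, ← map_mul, ← map_mul, mul_comm] at this
  exact hc (mul_eq_one_iff_eq_inv.2 (mul_left_cancel (h.inj this)))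

theorem invV (h : T.Inv n β r) (f : TlsF n) (k : b * b = 1) : β b ∈ T.V := (T.memV _).2 (by
  rcases f.f1 b k with rfl | rfl | rfl | rfl <;> simp [h.μ, h.ν, ← map_mul])

theorem VB (h : T.Inv n β r) : T.V ≤ β.range := fun v hv => by
  rcases (T.memV v).1 hv with rfl | rfl | rfl | rfl
  exacts [one_mem _, ⟨_, h.μ.symm⟩, ⟨_, h.ν.symm⟩, mul_mem ⟨_, h.μ.symm⟩ ⟨_, h.ν.symm⟩]

theorem tt (h : T.Inv n β r) (b) : T.τ * β b * (T.τ * β b) = 1 := by rw [← mul_assoc, h.τ, inv_mul_cancel]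

theorem two (h : T.Inv n β r) (f : TlsF n) (hx : x ∈ T.tlsU β) : x ^ 8 = 1 := by
  obtain ⟨b, rfl | rfl⟩ := h.memU.1 hx
  · rw [← map_pow, f.f3, map_one]
  · rw [show 8 = 2 * 4 from rfl, pow_mul, sq, h.tt, one_pow]

theorem isP (h : T.Inv n β r) (f : TlsF n) : IsPGroup 2 (T.tlsU β) := fun x => ⟨3, Subtype.ext (h.two f x.2)⟩

theorem nB (h : T.Inv n β r) (f : TlsF n) (hx : x ∈ 𝒩(T.tlsU β)) : x ∈ 𝒩(β.range) := mem_normalizer_fintype (by
  rintro _ ⟨b, rfl⟩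
  obtain ⟨c, e | e⟩ := h.memU.1 (conj_mem hx (h.memU.2 ⟨b, .inl rfl⟩))
  · exact ⟨c, e.symm⟩
  · refine h.VB (T.nV.conj_mem _ (h.invV f (h.inj ?_)) x)
    have := h.tt c
    rwa [← e, conj_mul, conj_eq_one_iff, ← map_mul, ← map_one β] at this)

theorem W (h : T.Inv n β r) (f : TlsF n) (hx : x ∈ 𝒩(T.tlsU β)) : ∃ b, x * T.τ * x⁻¹ = T.τ * β b := by
  obtain ⟨c, e | e⟩ := h.memU.1 (conj_mem hx (mem_sup_right (mem_zpowers _)))
  · have := conj_mem' (h.nB f hx) (⟨c, e.symm⟩ : _ ∈ β.range)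
    exact absurd (by simpa [mul_assoc] using this) (h.τB f)
  · exact ⟨c, e⟩

theorem nU (hx : x ∈ 𝒩(β.range)) (k : x * T.τ * x⁻¹ ∈ T.tlsU β) : x ∈ 𝒩(T.tlsU β) :=
  mem_norm_of_cj_le (by
    rw [tlsU, cj_sup, cj_eq hx, MonoidHom.map_zpowers]
    exact sup_le le_sup_left (zpowers_le.2 k))

theorem UX (h : T.Inv n β r) : T.tlsU β ≤ T.tlsX β := le_inf le_normalizer (sup_le h.BC (zpowers_le.2 T.τC))

theorem nX (hx : x ∈ 𝒩(β.range)) (k : x * T.τ = T.τ * x) : x ∈ 𝒩(T.tlsX β) := by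
  have := T.nV
  exact le_norm_inf (le_norm_of_le (zpowers_le.2 (nU hx (by
    rw [k, mul_inv_cancel_right]; exact mem_sup_right (mem_zpowers _)))))
      (le_norm_cent le_normalizer_of_normal) (mem_zpowers x)

theorem act2 (h : T.Inv n β r) (f : TlsF n) (hx : x ∈ T.tlsX β) (b) : ∃ c, x * β b * x⁻¹ = β (b * (c * c)) := by
  obtain ⟨c, e⟩ := conj_mem (h.nB f hx.1) (⟨b, rfl⟩ : β b ∈ β.range)
  obtain ⟨d, e1⟩ := f.f2 (b⁻¹ * c) (h.inj (by
    rw [mul_pow, inv_pow, map_mul, map_pow β c, e, conj_pow, ← map_pow, ← hx.2 _ (h.invV f (f.f4 b))]; simp))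
  exact ⟨d, by rw [← e1, mul_inv_cancel_left, e]⟩

theorem Wmul (h : T.Inv n β r) (f : TlsF n) (hx : x ∈ T.tlsX β) (k : x * T.τ * x⁻¹ = T.τ * β b)
    (j : y * T.τ * y⁻¹ = T.τ * β d) : ∃ c, x * y * T.τ * (x * y)⁻¹ = T.τ * β (b * d * (c * c)) := by
  obtain ⟨c, e⟩ := h.act2 f hx d
  refine ⟨c, ?_⟩
  calc _ = x * (y * T.τ * y⁻¹) * x⁻¹ := by group
    _ = _ := by rw [j, ← conj_mul, k, e, mul_assoc, ← map_mul, mul_assoc]

theorem resB (h : T.Inv n β r) (f : TlsF n) : pResidualOf 2 (T.tlsX β) ≤ 𝒞(β.range) := res_le_of_pow fun x hx => ⟨2, by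
  rintro _ ⟨b, rfl⟩
  have k : ∀ b, ∃ c, x * x * β b * (x * x)⁻¹ = β (b * c ^ 4) := fun b => by
    obtain ⟨c, e⟩ := h.act2 f hx b
    obtain ⟨d, e1⟩ := h.act2 f hx c
    refine ⟨c * d, ?_⟩
    calc _ = x * (x * β b * x⁻¹) * x⁻¹ := by group
      _ = _ := by
        rw [e, map_mul, map_mul, ← conj_mul, ← conj_mul, e, e1, ← map_mul, ← map_mul]
        congr 1; simp only [pow_succ, pow_zero, one_mul]; ac_rfl
  obtain ⟨c, e⟩ := k b
  obtain ⟨d, e1⟩ := k c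
  refine (mul_inv_eq_iff_eq_mul.1 ?_).symm
  calc _ = x * x * (x * x * β b * (x * x)⁻¹) * (x * x)⁻¹ := by simp [pow_succ, mul_assoc]
    _ = β (b * c ^ 8 * (d ^ 8) ^ 2) := by
      rw [e, map_mul, map_pow, ← conj_mul, ← conj_pow, e, e1, ← map_pow, ← map_mul]
      congr 1; simp only [pow_succ, pow_zero, one_mul]; ac_rfl
    _ = _ := by simp [f.f3]⟩

theorem resO (h : T.Inv n β r) (f : TlsF n) (hx : x ∈ pResidualOf 2 (T.tlsX β)) : x ∈ T.O := by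
  refine res_le_of (fun x hx o => ?_) hx
  have k1 : x ∈ centralizer {T.τ} := res_le_of_pow (p := 2) (L := T.tlsX β ⊓ 𝒞(β.range)) (fun y hy => ⟨3, by
    obtain ⟨b, e⟩ := h.W f hy.1.1
    have k : ∀ i : ℕ, y ^ i * T.τ * (y ^ i)⁻¹ = T.τ * β (b ^ i) := fun i => by
      induction i with
      | zero => simp
      | succ i ih =>
        calc _ = y * (y ^ i * T.τ * (y ^ i)⁻¹) * y⁻¹ := by rw [pow_succ']; group
          _ = _ := by
            rw [ih, ← conj_mul, e, ← hy.2 _ ⟨_, rfl⟩, mul_inv_cancel_right, mul_assoc, ← map_mul, pow_succ']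
    have := k 8
    rw [f.f3, map_one, mul_one] at this
    exact mem_centralizer_singleton_iff.2 (mul_inv_eq_iff_eq_mul.1 this)⟩) (mem_res ⟨hx, h.resB f (mem_res hx o)⟩ o)
  exact res_le_of_pow (p := 2) (L := 𝒞(T.V) ⊓ centralizer {T.τ}) (fun y hy => ⟨1, by
    rw [pow_one, sq]; exact T.tls_sq hy.1 (mem_centralizer_singleton_iff.1 hy.2)⟩) (mem_res ⟨hx.2, k1⟩ o)

theorem resU (h : T.Inv n β r) (f : TlsF n) : pResidualOf 2 (T.tlsX β) ≤ 𝒞(T.tlsU β) := fun x hx => by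
  rw [tlsU, cent_sup]
  exact ⟨h.resB f hx, fun _ ⟨i, j⟩ => j ▸
    (Commute.zpow_right (mem_centralizer_singleton_iff.1 (T.Oτ (h.resO f hx))) i).symm⟩

theorem sqK (h : T.Inv n β r) (hx : x ∈ T.tlsX β) (k : x * T.τ * x⁻¹ = T.τ * β (b * b)) :
    ∃ u ∈ T.tlsU β, u * x ∈ T.O := by
  have m : β b ∈ T.tlsU β := h.memU.2 ⟨b, .inl rfl⟩
  obtain ⟨o, ho, v, hv, e⟩ := T.cτ (β b * x) (mul_mem (h.BC ⟨b, rfl⟩) hx.2) (mul_inv_eq_iff_eq_mul.1 (by
    calc _ = β b * (x * T.τ * x⁻¹) * (β b)⁻¹ := by group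
      _ = _ := by rw [k, ← mul_assoc, h.τb]; simp [mul_assoc]))
  have e1 : v * o = o * v := T.OC ho v hv
  have e2 : o * T.τ = T.τ * o := mem_centralizer_singleton_iff.1 (T.Oτ ho)
  have mv : v ∈ T.tlsU β := mem_sup_left (h.VB hv)
  rcases e with e | e
  · exact ⟨v⁻¹ * β b, mul_mem (inv_mem mv) m, by rwa [mul_assoc, e, ← e1, inv_mul_cancel_left]⟩
  · exact ⟨(v * T.τ)⁻¹ * β b, mul_mem (inv_mem (mul_mem mv (mem_sup_right (mem_zpowers _)))) m, by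
      rwa [mul_assoc, e, ← e1, mul_assoc v, e2, ← mul_assoc v, inv_mul_cancel_left]⟩

theorem sqP (h : T.Inv n β r) {P : Subgroup G} (hP : IsPGroup 2 P) (l : T.tlsU β ≤ P) (a : x ∈ P)
    (hx : x ∈ T.tlsX β) (k : x * T.τ * x⁻¹ = T.τ * β (b * b)) : x ∈ T.tlsU β := by
  obtain ⟨u, hu, e⟩ := h.sqK hx k
  exact (mul_mem_cancel_left hu).1 (eq_one_of_coprime_of_mem hP (T.tls_odd e) (mul_mem (l hu) a) ▸ one_mem _)

theorem fin (h : T.Inv n β r) (f : TlsF n) (k : ∀ x ∈ T.tlsX β, ∃ b, x * T.τ * x⁻¹ = T.τ * β (b * b)) : T.Fin := by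
  intro A hA a
  have s := isSylowIn_of_maximal (h.UX.trans inf_le_right) (h.isP f) fun P hP l1 l2 => by
    by_contra j
    obtain ⟨x, x1, x2⟩ := SetLike.exists_of_lt (lt_inf_normalizer_of_isPGroup hP (lt_of_le_of_ne l1 (Ne.symm j)))
    obtain ⟨b, e⟩ := k x ⟨x1.2, l2 x1.1⟩
    exact x2 (h.sqP hP l1 x1.1 ⟨x1.2, l2 x1.1⟩ e)
  obtain ⟨g, -, l⟩ := syl_conj_le s hA a
  refine ⟨?_, fun x hx => ?_⟩
  · have e := card_sup_mul_card_inf (zpowers_le.2 h.τn)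
    have e1 : Nat.card β.range = n ^ 2 := (Nat.card_congr (MonoidHom.ofInjective h.inj).toEquiv).symm.trans f.card
    have e2 : Nat.card (zpowers T.τ) ≤ 2 := by
      rw [Nat.card_zpowers]; exact Nat.le_of_dvd two_pos (orderOf_dvd_of_pow_eq_one (by rw [sq, T.ττ]))
    have e3 := card_le_of_le l
    have e4 : 0 < Nat.card ↥(zpowers T.τ ⊓ β.range) := Nat.card_pos
    have e5 := Nat.pow_le_pow_left f.le 2
    rw [card_cj] at e3
    rw [sup_comm, e1] at e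
    change _ ≤ Nat.card ↥(β.range ⊔ zpowers T.τ) at e3
    nlinarith
  · have := h.two f (l (conj_mem_cj g hx))
    rwa [conj_pow, conj_eq_one_iff] at this

theorem rτ (h : T.Inv n β r) : r * T.τ = T.τ * r := by
  obtain ⟨o, ho, rfl⟩ := h.rρ
  rw [mul_assoc, T.ρτ, ← mul_assoc, mem_centralizer_singleton_iff.1 (T.Oτ ho), mul_assoc]

theorem actR (h : T.Inv n β r) (b) : r * β b * r⁻¹ = β (tlsR b) := h.act b.toAdd.1 b.toAdd.2

theorem rB (h : T.Inv n β r) : r ∈ 𝒩(β.range) := mem_normalizer_fintype (by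
  rintro _ ⟨b, rfl⟩; exact ⟨_, (h.actR b).symm⟩)

theorem Wr (h : T.Inv n β r) (k : x * T.τ * x⁻¹ = T.τ * β b) :
    r * x * r⁻¹ * T.τ * (r * x * r⁻¹)⁻¹ = T.τ * β (tlsR b) := by
  calc _ = r * x * (r⁻¹ * (T.τ * r)) * x⁻¹ * r⁻¹ := by group
    _ = r * (x * T.τ * x⁻¹) * r⁻¹ := by rw [← h.rτ]; group
    _ = _ := by rw [k, ← conj_mul, h.actR, h.rτ, mul_inv_cancel_right]

theorem ext2 (h : T.Inv n β r) (f : TlsF n) {J : Subgroup G} (s : IsSylowIn 2 J (T.tlsX β)) (ωJ : T.ω ∈ 𝒩(J))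
    (rJ : r ∈ 𝒩(J)) (hx : x ∈ J) (k : ∀ b, x * T.τ * x⁻¹ ≠ T.τ * β (b * b)) : ∃ B1, T.Ext n β r B1 := by
  have JX := s.1
  have UJ : T.tlsU β ≤ J := s.le_of_normalized (h.isP f) h.UX inf_le_left
  have τJ : T.τ ∈ J := UJ (mem_sup_right (mem_zpowers _))
  have BJ : β.range ≤ J := le_sup_left.trans UJ
  have JB : J ≤ 𝒩(β.range) := fun y hy => h.nB f (JX hy).1
  have nU' : ∀ y ∈ 𝒩(β.range), y * T.τ = T.τ * y → y ∈ 𝒩(T.tlsU β) := fun y a b => nU a (by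
    rw [b, mul_inv_cancel_right]; exact mem_sup_right (mem_zpowers _))
  have cJ : ∀ z ∈ T.O, z ∈ 𝒩(β.range) → z ∈ 𝒩(J) → z ∈ 𝒞(J) := fun z a b c j hj => by
    have m := mem_res (L := T.tlsX β) ⟨nU' z b (mem_centralizer_singleton_iff.1 (T.Oτ a)), T.OC a⟩ (T.tls_odd a)
    have e := eq_one_of_coprime_of_mem s.2.1 (T.tls_odd (h.resO f
      (mul_mem (conj_mem (le_norm_res le_normalizer (JX hj)) m) (inv_mem m))))
      (by rw [mul_assoc, mul_assoc, ← mul_assoc z]; exact mul_mem hj (conj_mem c (inv_mem hj)))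
    exact mul_inv_eq_iff_eq_mul.1 (mul_inv_eq_one.1 e)
  have ρO := T.On (mem_centralizer_singleton_iff.2 T.ρτ)
  have ωO := T.On (mem_centralizer_singleton_iff.2 T.ωτ)
  have r3 : r ^ 3 ∈ 𝒞(J) := cJ _ (by
    obtain ⟨o, ho, rfl⟩ := h.rρ
    have := mul_mem (mul_mem (mul_mem ho (conj_mem ρO ho)) (conj_mem (mul_mem ρO ρO) ho)) T.ρ3
    convert this using 1
    simp [pow_succ, mul_assoc]) (pow_mem h.rB 3) (pow_mem rJ 3)
  have ωr : (T.ω * r) ^ 2 ∈ 𝒞(J) := cJ _ (by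
    obtain ⟨o, ho, rfl⟩ := h.rρ
    have := mul_mem (mul_mem (conj_mem ωO ho) (conj_mem (mul_mem ωO ρO) (conj_mem ωO ho))) T.ωρ
    convert this using 1
    simp [pow_succ, mul_assoc]) (pow_mem (mul_mem h.ω h.rB) 2) (pow_mem (mul_mem ωJ rJ) 2)
  have r2 : ∀ y ∈ J, r⁻¹ * y * r = r * (r * y * r⁻¹) * r⁻¹ := fun y hy => by
    calc _ = r⁻¹ * (y * r ^ 3) * r⁻¹ * r⁻¹ := by simp [pow_succ, mul_assoc]
      _ = _ := by rw [r3 y hy]; simp [pow_succ, mul_assoc]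
  have onto : ∀ b, ∃ j ∈ J, j * T.τ * j⁻¹ = T.τ * β b := fun b => by
    have k1 : ∀ j ∈ J, ∀ a, j * T.τ * j⁻¹ = T.τ * β a → (a⁻¹ * b) ^ (n / 2) = 1 →
        ∃ j ∈ J, j * T.τ * j⁻¹ = T.τ * β b := fun j hj a e e1 => by
      obtain ⟨c, e2⟩ := f.f2 _ e1
      refine ⟨β c⁻¹ * j, mul_mem (BJ ⟨_, rfl⟩) hj, ?_⟩
      calc _ = β c⁻¹ * (j * T.τ * j⁻¹) * (β c⁻¹)⁻¹ := by group
        _ = _ := by
          rw [e, ← mul_assoc, h.τb, ← map_inv, mul_assoc, mul_assoc, ← map_mul, ← map_mul, inv_inv,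
            inv_mul_eq_iff_eq_mul.1 e2, mul_left_comm]
    obtain ⟨a, e⟩ := h.W f (JX hx).1
    rcases f.f6 a b with j | j | j | j | j
    · obtain ⟨c, rfl⟩ := f.f2 _ j
      exact absurd e (k c)
    · exact k1 1 (one_mem _) 1 (by simp) (by simpa using j)
    · exact k1 x hx a e j
    · exact k1 _ (conj_mem rJ hx) _ (h.Wr e) j
    · exact k1 _ (conj_mem rJ (conj_mem rJ hx)) _ (h.Wr (h.Wr e)) j
  have sqB : ∀ y ∈ J, y * y ∈ β.range := fun y hy => by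
    obtain ⟨a, e⟩ := h.W f (JX hy).1
    obtain ⟨c, e1⟩ := h.Wmul f (JX hy) e e
    rw [mul_mul_mul_comm] at e1
    obtain ⟨b, e2 | e2⟩ := h.memU.1 (h.sqP s.2.1 UJ (mul_mem hy hy) (JX (mul_mem hy hy)) e1)
    · exact ⟨b, e2.symm⟩
    obtain ⟨j, hj, e3⟩ := onto b
    have e4 : j⁻¹ * y * j * (j⁻¹ * y * j) = T.τ := by
      calc _ = j⁻¹ * (y * y) * j := by group
        _ = _ := by rw [e2, ← e3]; group
    have := T.tls_sq (JX (mul_mem (mul_mem (inv_mem hj) hy) hj)).2 (by rw [← e4]; exact (mul_assoc _ _ _).symm)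
    exact absurd (eq_one_of_coprime_of_mem s.2.1 (T.tls_odd (e4 ▸ this)) τJ ▸ one_mem _) T.τV
  have sw : ∀ {p u v q : G}, u ∈ J → v ∈ J → q ∈ J → p * u * v * q ∈ β.range → p * v * u * q ∈ β.range :=
    fun {p u v q} hu hv hq m => by
      have := mul_mem m (conj_mem' (JB hq) (mul_mem (mul_mem (sqB _ (inv_mem hv)) (sqB _ (mul_mem hv (inv_mem hu))))
        (sqB _ hu)))
      convert this using 1
      group
  have rJ' : ∀ y ∈ J, r⁻¹ * y * r ∈ J := fun y hy => conj_mem' rJ hy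
  let B1 : Subgroup G :=
    { carrier := {y | y ∈ J ∧ y * (r * y * r⁻¹) * (r⁻¹ * y * r) ∈ β.range}
      one_mem' := ⟨one_mem _, by simp⟩
      mul_mem' := fun {y z} a b => ⟨mul_mem a.1 b.1, by
        have m := mul_mem a.2 b.2
        rw [show r * (y * z) * r⁻¹ = r * y * r⁻¹ * (r * z * r⁻¹) by group,
          show r⁻¹ * (y * z) * r = r⁻¹ * y * r * (r⁻¹ * z * r) by group]
        have a1 := conj_mem rJ a.1
        have a2 := rJ' _ a.1
        have b1 := conj_mem rJ b.1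
        have b2 := rJ' _ b.1
        generalize r * y * r⁻¹ = y1, r⁻¹ * y * r = y2, r * z * r⁻¹ = z1, r⁻¹ * z * r = z2 at *
        have m1 := sw (p := y) (mul_mem a1 a2) b.1 (mul_mem b1 b2) (by convert m using 1; group)
        have m2 := sw (p := y * z * y1) a2 b1 b2 (by convert m1 using 1; group)
        convert m2 using 1; group⟩
      inv_mem' := fun {y} a => ⟨inv_mem a.1, by
        have m := inv_mem a.2
        rw [show r * y⁻¹ * r⁻¹ = (r * y * r⁻¹)⁻¹ by group, show r⁻¹ * y⁻¹ * r = (r⁻¹ * y * r)⁻¹ by group]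
        have a1 := inv_mem (conj_mem rJ a.1)
        have a2 := inv_mem (rJ' _ a.1)
        have a0 := inv_mem a.1
        rw [mul_inv_rev (y * _), mul_inv_rev y] at m
        generalize (r * y * r⁻¹)⁻¹ = y1, (r⁻¹ * y * r)⁻¹ = y2, y⁻¹ = y0 at *
        have m1 := sw (p := 1) a2 (mul_mem a1 a0) (one_mem _) (by convert m using 1; group)
        have m2 := sw (p := 1) a1 a0 a2 (by convert m1 using 1; group)
        rwa [one_mul] at m2⟩ }
  have B1J : B1 ≤ J := fun _ a => a.1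
  have le : β.range ≤ B1 := fun y hy => ⟨BJ hy, mul_mem (mul_mem hy (conj_mem h.rB hy)) (conj_mem' h.rB hy)⟩
  have nτ : T.τ * (r * T.τ * r⁻¹) * (r⁻¹ * T.τ * r) = T.τ := by
    rw [h.rτ, mul_inv_cancel_right, T.ττ, one_mul, mul_assoc, ← h.rτ, inv_mul_cancel_left]
  have τB1 : T.τ ∉ B1 := fun a => h.τB f (nτ ▸ a.2)
  have UB : ∀ y ∈ B1, y ∈ T.tlsU β → y ∈ β.range := fun y a b => by
    obtain ⟨c, rfl | rfl⟩ := h.memU.1 b
    · exact ⟨c, rfl⟩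
    · exact absurd ((mul_mem_cancel_right (le ⟨c, rfl⟩)).1 a) τB1
  have idx : ∀ y ∈ J, y ∈ B1 ∨ y * T.τ ∈ B1 := fun y hy => by
    obtain ⟨a, e⟩ := h.W f (JX hy).1
    have a1 := conj_mem rJ hy
    have a2 := rJ' _ hy
    obtain ⟨c, e1⟩ := h.Wmul f (JX a1) (h.Wr e) (r2 y hy ▸ h.Wr (h.Wr e))
    obtain ⟨d, e2⟩ := h.Wmul f (JX hy) e e1
    rw [← mul_assoc a, f.f7, one_mul, mul_mul_mul_comm, ← mul_assoc y] at e2
    have m := mul_mem (mul_mem hy a1) a2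
    obtain ⟨b, e3 | e3⟩ := h.memU.1 (h.sqP s.2.1 UJ m (JX m) e2)
    · exact .inl ⟨hy, b, e3.symm⟩
    refine .inr ⟨mul_mem hy τJ, ?_⟩
    rw [show r * (y * T.τ) * r⁻¹ = r * y * r⁻¹ * (r * T.τ * r⁻¹) by group,
      show r⁻¹ * (y * T.τ) * r = r⁻¹ * y * r * (r⁻¹ * (T.τ * r)) by group, ← h.rτ, inv_mul_cancel_left, h.rτ,
      mul_inv_cancel_right]
    generalize r * y * r⁻¹ = y1, r⁻¹ * y * r = y2 at *
    have m0 : y * y1 * y2 * T.τ ∈ β.range := by rw [e3, mul_assoc, h.τb, ← mul_assoc, T.ττ, one_mul]; exact ⟨_, rfl⟩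
    have m1 := sw (p := y) a1 τJ (mul_mem τJ (mul_mem a2 τJ)) (by
      rwa [show y * y1 * T.τ * (T.τ * (y2 * T.τ)) = y * y1 * (T.τ * T.τ) * y2 * T.τ by group, T.ττ, mul_one])
    convert m1 using 1; group
  have orb : ∀ b, ∃ y ∈ B1, y * T.τ * y⁻¹ = T.τ * β b := fun b => by
    obtain ⟨j, hj, e⟩ := onto b
    rcases idx j hj with a | a
    exacts [⟨j, a, e⟩, ⟨_, a, by rw [← e]; group⟩]
  have cm : ∀ y ∈ B1, ∀ c, y * T.τ * y⁻¹ = T.τ * β (c * c) → y ∈ β.range := fun y a c e =>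
    UB y a (h.sqP s.2.1 UJ a.1 (JX a.1) e)
  refine ⟨B1, h, le, B1J.trans (JX.trans inf_le_right), s.2.1.to_le B1J, ?_, B1J.trans JB, ?_, ?_, ?_,
    cent_mono B1J r3, τB1, fun y a => sqB y a.1, fun y a => a.2, fun y a => ?_, orb⟩
  · choose g g1 g2 using orb
    rw [← T.tls_cardV, ← f.card, mul_comm, ← Nat.card_prod]
    refine (Nat.card_congr (Equiv.ofBijective (fun a => (⟨g a.1 * a.2, mul_mem (g1 _) (le (h.VB a.2.2))⟩ : B1))
      ⟨fun a b e => ?_, fun y => ?_⟩)).symm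
    · have e1 : g a.1 * a.2 = g b.1 * b.2 := congrArg Subtype.val e
      have k1 : ∀ c, ∀ v : T.V, g c * v * T.τ * (g c * v)⁻¹ = T.τ * β c := fun c v => by
        rw [mul_assoc (g c), T.τC v v.2, ← g2]; group
      have e2 : a.1 = b.1 := h.inj (mul_left_cancel ((k1 _ a.2).symm.trans (e1 ▸ k1 _ b.2)))
      exact Prod.ext e2 (Subtype.ext (mul_left_cancel (e2 ▸ e1)))
    · obtain ⟨b, e⟩ := h.W f (JX y.2.1).1
      have e1 : (g b)⁻¹ * y * T.τ * ((g b)⁻¹ * y)⁻¹ = T.τ := by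
        calc _ = (g b)⁻¹ * (y * T.τ * (y : G)⁻¹) * g b := by group
          _ = _ := by rw [e, ← g2]; group
      obtain ⟨c, e2⟩ := cm _ (mul_mem (inv_mem (g1 b)) y.2) 1 (by simpa using e1)
      rw [← e2, h.τb, mul_assoc, mul_eq_left, ← map_inv, ← map_mul, ← mul_inv, ← map_one β] at e1
      exact ⟨(b, ⟨β c, h.invV f (inv_eq_one.1 (h.inj e1))⟩), Subtype.ext (by simp [e2])⟩
  · exact mem_normalizer_fintype fun y a => by
      have := mul_mem (le (mul_mem (sqB _ (mul_mem τJ a.1)) (inv_mem (sqB _ a.1)))) a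
      rwa [show T.τ * y * (T.τ * y) * (y * y)⁻¹ * y = T.τ * y * T.τ⁻¹ by rw [T.tls_ti]; group] at this
  · exact mem_normalizer_fintype fun y a => ⟨conj_mem rJ a.1, by
      convert conj_mem h.rB a.2 using 1
      rw [r2 _ (conj_mem rJ a.1), r2 y a.1]
      have := r3 y a.1
      calc _ = r * y * r⁻¹ * (r * (r * y * r⁻¹) * r⁻¹) * (r ^ 3 * y * (r ^ 3)⁻¹) := by simp [pow_succ, mul_assoc]
        _ = _ := by simp [pow_succ, mul_assoc]⟩
  · refine mem_normalizer_fintype fun y a => ⟨conj_mem ωJ a.1, ?_⟩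
    have ωi : T.ω⁻¹ = T.ω := inv_eq_of_mul_eq_one_right T.ωω
    have k1 : ∀ z ∈ J, r * (T.ω * z * T.ω⁻¹) * r⁻¹ = T.ω * (r⁻¹ * z * r) * T.ω⁻¹ := fun z hz => by
      have := ωr _ (rJ' z hz)
      calc _ = T.ω⁻¹ * ((T.ω * r) ^ 2 * (r⁻¹ * z * r)) * ((T.ω * r) ^ 2)⁻¹ * T.ω := by simp [pow_succ, mul_assoc]
        _ = _ := by rw [← this, ωi]; group
    have k2 : r⁻¹ * (T.ω * y * T.ω⁻¹) * r = T.ω * (r * y * r⁻¹) * T.ω⁻¹ := by
      have := k1 _ (conj_mem rJ a.1)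
      rw [show r⁻¹ * (r * y * r⁻¹) * r = y by group] at this
      rw [← this]; group
    rw [k1 y a.1, k2, conj_mul, conj_mul]
    exact conj_mem h.ω (by simpa using sw (p := y) (conj_mem rJ a.1) (rJ' y a.1) (one_mem _) (by simpa using a.2))
  · obtain ⟨d, e⟩ := h.W f (JX (inv_mem a.1)).1
    refine ⟨d⁻¹, ?_, fun j c e1 => j (inv_mem_iff.1 (cm _ (inv_mem a) c⁻¹ (by rw [e, ← mul_inv, ← e1, inv_inv])))⟩
    calc _ = y * (y⁻¹ * T.τ * y⁻¹⁻¹) * T.τ := by group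
      _ = _ := by rw [e, mul_assoc, h.τ, map_inv]

end Inv

end TH

theorem tls : TlsS.{u} := by
  intro G _ _ T n hn β r h
  have f := tls_facts hn
  by_cases k : ∀ x ∈ T.tlsX β, ∃ b, x * T.τ * x⁻¹ = T.τ * β (b * b)
  · exact .inl (h.fin f k)
  push Not at k
  obtain ⟨x, hx, k⟩ := k
  have nω := TH.Inv.nX h.ω T.ωτ
  obtain ⟨J', s', l⟩ := exists_isSylowIn_ge (p := 2) (H := T.tlsX β ⊔ zpowers T.ω)
    (isPGroup_zpowers (k := 1) (by simpa [sq] using T.ωω)) le_sup_right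
  have s := syl_inf_of_norm s' le_sup_left (s'.1.trans (sup_le le_normalizer (zpowers_le.2 nω)))
  have ωJ : T.ω ∈ 𝒩(J' ⊓ T.tlsX β) := le_norm_inf (le_norm_of_le l) (zpowers_le.2 nω) (mem_zpowers _)
  generalize J' ⊓ T.tlsX β = J at s ωJ
  have dec : ∀ y ∈ T.tlsX β, ∃ o ∈ pResidualOf 2 (T.tlsX β), ∃ j ∈ J, o * j = y := fun y hy =>
    (mem_sup_nl (le_norm_res (le_norm_of_le s.1))).1 (sup_comm J _ ▸ (syl_sup_res s).ge hy)
  obtain ⟨g, g1, g2⟩ := syl_conj s (syl_cj_of_mem_norm s (TH.Inv.nX h.rB h.rτ))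
  obtain ⟨o, ho, j, hj, rfl⟩ := dec g g1
  obtain ⟨o', ho', x, hx', rfl⟩ := dec x hx
  rw [cj_mul, cj_eq (le_normalizer hj)] at g2
  refine .inr ⟨o⁻¹ * r, TH.Inv.ext2 { h with rρ := ?_, act := fun a b => ?_ } f s ωJ
    (by rw [← cj_eq_iff_mem, cj_mul, ← g2, cj_inv_cj]) hx' fun b e => k b ?_⟩
  · obtain ⟨c, hc, rfl⟩ := h.rρ
    exact ⟨_, mul_mem (inv_mem (h.resO f ho)) hc, (mul_assoc _ _ _).symm⟩
  · calc _ = o⁻¹ * (r * β (.ofAdd (a, b)) * r⁻¹ * o) := by group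
      _ = _ := by rw [h.act, h.resB f ho _ ⟨_, rfl⟩, inv_mul_cancel_left]
  · calc _ = o' * (x * T.τ * x⁻¹) * o'⁻¹ := by group
      _ = _ := by rw [e, ← h.resU f ho' _ (h.memU.2 ⟨_, .inr rfl⟩), mul_inv_cancel_right]

end CL.H33
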